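import Cfsg.Agent.E8A.C63.AbcA

/-!
# `A₆` in characteristic 3, box ABC (helper30)

`abc_of` : `ABC` from `MOD T3B T4B KSD CANF APT TRANS KB GRADE STR NIL3 KRK EN3 G2AB`.
-/

set_option autoImplicit false
set_option maxRecDepth 100000
set_option maxHeartbeats 200000

namespace Cfsg.Agent.E8A.C63

open Cfsg Cfsg.Lie Module Submodule
open Cfsg.Agent.H288.E8L (Q8 wt)
open Cfsg.Agent.E8A.Kem (Ge mem_Ge nrm)
open Cfsg.Agent.E8A.Par (KS Opt)

universe u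

namespace Abc

variable {K : Type u} [Field K] [CharP K 3] {ψ : Alt 6 →* G8 K} {U : Submodule K (L8 K)} {x : L8 K} {g : G8 K} {c : Fin 11}

omit [CharP K 3] in
theorem act_cen (hA : Ab U) (hx : x ∈ U) (hg : act g x = ec K c) {v : L8 K} (hv : v ∈ U) : act g v ∈ cen {ec K c} :=
  hg ▸ (cen_act g).2 (mem_cen_one.2 (hA x hx v hv))

theorem act_ge (hS : STR.{u}) (hA : Ab U) (hx : x ∈ U) (hg : act g x = ec K c) {v : L8 K} (hv : v ∈ U) :
    act g v ∈ LS K (Ge (cl (lab c)) (-1)) :=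
  Ge_mono (by split_ifs <;> norm_num) ((hS K c).2.2.2.2.1 (act_cen hA hx hg hv))

theorem act_two (hS : STR.{u}) (hg : act g x = ec K c) : act g x ∈ LS K (Ge (cl (lab c)) 2) :=
  hg ▸ Eq_le_Ge (hS K c).2.2.2.1

theorem two_le (hK : KB.{u}) (hS : STR.{u}) (hp : NoPar ψ) (hU : Inv ψ U) (hA : Ab U) (hx : x ∈ U) (h0 : x ≠ 0)
    (hg : act g x = ec K c) : 2 + finrank K ↥(U ⊓ pb g (LS K (Ge (cl (lab c)) 0))) ≤ finrank K ↥U := by
  have h := kb_ext hK hp hU (fun _ => act_ge hS hA hx hg) (b := fun _ : Unit => x) (d := fun _ => 2)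
    (linearIndependent_unique_iff.2 h0) (fun _ => hx) (fun _ => two_pos.le) fun _ => act_two hS hg
  rw [Fintype.sum_unique] at h
  exact_mod_cast h

/-- only the two bad classes occur -/
theorem bad (hK : KB.{u}) (hS : STR.{u}) (hp : NoPar ψ) (hU : Inv ψ U) (hA : Ab U) (hx : x ∈ U) (h0 : x ≠ 0)
    (hg : act g x = ec K c) : (c = 9 ∧ cd x = 88) ∨ (c = 10 ∧ cd x = 84) := by
  have h1 := two_le hK hS hp hU hA hx h0 hg
  have h2 : ¬ c.val ≤ 8 := fun h => by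
    rw [inf_eq_left.2 fun v hv => mem_pb.2 (by simpa only [if_pos h] using (hS K c).2.2.2.2.1 (act_cen hA hx hg hv))] at h1
    omega
  have h3 : cd x = cdc c := by rw [← cd_act g, hg, (hS K c).2.1]
  have h4 : c = 9 ∨ c = 10 := by omega
  rcases h4 with rfl | rfl
  · exact .inl ⟨rfl, h3⟩
  · exact .inr ⟨rfl, h3⟩

theorem pr_mem_KK (hS : STR.{u}) {v : L8 K} (h1 : v ∈ cen {ec K c}) (h2 : v ∈ LS K (Ge (cl (lab c)) (-1))) :
    pr (cl (lab c)) (-1) v ∈ KK K c := by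
  refine ⟨mem_cen_one.2 ?_, pr_mem _ _ _⟩
  rw [← pr_of_mem (hS K c).2.2.2.1, ← pr_br rfl (Eq_le_Ge (hS K c).2.2.2.1) h2, mem_cen_one.1 h1, pr_zero]

/-- the class `2A₂A₁` -/
theorem nine (hK : KB.{u}) (hS : STR.{u}) (hG : G2AB.{u}) (hp : NoPar ψ) (hU : Inv ψ U) (hA : Ab U) (hC : ∀ v ∈ U, Cz v)
    (hx : x ∈ U) (h0 : x ≠ 0) (hg : act g x = ec K 9) :
    2 + finrank K ↥(U ⊓ pb g (LS K (Ge (cl (lab 9)) 0))) = finrank K ↥U ∧ finrank K ↥U ≤ 8 := by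
  have h1 := two_le hK hS hp hU hA hx h0 hg
  have hm := fun v (hv : v ∈ U) => act_ge hS hA hx hg hv
  set R := U ⊓ pb g (LS K (Ge (cl (lab 9)) 0)) with hR
  have h2 : U.map (prL K (cl (lab 9)) (-1) g) ≤ KK K 9 := by
    rintro _ ⟨v, hv, rfl⟩
    exact pr_mem_KK hS (act_cen hA hx hg hv) (hm v hv)
  have h3 : U ⊓ LinearMap.ker (prL K (cl (lab 9)) (-1) g) ≤ R := fun v hv => ⟨hv.1, by
    have h := Ge_succ (n := -1) (by exact_mod_cast hm v hv.1) (by exact_mod_cast hv.2)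
    exact mem_pb.2 (by simpa using h)⟩
  have h4 := finrank_map_add (prL K (cl (lab 9)) (-1) g) U
  have h5 := finrank_mono h2
  have h6 := finrank_mono h3
  have h7 : finrank K ↥(KK K 9) = 2 := (hS K 9).2.2.2.2.2.2
  have h8 := eq_of_le_of_finrank_le h2 (by omega)
  have h9 : R ⊓ LinearMap.ker (prL K (cl (lab 9)) 0 g) ≤ span K {x} := fun z hz => by
    by_contra hn
    have k1 := Ge_succ (n := 0) (by exact_mod_cast hz.1.2) (by exact_mod_cast hz.2)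
    have k2 := kb_ext hK hp hU hm (b := ![x, z]) (d := ![2, 1])
      ((LinearIndependent.pair_iff' h0).2 fun a e => hn (mem_span_singleton.2 ⟨a, e⟩))
      (Fin.forall_fin_two.2 ⟨hx, hz.1.1⟩) (Fin.forall_fin_two.2 ⟨two_pos.le, one_pos.le⟩)
      (Fin.forall_fin_two.2 ⟨act_two hS hg, Ge_mono (by simp) k1⟩)
    rw [Fin.sum_univ_two, ← hR] at k2
    have k3 : 2 + 1 + finrank K ↥R ≤ finrank K ↥U := by exact_mod_cast (show (2 : ℝ) + 1 + _ ≤ _ from k2)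
    omega
  have h10 := finrank_map_add (prL K (cl (lab 9)) 0 g) R
  have h11 := (finrank_mono h9).trans_eq (finrank_span_singleton h0)
  have h12 := hG K (R.map (prL K (cl (lab 9)) 0 g)) (by
    rintro _ ⟨v, hv, rfl⟩
    refine ⟨?_, pr_mem _ _ _⟩
    rintro s (rfl | hs)
    · rw [← pr_of_mem (hS K 9).2.2.2.1, prL_apply, ← pr_br rfl (Eq_le_Ge (hS K 9).2.2.2.1) (mem_pb.1 hv.2),
        mem_cen_one.1 (act_cen hA hx hg hv.1), pr_zero]
    · obtain ⟨w, hw, rfl⟩ := h8.ge hs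
      rw [prL_apply, prL_apply, ← pr_br rfl (hm w hw) (mem_pb.1 hv.2), ← act_br, hA w hw v hv.1, act_zero, pr_zero]) (by
    rintro _ ⟨v, hv, rfl⟩ _ ⟨w, hw, rfl⟩
    rw [prL_apply, prL_apply, ← pr_br rfl (mem_pb.1 hv.2) (mem_pb.1 hw.2), ← act_br, hA v hv.1 w hw.1, act_zero, pr_zero]) (by
    rintro _ ⟨v, hv, rfl⟩
    exact cz_pr0 ((hC v hv.1).act g) hv.2)
  omega

theorem cd_ge (hc : Ctx ψ) (hC : Cz x) (h1 : act (ψ v1) x = x) (h2 : act (ψ v2) x = x) : 85 ≤ cd x := by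
  have h3 : (2 : K) ≠ 0 := fun h => absurd ((CharP.cast_eq_zero_iff K 3 2).1 (by exact_mod_cast h)) (by norm_num)
  have h4 : ∀ a b c d : Alt 6, a * b = c * d → ∀ v, rp ψ a (rp ψ b v) = rp ψ c (rp ψ d v) := fun a b c d h v => by
    rw [← Module.End.mul_apply, ← map_mul, h, map_mul, Module.End.mul_apply]
  have h5 : ∀ a : Alt 6, a * a = 1 → ∀ v, rp ψ a (rp ψ a v) = v := fun a h v => by
    rw [← Module.End.mul_apply, ← map_mul, h, map_one, Module.End.one_apply]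
  have h6 : ∀ a : Alt 6, a * a = 1 → a ≠ 1 → finrank K ↥(Es (rp ψ a) 1) = 120 := fun a h h' => by
    rw [← hc.d2 a (orderOf_eq_prime (by rw [sq, h]) h')]
    exact congrArg (fun W : Submodule K (L8 K) => finrank K ↥W) (Submodule.ext fun v => mem_Es.trans Module.End.mem_eigenspace_iff.symm)
  have h7 := four_group h3 (s := rp ψ v1) (t := rp ψ v2) (T := Matrix.toLin' (adm x)) (h5 _ (by decide)) (h5 _ (by decide))
    (h4 _ _ _ _ (by decide)) hC.br3 (fun v => (act_br _ x v).trans (congrArg (br · _) h1))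
    (fun v => (act_br _ x v).trans (congrArg (br · _) h2)) Inf.finrank_L8 (h6 _ (by decide) (by decide))
    (h6 _ (by decide) (by decide)) (by rw [← Module.End.mul_eq_comp, ← map_mul]; exact h6 _ (by decide) (by decide))
  exact h7.trans_eq (congrArg (fun W : Submodule K (L8 K) => finrank K ↥W) (Submodule.ext fun v => mem_cen_one.symm))

variable [IsAlgClosed K]

/-- the three-dimensional case -/
theorem three (hD : KSD.{u}) (hF : CANF.{u}) (hT : APT.{u}) (hR : TRANS.{u}) (hK : KB.{u}) (hG : GRADE.{u}) (hS : STR.{u})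
    (hN : NIL3.{u}) (hk : KRK.{u}) (hE : EN3.{u}) (hp : NoPar ψ) (hU : Inv ψ U) (hA : Ab U) (hC : ∀ v ∈ U, Cz v)
    (h3 : finrank K ↥U = 3) (hx : x ∈ U) (h0 : x ≠ 0) (hm : ∀ z ∈ U, z ≠ 0 → cd z ≤ cd x) : LowEnd ψ := by
  obtain ⟨c, g, hg, ho⟩ := hN K x h0 (hC x hx)
  obtain ⟨n, b, k1, k2, k3⟩ := ext_basis (b := fun _ : Unit => x) (linearIndependent_unique_iff.2 h0) fun _ => hx
  obtain rfl : n = 2 := by
    rw [Fintype.card_unique] at k3
    omega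
  have k4 : ∀ i, b i ∈ U := fun i => k2 ▸ subset_span ⟨.inr i, rfl⟩
  have k5 : ∀ i, b i ≠ 0 := fun i => k1.ne_zero (Sum.inr i)
  have d1 : Dp (Sum.elim (fun _ : Unit => x) b) (Sum.elim (fun _ => 2) fun _ => -1) g (cl (lab c)) := by
    rintro (i | i)
    · exact act_two hS hg
    · exact act_ge hS hA hx hg (k4 i)
  choose c' g' hg' _ using fun i => hN K (b i) (k5 i) (hC _ (k4 i))
  obtain ⟨g₀, m₁, m₂, -, -, s1, s2⟩ := hT K (g' 0) (g' 1) (cl (lab (c' 0))) (cl (lab (c' 1)))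
  have d2 : ∀ {i j : ℝ} {v : L8 K}, act (g' 0) v ∈ LS K (Ge (cl (lab (c' 0))) i) →
      act (g' 1) v ∈ LS K (Ge (cl (lab (c' 1))) j) → act g₀ v ∈ LS K (Ge (m₁ + m₂) (i + j)) := fun h1 h2 k hk =>
    mem_Ge.2 (add_le_add (mem_Ge.1 ((s1 _ _).2 h1 k hk)) (mem_Ge.1 ((s2 _ _).2 h2 k hk)))
  have d3 := fun i v (hv : v ∈ U) => act_ge hS hA (k4 i) (hg' i) hv
  obtain ⟨g₁, ν, o1, -, o2, -⟩ := hG K ψ hp _ _ _ (k2 ▸ hU) ⟨_, _, d1⟩ ⟨g₀, m₁ + m₂, by
    rintro (i | i)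
    · exact Ge_mono (by norm_num) (d2 (d3 0 x hx) (d3 1 x hx))
    · revert i
      exact Fin.forall_fin_two.2 ⟨Ge_mono (by norm_num) (d2 (act_two hS (hg' 0)) (d3 1 _ (k4 0))),
        Ge_mono (by norm_num) (d2 (d3 0 _ (k4 1)) (act_two hS (hg' 1)))⟩⟩
  obtain ⟨g₂, h2⟩ := hR K g₁ g ν _ (hF K _ (hD K _ _ _) _ _ _ _ o1 ⟨d1, fun g' l h => ho g' l (h (.inl ()))⟩)
  have e1 : act g₂ x = ec K c := (h2 _ _ (o2 (.inl ()))).trans (hg ▸ pr_of_mem (hg ▸ (hS K c).2.2.2.1))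
  have e2 : ∀ i, act g₂ (b i) ∈ KK K c := fun i => (h2 _ _ (o2 (.inr i))).symm ▸
    pr_mem_KK hS (act_cen hA hx hg (k4 i)) (d1 (.inr i))
  rcases bad hK hS hp hU hA hx h0 hg with ⟨rfl, -⟩ | ⟨rfl, h4⟩
  · refine LowEnd.of_cj (g := g₂) (hE K _ ?_)
    have h5 : pb g₂⁻¹ U ≤ span K {ec K 9} ⊔ KK K 9 := by
      rw [← k2, ← span_act, span_le]
      rintro _ ⟨_, ⟨i | i, rfl⟩, rfl⟩
      · exact mem_sup_left (mem_span_singleton.2 ⟨1, (one_smul _ _).trans e1.symm⟩)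
      · exact mem_sup_right (e2 i)
    have h6 := finrank_add_le_finrank_add_finrank (span K {ec K 9}) (KK K 9)
    rw [finrank_span_singleton (e1 ▸ fun h => h0 (act_eq_zero h)), show finrank K ↥(KK K 9) = 2 from (hS K 9).2.2.2.2.2.2] at h6
    rw [← eq_of_le_of_finrank_le h5 (by rw [finrank_pb, h3]; exact h6)]
    exact hU.cj g₂
  · have h5 := hk K _ (e2 0)
    have h6 := hm _ (k4 0) (k5 0)
    rw [cd_act] at h5
    omega

end Abc

open Abc in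
/-- **ABC** -/
theorem abc_of (hM : MOD.{u}) (h3 : T3B.{u}) (h4 : T4B.{u}) (hD : KSD.{u}) (hF : CANF.{u}) (hT : APT.{u}) (hR : TRANS.{u})
    (hK : KB.{u}) (hG : GRADE.{u}) (hS : STR.{u}) (hN : NIL3.{u}) (hk : KRK.{u}) (hE : EN3.{u}) (hB : G2AB.{u}) : ABC.{u} := by
  intro K _ _ _ ψ hc U h0 hU hA hC
  have k1 : ∀ x ∈ U, x ≠ 0 → cd x = 88 ∨ cd x = 84 := fun x hx h => by
    obtain ⟨c, g, hg, -⟩ := hN K x h (hC x hx)
    exact (bad hK hS hc.par hU hA hx h hg).imp And.right And.right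
  have k2 : ∀ x ∈ U, x ≠ 0 → act (ψ v1) x = x → act (ψ v2) x = x → ∃ g, act g x = ec K 9 ∧
      ∀ (g' : G8 K) (lam : Q8 →+ ℝ), act g' x ∈ LS K (Ge lam 2) → nrm (cl (lab 9)) ≤ nrm lam := fun x hx h h1 h2 => by
    obtain ⟨c, g, hg, ho⟩ := hN K x h (hC x hx)
    have := cd_ge hc (hC x hx) h1 h2
    rcases bad hK hS hc.par hU hA hx h hg with ⟨rfl, -⟩ | ⟨-, h5⟩
    · exact ⟨g, hg, ho⟩
    · omega
  refine ⟨?_, ?_⟩
  · obtain ⟨x, hx, h⟩ := (Submodule.ne_bot_iff U).1 h0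
    exact ⟨x, hx, h, by have := k1 x hx h; omega⟩
  rcases hM K (L8 K) (rp ψ) U h0 hU with ⟨v, -, h1, h2⟩ | ⟨ι, e, h, f, H, h1, he, hh, hf⟩ | ⟨r, H, h1, h2⟩ |
    ⟨W, hW, h1, h2, x, hx, h5, h6, h7⟩
  · exact absurd (hc.fx v h2) h1
  · obtain ⟨l1, l2, -⟩ := h3 K _ _ ι e h f H h1
    have l3 : span K {e, h, f} ≤ U := span_le.2 (by rintro _ (rfl | rfl | rfl) <;> assumption)
    have l4 : finrank K ↥(span K {e, h, f}) = 3 := by
      rw [← Fintype.card_fin 3, ← finrank_span_eq_card l1, Matrix.range_cons, Matrix.range_cons, Matrix.range_cons,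
        Matrix.range_empty, Set.union_empty]
      rfl
    have l5 := fun x hx => three (x := x) hD hF hT hR hK hG hS hN hk hE hc.par l2
      (fun a ha b hb => hA a (l3 ha) b (l3 hb)) (fun v hv => hC v (l3 hv)) l4 hx
    by_cases l6 : ∃ x ∈ span K {e, h, f}, x ≠ 0 ∧ cd x = 88
    · obtain ⟨x, hx, l7, l8⟩ := l6
      exact l5 x hx l7 fun z hz l9 => by have := k1 z (l3 hz) l9; omega
    · refine l5 e (subset_span (.inl rfl)) h1 fun z hz l9 => ?_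
      have := (k1 z (l3 hz) l9).resolve_left fun l => l6 ⟨z, hz, l9, l⟩
      have := k1 e he h1
      omega
  · obtain ⟨l1, l2, l3, -⟩ := h4 K _ _ r H h1
    set W := span K {r 0 1, r 0 2, r 0 3, r 0 4} with hW
    have l4 : W ≤ U := span_le.2 (by rintro _ (rfl | rfl | rfl | rfl) <;> exact h2 _ _)
    have l5 : finrank K ↥W = 4 := by
      rw [← Fintype.card_fin 4, ← finrank_span_eq_card l1, Matrix.range_cons, Matrix.range_cons, Matrix.range_cons,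
        Matrix.range_cons, Matrix.range_empty, Set.union_empty]
      rfl
    have l6 : r 4 5 ≠ 0 := fun h => h1 (by
      have := H.act ⟨Equiv.swap 0 4 * Equiv.swap 1 5, by rw [Equiv.Perm.mem_alternatingGroup]; decide⟩ 4 5
      rw [h, map_zero] at this
      exact this.symm)
    obtain ⟨g, hg, ho⟩ := k2 _ (h2 4 5) l6 (H.act v1 4 5) (H.act v2 4 5)
    have l7 := (nine hK hS hB hc.par l3 (fun a ha b hb => hA a (l4 ha) b (l4 hb)) (fun v hv => hC v (l4 hv)) (l2 4 5) l6 hg).1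
    have l8 : ∀ a, act (ψ a) (r 4 5) = r 4 5 → ∀ v ∈ W ⊓ pb g (LS K (Ge (cl (lab 9)) 0)),
        rp ψ a v ∈ W ⊓ pb g (LS K (Ge (cl (lab 9)) 0)) := fun a ha v hv => ⟨l3 a v hv.1, by
      have o : ∀ g', act g' (r 4 5) = ec K 9 → Opt (Dp (fun _ : Unit => r 4 5) fun _ => 2) g' (cl (lab 9)) := fun g' h =>
        ⟨fun _ => act_two hS h, fun g'' l h' => ho g'' l (h' ())⟩
      have s := hF K _ (hD K _ _ _) _ _ _ _ (o (g * ψ a) (by rw [act_mul, ha, hg])) (o g hg) 0 v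
      rw [act_mul] at s
      exact s.2 hv.2⟩
    rcases t4_sub (by exact_mod_cast CharP.cast_eq_zero K 3) H (R := W ⊓ pb g (LS K (Ge (cl (lab 9)) 0)))
      ⟨l2 4 5, Ge_mono two_pos.le (act_two hS hg)⟩ (l8 _ (H.act v1 4 5)) (l8 _ (H.act v2 4 5)) (l8 _ (H.act uu 4 5))
      inf_le_left with l9 | l9
    · have := (finrank_mono l9).trans_eq (finrank_span_singleton l6)
      omega
    · have := finrank_mono l9
      rw [← hW] at this
      omega
  · obtain ⟨g, hg, -⟩ := k2 x (hW hx) h5 h6 h7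
    have := (nine hK hS hB hc.par h1 (fun a ha b hb => hA a (hW ha) b (hW hb)) (fun v hv => hC v (hW hv)) hx h5 hg).2
    omega

end Cfsg.Agent.E8A.C63
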