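import Cfsg.Agent.E8A.C63.Basic

/-!
# `A₆` in characteristic 3, box ABC: linear algebra and gradings (helper30)

`ext_basis`, `ker_third`, `four_group`, `t4_sub`; `pr_br`, `cz_pr0`, `Ge_succ`, `kb_ext`.
-/

set_option autoImplicit false
set_option maxRecDepth 100000
set_option maxHeartbeats 200000

namespace Cfsg.Agent.E8A.C63.Abc

open Cfsg Cfsg.Lie Module Submodule
open Cfsg.Agent.H288.E8L (Q8 wt)
open Cfsg.Agent.E8A.Kem (Ge mem_Ge)

universe u

section Lin

variable {K : Type u} [Field K] {V : Type u} [AddCommGroup V] [Module K V]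

theorem t4_sub (h3 : (3 : K) = 0) {ρ : Representation K (Alt 6) V} {r : Fin 6 → Fin 6 → V} (H : T4 ρ r) {R : Submodule K V}
    (hx : r 4 5 ∈ R) (h1 : ∀ v ∈ R, ρ v1 v ∈ R) (h2 : ∀ v ∈ R, ρ v2 v ∈ R) (hu : ∀ v ∈ R, ρ uu v ∈ R)
    (hR : R ≤ span K {r 0 1, r 0 2, r 0 3, r 0 4}) : R ≤ span K {r 4 5} ∨ span K {r 0 1, r 0 2, r 0 3, r 0 4} ≤ R := by
  have e : ∀ i j, r i j = r 0 j - r 0 i := fun i j => eq_sub_of_add_eq' (H.add 0 i j)
  have e0 : r 0 0 = 0 := (e 0 0).trans (sub_self _)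
  have e5 := H.sum 0
  rw [Fin.sum_univ_six, e0] at e5
  have a1 : ρ v1 (r 0 1) = -r 0 1 := (H.act v1 0 1).trans ((e 1 0).trans (by rw [e0, zero_sub]))
  have b1 : ρ v1 (r 0 2) = r 0 3 - r 0 1 := (H.act v1 0 2).trans (e 1 3)
  have c1 : ρ v1 (r 0 3) = r 0 2 - r 0 1 := (H.act v1 0 3).trans (e 1 2)
  have a2 : ρ v2 (r 0 1) = r 0 3 - r 0 2 := (H.act v2 0 1).trans (e 2 3)
  have b2 : ρ v2 (r 0 2) = -r 0 2 := (H.act v2 0 2).trans ((e 2 0).trans (by rw [e0, zero_sub]))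
  have c2 : ρ v2 (r 0 3) = r 0 1 - r 0 2 := (H.act v2 0 3).trans (e 2 1)
  have au : ρ uu (r 0 1) = r 0 2 - r 0 1 := (H.act uu 0 1).trans (e 1 2)
  have bu : ρ uu (r 0 2) = -r 0 1 := (H.act uu 0 2).trans ((e 1 0).trans (by rw [e0, zero_sub]))
  have cu : ρ uu (r 0 3) = r 0 3 - r 0 1 := (H.act uu 0 3).trans (e 1 3)
  have ed : r 0 4 = r 4 5 + r 0 1 + r 0 2 + r 0 3 := by
    rw [e 4 5]
    linear_combination (norm := module) h3 • r 0 4 - e5
  generalize r 0 1 = a, r 0 2 = b, r 0 3 = c, r 0 4 = d, r 4 5 = x at *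
  have p1 : b + c - a ∈ R → a + b - c ∈ R := fun h => by
    convert R.neg_mem (hu _ h) using 1
    rw [map_sub, map_add, au, bu, cu]
    abel
  have p3 : a + b - c ∈ R → a + c - b ∈ R := fun h => by
    convert R.neg_mem (hu _ h) using 1
    rw [map_sub, map_add, au, bu, cu]
    abel
  have p2 : a + c - b ∈ R → b + c - a ∈ R := fun h => by
    convert hu _ h using 1
    rw [map_sub, map_add, au, bu, cu]
    abel
  by_cases h : b + c - a ∈ R
  · have k3 := p1 h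
    have k2 := p3 k3
    have ha : a ∈ R := by
      convert R.neg_mem (add_mem k2 k3) using 1
      linear_combination (norm := module) h3 • a
    have hb : b ∈ R := by
      convert R.neg_mem (add_mem h k3) using 1
      linear_combination (norm := module) h3 • b
    have hc : c ∈ R := by
      convert R.neg_mem (add_mem h k2) using 1
      linear_combination (norm := module) h3 • c
    refine .inr (span_le.2 ?_)
    rintro _ (rfl | rfl | rfl | rfl)
    exacts [ha, hb, hc, ed ▸ add_mem (add_mem (add_mem hx ha) hb) hc]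
  refine .inl fun w hw => ?_
  obtain ⟨α, w1, k1, rfl⟩ := mem_span_insert.1 (hR hw)
  obtain ⟨β, γ, δ, rfl⟩ := mem_span_triple.1 k1
  have k2 : (α + δ) • a + (β + δ) • b + (γ + δ) • c ∈ R := by
    convert sub_mem hw (R.smul_mem δ hx) using 1
    rw [ed]
    module
  have k3 : ∀ {s : K} {p : V}, p ∉ R → s • p ∈ R → s = 0 := fun {s p} hp hs => by
    by_contra h0
    exact hp ((R.smul_mem_iff h0).1 hs)
  have k4 : β + δ + (γ + δ) = 0 := k3 h (by
    convert add_mem k2 (h1 _ k2) using 1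
    simp only [map_add, map_smul, a1, b1, c1]
    module)
  have k5 : α + δ + (γ + δ) = 0 := k3 (mt p2 h) (by
    convert add_mem k2 (h2 _ k2) using 1
    simp only [map_add, map_smul, a2, b2, c2]
    module)
  have k6 : α + δ + (β + δ) = 0 := k3 (mt p3 (mt p2 h)) (by
    convert add_mem k2 (h1 _ (h2 _ k2)) using 1
    simp only [map_add, map_smul, map_sub, map_neg, a2, b2, c2, a1, b1, c1]
    module)
  refine mem_span_singleton.2 ⟨δ, ?_⟩
  rw [ed]
  linear_combination (norm := module) (k5 + k6 - k4 - (α + δ) * h3) • a + (k4 + k6 - k5 - (β + δ) * h3) • b +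
    (k4 + k5 - k6 - (γ + δ) * h3) • c

variable [FiniteDimensional K V]

theorem ext_basis {ι : Type} [Fintype ι] {b : ι → V} (hb : LinearIndependent K b) {B : Submodule K V} (h : ∀ i, b i ∈ B) :
    ∃ (n : ℕ) (b' : Fin n → V), LinearIndependent K (Sum.elim b b') ∧ span K (Set.range (Sum.elim b b')) = B ∧
      Fintype.card ι + n = finrank K B := by
  obtain ⟨C, hC⟩ := (span K (Set.range b)).exists_isCompl
  have h1 : span K (Set.range (fun i => ((finBasis K ↥(B ⊓ C) i : ↥(B ⊓ C)) : V))) = B ⊓ C := by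
    rw [show (fun i => ((finBasis K ↥(B ⊓ C) i : ↥(B ⊓ C)) : V)) = (B ⊓ C).subtype ∘ finBasis K ↥(B ⊓ C) from rfl,
      Set.range_comp, ← map_span, Basis.span_eq, map_subtype_top]
  have h2 : LinearIndependent K (Sum.elim b fun i => ((finBasis K ↥(B ⊓ C) i : ↥(B ⊓ C)) : V)) :=
    hb.sum_type ((finBasis K ↥(B ⊓ C)).linearIndependent.map' _ (ker_subtype _))
      (hC.disjoint.mono_right (h1.le.trans inf_le_right))
  have h3 : span K (Set.range (Sum.elim b fun i => ((finBasis K ↥(B ⊓ C) i : ↥(B ⊓ C)) : V))) = B := by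
    rw [Set.Sum.elim_range, span_union, h1, inf_comm, ← sup_inf_assoc_of_le _ (span_le.2 (Set.range_subset_iff.2 h)),
      hC.sup_eq_top, top_inf_eq]
  exact ⟨_, _, h2, h3, Eq.trans (by rw [finrank_span_eq_card h2, Fintype.card_sum, Fintype.card_fin])
    (congrArg (fun W : Submodule K V => finrank K ↥W) h3)⟩

theorem finrank_map_add (T : V →ₗ[K] V) (W : Submodule K V) :
    finrank K ↥(W.map T) + finrank K ↥(W ⊓ LinearMap.ker T) = finrank K ↥W := by
  rw [← (T.domRestrict W).finrank_range_add_finrank_ker, LinearMap.range_domRestrict, LinearMap.ker_domRestrict,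
    ← map_comap_subtype, finrank_map_subtype_eq]

theorem ker_third {T : V →ₗ[K] V} (hT : ∀ v, T (T (T v)) = 0) {W : Submodule K V} (h : W.map T ≤ W) :
    finrank K ↥W ≤ 3 * finrank K ↥(W ⊓ LinearMap.ker T) := by
  have h1 := finrank_map_add T W
  have h2 := finrank_map_add T (W.map T)
  have h3 := finrank_mono (inf_le_inf_right (LinearMap.ker T) h)
  have h4 : finrank K ↥((W.map T).map T) ≤ finrank K ↥(W ⊓ LinearMap.ker T) := finrank_mono (le_inf ((map_mono h).trans h) (by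
    rintro _ ⟨_, ⟨v, -, rfl⟩, rfl⟩
    exact hT v))
  omega

/-- eigenspaces -/
def Es (s : V →ₗ[K] V) (ε : K) : Submodule K V := LinearMap.ker (s - ε • LinearMap.id)

omit [FiniteDimensional K V] in
theorem mem_Es {s : V →ₗ[K] V} {ε : K} {v : V} : v ∈ Es s ε ↔ s v = ε • v := sub_eq_zero

theorem split_inv (h2 : (2 : K) ≠ 0) {s : V →ₗ[K] V} (hs : ∀ v, s (s v) = v) {W : Submodule K V} (h : ∀ v ∈ W, s v ∈ W) :
    finrank K ↥(W ⊓ Es s 1) + finrank K ↥(W ⊓ Es s (-1)) = finrank K ↥W := by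
  have h1 : (W ⊓ Es s 1) ⊔ (W ⊓ Es s (-1)) = W := le_antisymm (sup_le inf_le_left inf_le_left) fun v hv => by
    rw [← smul_mem_iff _ h2, show (2 : K) • v = (v + s v) + (v - s v) by module]
    exact add_mem_sup ⟨add_mem hv (h v hv), mem_Es.2 (by rw [map_add, hs]; module)⟩
      ⟨sub_mem hv (h v hv), mem_Es.2 (by rw [map_sub, hs]; module)⟩
  have h3 : (W ⊓ Es s 1) ⊓ (W ⊓ Es s (-1)) = ⊥ := eq_bot_iff.2 fun v hv => (smul_eq_zero_iff_right h2).1 (by
    linear_combination (norm := module) mem_Es.1 hv.2.2 - mem_Es.1 hv.1.2)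
  rw [← finrank_sup_add_finrank_inf_eq, h1, h3, finrank_bot, add_zero]

/-- the kernel of an endomorphism of cube zero which commutes with a pure four-group -/
theorem four_group (h2 : (2 : K) ≠ 0) {s t T : V →ₗ[K] V} (hs : ∀ v, s (s v) = v) (ht : ∀ v, t (t v) = v)
    (hst : ∀ v, s (t v) = t (s v)) (hT : ∀ v, T (T (T v)) = 0) (h3 : ∀ v, s (T v) = T (s v)) (h4 : ∀ v, t (T v) = T (t v))
    (d0 : finrank K V = 248) (d1 : finrank K ↥(Es s 1) = 120) (d2 : finrank K ↥(Es t 1) = 120)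
    (d3 : finrank K ↥(Es (s ∘ₗ t) 1) = 120) : 85 ≤ finrank K ↥(LinearMap.ker T) := by
  have c1 : ∀ {a b : V →ₗ[K] V}, (∀ v, a (b v) = b (a v)) → ∀ ε, ∀ v ∈ Es a ε, b v ∈ Es a ε := fun h ε v hv =>
    mem_Es.2 (by rw [h, mem_Es.1 hv, map_smul])
  have c2 : ∀ {a : V →ₗ[K] V}, (∀ v, a (T v) = T (a v)) → ∀ v ∈ LinearMap.ker T, a v ∈ LinearMap.ker T := fun h v hv => by
    rw [LinearMap.mem_ker, ← h, LinearMap.mem_ker.1 hv, map_zero]
  have e0 := split_inv h2 hs (W := ⊤) fun _ _ => trivial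
  have e1 := fun ε => split_inv h2 ht (c1 hst ε)
  have e2 := split_inv h2 hs (c1 (fun v => (hst v).symm) 1)
  have e3 := split_inv h2 hs (c1 (a := s ∘ₗ t) (fun v => congrArg s (hst v).symm) 1)
  have e4 : ∀ ε : K, ε * ε = 1 → Es (s ∘ₗ t) 1 ⊓ Es s ε = Es s ε ⊓ Es t ε := fun ε hε => by
    ext v
    simp only [mem_inf, mem_Es, LinearMap.comp_apply, one_smul]
    constructor
    · rintro ⟨k1, k2⟩
      exact ⟨k2, by rw [← hs (t v), k1, k2]⟩
    · rintro ⟨k1, k2⟩
      exact ⟨by rw [k2, map_smul, k1, smul_smul, hε, one_smul], k1⟩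
  have f0 := split_inv h2 hs (c2 h3)
  have f1 := fun ε => split_inv h2 ht (W := LinearMap.ker T ⊓ Es s ε) fun v hv => ⟨c2 h4 v hv.1, c1 hst ε v hv.2⟩
  have f2 : ∀ ε η, finrank K ↥(Es s ε ⊓ Es t η) ≤ 3 * finrank K ↥(LinearMap.ker T ⊓ Es s ε ⊓ Es t η) := fun ε η => by
    rw [inf_assoc, inf_comm (LinearMap.ker T)]
    refine ker_third hT ?_
    rintro _ ⟨v, hv, rfl⟩
    exact ⟨c1 h3 ε v hv.1, c1 h4 η v hv.2⟩
  rw [top_inf_eq, top_inf_eq, finrank_top] at e0
  rw [inf_comm, inf_comm (Es t 1)] at e2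
  rw [e4 1 (one_mul 1), e4 (-1) (by rw [neg_mul_neg, one_mul])] at e3
  have := e1 1
  have := e1 (-1)
  have := f1 1
  have := f1 (-1)
  have := f2 1 1
  have := f2 1 (-1)
  have := f2 (-1) 1
  have := f2 (-1) (-1)
  omega

end Lin

variable {K : Type u} [Field K] {lam : Q8 →+ ℝ}

theorem br_Ge {i j : ℝ} {a b : L8 K} (ha : a ∈ LS K (Ge lam i)) (hb : b ∈ LS K (Ge lam j)) :
    br a b ∈ LS K (Ge lam (i + j)) :=
  br_LS (fun x hx y hy => mem_Ge.2 (by rw [map_add]; exact add_le_add hx hy)) ha hb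

theorem Ge_mono {i j : ℝ} (h : i ≤ j) : LS K (Ge lam j) ≤ LS K (Ge lam i) := LS_mono fun _ ha => h.trans ha

theorem sub_pr_Gt {i : ℝ} {a : L8 K} (ha : a ∈ LS K (Ge lam i)) : a - pr lam i a ∈ LS K {x | i < lam x} := fun k hk => by
  by_cases h : lam (wt k) = i
  · exact absurd (by rw [Pi.sub_apply, pr_pos a h, sub_self]) hk
  · rw [Pi.sub_apply, pr_neg a h, sub_zero] at hk
    exact lt_of_le_of_ne (ha k hk) (Ne.symm h)

theorem pr_Gt {i : ℝ} {a : L8 K} (ha : a ∈ LS K {x | i < lam x}) : pr lam i a = 0 := funext fun k => by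
  by_cases h : lam (wt k) = i
  · rw [pr_pos a h]
    exact LS_zero ha fun h1 => absurd h (ne_of_gt h1)
  · exact pr_neg a h

/-- leading terms of brackets -/
theorem pr_br {i j c : ℝ} (h : i + j = c) {a b : L8 K} (ha : a ∈ LS K (Ge lam i)) (hb : b ∈ LS K (Ge lam j)) :
    pr lam c (br a b) = br (pr lam i a) (pr lam j b) := by
  have h1 : br a b = br (pr lam i a) (pr lam j b) + (br (pr lam i a) (b - pr lam j b) + br (a - pr lam i a) b) := by
    rw [br_sub_left, br_sub_right]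
    abel
  rw [h1, pr_add, pr_of_mem (br_LS (fun x hx y hy => mem_Eq.2 (by rw [map_add, mem_Eq.1 hx, mem_Eq.1 hy, h]))
    (pr_mem lam i a) (pr_mem lam j b)), pr_Gt (add_mem (br_LS (fun x hx y hy => ?_) (pr_mem lam i a) (sub_pr_Gt hb))
    (br_LS (fun x hx y hy => ?_) (sub_pr_Gt ha) hb)), add_zero]
  · show c < lam (x + y)
    rw [map_add, mem_Eq.1 hx, ← h]
    exact add_lt_add_right hy i
  · show c < lam (x + y)
    rw [map_add, ← h]
    exact add_lt_add_of_lt_of_le hx hy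

theorem pr_zero (c : ℝ) : pr lam c (0 : L8 K) = 0 := pr_of_mem (zero_mem _)

theorem cz_pr0 {v : L8 K} (h : Cz v) (hv : v ∈ LS K (Ge lam 0)) : Cz (pr lam 0 v) := by
  refine Matrix.ext fun i j => ?_
  have h1 : ee K j ∈ LS K (Eq' lam (lam (wt j))) := fun k hk => by
    by_contra h2
    exact hk (Pi.single_eq_of_ne (fun e => h2 (by rw [e]; rfl)) _)
  have h2 := Eq_le_Ge h1
  have h3 := br_Ge hv h2
  have h4 := pr_br (zero_add _) hv (br_Ge hv h3)
  rw [h.br3, pr_zero, pr_br rfl hv h3, pr_br rfl hv h2, pr_of_mem h1] at h4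
  have h5 := congrFun h4 i
  unfold br at h5
  rw [Matrix.mulVec_mulVec, Matrix.mulVec_mulVec, mulVec_ee, ← sq, ← pow_succ] at h5
  exact h5.symm

theorem Ge_succ {y : Q8} {n : ℤ} {v : L8 K} (hv : v ∈ LS K (Ge (cl y) n)) (h : pr (cl y) n v = 0) :
    v ∈ LS K (Ge (cl y) (n + 1)) := fun k hk => by
  have h1 := sub_pr_Gt hv k (by rwa [h, sub_zero])
  have h2 : n < Reg5.Cls.ex y (wt k) := Int.cast_lt.1 (show (n : ℝ) < _ from h1)
  exact mem_Ge.2 (by rw [cl_apply]; exact_mod_cast h2)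

variable (K lam) in
/-- the component of degree `c` of `g v` -/
noncomputable def prL (c : ℝ) (g : G8 K) : L8 K →ₗ[K] L8 K where
  toFun v := pr lam c (act g v)
  map_add' v w := by rw [act_add, pr_add]
  map_smul' a v := by rw [act_smul, pr_smul]; rfl

theorem prL_apply (c : ℝ) (g : G8 K) (v : L8 K) : prL K lam c g v = pr lam c (act g v) := rfl

/-- the use of `KB` for a subspace of degree at least `-1` -/
theorem kb_ext (hK : KB.{u}) {ψ : Alt 6 →* G8 K} (hp : NoPar ψ) {U : Submodule K (L8 K)} (hU : Inv ψ U) {g : G8 K}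
    (h : ∀ v ∈ U, act g v ∈ LS K (Ge lam (-1))) {ι : Type} [Fintype ι] {b : ι → L8 K} {d : ι → ℝ}
    (hb : LinearIndependent K b) (h1 : ∀ i, b i ∈ U) (h2 : ∀ i, 0 ≤ d i) (h3 : Dp b d g lam) :
    ∑ i, d i + finrank K ↥(U ⊓ pb g (LS K (Ge lam 0))) ≤ finrank K ↥U := by
  obtain ⟨n, b', k1, k2, k3⟩ := ext_basis hb (B := U ⊓ pb g (LS K (Ge lam 0))) fun i => ⟨h1 i, Ge_mono (h2 i) (h3 i)⟩
  have k4 : ∀ i, Sum.elim b b' i ∈ U ⊓ pb g (LS K (Ge lam 0)) := fun i => k2 ▸ subset_span ⟨i, rfl⟩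
  obtain ⟨m, b'', k5, k6, k7⟩ := ext_basis k1 (B := U) fun i => (k4 i).1
  have k8 := hK K ψ hp _ _ (Sum.elim (Sum.elim d 0) fun _ => -1) k5 (k6 ▸ hU) g lam (by
    rintro ((i | i) | i)
    · exact h3 i
    · exact (k4 (.inr i)).2
    · exact h _ (k6 ▸ subset_span ⟨.inr i, rfl⟩))
  rw [Fintype.card_sum, Fintype.card_fin, k3] at k7
  rw [← k7]
  simpa [Fintype.sum_sum_type, add_comm] using k8

end Cfsg.Agent.E8A.C63.Abc
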