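import Cfsg.Agent.E8A.C63.Iface
import Cfsg.Agent.E8A.Fix.BorAlg

/-!
# The box ALG (helper90)

A solution of `x = x² + s (q x - x²)` in power series, specialised at `s = 1` by a valuation ring.
-/

set_option autoImplicit false

namespace Cfsg.Agent.E8A.C63

open Module

universe u

namespace Al

/-- fixed points of contractions -/
theorem exists_fix {K ι : Type*} [CommRing K] (T : (ι → PowerSeries K) → ι → PowerSeries K)
    (h0 : ∀ i, PowerSeries.X ∣ T 0 i)
    (h1 : ∀ (k : ℕ) (w w' : ι → PowerSeries K), (∀ i, PowerSeries.X ∣ w i) → (∀ i, PowerSeries.X ∣ w' i) →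
      (∀ i, PowerSeries.X ^ k ∣ w i - w' i) → ∀ i, PowerSeries.X ^ (k + 1) ∣ T w i - T w' i) :
    ∃ w, (∀ i, PowerSeries.X ∣ w i) ∧ T w = w := by
  have h2 : ∀ k i, PowerSeries.X ∣ T^[k] 0 i := fun k => by
    induction k with
    | zero => exact fun i => dvd_zero _
    | succ k ih =>
      intro i
      have h3 := h1 0 _ 0 ih (fun _ => dvd_zero _) (fun _ => by simp) i
      rw [zero_add, pow_one] at h3
      rw [Function.iterate_succ_apply']
      simpa using dvd_add h3 (h0 i)
  have h3 : ∀ k i, PowerSeries.X ^ k ∣ T^[k + 1] 0 i - T^[k] 0 i := fun k => by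
    induction k with
    | zero => exact fun i => by simp
    | succ k ih =>
      have h4 := h1 k _ _ (h2 _) (h2 _) ih
      rwa [← Function.iterate_succ_apply' T, ← Function.iterate_succ_apply' T] at h4
  have h4 : ∀ k m i, PowerSeries.X ^ k ∣ T^[k + m] 0 i - T^[k] 0 i := fun k m i => by
    induction m with
    | zero => simp
    | succ m ih =>
      have h5 := dvd_add ((pow_dvd_pow _ (Nat.le_add_right k m)).trans (h3 (k + m) i)) ih
      rwa [sub_add_sub_cancel] at h5
  let w : ι → PowerSeries K := fun i => PowerSeries.mk fun j => PowerSeries.coeff j (T^[j + 1] 0 i)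
  have h5 : ∀ k i, PowerSeries.X ^ k ∣ T^[k] 0 i - w i := fun k i => PowerSeries.X_pow_dvd_iff.2 fun j hj => by
    obtain ⟨m, rfl⟩ := Nat.exists_eq_add_of_le (Nat.succ_le_of_lt hj)
    have h6 := PowerSeries.X_pow_dvd_iff.1 (h4 (j + 1) m i) j (Nat.lt_succ_self j)
    rwa [map_sub, PowerSeries.coeff_mk, ← map_sub]
  have h6 : ∀ i, PowerSeries.X ∣ w i := fun i => by
    have h7 := h5 1 i
    rw [pow_one] at h7
    simpa using dvd_sub (h2 1 i) h7
  refine ⟨w, h6, funext fun i => PowerSeries.ext fun j => ?_⟩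
  have h7 := dvd_sub (h5 (j + 1) i) (h1 j _ _ (h2 j) h6 (h5 j) i)
  rw [Function.iterate_succ_apply', sub_sub_sub_cancel_left] at h7
  exact sub_eq_zero.1 ((map_sub _ _ _).symm.trans (PowerSeries.X_pow_dvd_iff.1 h7 j (Nat.lt_succ_self j)))

variable {K : Type*} [CommRing K] {n : ℕ} (c : Fin n → Fin n → Fin n → K)

/-- the quadratic map -/
def Qd {R : Type*} [CommRing R] (φ : K →+* R) (x : Fin n → R) (i : Fin n) : R := ∑ j, ∑ k, φ (c i j k) * (x j * x k)

theorem map_Qd {R S : Type*} [CommRing R] [CommRing S] (φ : K →+* R) (g : R →+* S) (x : Fin n → R) (i : Fin n) :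
    g (Qd c φ x i) = Qd c (g.comp φ) (fun j => g (x j)) i := by simp [Qd]

theorem Qd_mul {R : Type*} [CommRing R] (φ : K →+* R) (a : R) (x : Fin n → R) (i : Fin n) :
    Qd c φ (fun j => a * x j) i = a * a * Qd c φ x i := by
  simp only [Qd, Finset.mul_sum]
  exact Finset.sum_congr rfl fun j _ => Finset.sum_congr rfl fun k _ => by ring

theorem Qd_dvd {R : Type*} [CommRing R] (φ : K →+* R) {a : R} {x y : Fin n → R} (h : ∀ i, a ∣ x i - y i) (i : Fin n) :
    a ∣ Qd c φ x i - Qd c φ y i := by
  rw [← Ideal.mem_span_singleton, ← Ideal.Quotient.eq, map_Qd, map_Qd]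
  exact congrArg (Qd c _ · i) (funext fun j => Ideal.Quotient.eq.2 (Ideal.mem_span_singleton.2 (h j)))

theorem exists_sol : ∃ x : Fin n → PowerSeries K, (∀ i, PowerSeries.X ∣ x i - 1) ∧
    ∀ i, x i = x i * x i + PowerSeries.X * (Qd c PowerSeries.C x i - x i * x i) := by
  obtain ⟨w, h1, h2⟩ := exists_fix (K := K) (fun w i => -(w i * w i) -
      PowerSeries.X * (Qd c PowerSeries.C (fun j => 1 + w j) i - (1 + w i) * (1 + w i)))
    (fun i => dvd_sub (by simp) (dvd_mul_right _ _)) fun k w w' a1 a2 a3 i => by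
      have h1 := Qd_dvd c PowerSeries.C (x := fun j => 1 + w j) (y := fun j => 1 + w' j) (fun j => by simpa using a3 j) i
      have h2 := mul_dvd_mul (a3 i) (dvd_add (a1 i) (a2 i))
      have h3 := mul_dvd_mul_right (dvd_sub h1 ((a3 i).mul_right (2 + w i + w' i))) PowerSeries.X
      rw [pow_succ]
      convert dvd_sub (dvd_neg.2 h2) h3 using 1
      ring
  refine ⟨fun i => 1 + w i, fun i => by simpa using h1 i, fun i => ?_⟩
  have h3 := congrFun h2 i
  linear_combination h3

end Al

open Al in
/-- **ALG** -/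
theorem alg : ALG.{u} := fun K _ _ M _ _ _ _ B => by
  let b := Module.finBasis K M
  let c : Fin (finrank K M) → Fin (finrank K M) → Fin (finrank K M) → K := fun i j k => b.repr (B (b j) (b k)) i
  obtain ⟨x, h1, h2⟩ := exists_sol c
  let a := algebraMap (PowerSeries K) (FractionRing (PowerSeries K))
  have ha : Function.Injective a := IsFractionRing.injective _ _
  obtain ⟨O, j, j1, j2⟩ := Bor.exists_val (a.comp Polynomial.coeToPowerSeries.ringHom)
    (ha.comp (Polynomial.coe_injective K)) (Ideal.span {Polynomial.X - Polynomial.C (1 : K)})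
    (by rw [Ne, Ideal.span_singleton_eq_top]; exact Polynomial.not_isUnit_X_sub_C 1)
  have : Nonempty (Fin (finrank K M)) := ⟨⟨0, Module.finrank_pos⟩⟩
  obtain ⟨i₀, -, h3⟩ := Finset.exists_max_image Finset.univ (fun i => O.valuation (a (x i))) Finset.univ_nonempty
  have h4 : a (x i₀) ≠ 0 := fun e => by
    have h5 := h1 i₀
    rw [ha (e.trans (map_zero a).symm), zero_sub, dvd_neg, ← isUnit_iff_dvd_one] at h5
    exact PowerSeries.X_irreducible.not_isUnit h5
  let y : Fin (finrank K M) → O := fun i => ⟨(a (x i₀))⁻¹ * a (x i), (O.valuation_le_one_iff _).1 (by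
    rw [map_mul, map_inv₀]
    exact inv_mul_le_one_of_le₀ (h3 i (Finset.mem_univ i)) zero_le)⟩
  have h5 : y i₀ = 1 := Subtype.ext (inv_mul_cancel₀ h4)
  let G : Fin (finrank K M) → O := fun i => y i * y i + j Polynomial.X * (Qd c (j.comp Polynomial.C) y i - y i * y i)
  have h6 : ∀ i, (G i : FractionRing (PowerSeries K)) = (a (x i₀))⁻¹ * y i := fun i => by
    have h7 := congrArg a (h2 i)
    rw [map_add, map_mul, map_mul, map_sub, map_mul, map_Qd] at h7
    have h8 : ((Qd c (j.comp Polynomial.C) y i : O) : FractionRing (PowerSeries K)) =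
        (a (x i₀))⁻¹ * (a (x i₀))⁻¹ * Qd c (a.comp PowerSeries.C) (fun i => a (x i)) i := by
      rw [← Qd_mul]
      refine (map_Qd c _ O.subtype y i).trans (congrArg (Qd c · _ i) (RingHom.ext fun t => (j1 _).trans ?_))
      simp
    have h9 : ((j Polynomial.X : O) : FractionRing (PowerSeries K)) = a PowerSeries.X := (j1 _).trans (by simp)
    have h10 : (y i : FractionRing (PowerSeries K)) = (a (x i₀))⁻¹ * a (x i) := rfl
    simp only [G]
    push_cast
    rw [h8, h9, h10]
    linear_combination -((a (x i₀))⁻¹ * (a (x i₀))⁻¹) * h7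
  have h7 : ∀ i, G i = G i₀ * y i := fun i => Subtype.ext (by
    push_cast
    rw [h6, h6, h5]
    simp)
  let r := IsLocalRing.residue O
  have h8 : r (j Polynomial.X) = 1 := by
    have h9 := j2 _ (Ideal.mem_span_singleton_self _)
    rwa [map_sub, map_sub, Polynomial.C_1, map_one, map_one, sub_eq_zero] at h9
  obtain ⟨z, hz⟩ := Bor.exists_point (MvPolynomial.eval₂Hom (r.comp (j.comp Polynomial.C))
    fun o : Option (Fin (finrank K M)) => o.elim (r (G i₀)) fun i => r (y i))
  have h9 : z (some i₀) = 1 := by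
    have h10 := hz (MvPolynomial.X (some i₀) - 1) (by simp [h5])
    rwa [map_sub, MvPolynomial.eval_X, map_one, sub_eq_zero] at h10
  have h10 : ∀ i, Qd c (RingHom.id K) (fun i => z (some i)) i = z none * z (some i) := fun i => by
    have h11 := hz (Qd c MvPolynomial.C (fun i => MvPolynomial.X (some i)) i - MvPolynomial.X none * MvPolynomial.X (some i))
      (by
        have h12 := congrArg r (h7 i)
        simp only [G, map_add, map_mul, map_sub, h8, one_mul, add_sub_cancel, map_Qd] at h12
        simp only [G, map_add, map_mul, map_sub, h8, one_mul, add_sub_cancel, map_Qd, MvPolynomial.eval₂Hom_comp_C,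
          MvPolynomial.eval₂Hom_X', Option.elim]
        exact sub_eq_zero.2 h12)
    rw [map_sub, map_Qd, sub_eq_zero] at h11
    simpa [show (MvPolynomial.eval z).comp MvPolynomial.C = RingHom.id K from RingHom.ext fun t => by simp] using h11
  let v : M := ∑ i, z (some i) • b i
  have h11 : ∀ i, b.repr v i = z (some i) := fun i => congrFun (b.repr_sum_self _) i
  have h12 : v ≠ 0 := fun e => by
    have h13 := h11 i₀
    rw [e, h9] at h13
    simp at h13
  have h13 : B v v = z none • v := b.ext_elem fun i => by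
    rw [map_smul, Finsupp.smul_apply, h11, smul_eq_mul, ← h10]
    simp only [v, map_sum, map_smul, LinearMap.sum_apply, LinearMap.smul_apply, Finsupp.finsetSum_apply, Finsupp.smul_apply,
      smul_eq_mul, Qd, RingHom.id_apply, Finset.mul_sum]
    rw [Finset.sum_comm]
    exact Finset.sum_congr rfl fun j _ => Finset.sum_congr rfl fun k _ => by simp only [c]; ring
  by_cases e : z none = 0
  · exact ⟨v, h12, .inl (by rw [h13, e, zero_smul])⟩
  · refine ⟨(z none)⁻¹ • v, smul_ne_zero (inv_ne_zero e) h12, .inr ?_⟩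
    rw [map_smul, map_smul, LinearMap.smul_apply, h13, inv_smul_smul₀ e]

end Cfsg.Agent.E8A.C63
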