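import Cfsg.Agent.E8A.C63.Iface
import Cfsg.Agent.H994.TwoGen.Chain

/-!
# `A₆` in characteristic 3: generators and the small simple modules (helper42)

* `gen : GEN`, `Md.ind` (induction over the generators), `Md.invR_of`;
* `t3b : T3B`, `t4b : T4B`; `T3.zero`, `T4.self`, `T4.neg`, `T4.all_mem`, `T4.zero`; `Md.fix2`.
-/

set_option autoImplicit false
set_option maxRecDepth 100000

namespace Cfsg.Agent.E8A.C63

open Cfsg Cfsg.Lie Module

universe u

theorem gen : GEN := by
  have h := H994.TwoGen.Chain.closure_eq (x := ((uu * dd : Alt 6) : Equiv.Perm (Fin 6)))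
    (y := ((yy : Alt 6) : Equiv.Perm (Fin 6))) (K := alternatingGroup (Fin 6)) (uu * dd).2 yy.2
    [(1, [[], [0], [1], [2], [3], [1, 1]]), (2, [[], [0, 1, 0], [0, 3, 0], [0, 1, 1, 2], [2, 1, 1, 0]]),
      (4, [[], [1, 0, 3], [1, 2, 3], [3, 0, 1, 1, 2, 3]]), (0, [[], [3, 0, 1], [3, 2, 1]])] (by decide +kernel)
    (by rw [nat_card_alternatingGroup, Nat.card_eq_fintype_card, Fintype.card_fin]; decide)
  refine eq_top_iff.2 fun a _ => ?_
  have h1 : Subgroup.closure ({((uu * dd : Alt 6) : Equiv.Perm (Fin 6)), ((yy : Alt 6) : Equiv.Perm (Fin 6))} :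
      Set (Equiv.Perm (Fin 6))) ≤ (Subgroup.closure ({uu, yy, dd} : Set (Alt 6))).map (alternatingGroup (Fin 6)).subtype := by
    rw [Subgroup.closure_le]
    rintro z (rfl | rfl)
    · exact ⟨uu * dd, Subgroup.mul_mem _ (Subgroup.subset_closure (by simp)) (Subgroup.subset_closure (by simp)), rfl⟩
    · exact ⟨yy, Subgroup.subset_closure (by simp), rfl⟩
  rw [h] at h1
  obtain ⟨b, hb, e⟩ := h1 a.2
  rwa [← Subtype.ext e]

namespace Md

/-- induction over the generators -/
theorem ind {p : Alt 6 → Prop} (h1 : p 1) (hm : ∀ a b, p a → p b → p (a * b)) (hu : p uu) (hy : p yy) (hd : p dd)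
    (a : Alt 6) : p a := by
  have ha : a ∈ Subgroup.closure ({uu, yy, dd} : Set (Alt 6)) := by rw [gen]; trivial
  have hp : ∀ b, p b → ∀ n : ℕ, p (b ^ n) := fun b hb n => by
    induction n with
    | zero => rwa [pow_zero]
    | succ n ih => rw [pow_succ]; exact hm _ _ ih hb
  induction ha using Subgroup.closure_induction with
  | mem x hx =>
    rcases hx with rfl | rfl | rfl
    · exact hu
    · exact hy
    · exact hd
  | one => exact h1
  | mul x y _ _ hx hy => exact hm _ _ hx hy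
  | inv x _ hx =>
    have h2 : x⁻¹ = x ^ (orderOf x - 1) := by
      rw [inv_eq_iff_mul_eq_one, ← pow_succ', Nat.sub_add_cancel (orderOf_pos x), pow_orderOf_eq_one]
    rw [h2]
    exact hp x hx _

variable {K : Type u} [Field K] {V : Type u} [AddCommGroup V] [Module K V] {ρ : Representation K (Alt 6) V}

theorem rho_mul (a b : Alt 6) (v : V) : ρ (a * b) v = ρ a (ρ b v) := by rw [map_mul]; rfl

theorem rho_one (v : V) : ρ 1 v = v := by rw [map_one]; rfl

theorem invR_of {U : Submodule K V} (hu : ∀ v ∈ U, ρ uu v ∈ U) (hy : ∀ v ∈ U, ρ yy v ∈ U) (hd : ∀ v ∈ U, ρ dd v ∈ U) :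
    InvR ρ U :=
  ind (p := fun a => ∀ v ∈ U, ρ a v ∈ U) (fun v hv => by rwa [rho_one])
    (fun a b ha hb v hv => by rw [rho_mul]; exact ha _ (hb v hv)) hu hy hd

theorem fix_of {v : V} (hu : ρ uu v = v) (hy : ρ yy v = v) (hd : ρ dd v = v) (a : Alt 6) : ρ a v = v :=
  ind (p := fun a => ρ a v = v) (rho_one v) (fun a b ha hb => by rw [rho_mul, hb, ha]) hu hy hd a

theorem span_inv {S : Set V} {f : V →ₗ[K] V} (h : ∀ x ∈ S, f x ∈ Submodule.span K S) :
    ∀ v ∈ Submodule.span K S, f v ∈ Submodule.span K S :=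
  fun _ hv => (Submodule.span_le (p := (Submodule.span K S).comap f)).2 h hv

theorem three [CharP K 3] (v : V) : v + v + v = 0 := by
  have h : (3 : K) = 0 := CharP.cast_eq_zero K 3
  calc v + v + v = (3 : K) • v := by module
    _ = 0 := by rw [h, zero_smul]

/-- an endomorphism of order three has a fixed vector -/
theorem fix1 [CharP K 3] {a : V →ₗ[K] V} (ha : ∀ v, a (a (a v)) = v) {N : Submodule K V} (hN : N ≠ ⊥)
    (hi : ∀ v ∈ N, a v ∈ N) : ∃ v ∈ N, v ≠ 0 ∧ a v = v := by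
  obtain ⟨v, hv, h0⟩ := (Submodule.ne_bot_iff _).1 hN
  by_cases h1 : a v - v = 0
  · exact ⟨v, hv, h0, sub_eq_zero.1 h1⟩
  have m1 : a v - v ∈ N := N.sub_mem (hi v hv) hv
  by_cases h2 : a (a v - v) - (a v - v) = 0
  · exact ⟨_, m1, h1, sub_eq_zero.1 h2⟩
  refine ⟨_, N.sub_mem (hi _ m1) m1, h2, ?_⟩
  simp only [map_sub, ha]
  linear_combination (norm := abel1) three (K := K) (a v) - three (K := K) (a (a v))

/-- two commuting endomorphisms of order three have a common fixed vector -/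
theorem fix2 [CharP K 3] {a b : V →ₗ[K] V} (ha : ∀ v, a (a (a v)) = v) (hb : ∀ v, b (b (b v)) = v)
    (hab : ∀ v, a (b v) = b (a v)) {N : Submodule K V} (hN : N ≠ ⊥) (hi : ∀ v ∈ N, a v ∈ N) (hj : ∀ v ∈ N, b v ∈ N) :
    ∃ v ∈ N, v ≠ 0 ∧ a v = v ∧ b v = v := by
  obtain ⟨v, hv, h0, h1⟩ := fix1 ha hN hi
  obtain ⟨w, hw, h2, h3⟩ := fix1 hb (N := N ⊓ LinearMap.eqLocus a LinearMap.id)
    ((Submodule.ne_bot_iff _).2 ⟨v, ⟨hv, h1⟩, h0⟩) fun x hx => ⟨hj x hx.1, by
      have h4 : a x = x := hx.2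
      show a (b x) = b x
      rw [hab, h4]⟩
  exact ⟨w, hw.1, h2, hw.2, h3⟩

theorem two_trans {i j k l : Fin 6} (h : i ≠ j) (h' : k ≠ l) :
    ∃ a : Alt 6, (a : Equiv.Perm (Fin 6)) i = k ∧ (a : Equiv.Perm (Fin 6)) j = l := by
  have h1 := alternatingGroup.isMultiplyPretransitive (Fin 6)
  have h2 : MulAction.IsMultiplyPretransitive (alternatingGroup (Fin 6)) (Fin 6) 2 :=
    MulAction.isMultiplyPretransitive_of_le (n := Nat.card (Fin 6) - 2) (by simp) (Nat.sub_le _ _)
  exact MulAction.is_two_pretransitive_iff.1 h2 h h'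

end Md

open Md

variable {K : Type u} [Field K] {V : Type u} [AddCommGroup V] [Module K V] {ρ : Representation K (Alt 6) V}

/-! ### the three-dimensional modules -/

theorem T3.all_mem {ι : K} {e h f : V} (H : T3 ρ ι e h f) {U : Submodule K V} (hU : InvR ρ U) (he : e ∈ U) :
    h ∈ U ∧ f ∈ U := by
  have hf : f ∈ U := by
    have h1 := U.neg_mem (hU dd e he)
    rwa [H.de, neg_neg] at h1
  refine ⟨?_, hf⟩
  have h2 := U.add_mem (U.sub_mem (hU uu f hf) hf) he
  rwa [H.uf, show f + h - e - f + e = h by abel] at h2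

theorem Md.invR_bot : InvR ρ ⊥ := fun a v hv => by rw [(Submodule.mem_bot K).1 hv, map_zero]; exact Submodule.zero_mem _

theorem T3.zero {ι : K} {e h f : V} (H : T3 ρ ι e h f) (he : e = 0) : h = 0 ∧ f = 0 := H.all_mem invR_bot he

theorem T3.key {ι : K} {e h f : V} (H : T3 ρ ι e h f) {U : Submodule K V} (hU : InvR ρ U) {a b c : K}
    (hw : a • e + b • h + c • f ∈ U) : e ∈ U ∨ (a = 0 ∧ b = 0 ∧ c = 0) := by
  have h1 := U.sub_mem (hU uu _ hw) hw
  have e1 : ρ uu (a • e + b • h + c • f) - (a • e + b • h + c • f) = (b - c) • e + c • h := by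
    simp only [map_add, map_smul, H.ue, H.uh, H.uf]; module
  rw [e1] at h1
  have h2 := U.sub_mem (hU uu _ h1) h1
  have e2 : ρ uu ((b - c) • e + c • h) - ((b - c) • e + c • h) = c • e := by
    simp only [map_add, map_smul, H.ue, H.uh]; module
  rw [e2] at h2
  by_cases hc : c = 0
  · subst hc
    rw [zero_smul, add_zero, sub_zero] at h1
    by_cases hb : b = 0
    · subst hb
      rw [zero_smul, zero_smul, add_zero, add_zero] at hw
      by_cases ha : a = 0
      · exact Or.inr ⟨ha, rfl, rfl⟩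
      · exact Or.inl ((U.smul_mem_iff ha).1 hw)
    · exact Or.inl ((U.smul_mem_iff hb).1 h1)
  · exact Or.inl ((U.smul_mem_iff hc).1 h2)

theorem t3b : T3B.{u} := by
  intro K _ _ V _ _ ρ ι e h f H h0
  have me : e ∈ Submodule.span K ({e, h, f} : Set V) := Submodule.subset_span (by simp)
  have mh : h ∈ Submodule.span K ({e, h, f} : Set V) := Submodule.subset_span (by simp)
  have mf : f ∈ Submodule.span K ({e, h, f} : Set V) := Submodule.subset_span (by simp)
  refine ⟨?_, invR_of (span_inv ?_) (span_inv ?_) (span_inv ?_), fun U hle hU hi => le_antisymm hle ?_⟩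
  · rw [Fintype.linearIndependent_iff]
    intro c hc
    rw [Fin.sum_univ_three] at hc
    rcases H.key invR_bot (a := c 0) (b := c 1) (c := c 2) hc with h1 | h1
    · exact absurd h1 h0
    · intro i
      fin_cases i
      · exact h1.1
      · exact h1.2.1
      · exact h1.2.2
  · rintro x (rfl | rfl | rfl)
    · rwa [H.ue]
    · rw [H.uh]; exact Submodule.add_mem _ mh me
    · rw [H.uf]; exact Submodule.sub_mem _ (Submodule.add_mem _ mf mh) me
  · rintro x (rfl | rfl | rfl)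
    · rw [H.ye]; exact Submodule.smul_mem _ _ me
    · rwa [H.yh]
    · rw [H.yf]; exact Submodule.smul_mem _ _ mf
  · rintro x (rfl | rfl | rfl)
    · rw [H.de]; exact Submodule.neg_mem _ mf
    · rw [H.dh]; exact Submodule.neg_mem _ mh
    · rw [H.df]; exact Submodule.neg_mem _ me
  · obtain ⟨w, hw, hw0⟩ := (Submodule.ne_bot_iff _).1 hU
    obtain ⟨a, b, c, rfl⟩ := Submodule.mem_span_triple.1 (hle hw)
    rcases H.key hi hw with h1 | ⟨rfl, rfl, rfl⟩
    · rw [Submodule.span_le]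
      rintro x (rfl | rfl | rfl)
      · exact h1
      · exact (H.all_mem hi h1).1
      · exact (H.all_mem hi h1).2
    · exact absurd (by simp) hw0

/-! ### the four-dimensional module -/

variable {r : Fin 6 → Fin 6 → V}

theorem T4.self (H : T4 ρ r) (i : Fin 6) : r i i = 0 := by
  have h := H.add i i i
  exact add_eq_left.1 h

theorem T4.sub (H : T4 ρ r) (i j : Fin 6) : r i j = r 0 j - r 0 i := by rw [← H.add 0 i j]; abel

theorem T4.five (H : T4 ρ r) : r 0 5 = -(r 0 1 + r 0 2 + r 0 3 + r 0 4) := by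
  have h := H.sum 0
  rw [Fin.sum_univ_six, H.self, zero_add] at h
  exact eq_neg_of_add_eq_zero_right h

theorem T4.all_mem (H : T4 ρ r) {U : Submodule K V} (hU : InvR ρ U) {i j : Fin 6} (hij : i ≠ j) (h : r i j ∈ U)
    (k l : Fin 6) : r k l ∈ U := by
  by_cases hk : k = l
  · rw [hk, H.self]; exact U.zero_mem
  obtain ⟨a, h1, h2⟩ := two_trans hij hk
  have h3 := hU a _ h
  rwa [H.act, h1, h2] at h3

theorem T4.zero (H : T4 ρ r) {i j : Fin 6} (hij : i ≠ j) (h : r i j = 0) (k l : Fin 6) : r k l = 0 :=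
  H.all_mem invR_bot hij h k l

theorem T4.step (H : T4 ρ r) {U : Submodule K V} (hU : InvR ρ U) (g g' : Alt 6) {i j l m : Fin 6}
    (hg : (g : Equiv.Perm (Fin 6)) 0 = 0 ∧ (g : Equiv.Perm (Fin 6)) i = j ∧ (g : Equiv.Perm (Fin 6)) j = 5 ∧
      (g : Equiv.Perm (Fin 6)) l = l ∧ (g : Equiv.Perm (Fin 6)) m = m ∧ (g' : Equiv.Perm (Fin 6)) 0 = 0 ∧
      (g' : Equiv.Perm (Fin 6)) i = l ∧ (g' : Equiv.Perm (Fin 6)) j = j ∧ (g' : Equiv.Perm (Fin 6)) 5 = 5 ∧ l ≠ i)
    {a b c d : K} (ha : a ≠ 0) (hw : a • r 0 i + b • r 0 j + c • r 0 l + d • r 0 m ∈ U) (k k' : Fin 6) : r k k' ∈ U := by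
  obtain ⟨g0, gi, gj, gl, gm, k0, ki, kj, k5, hli⟩ := hg
  have h1 := U.sub_mem (hU g _ hw) hw
  have e1 : ρ g (a • r 0 i + b • r 0 j + c • r 0 l + d • r 0 m) - (a • r 0 i + b • r 0 j + c • r 0 l + d • r 0 m) =
      (a - b) • r 0 j + b • r 0 5 - a • r 0 i := by
    simp only [map_add, map_smul, H.act, g0, gi, gj, gl, gm]; module
  rw [e1] at h1
  have h2 := U.sub_mem (hU g' _ h1) h1
  have e2 : ρ g' ((a - b) • r 0 j + b • r 0 5 - a • r 0 i) - ((a - b) • r 0 j + b • r 0 5 - a • r 0 i) = a • r l i := by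
    simp only [map_add, map_sub, map_smul, H.act, k0, ki, kj, k5]; rw [H.sub l i]; module
  rw [e2] at h2
  exact H.all_mem hU hli ((U.smul_mem_iff ha).1 h2) k k'

/-- a three-cycle -/
def Md.c3 (i j k : Fin 6) (h : i ≠ j ∧ j ≠ k) : Alt 6 := ⟨Equiv.swap i j * Equiv.swap j k, by
  rw [Equiv.Perm.mem_alternatingGroup, map_mul, Equiv.Perm.sign_swap h.1, Equiv.Perm.sign_swap h.2]; decide⟩

theorem T4.key (H : T4 ρ r) {U : Submodule K V} (hU : InvR ρ U) {a b c d : K}
    (hw : a • r 0 1 + b • r 0 2 + c • r 0 3 + d • r 0 4 ∈ U) : (∀ k l, r k l ∈ U) ∨ (a = 0 ∧ b = 0 ∧ c = 0 ∧ d = 0) := by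
  by_cases ha : a = 0
  · by_cases hb : b = 0
    · by_cases hc : c = 0
      · by_cases hd : d = 0
        · exact Or.inr ⟨ha, hb, hc, hd⟩
        · exact Or.inl (H.step hU (c3 4 1 5 (by decide)) (c3 4 2 3 (by decide)) (i := 4) (j := 1) (l := 2) (m := 3)
            (by decide) (b := a) (c := b) (d := c) hd (by convert hw using 1; abel))
      · exact Or.inl (H.step hU (c3 3 1 5 (by decide)) (c3 3 2 4 (by decide)) (i := 3) (j := 1) (l := 2) (m := 4)
          (by decide) (b := a) (c := b) (d := d) hc (by convert hw using 1; abel))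
    · exact Or.inl (H.step hU (c3 2 1 5 (by decide)) (c3 2 3 4 (by decide)) (i := 2) (j := 1) (l := 3) (m := 4)
        (by decide) (b := a) (c := c) (d := d) hb (by convert hw using 1; abel))
  · exact Or.inl (H.step hU (c3 1 2 5 (by decide)) (c3 1 3 4 (by decide)) (i := 1) (j := 2) (l := 3) (m := 4)
      (by decide) ha hw)

theorem T4.mem_span (H : T4 ρ r) (i j : Fin 6) : r i j ∈ Submodule.span K ({r 0 1, r 0 2, r 0 3, r 0 4} : Set V) := by
  have m1 : r 0 1 ∈ Submodule.span K ({r 0 1, r 0 2, r 0 3, r 0 4} : Set V) := Submodule.subset_span (by simp)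
  have m2 : r 0 2 ∈ Submodule.span K ({r 0 1, r 0 2, r 0 3, r 0 4} : Set V) := Submodule.subset_span (by simp)
  have m3 : r 0 3 ∈ Submodule.span K ({r 0 1, r 0 2, r 0 3, r 0 4} : Set V) := Submodule.subset_span (by simp)
  have m4 : r 0 4 ∈ Submodule.span K ({r 0 1, r 0 2, r 0 3, r 0 4} : Set V) := Submodule.subset_span (by simp)
  have h : ∀ k, r 0 k ∈ Submodule.span K ({r 0 1, r 0 2, r 0 3, r 0 4} : Set V) := fun k => by
    fin_cases k
    · exact H.self 0 ▸ Submodule.zero_mem _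
    · exact m1
    · exact m2
    · exact m3
    · exact m4
    · exact H.five ▸ Submodule.neg_mem _ (Submodule.add_mem _ (Submodule.add_mem _ (Submodule.add_mem _ m1 m2) m3) m4)
  rw [H.sub i j]
  exact Submodule.sub_mem _ (h j) (h i)

theorem T4.invR (H : T4 ρ r) : InvR ρ (Submodule.span K ({r 0 1, r 0 2, r 0 3, r 0 4} : Set V)) := fun a =>
  span_inv (by rintro x (rfl | rfl | rfl | rfl) <;> (rw [H.act]; exact H.mem_span _ _))

theorem Md.mem_span4 {x y z t w : V} (h : w ∈ Submodule.span K ({x, y, z, t} : Set V)) :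
    ∃ a b c d : K, a • x + b • y + c • z + d • t = w := by
  obtain ⟨a, w', hw', rfl⟩ := Submodule.mem_span_insert.1 h
  obtain ⟨b, c, d, rfl⟩ := Submodule.mem_span_triple.1 hw'
  exact ⟨a, b, c, d, by abel⟩

theorem t4b : T4B.{u} := by
  intro K _ _ V _ _ ρ r H h0
  refine ⟨?_, H.mem_span, H.invR, fun U hle hU hi => le_antisymm hle ?_⟩
  · rw [Fintype.linearIndependent_iff]
    intro c hc
    rw [Fin.sum_univ_four] at hc
    rcases H.key invR_bot (a := c 0) (b := c 1) (c := c 2) (d := c 3) hc with h1 | h1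
    · exact absurd (h1 0 1) h0
    · intro i
      fin_cases i
      · exact h1.1
      · exact h1.2.1
      · exact h1.2.2.1
      · exact h1.2.2.2
  · obtain ⟨w, hw, hw0⟩ := (Submodule.ne_bot_iff _).1 hU
    obtain ⟨a, b, c, d, rfl⟩ := mem_span4 (hle hw)
    rcases H.key hi hw with h1 | ⟨rfl, rfl, rfl, rfl⟩
    · rw [Submodule.span_le]
      rintro x (rfl | rfl | rfl | rfl) <;> exact h1 _ _
    · exact absurd (by simp) hw0

end Cfsg.Agent.E8A.C63
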