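import Cfsg.Agent.E8A.C63.Basic
import Cfsg.Agent.E8A.C63.ModA
import Cfsg.Agent.E8A.Inf.Five

/-!
# `A₆` in characteristic 3: the boxes CTX, ISO, CEN (helper44)
-/

set_option autoImplicit false
set_option maxRecDepth 100000

namespace Cfsg.Agent.E8A.C63

open CoxeterSystem Cfsg Cfsg.Lie Module Equiv
open Cfsg.Agent.ChevalleyStructure Cfsg.Agent.ChevalleyStructure.CoxeterGeom
  Cfsg.Agent.ChevalleyStructure.CoxeterGeomTypes
open Cfsg.Agent.Tits.Roots Cfsg.Agent.Nodes.Reps Cfsg.Agent.Nodes.BNOf Cfsg.Agent.Nodes.RGDChev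
open Cfsg.Agent.KFacts.RgdChevCoord Cfsg.Agent.H129.TorusChar
open Cfsg.Agent.H952.F4 (MaxAlt ev)
open Cfsg.Agent.H942.E8Tab (e8T)
open Cfsg.Agent.H288.E8L (Q8 wt wt_inl wt_inr)
open Cfsg.Agent.H897.T5Lat (bf_apply)
open Cfsg.Agent.H944.Tab (allLt allLt_spec)
open Cfsg.Agent.E8A.Frm (B0)
open Cfsg.Agent.E8A.Inf (toQ pk pw cj_ev_pow)
open Cfsg.Agent.E8A.Par (op vec_op kf_ee)
open Cfsg.Agent.E8A.Reg5.Cls (ex dz Cj)
open Cfsg.Agent.E8A.Two Cfsg.Agent.E8A.TwoH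

universe u

namespace Cen

/-! ### CTX -/

/-- `(0 4)(1 5)` -/
def xx : Alt 6 := ⟨⟨![4, 5, 2, 3, 0, 1], ![4, 5, 2, 3, 0, 1], by decide, by decide⟩, by
  rw [Equiv.Perm.mem_alternatingGroup]; decide⟩

theorem gen_xy : Subgroup.closure ({xx, yy} : Set (Alt 6)) = ⊤ := by
  have hx : xx ∈ Subgroup.closure ({xx, yy} : Set (Alt 6)) := Subgroup.subset_closure (by simp)
  have hy : yy ∈ Subgroup.closure ({xx, yy} : Set (Alt 6)) := Subgroup.subset_closure (by simp)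
  rw [eq_top_iff, ← gen, Subgroup.closure_le]
  rintro z (rfl | rfl | rfl)
  · rw [show uu = yy * xx * yy ^ 3 * xx * yy * xx * yy by decide +kernel]
    exact mul_mem (mul_mem (mul_mem (mul_mem (mul_mem (mul_mem hy hx) (pow_mem hy 3)) hx) hy) hx) hy
  · exact hy
  · rw [show dd = xx * yy ^ 2 * xx * yy * xx * yy ^ 2 * xx * yy * xx * yy ^ 3 * xx by decide +kernel]
    exact mul_mem (mul_mem (mul_mem (mul_mem (mul_mem (mul_mem (mul_mem (mul_mem (mul_mem (mul_mem hx (pow_mem hy 2)) hx)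
      hy) hx) (pow_mem hy 2)) hx) hy) hx) (pow_mem hy 3)) hx

theorem ct_two {a : Alt 6} (h : orderOf a = 2) : (a : Perm (Fin 6)).cycleType = Multiset.replicate 2 2 := by
  rw [← Subgroup.orderOf_coe] at h
  obtain ⟨n, hn⟩ := Perm.cycleType_prime_order (σ := (a : Perm (Fin 6))) (h ▸ Nat.prime_two)
  have h1 := (Perm.sum_cycleType (a : Perm (Fin 6))).le.trans (Finset.card_le_univ _)
  have h2 := Perm.sign_of_cycleType (a : Perm (Fin 6))
  rw [Perm.mem_alternatingGroup.1 a.2] at h2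
  rw [hn, h] at h1 h2 ⊢
  rw [Multiset.sum_replicate, smul_eq_mul] at h1 h2
  rw [Fintype.card_fin] at h1
  rw [Multiset.card_replicate] at h2
  have h3 : n ≤ 2 := by omega
  interval_cases n
  · exact absurd h2 (by decide)
  · rfl
  · exact absurd h2 (by decide)

theorem conj_two {a b : Alt 6} (ha : orderOf a = 2) (hb : orderOf b = 2) : IsConj a b :=
  alternatingGroup.isConj_of (Perm.isConj_iff_cycleType_eq.2 ((ct_two ha).trans (ct_two hb).symm))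
    (by rw [← Perm.sum_cycleType, ct_two ha]; decide)

theorem cast3 (F : Type u) [Field F] [CharP F 3] {m : ℕ} (h : ¬ 3 ∣ m) : (m : F) ≠ 0 := fun h0 =>
  h ((CharP.cast_eq_zero_iff F 3 m).1 h0)

end Cen

open Cen

/-- **CTX** -/
theorem ctx : CTX.{u} := by
  intro F _ _ _ H φ hM hfx
  have o1 : orderOf xx = 2 := orderOf_eq_prime (by decide) (by decide)
  have o2 : orderOf (yy ^ 2) = 2 := orderOf_eq_prime (by decide) (by decide)
  have h1 : ev (LK F (φ xx)) 1 + ev (LK F (φ yy)) 1 + ev (LK F (φ (xx * yy))) 1 ≤ 248 := Inf.scott hfx gen_xy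
  have h2 := Inf.ge_five (x := φ (xx * yy)) (by rw [← map_pow, show (xx * yy) ^ 5 = 1 by decide +kernel, map_one])
  have h3 := Inf.tab Inf.chk_T4 (cast3 F (by norm_num)) (x := φ yy)
    (by rw [← map_pow, show yy ^ 4 = 1 by decide +kernel, map_one]) (by simp)
  have h4 : ∀ a, orderOf a = 2 → ev (LK F (φ a)) 1 = ev (LK F (φ (yy ^ 2))) 1 := fun a ha =>
    Inf.ev_isConj (φ.map_isConj (conj_two o2 ha)) 1
  simp only [Inf.T4, List.map, pow_one, ← map_pow, List.mem_cons, List.cons.injEq, and_true, List.not_mem_nil,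
    or_false] at h3
  rw [h4 _ o1] at h1
  refine ⟨Inf.NoFx.em (algebraMap F (Kb F)) hfx, fun g lam h0 hy => Par.par F H 6 φ hM (by norm_num) hfx g lam h0 hy,
    fun a ha => (ev_emb0 _).trans ((h4 a ha).trans ?_), ?_⟩
  · omega
  · rw [MonoidHom.comp_apply, fd, ev_emb0]
    omega

namespace Cen

/-! ### ISO -/

section

variable {K : Type u} [Field K] {ψ : Alt 6 →* G8 K}

theorem inv_cen {W : Submodule K (L8 K)} (h : Inv ψ W) : Inv ψ (cen (W : Set (L8 K))) := fun a v hv s hs => by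
  have h1 := congrArg (act (ψ a)) (hv _ (h a⁻¹ s hs))
  rwa [act_br, map_inv, act_inv', act_zero] at h1

/-- the centre of an invariant subalgebra of maximal rank -/
theorem zc [IsAlgClosed K] [CharP K 3] (hT : NOTOR.{u}) (hc : Ctx ψ) {A : Set Q8} (h0 : (0 : Q8) ∈ A) (hi : Inv ψ (LS K A))
    {μ : Q8} (h1 : ∀ j, wt j ∈ A → 3 ∣ ex μ (wt j)) {i : Fin 8} (h2 : ¬ 3 ∣ μ i) : False := by
  obtain ⟨h, k1, k2⟩ := exists_hm (K := K) μ
  refine hT K ψ hc 1 _ ((Submodule.ne_bot_iff _).2 ⟨h, fun s hs => ?_, fun e => h2 ?_⟩) (inv_cen hi) fun x hx => ?_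
  · funext j
    rw [br_T' s k1, Pi.zero_apply, neg_eq_zero]
    by_cases e : s j = 0
    · rw [e, mul_zero]
    · rw [k2, (CharP.intCast_eq_zero_iff K 3 _).2 (h1 j (hs j e)), zero_mul]
  · have h3 := k2 (sr i)
    rwa [e, rl_zero, eq_comm, CharP.intCast_eq_zero_iff K 3, ex_sr] at h3
  · rw [act_one]
    exact inT_of_cen fun v hv => br_comm_zero (hx v (LS_mono (fun a ha => by
      rw [Set.mem_singleton_iff.1 ha]; exact h0) (inT_iff.1 hv)))

theorem fix_dz {ζ : K} {N : ℕ} (hζ : IsPrimitiveRoot ζ N) {t : G8 K} {y : Q8} (ht : mx t = dz ζ y) {v : L8 K} :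
    act t v = v ↔ v ∈ LS K {a | (N : ℤ) ∣ ex y a} := by
  refine funext_iff.trans (forall_congr' fun i => ?_)
  rw [act_dz ht]
  by_cases h0 : v i = 0
  · simp [h0]
  · rw [mul_eq_right₀ h0, hζ.zpow_eq_one_iff_dvd]
    exact ⟨fun h _ => h, fun h => h h0⟩

theorem comm_cj {s c : G8 K} (hs : ∀ a, Commute s (ψ a)) (a : Alt 6) : Commute (c⁻¹ * s * c) (cj c⁻¹ ψ a) := by
  have h1 := (hs a).conj c⁻¹
  rw [cj_apply]
  rwa [inv_inv] at h1 ⊢

theorem inv_dz {ζ : K} {N : ℕ} (hζ : IsPrimitiveRoot ζ N) {t : G8 K} {y : Q8} (ht : mx t = dz ζ y)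
    (hs : ∀ a, Commute t (ψ a)) : Inv ψ (LS K {a | (N : ℤ) ∣ ex y a}) := fun a v hv => by
  rw [← fix_dz hζ ht] at hv ⊢
  rw [← act_mul, (hs a).eq, act_mul, hv]

end

/-- the highest root -/
def th : Q8 := ![2, 3, 4, 6, 5, 4, 3, 2]

theorem wt_bd : ∀ j : chevE8.Idx, (∀ i, 0 ≤ wt j i ∧ wt j i ≤ th i) ∨ ∀ i, 0 ≤ -wt j i ∧ -wt j i ≤ th i := by
  decide +kernel

theorem th_pair : ∀ i j : Fin 8, i ≠ j → ∃ m n : Fin 7, (m : ℤ) * th i = n * th j ∧ (¬ 3 ∣ (m : ℤ) ∨ ¬ 3 ∣ (n : ℤ)) := by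
  decide +kernel

theorem th_bd : ∀ i, th i = (th i).toNat ∧ 0 < (th i).toNat ∧ (th i).toNat ≤ 6 := by decide

theorem alc_aux {N : ℤ} {y a : Q8} (hy : ∀ i, 0 ≤ y i) (hN : ex y th ≤ N) (ha : ∀ i, 0 ≤ a i ∧ a i ≤ th i)
    (hd : N ∣ ex y a) : (∀ i, y i ≠ 0 → a i = 0) ∨ (ex y th = N ∧ ∀ i, y i ≠ 0 → a i = th i) := by
  have h1 : ∀ i ∈ Finset.univ, 0 ≤ a i * y i := fun i _ => mul_nonneg (ha i).1 (hy i)
  have h2 : ∀ i ∈ Finset.univ, a i * y i ≤ th i * y i := fun i _ => mul_le_mul_of_nonneg_right (ha i).2 (hy i)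
  by_cases h0 : ex y a = 0
  · exact Or.inl fun i hi => (mul_eq_zero.1 ((Finset.sum_eq_zero_iff_of_nonneg h1).1 h0 i (Finset.mem_univ i))).resolve_right hi
  · have h3 : N ≤ ex y a := Int.le_of_dvd (lt_of_le_of_ne (Finset.sum_nonneg h1) (Ne.symm h0)) hd
    have h4 : ex y a ≤ ex y th := Finset.sum_le_sum h2
    have h5 : ex y a = ex y th := by omega
    exact Or.inr ⟨by omega, fun i hi =>
      mul_right_cancel₀ hi ((Finset.sum_eq_sum_iff_of_le h2).1 h5 i (Finset.mem_univ i))⟩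

theorem alc {N : ℤ} {y : Q8} (hy : ∀ i, 0 ≤ y i) (hN : ex y th ≤ N) (j : chevE8.Idx) (hd : N ∣ ex y (wt j)) :
    ∃ c : ℤ, (c = 0 ∨ ex y th = N) ∧ ∀ i, y i ≠ 0 → wt j i = c * th i := by
  rcases wt_bd j with h | h
  · rcases alc_aux hy hN h hd with h1 | h1
    · exact ⟨0, Or.inl rfl, fun i hi => by rw [h1 i hi, zero_mul]⟩
    · exact ⟨1, Or.inr h1.1, fun i hi => by rw [h1.2 i hi, one_mul]⟩
  · have h2 : ex y (-wt j) = -ex y (wt j) := by simp [ex]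
    rcases alc_aux (a := -wt j) hy hN h (h2 ▸ hd.neg_right) with h1 | h1
    · exact ⟨0, Or.inl rfl, fun i hi => by rw [zero_mul, ← neg_eq_zero]; exact h1 i hi⟩
    · exact ⟨-1, Or.inr h1.1, fun i hi => by rw [neg_one_mul, ← h1.2 i hi, Pi.neg_apply, neg_neg]⟩

theorem ex_th (y : Fin 8 → ℕ) : ex (fun i => (y i : ℤ)) th =
    2 * y 0 + 3 * y 1 + 4 * y 2 + 6 * y 3 + 5 * y 4 + 4 * y 5 + 3 * y 6 + 2 * y 7 := by
  simp [ex, th, Fin.sum_univ_eight]

/-- the roots of the first factor `A₄` -/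
def P1 (a : Q8) : Prop := a 4 = 0 ∧ a 5 = 0 ∧ a 6 = 0 ∧ a 7 = 0

theorem a4_orth : ∀ (r : Fin chevE8.nroots) (i : Fin 8), 5 ∣ vec chevE8 8 r 4 →
    ¬ (vec chevE8 8 r 4 = 0 ∧ vec chevE8 8 r 5 = 0 ∧ vec chevE8 8 r 6 = 0 ∧ vec chevE8 8 r 7 = 0) → i.val < 4 →
    ∑ j, cartanOf chevE8 8 i j * vec chevE8 8 r j = 0 := by decide +kernel

theorem br_P1 {K : Type u} [Field K] {r s : Fin chevE8.nroots} (hr : P1 (vec chevE8 8 r)) (h1 : 5 ∣ vec chevE8 8 s 4)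
    (h2 : ¬ P1 (vec chevE8 8 s)) : br (ee K (Sum.inr r)) (ee K (Sum.inr s)) = 0 := by
  refine br_ee_zero (ge_of_eq ?_)
  rw [bf_apply]
  refine Finset.sum_eq_zero fun i _ => ?_
  simp only [mul_assoc]
  rw [← Finset.mul_sum]
  by_cases hi : i.val < 4
  · rw [a4_orth s i h1 h2 hi, mul_zero]
  · obtain ⟨e4, e5, e6, e7⟩ := hr
    have h3 : vec chevE8 8 r i = 0 := by
      fin_cases i <;> first | assumption | exact absurd (by decide) hi
    rw [h3, zero_mul]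

section

variable {K : Type u} [Field K]

variable (K) in
/-- the first factor of `A₄ A₄` -/
def CA : Submodule K (L8 K) := LS K {a | ((5 : ℕ) : ℤ) ∣ ex (Pi.single 4 1) a} ⊓
  cen {v | ∃ r : Fin chevE8.nroots, v = ee K (Sum.inr r) ∧ 5 ∣ vec chevE8 8 r 4 ∧ ¬ P1 (vec chevE8 8 r)}

theorem xr_fix {r : Fin chevE8.nroots} {w : L8 K} (hw : br (ee K (Sum.inr r)) w = 0) (d : K) : act (xr r d) w = w := by
  have h7 := Par.ux_fix (g := 1) (r := r) (v := w) (by rwa [act_one]) d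
  rwa [Par.ux, one_mul, inv_one, mul_one] at h7

theorem xr_CA {r : Fin chevE8.nroots} (hr : 5 ∣ vec chevE8 8 r 4) (d : K) : ∀ v ∈ CA K, act (xr r d) v ∈ CA K := by
  intro v hv
  by_cases h7 : P1 (vec chevE8 8 r)
  · refine ⟨act_xr_LS (fun a ha => ?_) d hv.1, ?_⟩
    · rw [Set.mem_ofPred_eq, ex_single] at ha ⊢
      exact dvd_add ha hr
    · rintro _ ⟨r', rfl, r1, r2⟩
      rw [← xr_fix (br_P1 h7 r1 r2) d, ← act_br, hv.2 _ ⟨r', rfl, r1, r2⟩, act_zero]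
  · rwa [xr_fix (hv.2 _ ⟨r, rfl, hr, h7⟩)]

theorem mc_CA {g : G8 K} {χ χ' : Q8 → K} (h1 : ∀ v j, act g v j = χ (wt j) * v j) (h2 : ∀ v j, act g⁻¹ v j = χ' (wt j) * v j) :
    ∀ v ∈ CA K, act g v ∈ CA K := by
  intro v hv
  refine ⟨fun j hj => hv.1 j fun e => hj (by rw [h1, e, mul_zero]), ?_⟩
  rintro _ ⟨r, rfl, r1, r2⟩
  have h3 : act g⁻¹ (ee K (Sum.inr r)) = χ' (vec chevE8 8 r) • ee K (Sum.inr r) := funext fun j => by
    rw [h2, Pi.smul_apply, smul_eq_mul]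
    by_cases e1 : j = Sum.inr r
    · rw [e1, wt_inr]
    · rw [ee_ne e1, mul_zero, mul_zero]
  rw [← act_inv' g (ee _ _), ← act_br, h3, br_smul_left, hv.2 _ ⟨r, rfl, r1, r2⟩, smul_zero, act_zero]

theorem CA_ne : CA K ≠ ⊥ := by
  refine (Submodule.ne_bot_iff _).2 ⟨ee K (Sum.inr (⟨162, by decide⟩ : Fin chevE8.nroots)), ⟨ee_mem_LS ?_, ?_⟩, ee_ne_zero _⟩
  · rw [Set.mem_ofPred_eq, ex_single]
    decide +kernel
  · rintro _ ⟨r, rfl, r1, r2⟩
    exact br_comm_zero (br_P1 (by unfold P1; decide +kernel) r1 r2)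

theorem CA_sa : Sa (CA K) := fun x hx y hy => by
  refine ⟨br_LS (fun a ha b hb => ?_) hx.1 hy.1, fun v hv => br_br_zero (hx.2 v hv) (hy.2 v hv)⟩
  rw [Set.mem_ofPred_eq, ex_single] at ha hb ⊢
  exact dvd_add ha hb

theorem CA_le : CA K ≤ YA K := fun x hx j hj => by
  rcases j with j | r
  · rw [wt_inl]
    exact ⟨rfl, rfl, rfl, rfl⟩
  · by_contra h6
    have h7 := hx.1 _ hj
    rw [Set.mem_ofPred_eq, ex_single, wt_inr] at h7
    have h8 := Par.kf_eq_zero_of_br (hx.2 _ ⟨op r, rfl, by rw [vec_op]; exact h7.neg_right, fun h => h6 (by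
      rw [wt_inr, Set.mem_ofPred_eq]
      simpa only [P1, vec_op, Pi.neg_apply, neg_eq_zero] using h)⟩)
    rw [kf_ee, show op (op r) = r from vec_injective (by rw [vec_op, vec_op, neg_neg])] at h8
    exact hj h8

end

/-- the test for the four-groups -/
def ok4 : List ℕ → Bool
  | [a, b, c, d, e, f, g, h] =>
    Nat.beq ((b + e + g) % 2) 1 || !Nat.beq (pw 2 (pk 2 [a, b, c, d, e, f, g, h]) 1 0) (pw 2 (pk 2 [a, b, c, d, e, f, g, 1 + h]) 1 0)
  | _ => true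

theorem chk4 : allLt 2 8 ok4 = true := by decide +kernel

theorem wt_seven : ∀ j : chevE8.Idx, 2 ∣ wt j 7 → wt j 7 = 0 ∨ wt j = th ∨ wt j = -th := by decide +kernel

section

variable {F : Type u} [Field F] [Finite F] [CharP F 3] {ψ : Alt 6 →* G8 (Kb F)}

omit [Finite F] in
theorem ch3 : CharP (Kb F) 3 := charP_of_injective_algebraMap (algebraMap F (Kb F)).injective 3

theorem isol (hT : NOTOR.{u}) (hc : Ctx ψ) {s : G8 (Kb F)} (hs : ∀ a, Commute s (ψ a)) {N : ℕ} (hN : N.Coprime 3)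
    {ζ : Kb F} (hζ : IsPrimitiveRoot ζ N) (h1 : s ^ N = 1) :
    s = 1 ∨ ∃ (i : Fin 8) (m : ℕ), th i * m = N ∧ Cj s ζ (Pi.single i (m : ℤ)) := by
  have := ch3 (F := F)
  have hN0 : N ≠ 0 := by
    rintro rfl
    exact absurd hN (by norm_num)
  obtain ⟨y, hy, c, h2⟩ := Reg5.Cls.kac 3 hN0 hN hζ h1
  have ht := mx_of_semi h2
  have h3 : ex (fun i => (y i : ℤ)) th ≤ N := by rw [ex_th]; exact_mod_cast hy
  have key := fun {μ i} => zc (μ := μ) (i := i) hT (hc.cj c⁻¹) (show (0 : Q8) ∈ {a | (N : ℤ) ∣ ex (fun i => (y i : ℤ)) a} by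
    rw [Set.mem_ofPred_eq, Reg5.Cls.ex_zero]; exact dvd_zero _) (inv_dz hζ ht (comm_cj hs))
  have h4 := alc (fun i => Int.natCast_nonneg (y i)) h3
  by_cases h0 : ∀ i, y i = 0
  · left
    rw [show (fun i => (y i : ℤ)) = 0 from funext fun i => by rw [h0]; rfl, dz_zero, ← mx_one] at ht
    have h5 := mx_injective ht
    rwa [mul_assoc, inv_mul_eq_one, eq_comm, mul_eq_right] at h5
  obtain ⟨i, hi⟩ := not_forall.1 h0
  have hi' : (y i : ℤ) ≠ 0 := Int.natCast_ne_zero.2 hi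
  have h5 : ∀ j, j ≠ i → y j = 0 := fun j hj => by
    by_contra h6
    obtain ⟨m, n, e1, e2⟩ := th_pair i j hj.symm
    have h7 : ∀ k, wt k ∈ {a | (N : ℤ) ∣ ex (fun i => (y i : ℤ)) a} →
        3 ∣ ex ((m : ℤ) • Pi.single i 1 - (n : ℤ) • Pi.single j 1) (wt k) := fun k hk => by
      obtain ⟨d, -, h8⟩ := h4 k hk
      rw [ex_sub, ex_smul, ex_smul, ex_single, ex_single, h8 i hi', h8 j (Int.natCast_ne_zero.2 h6), mul_left_comm, e1,
        mul_left_comm, sub_self]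
      exact dvd_zero _
    rcases e2 with e2 | e2
    · exact key h7 (i := i) (by simpa [hj.symm] using e2)
    · exact key h7 (i := j) (by simpa [hj] using e2)
  have h6 : (fun i => (y i : ℤ)) = Pi.single i (y i : ℤ) := funext fun j => by
    by_cases e : j = i
    · rw [e, Pi.single_eq_same]
    · rw [h5 j e, Pi.single_eq_of_ne e, Nat.cast_zero]
  refine Or.inr ⟨i, y i, ?_, c, h6 ▸ h2⟩
  by_contra h7
  refine key (μ := Pi.single i 1) (i := i) (fun k hk => ?_) (by simp)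
  obtain ⟨d, h8 | h8, h9⟩ := h4 k hk
  · rw [ex_single, h9 i hi', h8, zero_mul]
    exact dvd_zero _
  · rw [h6, ex, Finset.sum_eq_single i (fun j _ hj => by rw [Pi.single_eq_of_ne hj, mul_zero])
      fun h => absurd (Finset.mem_univ _) h, Pi.single_eq_same] at h8
    exact absurd h8 h7

theorem iso1 (hT : NOTOR.{u}) (hc : Ctx ψ) {s : G8 (Kb F)} (hs : ∀ a, Commute s (ψ a)) {N : ℕ} (hN : N.Coprime 3)
    (ho : orderOf s = N) : N = 1 ∨ N = 2 ∨ N = 4 ∨ N = 5 := by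
  obtain ⟨ζ, hζ⟩ := Reg5.Cls.exists_prim (F := F) 3 hN
  rcases isol hT hc hs hN hζ (ho ▸ pow_orderOf_eq_one s) with rfl | ⟨i, m, h1, c, h2⟩
  · exact Or.inl (ho.symm.trans orderOf_one)
  · obtain ⟨n, e1, e2, e3⟩ : ∃ n : ℕ, th i = n ∧ 0 < n ∧ n ≤ 6 := ⟨_, th_bd i⟩
    have h4 : s ^ n = 1 := by
      have h5 : mx ((c⁻¹ * s * c) ^ n) = mx 1 := by
        rw [Inf.mx_pow, mx_of_semi h2, mx_one, dz, Matrix.diagonal_pow, ← Matrix.diagonal_one]
        congr 1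
        funext j
        rw [Pi.pow_apply, ← zpow_natCast, ← zpow_mul, hζ.zpow_eq_one_iff_dvd, ← h1, e1,
          show (Pi.single i (m : ℤ) : Q8) = (m : ℤ) • Pi.single i 1 by rw [← Pi.single_smul, smul_eq_mul, mul_one], ex_smul]
        exact ⟨ex (Pi.single i 1) (wt j), by ring⟩
      have h6 := conj_pow (a := c⁻¹) (b := s) (i := n)
      rw [inv_inv, mx_injective h5, eq_comm, mul_assoc, inv_mul_eq_one, eq_comm, mul_eq_right] at h6
      exact h6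
    have h5 := orderOf_dvd_of_pow_eq_one h4
    rw [ho] at h5
    have h6 := Nat.le_of_dvd e2 h5
    have h7 : N ≤ 6 := by omega
    interval_cases N <;> first | omega | exact absurd hN (by norm_num)

theorem cen_CA {ζ : Kb F} (hζ : IsPrimitiveRoot ζ 5) {t : G8 (Kb F)} (ht : mx t = dz ζ (Pi.single 4 1)) (h5 : t ^ 5 = 1)
    {g : G8 (Kb F)} (hg : Commute g t) : ∀ v ∈ CA (Kb F), act g v ∈ CA (Kb F) := by
  have := ch3 (F := F)
  have : Fact (Nat.Prime 3) := ⟨Nat.prime_three⟩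
  obtain ⟨t', ht', e⟩ := exists_tz (hζ.ne_zero (by norm_num)) (Pi.single 4 1)
  obtain rfl : t = t' := mx_injective (ht.trans e.symm)
  have hFinW : Finite CoxeterMatrix.E₈.Group := finite_W e8T CoxeterMatrix.E₈.toCoxeterSystem
  have hFrm := H897.T5UntwRow.par8.frm (CoxeterMatrix.E₈.toCoxeterSystem) e8T.isCartan
    (fun i j => (H897.T5UntwRow.n8 i j).1) (fun i j => (H897.T5UntwRow.n8 i j).2)
  have hcon := H897.T5Cent.con_of_frm e8T CoxeterMatrix.E₈.toCoxeterSystem (locFinKb F) 3 Nat.prime_five (by norm_num)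
    BpExc.FamInst.inv_E8 (Nat.coprime_one_left _) hFrm
  obtain ⟨m, hm, s, hs, rfl⟩ := H897.T5Cent.cent_form e8T CoxeterMatrix.E₈.toCoxeterSystem (locFinKb F) 3 hcon ht' h5 hg.eq
  have h6 : m ∈ stabL (CA (Kb F)) := by
    refine sup_le_of (fun a ha => ha.1) (fun r hr d => ?_) hm
    have h1 := hr.2 t rfl
    have h2 := congrFun (congrFun ((mx_TT ht').symm.trans ht) (Sum.inr r)) (Sum.inr r)
    rw [dz, Matrix.diagonal_apply_eq, Matrix.diagonal_apply_eq, wt_inr, cX_root e8T _ ht' hr.1, h1, eq_comm,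
      hζ.zpow_eq_one_iff_dvd, ex_single] at h2
    exact ⟨xr_CA h2 d, by rw [xr_inv]; exact xr_CA h2 _⟩
  intro v hv
  rw [act_mul]
  exact h6.1 _ (mc_CA (act_TT hs) (act_TT (inv_mem hs)) v hv)

theorem iso2 (hT : NOTOR.{u}) (hc : Ctx ψ) {s : G8 (Kb F)} (hs : ∀ a, Commute s (ψ a)) (ho : orderOf s = 5) :
    ∃ (g : G8 (Kb F)) (C : Submodule (Kb F) (L8 (Kb F))),
      C ≠ ⊥ ∧ Inv ψ C ∧ Sa C ∧ ∀ x ∈ C, act g x ∈ YA (Kb F) ∧ act s x = x := by
  obtain ⟨ζ, hζ⟩ := Reg5.Cls.exists_prim (F := F) 3 (N := 5) (by norm_num)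
  have h5 : s ^ 5 = 1 := ho ▸ pow_orderOf_eq_one s
  rcases isol hT hc hs (by norm_num) hζ h5 with rfl | ⟨i, m, h1, c, h2⟩
  · rw [orderOf_one] at ho
    omega
  obtain ⟨rfl, rfl⟩ : i = 4 ∧ m = 1 := by
    fin_cases i <;> simp [th] at h1 ⊢ <;> omega
  have ht := mx_of_semi h2
  rw [Nat.cast_one] at ht
  have ht5 : (c⁻¹ * s * c) ^ 5 = 1 := by
    have h6 := conj_pow (a := c⁻¹) (b := s) (i := 5)
    rw [inv_inv] at h6
    rw [h6, h5, mul_one, inv_mul_cancel]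
  refine ⟨c⁻¹, pb c⁻¹ (CA (Kb F)), pb_ne_bot CA_ne, Inv.of_cj fun a => cen_CA hζ ht ht5 (comm_cj hs a).symm, CA_sa.pb _,
    fun x hx => ⟨CA_le (mem_pb.1 hx), act_injective c⁻¹ ?_⟩⟩
  have h6 := (fix_dz hζ ht).2 (mem_pb.1 hx).1
  rwa [act_mul, act_mul, act_inv'] at h6

theorem iso3 (hT : NOTOR.{u}) (hc : Ctx ψ) {s t : G8 (Kb F)} (s2 : s ^ 2 = 1) (t2 : t ^ 2 = 1) (hne : s ≠ t)
    (hst : Commute s t) (hd : fd s = fd t) (hs : ∀ a, Commute s (ψ a)) (ht : ∀ a, Commute t (ψ a)) : fd (s * t) = 120 := by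
  have := ch3 (F := F)
  obtain ⟨ζ, hζ⟩ := Reg5.Cls.exists_prim (F := F) 3 (N := 2) (by norm_num)
  have h0 := hζ.ne_zero (by norm_num)
  have u2 : (s * t) ^ 2 = 1 := by rw [hst.mul_pow, s2, t2, mul_one]
  have e1 : s * t * s = t := by rw [hst.eq, mul_assoc, ← sq, s2, mul_one]
  obtain ⟨y, b, hy, h⟩ := pair_kac Nat.prime_two (cast3 F (m := 2) (by norm_num)) hζ u2 s2
    ((Commute.refl s).mul_left hst.symm)
  have h1 : (fun i => (y i : ℤ)) = toQ [y 0, y 1, y 2, y 3, y 4, y 5, y 6, y 7] := by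
    funext i
    fin_cases i <;> rfl
  have h2 := cj_ev_pow hζ (by norm_num) (h1 ▸ h.left) 1 (k := 0) (by norm_num)
  rw [pow_one, pow_zero] at h2
  obtain ⟨y1, y2, y3, y4, y5, y6⟩ : y 1 = 0 ∧ y 2 = 0 ∧ y 3 = 0 ∧ y 4 = 0 ∧ y 5 = 0 ∧ y 6 = 0 := by omega
  rw [y1, y2, y3, y4, y5, y6] at h1 h2
  rcases (by omega : y 0 = 0 ∧ y 7 = 0 ∨ y 0 = 1 ∧ y 7 = 0 ∨ y 0 = 0 ∧ y 7 = 1) with ⟨y0, y7⟩ | ⟨y0, y7⟩ | ⟨y0, y7⟩ <;>
    rw [y0, y7] at h1 h2
  · have h3 := Inf.eq_one_of_ev (h2.trans (by decide +kernel))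
    exact absurd (by rw [← e1, h3, one_mul]) hne
  · exact h2.trans (by decide +kernel)
  exfalso
  rw [h1] at h
  obtain ⟨v, hv⟩ : ∃ v : Fin 8 → ℕ, v = fun i => ((b i : ℤ) : ZMod 2).val := ⟨_, rfl⟩
  have h4 := allLt_spec 2 8 ok4 chk4 [v 0, v 1, v 2, v 3, v 4, v 5, v 6, v 7] rfl (by
    simp only [List.mem_cons, List.not_mem_nil, or_false, forall_eq_or_imp, forall_eq, hv]
    exact ⟨ZMod.val_lt _, ZMod.val_lt _, ZMod.val_lt _, ZMod.val_lt _, ZMod.val_lt _, ZMod.val_lt _, ZMod.val_lt _,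
      ZMod.val_lt _⟩)
  have h5 : toQ [v 0, v 1, v 2, v 3, v 4, v 5, v 6, v 7] = fun i => (v i : ℤ) := by
    funext i
    fin_cases i <;> rfl
  replace h : Cj2 (s * t) s ζ (toQ [0, 0, 0, 0, 0, 0, 0, 1]) (toQ [v 0, v 1, v 2, v 3, v 4, v 5, v 6, v 7]) :=
    h.congr hζ (by norm_num) (fun _ => rfl) fun i => by rw [h5, Int.cast_natCast, hv, ZMod.natCast_zmod_val]
  have k1 := cj_ev_pow hζ (by norm_num) h.right 1 (k := 0) (by norm_num)
  have k2 := cj_ev_pow hζ (by norm_num) (y := [v 0, v 1, v 2, v 3, v 4, v 5, v 6, 1 + v 7]) (g := t) (by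
    have h6 := h.mul h0
    rw [e1] at h6
    convert h6 using 1
    funext i
    fin_cases i <;> simp [toQ]) 1 (k := 0) (by norm_num)
  rw [pow_one, pow_zero] at k1 k2
  rw [ok4, ← k1, ← k2, show ev (LK (Kb F) s) 1 = ev (LK (Kb F) t) 1 from hd, Nat.beq_refl, Bool.not_true, Bool.or_false,
    Nat.beq_eq] at h4
  obtain ⟨c, c1, c2⟩ := h
  have i1 := inv_dz hζ (mx_of_semi c1) (comm_cj fun a => (hs a).mul_left (ht a))
  have i2 := inv_dz hζ (mx_of_semi c2) (comm_cj hs)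
  refine zc hT (hc.cj c⁻¹) (A := {a | ((2 : ℕ) : ℤ) ∣ ex (toQ [0, 0, 0, 0, 0, 0, 0, 1]) a} ∩
    {a | ((2 : ℕ) : ℤ) ∣ ex (toQ [v 0, v 1, v 2, v 3, v 4, v 5, v 6, v 7]) a}) ?_
    (fun a w hw j hj => ⟨i1 a w (LS_mono Set.inter_subset_left hw) j hj, i2 a w (LS_mono Set.inter_subset_right hw) j hj⟩)
    (μ := Pi.single 7 1) (i := 7) (fun j hj => ?_) (by simp)
  · simp [Reg5.Cls.ex_zero]
  · obtain ⟨j1, j2⟩ := hj
    rw [Set.mem_ofPred_eq, show toQ [0, 0, 0, 0, 0, 0, 0, 1] = Pi.single 7 1 by decide, ex_single] at j1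
    rw [Set.mem_ofPred_eq, h5] at j2
    have h6 := ex_th v
    rw [ex_single]
    rcases wt_seven j j1 with e | e | e
    · rw [e]
      exact dvd_zero _
    · rw [e] at j2
      omega
    · rw [e, show ex (fun i => (v i : ℤ)) (-th) = -ex (fun i => (v i : ℤ)) th by simp [ex]] at j2
      omega

end

theorem cen_eq {G : Type*} [Group G] [IsSimpleGroup G] {H : Subgroup G} {φ : Alt 6 →* G} (h : MaxAlt H 6 φ) (x : G)
    (hx : ∀ a, x * φ a = φ a * x) : x = 1 := by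
  let C : Subgroup G := Subgroup.centralizer (φ.range : Set G)
  have hna : ¬ φ.range ≤ C := fun h1 => by
    have h2 : φ uu * φ dd = φ dd * φ uu := h1 ⟨dd, rfl⟩ _ ⟨uu, rfl⟩
    rw [← map_mul, ← map_mul] at h2
    exact absurd (h.inj h2) (by decide)
  have hn : ∀ y ∈ H, ∀ c ∈ C, y * c * y⁻¹ ∈ C := fun y hy c hc a ha => by
    have h1 := hc _ (h.norm _ (inv_mem hy) a ha)
    calc a * (y * c * y⁻¹) = y * (y⁻¹ * a * y⁻¹⁻¹ * c) * y⁻¹ := by group
      _ = y * c * y⁻¹ * a := by rw [h1]; group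
  have h1 : C ⊓ H = ⊥ := by
    by_contra h1
    exact hna ((h.min _ inf_le_right (fun y hy b hb => ⟨hn y hy b hb.1, H.mul_mem (H.mul_mem hy hb.2) (H.inv_mem hy)⟩)
      h1).trans inf_le_left)
  have hxC : x ∈ C := by
    rintro _ ⟨a, rfl⟩
    exact (hx a).symm
  by_contra hx1
  have h2 : H < Subgroup.normalizer (C : Set G) := by
    refine lt_of_le_of_ne (fun y hy => Subgroup.mem_normalizer_iff.2 fun c => ⟨hn y hy c, fun hc => ?_⟩) fun e => ?_
    · have h3 := hn _ (inv_mem hy) _ hc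
      simpa [mul_assoc] using h3
    · have h3 : x ∈ C ⊓ H := ⟨hxC, e ▸ Subgroup.le_normalizer hxC⟩
      rw [h1] at h3
      exact hx1 h3
  have h3 : C.Normal := Subgroup.normalizer_eq_top_iff.1 (h.coatom.2 _ h2)
  rcases h3.eq_bot_or_eq_top with e | e
  · rw [e] at hxC
    exact hx1 hxC
  · exact hna (e ▸ le_top)

end Cen

/-- **ISO** -/
theorem iso_of (hT : NOTOR.{u}) : ISO.{u} := fun _ _ _ _ _ hc =>
  ⟨fun _ hs _ hN ho => iso1 hT hc hs hN ho, fun _ hs ho => iso2 hT hc hs ho,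
    fun _ _ s2 t2 _ _ hne hst hd hs ht => iso3 hT hc s2 t2 hne hst hd hs ht⟩

/-- **CEN** -/
theorem cen_of (hI : ISO.{u}) (hD : D44.{u}) : CEN.{u} := by
  intro F _ _ _ H φ hM hfx h5 hA
  have hc := ctx F H φ hM hfx
  obtain ⟨i1, -, i3⟩ := hI F _ hc
  have := (simple8 (F := F)).1
  have step : ∀ z : G8 (Kb F), z ≠ 1 → z ^ 2 = 1 → (∀ a, Commute z (emb0 (φ a))) →
      fd z ≠ 120 ∧ ∃ c : G8 (Kb F), c ≠ 1 ∧ c ^ 2 = 1 ∧ (∀ a, Commute c (emb0 (φ a))) ∧ fd c = 120 := by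
    intro z z1 z2 z3
    obtain ⟨t, t1, t2, t3, t4, t5, t6⟩ : ∃ t : G8 (Kb F), t ≠ 1 ∧ t ^ 2 = 1 ∧ (∀ a, Commute t (emb0 (φ a))) ∧ z ≠ t ∧
        Commute z t ∧ fd z = fd t := by
      have k1 : sg z ≠ 1 := fun e => z1 (em_injective _ (e.trans (map_one _).symm))
      have k2 : sg z ^ 2 = 1 := by rw [← map_pow, z2, map_one]
      have k3 : ∀ a, Commute (sg z) (emb0 (φ a)) := fun a => by
        rw [← sg_emb0]
        exact (z3 a).map sg
      have k4 : z ≠ sg z := fun e => by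
        obtain ⟨x, rfl⟩ := fix_G e.symm
        refine z1 ?_
        rw [cen_eq hM x fun a => emb0_injective (by rw [map_mul, map_mul]; exact z3 a), map_one]
      have k5 : fd z = fd (sg z) := (Inf.ev_em_one _ z).symm
      have zi : z⁻¹ = z := inv_eq_of_mul_eq_one_right (by rw [← sq, z2])
      have zi' : (sg z)⁻¹ = sg z := inv_eq_of_mul_eq_one_right (by rw [← sq, k2])
      have k6 : ∀ a, Commute (z * sg z) (emb0 (φ a)) := fun a => (z3 a).mul_left (k3 a)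
      have k7 : 0 < orderOf (z * sg z) := by
        have := Par.finite_closure (locFinKb F) (Set.finite_singleton (z * sg z))
        have h1 := orderOf_pos (⟨z * sg z, Subgroup.subset_closure rfl⟩ : ↥(Subgroup.closure {z * sg z}))
        rwa [← Subgroup.orderOf_coe] at h1
      have k8 : (orderOf (z * sg z)).Coprime 3 := by
        refine (Nat.prime_three.coprime_iff_not_dvd.2 ?_).symm
        rintro ⟨m, hm⟩
        refine Par.paru 3 hM (by norm_num) hfx (x := (z * sg z) ^ m)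
          (pow_ne_one_of_lt_orderOf (by omega) (by omega)) (by rw [← pow_mul, mul_comm, ← hm, pow_orderOf_eq_one]) fun a => ?_
        rw [((k6 a).pow_left m).symm.mul_inv_cancel]
      have k9 : z * (z * sg z) * z = (z * sg z)⁻¹ := by rw [_root_.mul_inv_rev, zi, zi', ← mul_assoc, ← sq, z2, one_mul]
      rcases i1 _ k6 _ k8 rfl with e | e | e | e
      · rw [orderOf_eq_one_iff, mul_eq_one_iff_inv_eq, zi] at e
        exact absurd e k4
      · refine ⟨_, k1, k2, k3, k4, ?_, k5⟩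
        have h1 := pow_orderOf_eq_one (z * sg z)
        rw [e, sq, mul_eq_one_iff_eq_inv, _root_.mul_inv_rev, zi, zi'] at h1
        exact h1
      · generalize z * sg z = w at k6 k9 e
        have h1 : w ^ 4 = 1 := e ▸ pow_orderOf_eq_one w
        have h2 : w ^ 2 ≠ 1 := pow_ne_one_of_lt_orderOf (by norm_num) (by omega)
        have h3 : z * w⁻¹ = w * z := by rw [← k9, ← mul_assoc, ← mul_assoc, ← sq, z2, one_mul]
        have h4 : w * z * w⁻¹ = w ^ 2 * z := by rw [mul_assoc, h3, ← mul_assoc, sq]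
        have h6 : Commute z (w ^ 2) := by
          have h7 : z * w ^ 2 * z⁻¹ = w ^ 2 := by
            rw [← conj_pow, zi, k9, inv_pow, inv_eq_iff_mul_eq_one, ← pow_add, h1]
          exact mul_inv_eq_iff_eq_mul.1 h7
        refine ⟨w * z * w⁻¹, by rwa [ne_eq, conj_eq_one_iff], by rw [conj_pow, z2, mul_one, mul_inv_cancel],
          fun a => ((k6 a).mul_left (z3 a)).mul_left (k6 a).inv_left, fun e' => h2 ?_, ?_, (fd_conj w z).symm⟩
        · rwa [h4, eq_comm, mul_eq_right] at e'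
        · rw [h4]
          exact h6.mul_right (Commute.refl z)
      · exact absurd e (h5 _ k6)
    have h1 := i3 z t z2 t2 z1 t1 t4 t5 t6 z3 t3
    refine ⟨fun e => hD F _ hc hA z t z2 t2 t5 e (t6.symm.trans e) h1 z3 t3, z * t, fun e => t4 ?_,
      by rw [t5.mul_pow, z2, t2, mul_one], fun a => (z3 a).mul_left (t3 a), h1⟩
    rw [← inv_eq_of_mul_eq_one_right e]
    exact (inv_eq_of_mul_eq_one_right (by rw [← sq, z2])).symm
  intro z z1 z2 z3
  obtain ⟨-, c, c1, c2, c3, c4⟩ := step z z1 z2 z3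
  exact (step c c1 c2 c3).1 c4

end Cfsg.Agent.E8A.C63
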