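import Cfsg.Agent.E8A.C63.ModB
import Cfsg.Agent.E8A.TwoH.Lie

/-!
# `A₆` in characteristic 3: `MOD` and `MODL` (helper42)

* `Md.H9.li`, `Md.H9.invR`, `Md.H9.finrank` : the nine-dimensional module; `mod : MOD`;
* `Md.modL` : invariant subalgebras for an invariant alternating product; `modl : MODL`.
-/

set_option autoImplicit false
set_option maxRecDepth 100000

namespace Cfsg.Agent.E8A.C63

open Cfsg Cfsg.Lie Module

universe u

namespace Md

variable {K : Type u} [Field K] {V : Type u} [AddCommGroup V] [Module K V] {ρ : Representation K (Alt 6) V} {v : V}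

/-- the nine translates -/
def r9 (ρ : Representation K (Alt 6) V) (v : V) (i : Fin 9) : V := rr ρ v i.succ

/-- the nine-dimensional module -/
def U9 (ρ : Representation K (Alt 6) V) (v : V) : Submodule K V := Submodule.span K (Set.range (r9 ρ v))

theorem H9.sum9 (H : H9 ρ v) : ∑ i, r9 ρ v i = -v := by
  have h := H.sum
  rw [Fin.sum_univ_succ, rr_zero] at h
  exact eq_neg_of_add_eq_zero_right h

theorem H9.mem (H : H9 ρ v) (j : Fin 10) : rr ρ v j ∈ U9 ρ v := by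
  refine Fin.cases ?_ (fun i => Submodule.subset_span ⟨i, rfl⟩) j
  have h : ∑ i, r9 ρ v i ∈ U9 ρ v := Submodule.sum_mem _ fun i _ => Submodule.subset_span ⟨i, rfl⟩
  rw [H.sum9, Submodule.neg_mem_iff] at h
  rwa [rr_zero]

theorem H9.invR (H : H9 ρ v) : InvR ρ (U9 ρ v) := by
  have h : ∀ s, ∀ x ∈ U9 ρ v, ρ (gs s) x ∈ U9 ρ v := fun s => span_inv (by
    rintro _ ⟨i, rfl⟩
    obtain ⟨j, hj⟩ := (sg_bij s).2 i.succ
    show ρ (gs s) (rr ρ v i.succ) ∈ _
    rw [← hj, H.hw.act1]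
    exact H.mem j)
  exact invR_of (h 0) (h 1) (h 2)

theorem U9_le {U : Submodule K V} (hU : InvR ρ U) (hv : v ∈ U) : U9 ρ v ≤ U :=
  Submodule.span_le.2 (by rintro _ ⟨i, rfl⟩; exact rr_mem hU hv _)

theorem H9.ne_bot (H : H9 ρ v) : U9 ρ v ≠ ⊥ :=
  (Submodule.ne_bot_iff _).2 ⟨v, by have h := H.mem 0; rwa [rr_zero] at h, H.ne⟩

/-- shifts -/
def s1 : Fin 9 → Fin 9 := ![6, 7, 8, 0, 1, 2, 3, 4, 5]

/-- shifts -/
def s2 : Fin 9 → Fin 9 := ![2, 0, 1, 5, 3, 4, 8, 6, 7]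

theorem tab1 : ∀ j : Fin 9, uu * gg (s1 j).succ = gg j.succ * (uu ^ 0 * u2 ^ 0 * yy ^ 0) := by decide +kernel

theorem tab2 : ∀ j : Fin 9, u2 * gg (s2 j).succ = gg j.succ * (uu ^ 0 * u2 ^ 0 * yy ^ 0) := by decide +kernel

theorem H9.li [CharP K 3] (H : H9 ρ v) : LinearIndependent K (r9 ρ v) := by
  rw [Fintype.linearIndependent_iff]
  by_contra hc
  push Not at hc
  obtain ⟨c, hc, i, hi⟩ := hc
  have hN : LinearMap.ker (Fintype.linearCombination K (r9 ρ v)) ≠ ⊥ :=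
    (Submodule.ne_bot_iff _).2 ⟨c, hc, fun h => hi (congrFun h i)⟩
  have key : ∀ (a : Alt 6) (s : Fin 9 → Fin 9), Function.Bijective s →
      (∀ j : Fin 9, a * gg (s j).succ = gg j.succ * (uu ^ 0 * u2 ^ 0 * yy ^ 0)) →
      ∀ x ∈ LinearMap.ker (Fintype.linearCombination K (r9 ρ v)),
        LinearMap.funLeft K K s x ∈ LinearMap.ker (Fintype.linearCombination K (r9 ρ v)) := fun a s hs ht x hx => by
    have h1 := congrArg (ρ a) (LinearMap.mem_ker.1 hx)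
    rw [map_zero, Fintype.linearCombination_apply, map_sum, ← hs.sum_comp] at h1
    rw [LinearMap.mem_ker, Fintype.linearCombination_apply, ← h1]
    refine Finset.sum_congr rfl fun j _ => ?_
    rw [map_smul]
    show x (s j) • rr ρ v j.succ = x (s j) • ρ a (rr ρ v (s j).succ)
    rw [H.hw.act (ht j), pow_zero, one_smul]
  obtain ⟨x, hx, hx0, h1, h2⟩ := fix2 (a := LinearMap.funLeft K K s1) (b := LinearMap.funLeft K K s2)
    (fun x => funext fun j => congrArg x ((by decide : ∀ j, s1 (s1 (s1 j)) = j) j))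
    (fun x => funext fun j => congrArg x ((by decide : ∀ j, s2 (s2 (s2 j)) = j) j))
    (fun x => funext fun j => congrArg x ((by decide : ∀ j, s2 (s1 j) = s1 (s2 j)) j)) hN
    (key uu s1 (by decide) tab1) (key u2 s2 (by decide) tab2)
  have a : ∀ j, x (s1 j) = x j := congrFun h1
  have b : ∀ j, x (s2 j) = x j := congrFun h2
  have e1 : x 1 = x 0 := (b 1).symm
  have e2 : x 2 = x 0 := b 0
  have hx1 : ∀ j, x j = x 0 := fun j => by
    fin_cases j
    · rfl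
    · exact e1
    · exact e2
    · exact (a 3).symm
    · exact (a 4).symm.trans e1
    · exact (a 5).symm.trans e2
    · exact a 0
    · exact (a 1).trans e1
    · exact (a 2).trans e2
  rw [LinearMap.mem_ker, Fintype.linearCombination_apply, Finset.sum_congr rfl fun j _ => by rw [hx1 j],
    ← Finset.smul_sum, H.sum9, smul_neg, neg_eq_zero, smul_eq_zero] at hx
  rcases hx with hx | hx
  · exact hx0 (funext fun j => (hx1 j).trans hx)
  · exact H.ne hx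

theorem H9.finrank [CharP K 3] (H : H9 ρ v) : finrank K ↥(U9 ρ v) = 9 := by
  have h := finrank_span_eq_card H.li
  rwa [Fintype.card_fin] at h

theorem H9.fix [CharP K 3] (H : H9 ρ v) : ∃ x ∈ U9 ρ v, x ≠ 0 ∧ ρ v1 x = x ∧ ρ v2 x = x := by
  refine ⟨rr ρ v 2 + rr ρ v 3, Submodule.add_mem _ (H.mem 2) (H.mem 3), fun h => ?_, ?_, ?_⟩
  · have h1 := Fintype.linearIndependent_iff.1 H.li ![0, 1, 1, 0, 0, 0, 0, 0, 0] (by
      simp only [Fin.sum_univ_succ, Fin.sum_univ_zero, Matrix.cons_val_zero, Matrix.cons_val_succ, zero_smul, one_smul,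
        zero_add, add_zero]
      exact h) 1
    exact one_ne_zero h1
  · rw [map_add, H.hw.act (j := 3) (x := 2) (y := 2) (k := 3) (by decide +kernel),
      H.hw.act (j := 2) (x := 2) (y := 1) (k := 1) (by decide +kernel), one_pow, one_pow, one_smul, one_smul, add_comm]
  · rw [map_add, H.hw.act (j := 3) (x := 1) (y := 2) (k := 1) (by decide +kernel),
      H.hw.act (j := 2) (x := 1) (y := 1) (k := 3) (by decide +kernel), one_pow, one_pow, one_smul, one_smul, add_comm]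

/-! ### invariant alternating products -/

/-- the norm of an element of order three -/
def op (ρ : Representation K (Alt 6) V) (a : Alt 6) : V →ₗ[K] V := LinearMap.id + ρ a + ρ a ∘ₗ ρ a

theorem op_apply (a : Alt 6) (w : V) : op ρ a w = w + ρ a w + ρ a (ρ a w) := rfl

theorem op_self {a : Alt 6} (h : a * a * a = 1) (w : V) : op ρ a (ρ a w) = op ρ a w := by
  rw [op_apply, op_apply, ← rho_mul a a (ρ a w), ← rho_mul (a * a), h, rho_one]; abel

theorem op_comm {a b : Alt 6} (h : a * b = b * a) (w : V) : op ρ a (ρ b w) = ρ b (op ρ a w) := by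
  have h1 : ∀ w, ρ a (ρ b w) = ρ b (ρ a w) := fun w => by rw [← rho_mul, h, rho_mul]
  rw [op_apply, op_apply, map_add, map_add, h1, h1]

theorem op_inv {a b : Alt 6} (h : a * b = b * (a * a)) (h' : a * (a * b) = b * a) (w : V) :
    op ρ a (ρ b w) = ρ b (op ρ a w) := by
  have h1 : ρ a (ρ b w) = ρ b (ρ a (ρ a w)) := by rw [← rho_mul, h, rho_mul, rho_mul]
  have h2 : ρ a (ρ a (ρ b w)) = ρ b (ρ a w) := by rw [← rho_mul a b, ← rho_mul, h', rho_mul]
  rw [op_apply, op_apply, map_add, map_add, h2, h1]; abel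

theorem op_op [CharP K 3] {a : Alt 6} (h : a * a * a = 1) (w : V) : op ρ a (op ρ a w) = 0 := by
  rw [op_apply a w, map_add, map_add, op_self h (ρ a w), op_self h w]
  exact three (K := K) (op ρ a w)

theorem uu3 : uu * uu * uu = 1 := by decide +kernel

theorem u23 : u2 * u2 * u2 = 1 := by decide +kernel

theorem H9.opP (H : H9 ρ v) : op ρ uu (op ρ u2 (ρ dd v)) = -v := by
  rw [← H.sum9]
  simp only [Fin.sum_univ_succ, Fin.sum_univ_zero]
  show _ = ρ dd v + (ρ (u2 * dd) v + (ρ (u2 * u2 * dd) v + (ρ (uu * dd) v + (ρ (uu * u2 * dd) v + (ρ (uu * u2 * u2 * dd) v +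
    (ρ (uu * uu * dd) v + (ρ (uu * uu * u2 * dd) v + (ρ (uu * uu * u2 * u2 * dd) v + 0))))))))
  simp only [op_apply, map_add, rho_mul]
  abel

/-- the first operator -/
def oT (ρ : Representation K (Alt 6) V) : V →ₗ[K] V := op ρ uu + op ρ u2

/-- the second operator -/
def oS (ρ : Representation K (Alt 6) V) : V →ₗ[K] V := (LinearMap.id + ρ (yy ^ 2)) ∘ₗ op ρ uu ∘ₗ op ρ u2

theorem oT_apply (w : V) : oT ρ w = op ρ uu w + op ρ u2 w := rfl

theorem oS_apply (w : V) : oS ρ w = op ρ uu (op ρ u2 w) + ρ (yy ^ 2) (op ρ uu (op ρ u2 w)) := rfl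

theorem oS_inv (x y : ℕ) (w : V) : oS ρ (ρ (uu ^ x * u2 ^ y * yy ^ 2) w) = oS ρ w := by
  have h1 : ∀ w, oS ρ (ρ uu w) = oS ρ w := fun w => by
    rw [oS_apply, oS_apply, op_comm (show u2 * uu = uu * u2 by decide +kernel), op_self uu3]
  have h2 : ∀ w, oS ρ (ρ u2 w) = oS ρ w := fun w => by rw [oS_apply, oS_apply, op_self u23]
  have h3 : ∀ w, oS ρ (ρ (yy ^ 2) w) = oS ρ w := fun w => by
    rw [oS_apply, oS_apply, op_inv (a := u2) (by decide +kernel) (by decide +kernel),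
      op_inv (a := uu) (by decide +kernel) (by decide +kernel), ← rho_mul (yy ^ 2) (yy ^ 2),
      show yy ^ 2 * yy ^ 2 = 1 by decide +kernel, rho_one, add_comm]
  have h4 : ∀ a : Alt 6, (∀ w, oS ρ (ρ a w) = oS ρ w) → ∀ (n : ℕ) w, oS ρ (ρ (a ^ n) w) = oS ρ w := fun a ha n => by
    induction n with
    | zero => intro w; rw [pow_zero, rho_one]
    | succ n ih => intro w; rw [pow_succ, rho_mul, ih, ha]
  rw [rho_mul, rho_mul, h4 _ h1, h4 _ h2, h3]

theorem tab3 : ∀ i j : Fin 9, ∃ x y : Fin 3,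
    uu ^ x.val * u2 ^ y.val * yy ^ 2 * gg i.succ = gg j.succ * (uu ^ 0 * u2 ^ 0 * yy ^ 2) ∧
    uu ^ x.val * u2 ^ y.val * yy ^ 2 * gg j.succ = gg i.succ * (uu ^ 0 * u2 ^ 0 * yy ^ 2) := by decide +kernel

theorem H9.oT_ne [CharP K 3] (H : H9 ρ v) : oT ρ (ρ dd v) ≠ 0 := fun h => by
  have h1 := congrArg (op ρ uu) h
  rw [oT_apply, map_add, op_op uu3, zero_add, H.opP, map_zero, neg_eq_zero] at h1
  exact H.ne h1

theorem H9.oS_ne [CharP K 3] (H : H9 ρ v) : oS ρ (ρ dd v) ≠ 0 := fun h => by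
  rw [oS_apply, H.opP, map_neg, pow_eig H.hw.hy, one_pow, one_smul] at h
  refine H.ne ?_
  linear_combination (norm := abel1) three (K := K) v + h

theorem T4.oT_ne [CharP K 3] {r : Fin 6 → Fin 6 → V} (H : T4 ρ r) (h0 : r 0 1 ≠ 0) : oT ρ (r 0 3) ≠ 0 := fun h => by
  rw [oT_apply, op_apply, op_apply, H.act, H.act, H.act, H.act] at h
  have h1 : r 0 3 + r 1 3 + r 2 3 + (r 0 3 + r 0 4 + r 0 5) = 0 := h
  rw [H.sub 1 3, H.sub 2 3, H.five] at h1
  have h2 : (1 : K) • r 0 1 + (1 : K) • r 0 2 + (0 : K) • r 0 3 + (0 : K) • r 0 4 ∈ (⊥ : Submodule K V) := by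
    rw [one_smul, one_smul, zero_smul, zero_smul, add_zero, add_zero, Submodule.mem_bot]
    linear_combination (norm := abel1) h1 + three (K := K) (r 0 1) + three (K := K) (r 0 2) - three (K := K) (r 0 3)
  rcases H.key invR_bot h2 with h3 | h3
  · exact h0 (h3 0 1)
  · exact one_ne_zero h3.1

/-- an invariant alternating product -/
structure Al (ρ : Representation K (Alt 6) V) (β : V →ₗ[K] V →ₗ[K] V) : Prop where
  self : ∀ x, β x x = 0
  act : ∀ a x y, ρ a (β x y) = β (ρ a x) (ρ a y)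

variable {β : V →ₗ[K] V →ₗ[K] V}

theorem Al.anti (A : Al ρ β) (x y : V) : β x y = -β y x := by
  have h := A.self (x + y)
  rw [map_add, map_add, LinearMap.add_apply, LinearMap.add_apply, A.self, A.self, zero_add, add_zero] at h
  exact eq_neg_of_add_eq_zero_right h

theorem Al.invR (A : Al ρ β) {U : Submodule K V} (hU : InvR ρ U) : InvR ρ (Submodule.map₂ β U U) := fun a w hw =>
  (Submodule.map₂_le.2 fun x hx y hy => by
    show ρ a (β x y) ∈ Submodule.map₂ β U U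
    rw [A.act]
    exact Submodule.apply_mem_map₂ β (hU a x hx) (hU a y hy) :
      Submodule.map₂ β U U ≤ (Submodule.map₂ β U U).comap (ρ a)) hw

theorem kill {S : Set V} {f : V →ₗ[K] V} (h : ∀ x ∈ S, ∀ y ∈ S, f (β x y) = 0) {w : V}
    (hw : w ∈ Submodule.map₂ β (Submodule.span K S) (Submodule.span K S)) : f w = 0 := by
  rw [Submodule.map₂_span_span] at hw
  exact (Submodule.span_le (p := LinearMap.ker f)).2 (by rintro _ ⟨x, hx, y, hy, rfl⟩; exact h x hx y hy) hw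

theorem Al.oS_kill [CharP K 3] (A : Al ρ β) (H : H9 ρ v) {w : V} (hw : w ∈ Submodule.map₂ β (U9 ρ v) (U9 ρ v)) :
    oS ρ w = 0 := by
  refine kill ?_ hw
  rintro _ ⟨i, rfl⟩ _ ⟨j, rfl⟩
  obtain ⟨x, y, h1, h2⟩ := tab3 i j
  have h3 := oS_inv (ρ := ρ) x y (β (rr ρ v i.succ) (rr ρ v j.succ))
  rw [A.act, H.hw.act h1, H.hw.act h2, one_pow, one_smul, one_smul, A.anti, map_neg] at h3
  show oS ρ (β (rr ρ v i.succ) (rr ρ v j.succ)) = 0
  linear_combination (norm := abel1) three (K := K) (oS ρ (β (rr ρ v i.succ) (rr ρ v j.succ))) + h3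

theorem Al.oT_kill [CharP K 3] (A : Al ρ β) {r : Fin 6 → Fin 6 → V} (H : T4 ρ r) {w : V}
    (hw : w ∈ Submodule.map₂ β (Submodule.span K {r 0 1, r 0 2, r 0 3, r 0 4})
      (Submodule.span K {r 0 1, r 0 2, r 0 3, r 0 4})) : oT ρ w = 0 := by
  have a1 : ρ uu (r 0 1) = r 0 2 - r 0 1 := (H.act _ _ _).trans (H.sub 1 2)
  have a2 : ρ uu (r 0 2) = -r 0 1 := (H.act _ _ _).trans ((H.sub 1 0).trans (by rw [H.self, zero_sub]))
  have a3 : ρ uu (r 0 3) = r 0 3 - r 0 1 := (H.act _ _ _).trans (H.sub 1 3)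
  have a4 : ρ uu (r 0 4) = r 0 4 - r 0 1 := (H.act _ _ _).trans (H.sub 1 4)
  have b1 : ρ u2 (r 0 1) = r 0 1 := H.act _ _ _
  have b2 : ρ u2 (r 0 2) = r 0 2 := H.act _ _ _
  have b3 : ρ u2 (r 0 3) = r 0 4 := H.act _ _ _
  have b4 : ρ u2 (r 0 4) = -(r 0 1 + r 0 2 + r 0 3 + r 0 4) := (H.act _ _ _).trans H.five
  generalize r 0 1 = x1 at *
  generalize r 0 2 = x2 at *
  generalize r 0 3 = x3 at *
  generalize r 0 4 = x4 at *
  have h3 : (3 : K) = 0 := CharP.cast_eq_zero K 3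
  have key : ∀ x y, oT ρ (β x y) = 0 → oT ρ (β y x) = 0 := fun x y h => by rw [A.anti, map_neg, h, neg_zero]
  have k0 : ∀ x, oT ρ (β x x) = 0 := fun x => by rw [A.self, map_zero]
  have k : (1 : K) • oT ρ (β x1 x2) = 0 ∧ (1 : K) • oT ρ (β x1 x3) = 0 ∧ (1 : K) • oT ρ (β x1 x4) = 0 ∧
      (1 : K) • oT ρ (β x2 x3) = 0 ∧ (1 : K) • oT ρ (β x2 x4) = 0 ∧ (1 : K) • oT ρ (β x3 x4) = 0 := by
    refine ⟨?_, ?_, ?_, ?_, ?_, ?_⟩ <;>
    · simp only [oT_apply, op_apply, A.act, a1, a2, a3, a4, b1, b2, b3, b4, map_add, map_sub, map_neg, map_zero,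
        LinearMap.add_apply, LinearMap.sub_apply, LinearMap.neg_apply, A.self, A.anti x2 x1, A.anti x3 x1, A.anti x4 x1,
        A.anti x3 x2, A.anti x4 x2, A.anti x4 x3]
      match_scalars <;> first | ring1 | linear_combination h3 | linear_combination -h3 | linear_combination 2 * h3
  simp only [one_smul] at k
  obtain ⟨k12, k13, k14, k23, k24, k34⟩ := k
  refine kill ?_ hw
  rintro x (rfl | rfl | rfl | rfl) y (rfl | rfl | rfl | rfl) <;> first | exact k0 _ | assumption | exact key _ _ ‹_›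

variable [CharP K 3] [IsAlgClosed K] {C : Submodule K V}

/-- the conclusion -/
def End (ρ : Representation K (Alt 6) V) (β : V →ₗ[K] V →ₗ[K] V) (C : Submodule K V) : Prop :=
  (∃ ι e h f, T3 ρ ι e h f ∧ e ≠ 0 ∧ e ∈ C ∧ h ∈ C ∧ f ∈ C) ∨
    ∃ U ≤ C, U ≠ ⊥ ∧ InvR ρ U ∧ ∀ x ∈ U, ∀ y ∈ U, β x y = 0

theorem Al.step (A : Al ρ β) (hfx : ∀ w, (∀ a, ρ a w = w) → w = 0) (hC : ∀ x ∈ C, ∀ y ∈ C, β x y ∈ C)
    {U : Submodule K V} (hle : U ≤ C) (h0 : U ≠ ⊥) (hU : InvR ρ U) : End ρ β C ∨ Submodule.map₂ β U U ≤ C ∧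
      ((∃ r, T4 ρ r ∧ r 0 1 ≠ 0 ∧ ∀ i j, r i j ∈ Submodule.map₂ β U U) ∨ ∃ w ∈ Submodule.map₂ β U U, H9 ρ w) := by
  by_cases hW : Submodule.map₂ β U U = ⊥
  · exact Or.inl (Or.inr ⟨U, hle, h0, hU, fun x hx y hy => by
      have h := Submodule.apply_mem_map₂ β hx hy
      rwa [hW] at h⟩)
  have h1 : Submodule.map₂ β U U ≤ C := Submodule.map₂_le.2 fun x hx y hy => hC x (hle hx) y (hle hy)
  rcases modS hW (A.invR hU) with (⟨w, -, h2, h3⟩ | ⟨ι, e, h, f, H, h2, h3, h4, h5⟩ | h2) | h2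
  · exact absurd (hfx w h3) h2
  · exact Or.inl (Or.inl ⟨ι, e, h, f, H, h2, h1 h3, h1 h4, h1 h5⟩)
  · exact Or.inr ⟨h1, Or.inl h2⟩
  · exact Or.inr ⟨h1, Or.inr h2⟩

theorem Al.four (A : Al ρ β) (hfx : ∀ w, (∀ a, ρ a w = w) → w = 0) (hC : ∀ x ∈ C, ∀ y ∈ C, β x y ∈ C)
    {r : Fin 6 → Fin 6 → V} (H : T4 ρ r) (h0 : r 0 1 ≠ 0) (hr : ∀ i j, r i j ∈ C) : End ρ β C := by
  rcases A.step hfx hC (U := Submodule.span K {r 0 1, r 0 2, r 0 3, r 0 4})
    (Submodule.span_le.2 (by rintro _ (rfl | rfl | rfl | rfl) <;> exact hr _ _))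
    ((Submodule.ne_bot_iff _).2 ⟨_, H.mem_span 0 1, h0⟩) H.invR with h | ⟨-, ⟨r', H', h1, h2⟩ | ⟨w, h1, H'⟩⟩
  · exact h
  · exact absurd (A.oT_kill H (h2 0 3)) (T4.oT_ne H' h1)
  · exact absurd (A.oT_kill H (A.invR H.invR dd w h1)) H'.oT_ne

theorem modL (A : Al ρ β) (hfx : ∀ w, (∀ a, ρ a w = w) → w = 0) (hC : ∀ x ∈ C, ∀ y ∈ C, β x y ∈ C) (h0 : C ≠ ⊥)
    (hi : InvR ρ C) : End ρ β C := by
  rcases modS h0 hi with (⟨w, -, h2, h3⟩ | h2 | ⟨r, H, h2, h3⟩) | ⟨w, hw, H⟩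
  · exact absurd (hfx w h3) h2
  · exact Or.inl h2
  · exact A.four hfx hC H h2 h3
  · rcases A.step hfx hC (U9_le hi hw) H.ne_bot H.invR with h | ⟨h1, ⟨r', H', h2, h3⟩ | ⟨w', h2, H'⟩⟩
    · exact h
    · exact A.four hfx hC H' h2 fun i j => h1 (h3 i j)
    · exact absurd (A.oS_kill H (A.invR H.invR dd w' h2)) H'.oS_ne

end Md

theorem mod : MOD.{u} := by
  intro K _ _ _ V _ _ _ ρ U h0 hU
  rcases Md.modS h0 hU with (h | h | h) | ⟨v, hv, H⟩
  · exact Or.inl h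
  · exact Or.inr (Or.inl h)
  · exact Or.inr (Or.inr (Or.inl h))
  · exact Or.inr (Or.inr (Or.inr ⟨_, Md.U9_le hU hv, H.invR, H.finrank, H.fix⟩))

theorem modl : MODL.{u} := fun K _ _ _ ψ hfx _ h0 hi hC =>
  Md.modL (ρ := rp ψ) (β := TwoH.brL K) ⟨TwoH.br_self, fun a x y => act_br (ψ a) x y⟩ hfx hC h0 hi

end Cfsg.Agent.E8A.C63
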