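import Cfsg.Agent.E8A.C63.Basic
import Cfsg.Agent.E8A.Fix.Jor
import Cfsg.Agent.E8A.Fix.Bor

/-!
# The boxes TORL and TORV (helper97)

* `moore`, `exists_indep3` : the sequences `m ↦ c i ^ 3 ^ m` are independent;
* `inT_of_diag`, `Jor.pow_diag` : high powers of `ad x` are diagonal for `x` in Jordan form;
* `torl : TORL`; `Gr g ν ν'` : `g` carries the grading `ν` to `ν'`; `torv : TORV`.
-/

set_option autoImplicit false
set_option maxRecDepth 100000

namespace Cfsg.Agent.E8A.C63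

open Cfsg Cfsg.Lie Module Matrix
open Cfsg.Agent.H288.E8L (Q8 wt act8 wt_inl wt_inr rt_vec vec_ne_zero)
open Cfsg.Agent.H942.CB (W8 cs8)
open Cfsg.Agent.ChevalleyStructure
open Cfsg.Agent.Tits.Roots Cfsg.Agent.Nodes.Reps Cfsg.Agent.Nodes.BNOf Cfsg.Agent.Nodes.RGDChev
open Cfsg.Agent.KFacts.RgdChevCoord
open Cfsg.Agent.E8A.Kem (St Ge mem_Ge cw cw_apply Dm exists_dm SP PL PL_le_St sp_le_PL)

universe u

variable {K : Type u} [Field K]

/-! ### independence over the prime field -/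

/-- independence over the field with three elements -/
def Ind3 {ι : Type*} [Fintype ι] (c : ι → K) : Prop := ∀ a : ι → K, (∀ i, a i ^ 3 = a i) → ∑ i, a i * c i = 0 → a = 0

theorem moore [CharP K 3] {ι : Type*} [Fintype ι] {c : ι → K} (hc : Ind3 c) :
    ∀ (n : ℕ) (a : ι → K) (M : ℕ), (Function.support a).ncard = n → (∀ m, M ≤ m → ∑ i, a i * c i ^ 3 ^ m = 0) →
      a = 0 := by
  have : Fact (Nat.Prime 3) := ⟨Nat.prime_three⟩
  intro n
  induction n using Nat.strong_induction_on with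
  | _ n ih =>
    intro a M hn h
    by_contra h0
    obtain ⟨j, hj⟩ := Function.ne_iff.1 h0
    have hj' : a j ≠ 0 := hj
    obtain ⟨b, hb⟩ : ∃ b : ι → K, b = fun i => a i / a j := ⟨_, rfl⟩
    have hbj : b j = 1 := by rw [hb]; exact div_self hj'
    have h1 : ∀ m, M ≤ m → ∑ i, b i * c i ^ 3 ^ m = 0 := fun m hm => by
      have h2 : ∑ i, b i * c i ^ 3 ^ m = (∑ i, a i * c i ^ 3 ^ m) / a j := by
        rw [Finset.sum_div]
        exact Finset.sum_congr rfl fun i _ => by rw [hb]; ring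
      rw [h2, h m hm, zero_div]
    have h3 : ∀ m, M + 1 ≤ m → ∑ i, (b i ^ 3 - b i) * c i ^ 3 ^ m = 0 := fun m hm => by
      obtain ⟨m, rfl⟩ : ∃ k, m = k + 1 := ⟨m - 1, by omega⟩
      have h4 : (∑ i, b i * c i ^ 3 ^ m) ^ 3 = ∑ i, b i ^ 3 * c i ^ 3 ^ (m + 1) := by
        rw [sum_pow_char]
        exact Finset.sum_congr rfl fun i _ => by rw [mul_pow, ← pow_mul, ← pow_succ]
      rw [h1 m (by omega), zero_pow three_ne_zero] at h4
      simp only [sub_mul, Finset.sum_sub_distrib]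
      rw [← h4, h1 _ (by omega), sub_zero]
    have hs : Function.support (fun i => b i ^ 3 - b i) ⊂ Function.support a := by
      refine ⟨fun i hi hi' => hi ?_, fun hh => hh hj' ?_⟩
      · show b i ^ 3 - b i = 0
        have : b i = 0 := by rw [hb]; show a i / a j = 0; rw [hi', zero_div]
        rw [this]; ring
      · show b j ^ 3 - b j = 0
        rw [hbj]; ring
    have h5 := ih _ (hn ▸ Set.ncard_lt_ncard hs (Set.toFinite _)) _ (M + 1) rfl h3
    have h6 : ∀ i, b i ^ 3 = b i := fun i => sub_eq_zero.1 (congrFun h5 i)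
    have h7 : ∀ i (m : ℕ), b i ^ 3 ^ m = b i := fun i m => by
      induction m with
      | zero => simp
      | succ m ih => rw [pow_succ, pow_mul, ih, h6]
    have h8 : (∑ i, b i * c i) ^ 3 ^ M = 0 := by
      rw [sum_pow_char_pow, ← h1 M le_rfl]
      exact Finset.sum_congr rfl fun i _ => by rw [mul_pow, h7]
    have h9 := hc b h6 (pow_eq_zero_iff (pow_ne_zero _ three_ne_zero) |>.1 h8)
    rw [h9] at hbj
    exact zero_ne_one hbj

theorem cube_eq {a : K} (h : a ^ 3 = a) : a = 0 ∨ a = 1 ∨ a = -1 := by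
  have h1 : a * ((a - 1) * (a + 1)) = 0 := by linear_combination h
  rcases mul_eq_zero.1 h1 with h2 | h2
  · exact Or.inl h2
  · rcases mul_eq_zero.1 h2 with h3 | h3
    · exact Or.inr (Or.inl (sub_eq_zero.1 h3))
    · exact Or.inr (Or.inr (eq_neg_of_add_eq_zero_left h3))

theorem exists_ind3 [Infinite K] : ∀ n : ℕ, ∃ c : Fin n → K, Ind3 c := by
  intro n
  induction n with
  | zero => exact ⟨fun _ => 0, fun a _ _ => Subsingleton.elim _ _⟩
  | succ n ih =>
    obtain ⟨c, hc⟩ := ih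
    have hf : {a : Fin n → K | ∀ i, a i ^ 3 = a i}.Finite := by
      refine (Set.Finite.pi' (t := fun _ => ({0, 1, -1} : Set K)) fun _ => Set.toFinite _).subset fun a ha i => ?_
      rcases cube_eq (ha i) with h | h | h <;> simp [h]
    obtain ⟨d, hd⟩ := (hf.image fun a => ∑ i, a i * c i).infinite_compl.nonempty
    refine ⟨Fin.cons d c, fun a ha h => ?_⟩
    rw [Fin.sum_univ_succ] at h
    simp only [Fin.cons_zero, Fin.cons_succ] at h
    have h0 : a 0 = 0 := by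
      rcases cube_eq (ha 0) with h1 | h1 | h1
      · exact h1
      · refine absurd ⟨fun i => -a i.succ, fun i => ?_, ?_⟩ hd
        · show (-a i.succ) ^ 3 = -a i.succ
          rw [neg_pow, ha]; ring
        · simp only [neg_mul, Finset.sum_neg_distrib]
          rw [h1] at h
          linear_combination -h
      · refine absurd ⟨fun i => a i.succ, fun i => ha _, ?_⟩ hd
        rw [h1] at h
        linear_combination h
    rw [h0, zero_mul, zero_add] at h
    have h2 := hc (fun i => a i.succ) (fun i => ha _) h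
    funext i
    exact Fin.cases h0 (fun i => congrFun h2 i) i

/-! ### diagonal matrices -/

theorem inT_of_diag {x : L8 K} (h : ∀ i j, i ≠ j → adm x i j = 0) : InT x := fun s => by
  obtain ⟨j, hj⟩ := exists_cartan_ne (K := K) s
  have h2 := adm_inr_inl x s j
  rw [h _ _ (by simp), eq_comm, neg_eq_zero] at h2
  exact (mul_eq_zero.1 h2).resolve_left hj

theorem charP_mat [CharP K 3] : CharP (Matrix chevE8.Idx chevE8.Idx K) 3 :=
  haveI : Nonempty chevE8.Idx := ⟨Sum.inl (xi 0)⟩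
  inferInstance

theorem Jor.pow_diag [CharP K 3] {x : L8 K} (hx : Jor x) :
    ∃ M : ℕ, ∀ m, M ≤ m → ∀ i j, i ≠ j → (adm x ^ 3 ^ m) i j = 0 := by
  have : Fact (Nat.Prime 3) := ⟨Nat.prime_three⟩
  have := charP_mat (K := K)
  obtain ⟨M, hM⟩ := nilp_adm (sub_tp_mem hx.1)
  refine ⟨M, fun m hm i j hij => ?_⟩
  have h1 : adm (x - tp x) ^ 3 ^ m = 0 :=
    pow_eq_zero_of_le (hm.trans (Nat.lt_pow_self (by norm_num)).le) hM
  rw [adm_split x, add_pow_char_pow_of_commute _ _ hx.commute, h1, add_zero, diagonal_pow, diagonal_apply_ne _ hij]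

theorem Tor.pow {x : L8 K} (h : Tor x) (m : ℕ) : adm x ^ 3 ^ m = adm x := by
  induction m with
  | zero => simp
  | succ m ih => rw [pow_succ, pow_mul, ih]; exact h

theorem Tor.inT [CharP K 3] {x : L8 K} (h : Tor x) (hx : Jor x) : InT x := by
  obtain ⟨M, hM⟩ := Jor.pow_diag hx
  exact inT_of_diag fun i j hij => by rw [← h.pow M]; exact hM M le_rfl i j hij

theorem adm_sum {ι : Type*} (s : Finset ι) (f : ι → L8 K) : adm (∑ i ∈ s, f i) = ∑ i ∈ s, adm (f i) := by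
  classical
  induction s using Finset.induction_on with
  | empty => rw [Finset.sum_empty, Finset.sum_empty, adm_zero]
  | insert a s ha ih => rw [Finset.sum_insert ha, Finset.sum_insert ha, adm_add, ih]

theorem commute_adm {x y : L8 K} (h : br x y = 0) : Commute (adm x) (adm y) := by
  have h1 := adm_br x y
  rw [h, adm_zero] at h1
  exact sub_eq_zero.1 h1.symm

theorem sum_pow_comm {R ι : Type*} [Ring R] [CharP R 3] (s : Finset ι) {f : ι → R} (h : ∀ i j, Commute (f i) (f j))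
    (m : ℕ) : (∑ i ∈ s, f i) ^ 3 ^ m = ∑ i ∈ s, f i ^ 3 ^ m := by
  classical
  have : Fact (Nat.Prime 3) := ⟨Nat.prime_three⟩
  induction s using Finset.induction_on with
  | empty => rw [Finset.sum_empty, Finset.sum_empty, zero_pow (pow_ne_zero _ three_ne_zero)]
  | insert a s ha ih =>
    rw [Finset.sum_insert ha, Finset.sum_insert ha,
      add_pow_char_pow_of_commute _ _ (Commute.sum_right _ _ _ fun j _ => h a j), ih]

/-- **TORL** -/
theorem torl : TORL.{u} := fun K _ _ _ S hS hc => by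
  have : Fact (Nat.Prime 3) := ⟨Nat.prime_three⟩
  have := charP_mat (K := K)
  obtain ⟨b, hb, hsp, hli⟩ := exists_linearIndependent K S
  have hf : b.Finite := hli.set_finite_of_isNoetherian
  obtain ⟨n, h, -, hr⟩ := hf.fin_param
  have hh : ∀ i, h i ∈ S := fun i => hb (hr ▸ Set.mem_range_self i)
  obtain ⟨c, hi⟩ := exists_ind3 (K := K) n
  obtain ⟨g₁, h₁⟩ := Bor.borel K (∑ i, c i • h i)
  obtain ⟨g₂, h₂⟩ := jord K _ h₁
  rw [← act_mul] at h₂
  obtain ⟨M, hM⟩ := Jor.pow_diag h₂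
  have h3 : ∀ m : ℕ, adm (act (g₂ * g₁) (∑ i, c i • h i)) ^ 3 ^ m = ∑ i, c i ^ 3 ^ m • adm (act (g₂ * g₁) (h i)) := by
    intro m
    rw [TwoH.act_sum, adm_sum, sum_pow_comm]
    · exact Finset.sum_congr rfl fun i _ => by rw [act_smul, adm_smul, _root_.smul_pow, ((hS _ (hh i)).act _).pow]
    · exact fun i j => commute_adm (by
        rw [← act_br, br_smul_left, br_smul_right, hc _ (hh i) _ (hh j), smul_zero, smul_zero, act_zero])
  have h4 : ∀ i, InT (act (g₂ * g₁) (h i)) := fun i => inT_of_diag fun p q hpq => by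
    have h5 := moore hi _ (fun i => adm (act (g₂ * g₁) (h i)) p q) M rfl fun m hm => by
      rw [← hM m hm p q hpq, h3, Matrix.sum_apply]
      exact Finset.sum_congr rfl fun i _ => by rw [Matrix.smul_apply, smul_eq_mul, mul_comm]
    exact congrFun h5 i
  refine ⟨g₂ * g₁, fun x hx => inT_iff.2 ?_⟩
  have h6 : Submodule.span K b ≤ pb (g₂ * g₁) (LS K {0}) := Submodule.span_le.2 fun y hy => by
    obtain ⟨i, rfl⟩ : y ∈ Set.range h := hr ▸ hy
    exact inT_iff.1 (h4 i)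
  exact h6 (hsp ▸ Submodule.subset_span hx)

/-! ### gradings -/

/-- `g` carries the grading `ν` to the grading `ν'` -/
def Gr (g : G8 K) (ν ν' : Q8 →+ ℝ) : Prop := ∀ c v, act g v ∈ LS K (Eq' ν' c) ↔ v ∈ LS K (Eq' ν c)

theorem gr_one (ν : Q8 →+ ℝ) : Gr (1 : G8 K) ν ν := fun c v => by rw [act_one]

theorem Gr.mul {g g' : G8 K} {ν ν' ν'' : Q8 →+ ℝ} (h' : Gr g' ν' ν'') (h : Gr g ν ν') : Gr (g' * g) ν ν'' :=
  fun c v => by rw [act_mul, h', h]

theorem Gr.inv {g : G8 K} {ν ν' : Q8 →+ ℝ} (h : Gr g ν ν') : Gr g⁻¹ ν' ν := fun c v => by rw [← h, act_inv']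

theorem gr_of {g : G8 K} {ν ν' : Q8 →+ ℝ} (h : ∀ c, ∀ v ∈ LS K (Eq' ν c), act g v ∈ LS K (Eq' ν' c))
    (h' : ∀ c, ∀ v ∈ LS K (Eq' ν' c), act g⁻¹ v ∈ LS K (Eq' ν c)) : Gr g ν ν' :=
  fun c v => ⟨fun hv => by have := h' c _ hv; rwa [act_inv] at this, h c v⟩

theorem gr_rep {w : W8} {n : G8 K} (hn : RepK w n) (ν : Q8 →+ ℝ) : Gr n (cw ν w) ν :=
  gr_of (fun _ _ hv => RepK.LS hn (fun _ ha => ha) hv) fun _ _ hv => RepK.LS (w := w⁻¹) hn.inv (fun a ha => by
    rw [mem_Eq, cw_apply, act8_act_inv]; exact ha) hv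

theorem gr_xr {ν : Q8 →+ ℝ} {r : Fin chevE8.nroots} (h : ν (vec chevE8 8 r) = 0) (t : K) : Gr (xr r t) ν ν := by
  have h1 : ∀ (t : K) c, ∀ v ∈ LS K (Eq' ν c), act (xr r t) v ∈ LS K (Eq' ν c) := fun t c v hv =>
    act_xr_LS (fun a ha => by rw [mem_Eq, map_add, h, add_zero]; exact ha) t hv
  exact gr_of (h1 t) fun c v hv => by rw [xr_inv]; exact h1 _ c v hv

theorem pr_zero {ν : Q8 →+ ℝ} {c : ℝ} {v : L8 K} (h : v ∈ LS K {a | c < ν a}) : pr ν c v = 0 := funext fun i => by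
  by_cases hi : ν (wt i) = c
  · rw [pr_pos v hi]
    exact LS_zero h fun h1 => absurd hi (ne_of_gt h1)
  · exact pr_neg v hi

theorem sub_pr_mem {ν : Q8 →+ ℝ} {c : ℝ} {v : L8 K} (h : v ∈ LS K (Ge ν c)) : v - pr ν c v ∈ LS K {a | c < ν a} := by
  intro i hi
  by_cases h1 : ν (wt i) = c
  · rw [Pi.sub_apply, pr_pos v h1, sub_self] at hi
    exact absurd rfl hi
  · rw [Pi.sub_apply, pr_neg v h1, sub_zero] at hi
    exact lt_of_le_of_ne (mem_Ge.1 (h i hi)) (Ne.symm h1)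

theorem pr_eq_of {ν : Q8 →+ ℝ} {c : ℝ} {v w : L8 K} (hw : w ∈ LS K (Eq' ν c)) (h : v - w ∈ LS K {a | c < ν a}) :
    pr ν c v = w := by
  rw [show v = w + (v - w) by abel, pr_add, pr_zero h, pr_of_mem hw, add_zero]

/-- the Levi part -/
theorem exists_levi {ν : Q8 →+ ℝ} {u : G8 K} (hu : u ∈ RGD.Sup (XX chevE8 8 K) (SP ν)) :
    ∃ l, Gr l ν ν ∧ ∀ c, ∀ v ∈ LS K (Ge ν c), pr ν c (act u v) = act l (pr ν c v) := by
  let P : Subgroup (G8 K) :=
    { carrier := {u | u ∈ St K ν ∧ ∃ l, Gr l ν ν ∧ ∀ c, ∀ v ∈ LS K (Ge ν c), pr ν c (act u v) = act l (pr ν c v)}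
      one_mem' := ⟨one_mem _, 1, gr_one ν, fun c v _ => by rw [act_one, act_one]⟩
      mul_mem' := by
        rintro a b ⟨ha, l, hl, h⟩ ⟨hb, l', hl', h'⟩
        exact ⟨mul_mem ha hb, l * l', hl.mul hl', fun c v hv => by
          rw [act_mul, act_mul, h c _ (St.act hb c hv), h' c v hv]⟩
      inv_mem' := by
        rintro a ⟨ha, l, hl, h⟩
        exact ⟨inv_mem ha, l⁻¹, hl.inv, fun c v hv => act_injective l (by
          rw [act_inv', ← h c _ (St.act (inv_mem ha) c hv), act_inv'])⟩ }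
  have h1 : RGD.Sup (XX chevE8 8 K) (SP ν) ≤ P := sup_le_of (fun _ ha => ha.1) fun r hr t => by
    refine ⟨PL_le_St ν (sp_le_PL ν (xr_mem_Sup hr t)), ?_⟩
    rcases eq_or_lt_of_le hr.2 with h0 | h0
    · refine ⟨xr r t, gr_xr h0.symm t, fun c v hv => pr_eq_of ((gr_xr h0.symm t c _).2 (pr_mem ν c v)) ?_⟩
      rw [← act_sub]
      exact act_xr_LS (A := {a | c < ν a}) (fun a ha => by
        show c < ν (a + _)
        rw [map_add, ← h0, add_zero]; exact ha) t (sub_pr_mem hv)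
    · refine ⟨1, gr_one ν, fun c v hv => ?_⟩
      rw [act_one]
      refine pr_eq_of (pr_mem ν c v) ?_
      rw [show act (xr r t) v - pr ν c v = (act (xr r t) v - v) + (v - pr ν c v) by abel]
      refine add_mem (act_xr_sub (A' := {a | c < ν a}) (fun a ha m hm => ?_) t hv) (sub_pr_mem hv)
      show c < ν (a + _)
      have h2 : (1 : ℝ) ≤ m := by exact_mod_cast hm
      have h3 := mem_Ge.1 ha
      rw [map_add, map_zsmul, zsmul_eq_mul, Int.cast_natCast]
      nlinarith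
  exact (h1 hu).2

/-- Jordan form inside a Levi subgroup -/
theorem jord_gr {ν : Q8 →+ ℝ} {v : L8 K} (hv : InB v) (h0 : v ∈ LS K (Eq' ν 0)) (k : ℕ) : ∃ g : G8 K, Gr g ν ν ∧
    InB (act g v) ∧ ∀ r : Fin chevE8.nroots, r.val < k → act g v (Sum.inr r) ≠ 0 → rv r (act g v) = 0 := by
  induction k with
  | zero => exact ⟨1, gr_one ν, by rwa [act_one], fun r hr => absurd hr (Nat.not_lt_zero _)⟩
  | succ k ih =>
    obtain ⟨g, hG, hB, hg⟩ := ih
    by_cases hc : ∃ r : Fin chevE8.nroots, r.val = k ∧ act g v (Sum.inr r) ≠ 0 ∧ rv r (act g v) ≠ 0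
    · obtain ⟨r, rfl, h1, h2⟩ := hc
      have hr : 120 ≤ r.val := by
        by_contra h3
        exact h1 (hB r (by omega))
      obtain ⟨t, ht⟩ : ∃ t : K, t = act g v (Sum.inr r) / rv r (act g v) := ⟨_, rfl⟩
      have hrl : ∀ s, rv s (act (xr r t) (act g v)) = rv s (act g v) := by
        intro s
        rw [← rl_vec, ← rl_vec, rl_congr fun i => ?_]
        rw [act_xr_B_apply hB hr t (fun s hs => by cases hs), ee_ne (by simp), mul_zero, sub_zero]
      refine ⟨xr r t * g, (gr_xr ((hG 0 v).2 h0 _ h1) t).mul hG, ?_, fun s hs h3 => ?_⟩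
      · rw [act_mul]
        exact inB_iff.2 (act_xr_LS (fun a ha => add_nonneg ha ((vec_nonneg_iff r).2 hr)) t (inB_iff.1 hB))
      · rw [act_mul] at h3 ⊢
        rw [act_xr_B_apply hB hr t (fun s' hs' => by cases hs'; omega)] at h3
        by_cases e : s = r
        · exfalso
          apply h3
          rw [e, ee_self, mul_one, ht, mul_div_cancel₀ _ h2, sub_self]
        · rw [ee_ne (fun e' => e (Sum.inr.inj e')), mul_zero, sub_zero] at h3
          rw [hrl]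
          exact hg s (by have : s.val ≠ r.val := fun e' => e (Fin.ext e'); omega) h3
    · refine ⟨g, hG, hB, fun r hr h1 => ?_⟩
      by_cases e : r.val = k
      · by_contra h2
        exact hc ⟨r, e, h1, h2⟩
      · exact hg r (by omega) h1

/-- a Borel subalgebra of a Levi subalgebra -/
theorem borel_gr [IsAlgClosed K] {ν : Q8 →+ ℝ} {h : L8 K} (h0 : h ∈ LS K (Eq' ν 0)) :
    ∃ (g : G8 K) (ν' : Q8 →+ ℝ) (w : W8) (n : G8 K), RepK w n ∧ Gr g ν ν' ∧ Gr n ν' ν ∧ Jor (act g h) := by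
  obtain ⟨w₀, hd⟩ := exists_dm ν
  obtain ⟨n₀, hn₀⟩ : ∃ n₀ : G8 K, RepK w₀ n₀ := exists_rp cs8 (nsysK K) w₀
  obtain ⟨g, hg⟩ := Bor.borel K (act n₀⁻¹ h)
  obtain ⟨u, hu, w, n, hn, u', hu', rfl⟩ := bruhat g
  have hu'' : u' ∈ U8 K := RGD.Sup_le (fun a ha => RGD.le_Sup (S := Pos8) ⟨ha.1, ha.2.1⟩) hu'
  obtain ⟨l, hl, hl'⟩ := exists_levi (hd.U_le hu'')
  have h1 : act n₀⁻¹ h ∈ LS K (Eq' (cw ν w₀) 0) := ((gr_rep hn₀ ν).inv 0 h).2 h0
  have h2 : act n (act u' (act n₀⁻¹ h)) ∈ LS K {a | 0 ≤ a} := by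
    have h3 := sup_LS (A := {a | 0 ≤ a}) (S := Pos8) (fun _ ha => ha.1) (fun a ha b hb => add_nonneg ha hb.2)
      (inv_mem hu) (inB_iff.1 hg)
    rwa [mul_assoc, act_mul, act_inv, act_mul] at h3
  have h4 : act u' (act n₀⁻¹ h) ∈ LS K {a | 0 ≤ act8 w a} := by
    have h5 := RepK.LS (w := w⁻¹) hn.inv (A' := {a | 0 ≤ act8 w a}) (fun a ha => by
      show 0 ≤ act8 w (act8 w⁻¹ a)
      rw [act8_act_inv]; exact ha) h2
    rwa [act_inv] at h5
  have h6 : InB (act n (act l (act n₀⁻¹ h))) := by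
    rw [← pr_of_mem h1, ← hl' 0 _ (Eq_le_Ge h1)]
    exact inB_iff.2 (RepK.LS hn (fun a ha => ha) (pr_LS h4 _ _))
  have h7 : Gr n (cw ν w₀) (cw (cw ν w₀) w⁻¹) := by
    have h8 := (gr_rep (w := w⁻¹) hn.inv (cw ν w₀)).inv
    rwa [inv_inv] at h8
  have h9 := (h7.mul hl).mul (gr_rep hn₀ ν).inv
  obtain ⟨l', h10, h11, h12⟩ := jord_gr h6 (by rw [← act_mul, ← act_mul]; exact (h9 0 h).2 h0) chevE8.nroots
  refine ⟨l' * (n * l * n₀⁻¹), _, w₀ * w⁻¹, n₀ * n⁻¹, hn₀.mul hn.inv, h10.mul h9, (gr_rep hn₀ ν).mul h7.inv, ?_⟩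
  rw [act_mul, act_mul, act_mul]
  exact ⟨h11, fun r => h12 r r.2⟩

/-- **TORV** -/
theorem torv : TORV.{u} := fun K _ _ _ ν h hT h0 => by
  obtain ⟨g, ν', w, n, hn, h1, h2, h3⟩ := borel_gr h0
  refine ⟨n * g, h2.mul h1, ?_⟩
  rw [act_mul]
  exact RepK.inT hn ((hT.act g).inT h3)

end Cfsg.Agent.E8A.C63
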