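import Cfsg.Agent.E8A.C63.Alg
import Cfsg.Agent.E8A.C63.TorL
import Cfsg.Agent.E8A.C63.ModC

/-!
# The boxes DAB and DESC (helper90)

* `pm x` : the element with `ad (pm x) = (ad x) ^ 3`; `pm_act`, `pm_add`, `pm_smul`, `pm_T`;
* `dab : DAB`, `desc : DESC`.
-/

set_option autoImplicit false
set_option maxRecDepth 100000

namespace Cfsg.Agent.E8A.C63

open Cfsg Cfsg.Lie Module Matrix
open Cfsg.Agent.H288.E8L (Q8 wt wt_inl wt_inr vec_ne_zero)
open Cfsg.Agent.Nodes.RGDChev (vec)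
open Cfsg.Agent.E8A.TwoH (br_anti br_self br_zero_left br_zero_right brL)

universe u

variable {K : Type u} [Field K]

theorem br_neg_l (x y : L8 K) : br (-x) y = -br x y := by rw [← neg_one_smul K x, br_smul_left, neg_one_smul]

theorem br_neg_r (x y : L8 K) : br x (-y) = -br x y := by rw [← neg_one_smul K y, br_smul_right, neg_one_smul]

theorem br_of_commute {x y : L8 K} (h : Commute (adm x) (adm y)) : br x y = 0 :=
  adm_injective (by rw [adm_br, h.eq, sub_self, adm_zero])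

theorem ab_span {S : Set (L8 K)} (h : ∀ x ∈ S, ∀ y ∈ S, br x y = 0) : Ab (Submodule.span K S) := fun x hx y hy => by
  have h1 : ∀ y ∈ S, br x y = 0 := fun y hy =>
    (Submodule.span_le (p := LinearMap.ker ((brL K).flip y))).2 (fun x hx => h x hx y hy) hx
  exact (Submodule.span_le (p := LinearMap.ker (brL K x))).2 h1 hy

theorem inv_span {ψ : Alt 6 →* G8 K} {S : Set (L8 K)} (h : ∀ a, ∀ x ∈ S, act (ψ a) x ∈ S) : Inv ψ (Submodule.span K S) :=
  fun a => Md.span_inv (f := rp ψ a) fun x hx => Submodule.subset_span (h a x hx)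

theorem inT_span {g : G8 K} {S : Set (L8 K)} (h : ∀ x ∈ S, InT (act g x)) : ∀ x ∈ Submodule.span K S, InT (act g x) :=
  fun _ hx => inT_iff.2 ((Submodule.span_le (p := pb g (LS K {0}))).2 (fun x hx => inT_iff.1 (h x hx)) hx)

theorem cz_ee (r : Fin chevE8.nroots) : Cz (ee K (Sum.inr r)) := by
  have h1 : ∀ i j, adm (ee K (Sum.inr r)) i j ≠ 0 → wt i = vec chevE8 8 r + wt j := fun i j h => by
    obtain ⟨l, hl, e⟩ := adm_wt h
    rwa [show l = Sum.inr r from by_contra fun hc => hl (ee_ne hc), wt_inr] at e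
  ext i k
  by_contra h
  rw [pow_three, Matrix.mul_apply] at h
  obtain ⟨l, -, h2⟩ := Finset.exists_ne_zero_of_sum_ne_zero h
  have h3 := right_ne_zero_of_mul h2
  rw [Matrix.mul_apply] at h3
  obtain ⟨m, -, h4⟩ := Finset.exists_ne_zero_of_sum_ne_zero h3
  have h5 : wt i = wt k + ((3 : ℕ) : ℤ) • vec chevE8 8 r := by
    rw [h1 _ _ (left_ne_zero_of_mul h2), h1 _ _ (left_ne_zero_of_mul h4), h1 _ _ (right_ne_zero_of_mul h4)]
    module
  obtain ⟨rfl, rfl⟩ := Par.two_step (by norm_num) h5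
  rw [wt_inr, wt_inr, Par.vec_op] at h5
  exact vec_ne_zero r (by linear_combination (norm := module) (-1 : ℤ) • h5)

variable [CharP K 3]

theorem three_zero : (3 : K) = 0 := CharP.cast_eq_zero K 3

theorem adm_cube_T {v : L8 K} (hv : InT v) : adm (fun i => v i ^ 3) = adm v ^ 3 := by
  have : Fact (Nat.Prime 3) := ⟨Nat.prime_three⟩
  rw [adm_T hv, adm_T fun r => by rw [hv r]; simp, diagonal_pow]
  congr 1
  funext i
  rw [Pi.pow_apply, rl_apply, rl_apply, sum_pow_char]
  exact Finset.sum_congr rfl fun j _ => by rw [mul_pow, ← frobenius_def (p := 3) (((_ : ℤ) : K)), map_intCast]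

theorem adm_cube_add (x y : L8 K) :
    adm (x + y) ^ 3 = adm x ^ 3 + adm y ^ 3 + adm (br x (br x y) + br y (br y x)) := by
  have h : ∀ A : Matrix chevE8.Idx chevE8.Idx K, A + A + A = 0 := fun A => by
    rw [show A + A + A = (3 : K) • A by module, three_zero, zero_smul]
  rw [adm_add, adm_add, adm_br, adm_br, adm_br, adm_br, ← sub_eq_zero, ← h (adm x * adm y * adm x + adm y * adm x * adm y)]
  noncomm_ring

theorem exists_pm (x : L8 K) : ∃ y, adm y = adm x ^ 3 := by
  rw [show x = ∑ i, x i • ee K i from pi_eq_sum_univ' x]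
  refine Finset.sum_induction _ (fun x : L8 K => ∃ y, adm y = adm x ^ 3) ?_ ⟨0, by rw [adm_zero]; simp⟩ fun i _ => ?_
  · rintro a b ⟨y, hy⟩ ⟨z, hz⟩
    exact ⟨_, by rw [adm_cube_add, ← hy, ← hz, ← adm_add, ← adm_add]⟩
  · rcases i with i | r
    · exact ⟨_, adm_cube_T fun r => by rw [Pi.smul_apply, ee_ne (by simp), smul_zero]⟩
    · refine ⟨0, ?_⟩
      rw [adm_smul, _root_.smul_pow, cz_ee r, smul_zero, adm_zero]

/-- the `p`-map -/
noncomputable def pm (x : L8 K) : L8 K := (exists_pm x).choose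

theorem adm_pm (x : L8 K) : adm (pm x) = adm x ^ 3 := (exists_pm x).choose_spec

theorem pm_act (g : G8 K) (x : L8 K) : act g (pm x) = pm (act g x) :=
  adm_injective (by rw [adm_pm, adm_act_pow, adm_act, adm_pm])

theorem pm_add (x y : L8 K) : pm (x + y) = pm x + pm y + (br x (br x y) + br y (br y x)) :=
  adm_injective (by rw [adm_pm, adm_cube_add, ← adm_pm, ← adm_pm, ← adm_add, ← adm_add])

theorem pm_smul (c : K) (x : L8 K) : pm (c • x) = c ^ 3 • pm x :=
  adm_injective (by rw [adm_pm, adm_smul, adm_smul, adm_pm, _root_.smul_pow])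

theorem pm_neg (x : L8 K) : pm (-x) = -pm x := by
  rw [← neg_one_smul K x, pm_smul, show (-1 : K) ^ 3 = -1 by ring, neg_one_smul]

theorem pm_zero : pm (0 : L8 K) = 0 := by rw [← zero_smul K (0 : L8 K), pm_smul, zero_pow three_ne_zero, zero_smul, zero_smul]

theorem pm_add' {x y : L8 K} (h : br x y = 0) : pm (x + y) = pm x + pm y := by
  rw [pm_add, br_anti y x, h, neg_zero, br_zero_right, br_zero_right, add_zero, add_zero]

theorem pm_T {v : L8 K} (hv : InT v) : pm v = fun i => v i ^ 3 := adm_injective (by rw [adm_pm, adm_cube_T hv])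

theorem br_pm (x v : L8 K) : br (pm x) v = br x (br x (br x v)) := by
  unfold br
  rw [adm_pm, mulVec_mulVec, mulVec_mulVec, pow_three']

theorem br_pm_zero {x y : L8 K} (h : br x y = 0) : br x (pm y) = 0 :=
  br_of_commute (by rw [adm_pm]; exact (commute_adm h).pow_right 3)

theorem cz_iff {x : L8 K} : Cz x ↔ pm x = 0 :=
  ⟨fun h => adm_injective (by rw [adm_pm, adm_zero]; exact h), fun h => by rw [Cz, ← adm_pm, h, adm_zero]⟩

theorem tor_iff {x : L8 K} : Tor x ↔ pm x = x :=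
  ⟨fun h => adm_injective (by rw [adm_pm]; exact h), fun h => by rw [Tor, ← adm_pm, h]⟩

theorem adm_pm_it (x : L8 K) (k : ℕ) : adm (pm^[k] x) = adm x ^ 3 ^ k := by
  induction k with
  | zero => simp
  | succ k ih => rw [Function.iterate_succ_apply', adm_pm, ih, ← pow_mul, pow_succ]

theorem pm_act_it (g : G8 K) (x : L8 K) (k : ℕ) : act g (pm^[k] x) = pm^[k] (act g x) :=
  adm_injective (by rw [adm_pm_it, adm_act_pow, adm_act, adm_pm_it])

theorem PCl.pm {Y : Submodule K (L8 K)} (h : PCl Y) {x : L8 K} (hx : x ∈ Y) : pm x ∈ Y := h.2 x hx _ (adm_pm x)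

/-- a subspace of the Cartan subalgebra which is stable under the `p`-map has a toral element -/
theorem exists_tor_T {V : Submodule K (L8 K)} (h1 : ∀ x ∈ V, pm x ∈ V) {y : L8 K} (hy : y ∈ V) (h0 : y ≠ 0) (hT : InT y) :
    ∃ v ∈ V, v ≠ 0 ∧ pm v = v := by
  obtain ⟨v, ⟨a1, a2, a3⟩, a4⟩ := exists_minimalFor_of_wellFoundedLT (fun v => v ∈ V ∧ v ≠ 0 ∧ InT v)
    (fun v => (Function.support v).ncard) ⟨y, hy, h0, hT⟩
  obtain ⟨i, hi⟩ := Function.ne_iff.1 a2
  have b1 := V.smul_mem (v i)⁻¹ a1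
  have b2 : InT ((v i)⁻¹ • v) := fun r => by rw [Pi.smul_apply, a3 r, smul_zero]
  refine ⟨_, b1, smul_ne_zero (inv_ne_zero hi) a2, sub_eq_zero.1 (by_contra fun e => ?_)⟩
  have b3 : Function.support (pm ((v i)⁻¹ • v) - (v i)⁻¹ • v) ⊂ Function.support v := by
    rw [pm_T b2]
    refine ⟨fun j hj e => hj (by simp [e]), fun e => e hi ?_⟩
    rw [Pi.sub_apply, Pi.smul_apply, smul_eq_mul, inv_mul_cancel₀ hi, one_pow, sub_self]
  have b4 := Set.ncard_lt_ncard b3
  exact absurd (a4 ⟨V.sub_mem (h1 _ b1) b1, e, fun r => by rw [pm_T b2]; simp [a3 r]⟩ b4.le) (not_le.2 b4)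

/-- **DAB** -/
theorem dab : DAB.{u} := fun K _ _ _ ψ Y U hY hU h0 hi ha => by
  let S : Set (L8 K) := {y | ∃ k, ∃ x ∈ U, y = pm^[k] x}
  have h1 : Ab (Submodule.span K S) := ab_span (by
    rintro _ ⟨k, x, hx, rfl⟩ _ ⟨l, y, hy, rfl⟩
    exact br_of_commute (by rw [adm_pm_it, adm_pm_it]; exact (commute_adm (ha x hx y hy)).pow_pow _ _))
  have h2 : Inv ψ (Submodule.span K S) := inv_span (by
    rintro a _ ⟨k, x, hx, rfl⟩
    exact ⟨k, _, hi a x hx, pm_act_it (ψ a) x k⟩)
  have h3 : Submodule.span K S ≤ Y := Submodule.span_le.2 (by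
    rintro _ ⟨k, x, hx, rfl⟩
    induction k with
    | zero => exact hU hx
    | succ k ih => rw [Function.iterate_succ_apply']; exact hY.pm ih)
  have h4 : ∀ x ∈ Submodule.span K S, pm x ∈ Submodule.span K S := fun x hx => by
    induction hx using Submodule.span_induction with
    | mem x hx =>
      obtain ⟨k, x, hx, rfl⟩ := hx
      exact Submodule.subset_span ⟨k + 1, x, hx, (Function.iterate_succ_apply' _ _ _).symm⟩
    | zero => rw [pm_zero]; exact zero_mem _
    | add x y hx hy a b => rw [pm_add' (h1 x hx y hy)]; exact add_mem a b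
    | smul c x _ a => rw [pm_smul]; exact Submodule.smul_mem _ _ a
  by_cases e : ∃ x ∈ Submodule.span K S, x ≠ 0 ∧ pm x = 0
  · obtain ⟨x, a1, a2, a3⟩ := e
    let U' : Submodule K (L8 K) :=
      { carrier := {x | x ∈ Submodule.span K S ∧ pm x = 0}
        zero_mem' := ⟨zero_mem _, pm_zero⟩
        add_mem' := fun {a b} p q => ⟨add_mem p.1 q.1, by rw [pm_add' (h1 a p.1 b q.1), p.2, q.2, add_zero]⟩
        smul_mem' := fun c a p => ⟨Submodule.smul_mem _ _ p.1, by rw [pm_smul, p.2, smul_zero]⟩ }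
    exact .inl ⟨U', fun x hx => h3 hx.1, (Submodule.ne_bot_iff _).2 ⟨x, ⟨a1, a3⟩, a2⟩,
      fun a v hv => ⟨h2 a v hv.1, by rw [← pm_act, hv.2, act_zero]⟩, fun a p b q => h1 a p.1 b q.1, fun x hx => cz_iff.2 hx.2⟩
  obtain ⟨x, x1, x2⟩ := (Submodule.ne_bot_iff _).1 h0
  obtain ⟨g₁, b1⟩ := Bor.borel K x
  obtain ⟨g₂, b2⟩ := jord K _ b1
  rw [← act_mul] at b2
  obtain ⟨M, hM⟩ := Jor.pow_diag b2
  have h5 : ∀ k, pm^[k] x ≠ 0 := fun k => by
    induction k with
    | zero => exact x2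
    | succ k ih =>
      rw [Function.iterate_succ_apply']
      exact fun e' => e ⟨_, Submodule.subset_span ⟨k, x, x1, rfl⟩, ih, e'⟩
  obtain ⟨v, v1, v2, v3⟩ := exists_tor_T (V := pb (g₂ * g₁)⁻¹ (Submodule.span K S))
    (fun x hx => by rw [mem_pb, pm_act]; exact h4 _ hx) (y := act (g₂ * g₁) (pm^[M] x))
    (by rw [mem_pb, act_inv]; exact Submodule.subset_span ⟨M, x, x1, rfl⟩) (fun e' => h5 M (act_eq_zero e'))
    (inT_of_diag fun i j hij => by rw [pm_act_it, adm_pm_it]; exact hM M le_rfl i j hij)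
  obtain ⟨g, hg⟩ := torl K {x | x ∈ Submodule.span K S ∧ Tor x} (fun x hx => hx.2) fun a p b q => h1 a p.1 b q.1
  exact .inr ⟨g, Submodule.span K {x | x ∈ Submodule.span K S ∧ Tor x}, (Submodule.ne_bot_iff _).2
    ⟨act (g₂ * g₁)⁻¹ v, Submodule.subset_span ⟨mem_pb.1 v1, (tor_iff.2 v3).act _⟩, fun e' => v2 (act_eq_zero e')⟩,
    inv_span fun a x hx => ⟨h2 a x hx.1, hx.2.act _⟩, inT_span hg⟩

/-! ### the descent -/

variable {ψ : Alt 6 →* G8 K} {ι : K} {e h f e' h' f' : L8 K}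

omit [CharP K 3] in
theorem rp_br (a : Alt 6) (x y : L8 K) : rp ψ a (br x y) = br (rp ψ a x) (rp ψ a y) := act_br _ x y

theorem T3.prod (H : T3 (rp ψ) ι e h f) (H' : T3 (rp ψ) ι e' h' f') :
    T3 (rp ψ) ι (br h e' - br e h') (br f e' - br e f') (br f h' - br h f') where
  sq := H.sq
  ue := by
    simp only [map_sub, rp_br, H.ue, H.uh, H'.ue, H'.uh, br_add_left, br_add_right]
    abel
  uh := by
    simp only [map_sub, rp_br, H.ue, H.uf, H'.ue, H'.uf, br_add_left, br_add_right, br_sub_left, br_sub_right]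
    abel
  uf := by
    simp only [map_sub, rp_br, H.uh, H.uf, H'.uh, H'.uf, br_add_left, br_add_right, br_sub_left, br_sub_right]
    linear_combination (norm := module) Md.three (K := K) (br h e' - br e h')
  ye := by
    simp only [map_sub, rp_br, H.ye, H.yh, H'.ye, H'.yh, br_smul_left, br_smul_right]
    module
  yh := by
    simp only [map_sub, rp_br, H.ye, H.yf, H'.ye, H'.yf, br_smul_left, br_smul_right]
    linear_combination (norm := module) H.sq • (br e f' - br f e')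
  yf := by
    simp only [map_sub, rp_br, H.yh, H.yf, H'.yh, H'.yf, br_smul_left, br_smul_right]
    module
  de := by
    simp only [map_sub, rp_br, H.de, H.dh, H'.dh, H'.de, br_neg_l, br_neg_r]
    abel
  dh := by
    simp only [map_sub, rp_br, H.de, H.df, H'.de, H'.df, br_neg_l, br_neg_r]
    abel
  df := by
    simp only [map_sub, rp_br, H.dh, H.df, H'.dh, H'.df, br_neg_l, br_neg_r]
    abel

theorem Sl2.cen (S : Sl2 e h f) : ∀ x ∈ ({pm e, pm h - h, pm f} : Set (L8 K)), br x e = 0 ∧ br x h = 0 ∧ br x f = 0 := by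
  have a1 : br e h = (-2 : K) • e := by rw [br_anti, S.he, neg_smul]
  have a2 : br f h = (2 : K) • f := by rw [br_anti, S.hf, neg_smul, neg_neg]
  have a3 : br f e = -h := by rw [br_anti, S.ef]
  rintro _ (rfl | rfl | rfl) <;>
    simp only [br_sub_left, br_pm, br_self, br_zero_right, S.he, S.hf, S.ef, a1, a2, a3, br_smul_right, br_neg_r, smul_zero,
      neg_zero, sub_self, and_self, true_and]
  exact ⟨by linear_combination (norm := module) (2 * three_zero (K := K)) • e,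
    by linear_combination (norm := module) (-2 * three_zero (K := K)) • f⟩

theorem T3.pm (H : T3 (rp ψ) ι e h f) (S : Sl2 e h f) : T3 (rp ψ) (ι ^ 3) (pm e) (pm h - h) (pm f) := by
  have a0 : ∀ a x, rp ψ a (C63.pm x) = C63.pm (rp ψ a x) := fun a x => pm_act _ x
  have a1 : br e h = (-2 : K) • e := by rw [br_anti, S.he, neg_smul]
  have a2 : br f h = (2 : K) • f := by rw [br_anti, S.hf, neg_smul, neg_neg]
  have a3 : br f e = -h := by rw [br_anti, S.ef]
  refine ⟨by linear_combination (ι ^ 4 - ι ^ 2 + 1) * H.sq, by rw [a0, H.ue], ?_, ?_, by rw [a0, H.ye, pm_smul],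
    by rw [map_sub, a0, H.yh], by rw [a0, H.yf, pm_smul, show (-ι) ^ 3 = -ι ^ 3 by ring], by rw [a0, H.de, pm_neg],
    by rw [map_sub, a0, H.dh, pm_neg]; abel, by rw [a0, H.df, pm_neg]⟩
  · rw [map_sub, a0, H.uh, pm_add]
    simp only [S.he, a1, br_smul_right, br_self]
    linear_combination (norm := module) three_zero (K := K) • e
  · rw [a0, H.uf, sub_eq_add_neg, pm_add, pm_add, pm_neg]
    simp only [S.he, S.hf, S.ef, a1, a2, a3, br_smul_right, br_self, br_neg_l, br_neg_r, br_add_left, br_add_right]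
    linear_combination (norm := module) three_zero (K := K) • (h + (2 : K) • f - (2 : K) • e)

/-- **DESC** -/
theorem desc_of (hM : MODL.{u}) : DESC.{u} := fun K _ _ _ ψ hx Y C hY hC h0 hi hs => by
  rcases hM K ψ hx C h0 hi hs with ⟨ι, e, h, f, H, e0, e1, h1, f1⟩ | ⟨U, a1, a2⟩
  swap
  · exact .inl ⟨U, a1.trans hC, a2⟩
  let M : Submodule K (L8 K × L8 K × L8 K) :=
    { carrier := {v | T3 (rp ψ) ι v.1 v.2.1 v.2.2 ∧ v.1 ∈ C ∧ v.2.1 ∈ C ∧ v.2.2 ∈ C}
      zero_mem' := ⟨by constructor <;> simp [H.sq], zero_mem _, zero_mem _, zero_mem _⟩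
      add_mem' := fun {a b} ⟨p, p1, p2, p3⟩ ⟨q, q1, q2, q3⟩ => ⟨by
        constructor <;> simp only [H.sq, Prod.fst_add, Prod.snd_add, map_add, p.ue, p.uh, p.uf, p.ye, p.yh, p.yf, p.de,
          p.dh, p.df, q.ue, q.uh, q.uf, q.ye, q.yh, q.yf, q.de, q.dh, q.df] <;> module,
        add_mem p1 q1, add_mem p2 q2, add_mem p3 q3⟩
      smul_mem' := fun c a ⟨p, p1, p2, p3⟩ => ⟨by
        constructor <;> simp only [H.sq, Prod.smul_fst, Prod.smul_snd, map_smul, p.ue, p.uh, p.uf, p.ye, p.yh, p.yf, p.de,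
          p.dh, p.df] <;> module,
        C.smul_mem c p1, C.smul_mem c p2, C.smul_mem c p3⟩ }
  have : Nontrivial M := ⟨⟨⟨(e, h, f), H, e1, h1, f1⟩, 0, fun e' => e0 (congrArg (·.1.1) e')⟩⟩
  let B : M →ₗ[K] M →ₗ[K] M := LinearMap.mk₂ K
    (fun v w => ⟨(br v.1.2.1 w.1.1 - br v.1.1 w.1.2.1, br v.1.2.2 w.1.1 - br v.1.1 w.1.2.2,
      br v.1.2.2 w.1.2.1 - br v.1.2.1 w.1.2.2), v.2.1.prod w.2.1,
      sub_mem (hs _ v.2.2.2.1 _ w.2.2.1) (hs _ v.2.2.1 _ w.2.2.2.1), sub_mem (hs _ v.2.2.2.2 _ w.2.2.1) (hs _ v.2.2.1 _ w.2.2.2.2),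
      sub_mem (hs _ v.2.2.2.2 _ w.2.2.2.1) (hs _ v.2.2.2.1 _ w.2.2.2.2)⟩)
    (fun a b c => Subtype.ext (by simp [br_add_left, add_sub_add_comm]))
    (fun a b c => Subtype.ext (by simp [br_smul_left, smul_sub]))
    (fun a b c => Subtype.ext (by simp [br_add_right, add_sub_add_comm]))
    (fun a b c => Subtype.ext (by simp [br_smul_right, smul_sub]))
  obtain ⟨⟨⟨e, h, f⟩, H, e1, h1, f1⟩, v0, hv⟩ := alg K M B
  have e0 : e ≠ 0 := fun e' => v0 (Subtype.ext (Prod.ext e' (Prod.ext (H.zero e').1 (H.zero e').2)))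
  have b1 : br h e - br e h = -br h e := by rw [br_anti e h]; linear_combination (norm := module) Md.three (K := K) (br h e)
  have b2 : br f e - br e f = br e f := by rw [br_anti f e]; linear_combination (norm := module) -Md.three (K := K) (br e f)
  have b3 : br f h - br h f = br h f := by rw [br_anti f h]; linear_combination (norm := module) -Md.three (K := K) (br h f)
  rcases hv with hv | hv
  · have c1 : br h e = 0 := neg_eq_zero.1 (b1.symm.trans (congrArg (·.1.1) hv))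
    have c2 : br e f = 0 := b2.symm.trans (congrArg (·.1.2.1) hv)
    have c3 : br h f = 0 := b3.symm.trans (congrArg (·.1.2.2) hv)
    refine .inl ⟨Submodule.span K {e, h, f}, Submodule.span_le.2 ?_,
      (Submodule.ne_bot_iff _).2 ⟨e, Submodule.subset_span (by simp), e0⟩, (t3b K _ _ ι e h f H e0).2.1, ab_span ?_⟩
    · rintro _ (rfl | rfl | rfl)
      exacts [hC e1, hC h1, hC f1]
    · rintro _ (rfl | rfl | rfl) _ (rfl | rfl | rfl) <;>
        first | exact br_self _ | assumption | exact TwoH.br_comm_zero (by assumption)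
  have S : Sl2 e h f :=
    ⟨by linear_combination (norm := module) b1 - (congrArg (·.1.1) hv : br h e - br e h = e) - three_zero (K := K) • e,
      by linear_combination (norm := module) (congrArg (·.1.2.2) hv : br f h - br h f = f) - b3 + three_zero (K := K) • f,
      b2.symm.trans (congrArg (·.1.2.1) hv)⟩
  have H' := H.pm S
  by_cases c : pm e = 0
  · exact .inr ⟨ι, e, h, f, H, e0, ⟨S, cz_iff.2 c, cz_iff.2 (H'.zero c).2, tor_iff.2 (sub_eq_zero.1 (H'.zero c).1)⟩, e1, h1, f1⟩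
  refine .inl ⟨Submodule.span K {pm e, pm h - h, pm f}, Submodule.span_le.2 ?_,
    (Submodule.ne_bot_iff _).2 ⟨_, Submodule.subset_span (by simp), c⟩, (t3b K _ _ _ _ _ _ H' c).2.1, ab_span fun x hx => ?_⟩
  · rintro _ (rfl | rfl | rfl)
    exacts [hY.pm (hC e1), sub_mem (hY.pm (hC h1)) (hC h1), hY.pm (hC f1)]
  · obtain ⟨c1, c2, c3⟩ := S.cen x hx
    rintro _ (rfl | rfl | rfl)
    exacts [br_pm_zero c1, by rw [br_sub_right, br_pm_zero c2, c2, sub_self], br_pm_zero c3]

/-- **DESC** -/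
theorem desc : DESC.{u} := desc_of modl

end Cfsg.Agent.E8A.C63
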