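import Cfsg.Agent.E8A.C63.G2D

/-!
# `A₆` in characteristic 3: the endings (helper52)

`ea2 : EA2`, `e2a2 : E2A2`, `eex : EEX`, `en3 : EN3`, `g2ab : G2AB` (and `low : LOW` in `G2A`).
-/

set_option autoImplicit false
set_option maxRecDepth 100000
set_option maxHeartbeats 400000
set_option linter.unusedVariables false
set_option linter.unusedSectionVars false

namespace Cfsg.Agent.E8A.C63

open Cfsg Cfsg.Lie Module
open Cfsg.Agent.H288.E8L (Q8 wt wt_inl wt_inr)
open Cfsg.Agent.Tits.Roots (sr)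
open Cfsg.Agent.ChevalleyStructure.JacTab
open Cfsg.Agent.E8A.Kem (Ge mem_Ge)
open Cfsg.Agent.E8A.Reg5.Cls (ex)
open Cfsg.Agent.E8A.TwoH (br_anti br_self br_jac br_der br_zero_left br_zero_right br_comm_zero br_br_zero)
open Cfsg.Agent.E8A.C63.Sv

universe u

namespace G2

/-! ### the kernel checks -/

theorem ec_chk : ∀ x : chevE8.Idx, (cf e3 (ky x) = if wt x ∈ (SS 3).map (sr : Fin 8 → Q8) then 1 else 0) ∧
    (cf e8 (ky x) = if wt x ∈ (SS 8).map (sr : Fin 8 → Q8) then 1 else 0) ∧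
    cf e9 (ky x) = if wt x ∈ (SS 9).map (sr : Fin 8 → Q8) then 1 else 0 := by decide +kernel

theorem h_chk : ∀ i, Frm.B0 h3 (sr i) = ex (lab 3) (sr i) ∧ Frm.B0 h8 (sr i) = ex (lab 8) (sr i) ∧
    Frm.B0 h9 (sr i) = ex (lab 9) (sr i) := by decide +kernel

/-- the regular cocharacter of the torus of `G₂` -/
def mu : Q8 := ![0, 1, 0, 2, 0, 0, 0, 0]

/-- the root vectors -/
def gb (i : Fin 12) : SV := GR.getD i.val []

/-- their degrees -/
def gd : Fin 12 → ℤ := ![-8, -7, -5, -3, -2, -1, 2, 1, 3, 5, 7, 8]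

/-- the four triangles -/
def col : Fin 12 → Fin 4 := ![0, 1, 2, 3, 3, 1, 2, 0, 2, 3, 0, 1]

theorem gb_chk : ∀ i : Fin 12, dgE mu (gd i) (gb i) = true ∧ nzK (gb i) = true ∧
    (∀ b ∈ GB, b = gb i ∨ allK (fun k => !intZ (Int.sub (dg mu k) (gd i))) b = true) ∧
    ∀ j, col i = col j → i ≠ j → nzK (brS (gb i) (gb j)) = true := by decide +kernel

theorem gr_chk : (∀ b ∈ GR, ∃ i, b = gb i) ∧ ∀ b ∈ GT, allK (Nat.ble 240) b = true := by decide +kernel

variable {K : Type u} [Field K] [CharP K 3] {ψ : Alt 6 →* G8 K} {v : L8 K}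

theorem ec3 : ec K 3 = sv K e3 := funext fun x => by
  rw [cf_eq, (ec_chk x).1, apply_ite (Int.cast : ℤ → K), Int.cast_one, Int.cast_zero]
  rfl

theorem ec8 : ec K 8 = sv K e8 := funext fun x => by
  rw [cf_eq, (ec_chk x).2.1, apply_ite (Int.cast : ℤ → K), Int.cast_one, Int.cast_zero]
  rfl

theorem ec9 : ec K 9 = sv K e9 := funext fun x => by
  rw [cf_eq, (ec_chk x).2.2, apply_ite (Int.cast : ℤ → K), Int.cast_one, Int.cast_zero]
  rfl

theorem mem_Eq_cast {y : Q8} {c : ℝ} (d : ℤ) (h : v ∈ LS K (Eq' (cl y) c)) (e : (d : ℝ) = c := by norm_num) :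
    v ∈ LS K (Eq' (cl y) (d : ℝ)) := e ▸ h

theorem sv_Eq {y : Q8} {c : ℝ} (d : ℤ) {l : SV} (h : dgE y d l = true) (e : (d : ℝ) = c := by norm_num) :
    sv K l ∈ LS K (Eq' (cl y) c) := e ▸ sv_mem_Eq h

theorem spn_Eq {y : Q8} {c : ℝ} (d : ℤ) {B : List SV} (h : allL (dgE y d) B = true) (e : (d : ℝ) = c := by norm_num) :
    spn K B ≤ LS K (Eq' (cl y) c) := spn_le fun b hb => sv_Eq d (allL_spec h b hb) e

theorem cen_comm {U W : Submodule K (L8 K)} (h : U ≤ cen (W : Set (L8 K))) : W ≤ cen (U : Set (L8 K)) :=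
  fun w hw u hu => br_comm_zero (h hu w hw)

theorem mem_cen_spn {X : List SV} (h : ∀ x ∈ X, br (sv K x) v = 0) : v ∈ cen (spn K X : Set (L8 K)) := by
  rw [spn, cen_span]
  rintro _ ⟨x, hx, rfl⟩
  exact h x hx

theorem mem_cen3 {e h f : L8 K} : v ∈ cen (Submodule.span K {e, h, f} : Set (L8 K)) ↔
    br e v = 0 ∧ br h v = 0 ∧ br f v = 0 := by
  rw [cen_span, mem_cen]
  simp

/-! ### the algebra `G₂` -/

theorem minG : Min (spn K GB) (sv K sG) :=
  min_of_chk (x := [(164, 1), (137, 1), (132, 1)]) (k := 91) (P := PG) (O := OG) (by decide +kernel) (by decide +kernel)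
    (by decide +kernel) (by decide +kernel) (by decide +kernel) (by decide +kernel) (by norm_num) (by decide +kernel)

theorem finrank_G : 14 ≤ finrank K (spn K GB) := le_finrank_spn (B := GB) (by decide +kernel)

theorem lowEnd_of {c : Submodule K (L8 K)} (hc : Inv ψ c) (h1 : spn K GB ≤ c)
    (h2 : c ≤ spn K GB ⊔ cen (spn K GB : Set (L8 K))) (hd : finrank K c < 42) : LowEnd ψ := by
  have h3 := finrank_G (K := K)
  obtain ⟨n, hn⟩ := exists_YD (K := K)
  refine ⟨n, spn K GB, fun e => ?_, minG.split hc h1 h2 (by omega), minG.sa, fun x hx => hn x (LS_mono (fun a ha => ?_)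
    (spn_Eq (y := y4) (c := 0) 0 (by decide +kernel) (by norm_num) hx))⟩
  · rw [e, finrank_bot] at h3
    omega
  · exact Int.cast_eq_zero.1 (mem_Eq.1 ha)

/-- the partner is unique -/
theorem f_eq {e f' h : SV} {y : Q8} {D : List ℕ} {R : List (List ℕ)} (hc : cert [e] (okE y (-2)) [] D R = true)
    (h1 : dgE y (-2) f' = true) (h2 : eq3 (br0 e f') h = true) {f : L8 K} (hf : f ∈ LS K (Eq' (cl y) (-2)))
    (h3 : br (sv K e) f = sv K h) : f = sv K f' := by
  have h4 := mem_of_cert (v := f - sv K f') hc (fun x hx => by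
    rw [List.mem_singleton.1 hx, br_sub_right, h3, br_of_eq3 h2, sub_self])
    (okE_spec (sub_mem (mem_Eq_cast (-2) hf) (sv_mem_Eq h1)))
  rwa [spn_nil, Submodule.mem_bot, sub_eq_zero] at h4

theorem spn_le_cen3 {e f : SV} {B : List SV} (h : comm [e, f] B = true) :
    spn K B ≤ cen (Submodule.span K {sv K e, br (sv K e) (sv K f), sv K f} : Set (L8 K)) := fun v hv => by
  have h1 := comm_spec (K := K) h hv
  have h2 := h1 _ (sv_mem_spn (b := e) (by simp))
  have h3 := h1 _ (sv_mem_spn (b := f) (by simp))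
  exact mem_cen3.2 ⟨h2, br_comm_zero (br_br_zero (br_comm_zero h2) (br_comm_zero h3)), h3⟩

theorem mem_two {e f : SV} (h1 : br (sv K e) v = 0) (h2 : br (sv K f) v = 0) : ∀ x ∈ [e, f], br (sv K x) v = 0 := by
  simpa using ⟨h1, h2⟩

theorem z_mem : sv K z1 ∈ KK K 9 ∧ sv K z2 ∈ KK K 9 :=
  ⟨⟨mem_cen_one.2 (by rw [ec9]; exact br_of_z3 (by decide +kernel)), sv_Eq (-1) (by decide +kernel)⟩,
    ⟨mem_cen_one.2 (by rw [ec9]; exact br_of_z3 (by decide +kernel)), sv_Eq (-1) (by decide +kernel)⟩⟩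

theorem mem_three (h1 : br (ec K 9) v = 0) (h2 : ∀ s ∈ KK K 9, br s v = 0) : ∀ x ∈ [e9, z1, z2], br (sv K x) v = 0 := by
  simpa using ⟨ec9 (K := K) ▸ h1, h2 _ z_mem.1, h2 _ z_mem.2⟩

/-! ### leading terms in `G₂` -/

theorem pj_root (hv : v ∈ spn K GB) (i : Fin 12) : ∃ c : K, pj (Eq' (cl mu) (gd i)) v = c • sv K (gb i) := by
  have h : spn K GB ≤ (Submodule.span K {sv K (gb i)}).comap (pj (Eq' (cl mu) (gd i))) := spn_le fun b hb => by
    rw [Submodule.mem_comap]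
    rcases (gb_chk i).2.2.1 b hb with rfl | h
    · rw [pj_of_mem (sv_mem_Eq (gb_chk i).1)]
      exact Submodule.mem_span_singleton_self _
    · have h1 : ∀ k, (!intZ (Int.sub (dg mu k) (gd i))) = true → wk k ∈ (Eq' (cl mu) (gd i))ᶜ := fun k hk e => by
        rw [mem_Eq, cl_apply, ← dg_eq, Int.cast_inj] at e
        rw [show Int.sub (dg mu k) (gd i) = 0 from sub_eq_zero.2 e] at hk
        cases hk
      rw [pj_eq_zero (sv_mem h1 h) fun a ha => ha]
      exact zero_mem _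
  obtain ⟨c, hc⟩ := Submodule.mem_span_singleton.1 (h hv)
  exact ⟨c, hc.symm⟩

theorem pj_tor (hv : v ∈ spn K GB) {d : ℝ} (hd : ∀ i, (gd i : ℝ) ≠ d) : InT (pj (Eq' (cl mu) d) v) := by
  have h : spn K GB ≤ (LS K {0}).comap (pj (Eq' (cl mu) d)) := spn_le fun b hb => by
    rw [Submodule.mem_comap]
    rcases List.mem_append.1 hb with hb | hb
    · obtain ⟨i, rfl⟩ := gr_chk.1 b hb
      rw [pj_eq_zero (sv_mem_Eq (gb_chk i).1) fun a ha e => hd i ((mem_Eq.1 ha).symm.trans (mem_Eq.1 e))]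
      exact zero_mem _
    · refine pj_LS (sv_mem_of fun q hq => inT_iff.1 fun r => if_neg fun e => ?_) _
      have h1 : 240 ≤ q.1 := Nat.le_of_ble_eq_true (allK_spec (gr_chk.2 b hb) q hq)
      have h2 : r.val < 240 := nroots8 ▸ r.2
      rw [ky_inr] at e
      omega
  exact inT_iff.2 (h hv)

theorem ab_le {U : Submodule K (L8 K)} (hU : U ≤ spn K GB) (ha : Ab U) (hc : ∀ x ∈ U, Cz x) : finrank K U ≤ 4 := by
  classical
  let P : Finset (Fin 12) := Finset.univ.filter fun i =>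
    ∃ u ∈ U, u ∈ LS K (Ge (cl mu) (gd i)) ∧ pj (Eq' (cl mu) (gd i)) u ≠ 0
  have h1 : P.card ≤ 4 := by
    refine (Finset.card_le_card_of_injOn col (t := Finset.univ) (fun _ _ => Finset.mem_univ _) fun i hi j hj e => ?_).trans
      (by simp)
    by_contra e'
    obtain ⟨u, hu, h2, h3⟩ := (Finset.mem_filter.1 hi).2
    obtain ⟨w, hw, h4, h5⟩ := (Finset.mem_filter.1 hj).2
    obtain ⟨c, h6⟩ := pj_root (hU hu) i
    obtain ⟨c', h7⟩ := pj_root (hU hw) j
    have h8 := pj_br h2 h4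
    rw [ha u hu w hw, map_zero, h6, h7, br_smul_left, br_smul_right, br_sv] at h8
    rw [h6] at h3
    rw [h7] at h5
    exact smul_ne_zero (left_ne_zero_of_smul h3) (smul_ne_zero (left_ne_zero_of_smul h5)
      (ne_zero_of_nzK ((gb_chk i).2.2.2 j e e'))) h8.symm
  choose ix hix using fun i : Fin 12 => Function.ne_iff.1 (ne_zero_of_nzK (K := K) (gb_chk i).2.1)
  let Φ : U →ₗ[K] (P → K) := (LinearMap.pi fun i : P => LinearMap.proj (ix i.1)).comp U.subtype
  have h2 : Function.Injective Φ := (injective_iff_map_eq_zero Φ).2 fun u h => by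
    by_contra h0
    obtain ⟨j, hj, h3⟩ := Finset.exists_min_image (Finset.univ.filter fun j => u.1 j ≠ 0) (fun j => cl mu (wt j)) (by
      obtain ⟨j, hj⟩ := Function.ne_iff.1 (fun e => h0 (Subtype.ext e) : u.1 ≠ 0)
      exact ⟨j, Finset.mem_filter.2 ⟨Finset.mem_univ _, hj⟩⟩)
    have h4 : u.1 ∈ LS K (Ge (cl mu) (cl mu (wt j))) := fun i hi =>
      mem_Ge.2 (h3 i (Finset.mem_filter.2 ⟨Finset.mem_univ _, hi⟩))
    have h5 : pj (Eq' (cl mu) (cl mu (wt j))) u.1 ≠ 0 := fun e => (Finset.mem_filter.1 hj).2 (by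
      rw [← pj_pos (A := Eq' (cl mu) (cl mu (wt j))) u.1 rfl, e]; rfl)
    by_cases h6 : ∃ i, (gd i : ℝ) = cl mu (wt j)
    · obtain ⟨i, h6⟩ := h6
      rw [← h6] at h4 h5
      have h7 : u.1 (ix i) = 0 := congrFun h ⟨i, Finset.mem_filter.2 ⟨Finset.mem_univ _, u.1, u.2, h4, h5⟩⟩
      obtain ⟨c, h8⟩ := pj_root (hU u.2) i
      have h9 := congrFun h8 (ix i)
      rw [pj_pos _ (sv_mem_Eq (gb_chk i).1 _ (hix i)), h7, Pi.smul_apply, smul_eq_mul] at h9
      rw [h8, (mul_eq_zero.1 h9.symm).resolve_right (hix i), zero_smul] at h5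
      exact h5 rfl
    have h7 := pj_tor (hU u.2) fun i e => h6 ⟨i, e⟩
    by_cases h8 : cl mu (wt j) = 0
    · rw [h8] at h4 h5 h7
      exact h5 (lead_zero h4 (hc _ u.2) h7)
    · exact h5 (eq_zero_of_LS (inT_iff.1 h7) (pj_mem _ _) fun a ha e => h8 (by
        rw [← mem_Eq.1 e, Set.mem_singleton_iff.1 ha, map_zero]))
  have h3 := LinearMap.finrank_le_finrank_of_injective h2
  rw [Module.finrank_fintype_fun_eq_card, Fintype.card_coe] at h3
  omega

/-! ### the exotic case -/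

theorem neg_mem_T (h : br (sv K e9) v = 0) (h' : v ∈ LS K {a | cl (labx 9) a < 0}) : v ∈ spn K TB :=
  mem_of_cert ct_xt (fun x hx => by rwa [List.mem_singleton.1 hx]) (okN_spec h')

theorem zero_part {c : K} (hc : c ≠ 0) : ∃ y ∈ cen (spn K GB : Set (L8 K)), ∀ v ∈ LS K (Eq' (cl (labx 9)) 0),
    br (sv K e9) v = 0 → br (sv K (hv h9) + c • sv K z1) v = 0 → ∃ g ∈ spn K GB, ∃ a : K, v = g + a • y := by
  obtain ⟨t, ht, h⟩ := exists_tor (inv_ne_zero hc) (sr 6)
  have h1 : ∀ l, dgE (sr 6) 0 l = true → act t (sv K l) = sv K l := fun l hl => by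
    rw [h 0 _ (sv_mem_Eq hl), zpow_zero, one_smul]
  have h2 : ∀ g ∈ spn K GB, act t g = g := fun g hg => by
    rw [h 0 _ (spn_Eq (B := GB) 0 (by decide +kernel) rfl hg), zpow_zero, one_smul]
  have h3 : act t (sv K (hv h9) + c • sv K z1) = sv K (hv h9 ++ z1) := by
    rw [act_add, act_smul, h1 _ (by decide +kernel), h 1 _ (sv_mem_Eq (l := z1) (by decide +kernel)), zpow_one, smul_smul,
      mul_inv_cancel₀ hc, one_smul, sv_append]
  refine ⟨act t⁻¹ (sv K yv), fun x hx => act_eq_zero (g := t) ?_, fun v hv h4 h5 => ?_⟩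
  · rw [act_br, act_inv', h2 x hx]
    exact comm_spec (X := GB) (Y := [yv]) (by decide +kernel) (sv_mem_spn (by simp)) x hx
  have h6 := mem_of_cert (v := act t v) ct_x0 (mem_two (by rw [← h1 e9 (by decide +kernel), ← act_br, h4, act_zero])
    (by rw [← h3, ← act_br, h5, act_zero])) (okE_spec (mem_Eq_cast 0 (ht _ v hv)))
  rw [spn_append] at h6
  obtain ⟨g, hg, w, hw, e⟩ := Submodule.mem_sup.1 h6
  obtain ⟨a, rfl⟩ := mem_spn_one hw
  exact ⟨g, hg, a, act_injective t (by rw [act_add, act_smul, act_inv', h2 g hg, e])⟩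

theorem act_pos {d : G8 K} {l : Q8 →+ ℝ} (hd : ∀ c, ∀ v ∈ LS K (Eq' l c), act d v ∈ LS K (Eq' l (-c)))
    (hv : v ∈ LS K {a | 0 < l a}) : act d v ∈ LS K {a | l a < 0} :=
  mulVec_LS (fun i j hij hj => by
    have h1 := mem_Eq.1 (hd _ (ee K j) (ee_mem_LS rfl) i (by rwa [act_ee]))
    show l (wt i) < 0
    rw [h1]
    exact neg_lt_zero.2 hj) hv

theorem three_parts (l : Q8 →+ ℝ) (v : L8 K) :
    v = pj {a | l a < 0} v + pj {a | l a = 0} v + pj {a | 0 < l a} v := funext fun i => by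
  rw [Pi.add_apply, Pi.add_apply]
  rcases lt_trichotomy (l (wt i)) 0 with h | h | h
  · rw [pj_pos (A := {a | l a < 0}) v h, pj_neg (A := {a | l a = 0}) v h.ne, pj_neg (A := {a | 0 < l a}) v h.not_gt]
    simp
  · rw [pj_neg (A := {a | l a < 0}) v h.not_lt, pj_pos (A := {a | l a = 0}) v h, pj_neg (A := {a | 0 < l a}) v h.not_gt]
    simp
  · rw [pj_neg (A := {a | l a < 0}) v h.not_gt, pj_neg (A := {a | l a = 0}) v h.ne', pj_pos (A := {a | 0 < l a}) v h]
    simp

end G2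

open G2

/-- **EA2** -/
theorem ea2 : EA2.{u} := fun K _ _ ψ hx h f hh hf hb hi => by
  rw [ec3] at hb hi
  obtain rfl := f_eq (f' := f3) ct_f3 (by decide +kernel) (by decide +kernel) hf (hb.trans (isH_eq hh fun i => (h_chk i).1))
  subst hb
  have h1 := inv_cen hi
  have h2 := inv_cen h1
  have h3 : sv K zc ∈ cen (Submodule.span K {sv K e3, br (sv K e3) (sv K f3), sv K f3} : Set (L8 K)) :=
    spn_le_cen3 (B := [zc]) (by decide +kernel) (sv_mem_spn (by simp))
  have h4 : sv K zc ∈ cen (cen (Submodule.span K {sv K e3, br (sv K e3) (sv K f3), sv K f3} : Set (L8 K)) : Set (L8 K)) :=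
    fun s hs => comm_spec (X := E6) (Y := [zc]) (by decide +kernel) (sv_mem_spn (by simp)) s
      (mem_of_cert' ct_c3 (mem_two (mem_cen3.1 hs).1 (mem_cen3.1 hs).2.2))
  refine ne_zero_of_nzK (K := K) (l := zc) (by decide +kernel) (hx _ (line_fix (rp ψ) fun a => mem_spn_one
    (mem_of_cert' ct_z3 fun x hx => ?_)))
  rcases List.mem_append.1 hx with hx | hx
  · exact mem_two (mem_cen3.1 (h1 a _ h3)).1 (mem_cen3.1 (h1 a _ h3)).2.2 x hx
  · exact h2 a _ h4 _ (spn_le_cen3 (B := E6g) (by decide +kernel) (sv_mem_spn hx))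

/-- **E2A2** -/
theorem e2a2 : E2A2.{u} := fun K _ _ ψ h f hh hf hb hi => by
  rw [ec8] at hb hi
  obtain rfl := f_eq (f' := f8) ct_f8 (by decide +kernel) (by decide +kernel) hf (hb.trans (isH_eq hh fun i => (h_chk i).2.1))
  subst hb
  have h1 : cen (Submodule.span K {sv K e8, br (sv K e8) (sv K f8), sv K f8} : Set (L8 K)) ≤ spn K (GB ++ GC) :=
    fun s hs => mem_of_cert' ct_c8 (mem_two (mem_cen3.1 hs).1 (mem_cen3.1 hs).2.2)
  refine lowEnd_of (inv_cen hi) (spn_le_cen3 (by decide +kernel)) (h1.trans ?_)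
    (((Submodule.finrank_mono h1).trans (finrank_spn_le _)).trans_lt (by decide))
  rw [spn_append]
  exact sup_le_sup_left (comm_spec (by decide +kernel)) _

/-- **EN3** -/
theorem en3 : EN3.{u} := fun K _ _ ψ hi => by
  have h0 : spn K [e9, z1, z2] ≤ cen (spn K GB : Set (L8 K)) := comm_spec (by decide +kernel)
  have h1 : cen ((Submodule.span K {ec K 9} ⊔ KK K 9 : Submodule K (L8 K)) : Set (L8 K)) ≤ spn K (GB ++ [e9, z1, z2]) :=
    fun s hs => mem_of_cert' ct_w9 (mem_three (hs _ (Submodule.mem_sup_left (Submodule.mem_span_singleton_self _)))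
      fun x hx => hs _ (Submodule.mem_sup_right hx))
  refine lowEnd_of (inv_cen hi) (cen_comm (le_trans (sup_le ?_ fun v hv => ?_) h0)) (h1.trans ?_)
    (((Submodule.finrank_mono h1).trans (finrank_spn_le _)).trans_lt (by decide))
  · rw [Submodule.span_singleton_le_iff_mem, ec9]
    exact sv_mem_spn (by simp)
  · exact spn_le (fun b hb => sv_mem_spn (List.mem_cons_of_mem _ hb)) (mem_of_cert ct_k9 (fun x hx => by
      rw [List.mem_singleton.1 hx, ← ec9]
      exact mem_cen_one.1 hv.1) (okE_spec (mem_Eq_cast (-1) hv.2)))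
  · rw [spn_append]
    exact sup_le_sup_left h0 _

/-- **G2AB** -/
theorem g2ab : G2AB.{u} := fun K _ _ U hU ha hc =>
  (ab_le (fun v hv => mem_of_cert ct_g9 (mem_three ((hU hv).1 _ (Or.inl rfl)) fun s hs => (hU hv).1 s (Or.inr hs))
    (okE_spec (mem_Eq_cast 0 (hU hv).2))) ha hc).trans (by norm_num)

/-- **EEX** -/
theorem eex : EEX.{u} := fun K _ _ _ ψ h₀ z f d hh hz h0 hz' hf hb hi d1 d2 d3 hd => by
  obtain ⟨c, rfl⟩ := mem_spn_one (mem_of_cert ct_x1 (v := z) (fun x hx => by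
    rw [List.mem_singleton.1 hx, ← ec9]
    exact mem_cen_one.1 hz.1) fun k hk => by
      rcases Bool.or_eq_true _ _ ▸ hk with hk | hk
      · exact okE_spec (mem_Eq_cast (-1) hz.2) k hk
      · exact okE_spec (mem_Eq_cast 0 hz') k hk)
  obtain rfl := isH_eq hh fun i => (h_chk i).2.2
  rw [ec9] at hb hi d1 d3
  obtain ⟨y, hy, hy'⟩ := zero_part (left_ne_zero_of_smul h0)
  set h := sv K (hv h9) + c • sv K z1 with hh'
  set C := cen (Submodule.span K {sv K e9, h, f} : Set (L8 K)) with hC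
  have hT : spn K TB ≤ cen (spn K GB : Set (L8 K)) := comm_spec (by decide +kernel)
  have hG : spn K GB ≤ LS K (Eq' (cl (labx 9)) 0) := spn_Eq 0 (by decide +kernel)
  have h1 : spn K [e9, hv h9, z1] ≤ cen (spn K GB : Set (L8 K)) := comm_spec (by decide +kernel)
  have h2 : sv K e9 ∈ cen (spn K GB : Set (L8 K)) := h1 (sv_mem_spn (by simp))
  have h3 : h ∈ cen (spn K GB : Set (L8 K)) :=
    add_mem (h1 (sv_mem_spn (by simp))) (Submodule.smul_mem _ _ (h1 (sv_mem_spn (by simp))))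
  have h4 : f ∈ cen (spn K GB : Set (L8 K)) := minG.kill fun x hx => hT (neg_mem_T
    (by rw [br_der, br_comm_zero (h2 x hx), br_zero_left, hb, h3 x hx, add_zero])
    (br_LS (fun a ha b hb => by
      show cl (labx 9) (a + b) < 0
      rw [map_add, mem_Eq.1 ha, mem_Eq.1 hb]
      norm_num) (hG hx) hf))
  have h5 : spn K GB ≤ C := fun x hx =>
    mem_cen3.2 ⟨br_comm_zero (h2 x hx), br_comm_zero (h3 x hx), br_comm_zero (h4 x hx)⟩
  have h6 : ∀ v ∈ C, act d v ∈ C := fun v hv => by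
    obtain ⟨e1, e2, e3⟩ := mem_cen3.1 hv
    refine mem_cen3.2 ⟨?_, ?_, ?_⟩
    · rw [← neg_neg (sv K e9), ← d3, ← act_neg, ← act_br, ← neg_one_smul K f, br_smul_left, e3, smul_zero, act_zero]
    · rw [← neg_neg h, ← d2, ← act_neg, ← act_br, ← neg_one_smul K h, br_smul_left, e2, smul_zero, act_zero]
    · rw [← neg_neg f, ← d1, ← act_neg, ← act_br, ← neg_one_smul K (sv K e9), br_smul_left, e1, smul_zero, act_zero]
  have h7 : ∀ v ∈ C, ∀ P : ℝ → Prop, pj {a | P (cl (labx 9) a)} v ∈ C := fun v hv P => by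
    obtain ⟨e1, e2, e3⟩ := mem_cen3.1 hv
    exact mem_cen3.2 ⟨br_pj (k := 2) (sv_Eq 2 (by decide +kernel)) e1 P,
      br_pj (add_mem (sv_Eq 0 (by decide +kernel)) hz') e2 P, br_pj hf e3 P⟩
  have h8 : ∀ x ∈ spn K GB, ∃ g ∈ spn K GB, ∃ a : K, act d x = g + a • y := fun x hx =>
    hy' _ (by simpa using hd 0 x (hG hx)) (mem_cen3.1 (h6 x (h5 hx))).1 (mem_cen3.1 (h6 x (h5 hx))).2.1
  have h9 : spn K GB ≤ pb d (spn K GB) := minG.perf.trans (Submodule.span_le.2 (by
    rintro _ ⟨x, hx, x', hx', rfl⟩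
    obtain ⟨g, hg, a, e⟩ := h8 x hx
    obtain ⟨g', hg', a', e'⟩ := h8 x' hx'
    show act d _ ∈ spn K GB
    rw [act_br, e, e', br_add_left, br_add_right, br_add_right, br_smul_right, br_smul_right, br_smul_left, br_smul_left,
      hy g hg, br_comm_zero (hy g' hg'), br_self]
    simpa using minG.sa g hg g' hg'))
  have h10 : C ≤ spn K TB ⊔ (spn K GB ⊔ Submodule.span K {y}) ⊔ pb d (spn K TB) := fun v hv => by
    rw [three_parts (cl (labx 9)) v]
    refine Submodule.add_mem_sup (Submodule.add_mem_sup (neg_mem_T (mem_cen3.1 (h7 v hv (· < 0))).1 (pj_mem _ v)) ?_)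
      (neg_mem_T (mem_cen3.1 (h6 _ (h7 v hv (0 < ·)))).1 (act_pos hd (pj_mem _ v)))
    obtain ⟨g, hg, a, e⟩ := hy' _ (pj_mem _ v) (mem_cen3.1 (h7 v hv (· = 0))).1 (mem_cen3.1 (h7 v hv (· = 0))).2.1
    exact e ▸ Submodule.add_mem_sup hg (Submodule.smul_mem _ _ (Submodule.mem_span_singleton_self _))
  refine lowEnd_of (inv_cen hi) h5 (h10.trans (sup_le (sup_le (hT.trans le_sup_right) (sup_le_sup_left
    ((Submodule.span_singleton_le_iff_mem _ _).2 hy) _)) (le_sup_of_le_right fun v hv x hx => act_eq_zero (g := d) ?_))) ?_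
  · rw [act_br]
    exact hT hv _ (h9 hx)
  have e1 := Submodule.finrank_mono h10
  have e2 := Submodule.finrank_add_le_finrank_add_finrank (spn K TB ⊔ (spn K GB ⊔ Submodule.span K {y})) (pb d (spn K TB))
  have e3 := Submodule.finrank_add_le_finrank_add_finrank (spn K TB) (spn K GB ⊔ Submodule.span K {y})
  have e4 := Submodule.finrank_add_le_finrank_add_finrank (spn K GB) (Submodule.span K {y})
  have e5 : finrank K (Submodule.span K {y}) ≤ 1 := by simpa using finrank_span_le_card ({y} : Set (L8 K))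
  have e6 : finrank K (spn K TB) ≤ 3 := finrank_spn_le TB
  have e7 : finrank K (spn K GB) ≤ 14 := finrank_spn_le GB
  rw [finrank_pb] at e2
  show finrank K C < 42
  omega

end Cfsg.Agent.E8A.C63
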