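import Cfsg.Agent.E8A.C63.StrD

/-!
# The box STR (helper55)

* `ec_eq : ec K c = sv K (eS c)`;
* `sb K c p` (`p < 248`) : the basis of strings of the class `c`, `tp c p` : the tops, `bot (tp c) p` : the bottoms,
  `sw c p` : a weight of `sb K c p`; `sbc`, `hmc` (homogeneous for every cocharacter which is constant on `SS c`), `splitc`;
* `KK9`, `KK10`, `KK_bot` : the spaces `KK`; `C63.str`.
-/

set_option autoImplicit false
set_option maxRecDepth 100000

namespace Cfsg.Agent.E8A.C63.Sv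

open Cfsg Cfsg.Lie Module Finset
open Cfsg.Agent.H288.E8L (Q8 wt)
open Cfsg.Agent.Tits.Roots (sr)
open Cfsg.Agent.ChevalleyStructure.JacTab (intZ eq_zero_of_intZ)
open Cfsg.Agent.E8A.Kem (Ge)
open Cfsg.Agent.E8A.Reg5.Cls (ex)

universe u

/-- the keys of the simple roots -/
def sk : Fin 8 → ℕ := ![162, 141, 135, 130, 126, 123, 121, 120]

theorem wk_sk : ∀ i : Fin 8, wk (sk i) = sr i := by decide +kernel

theorem sk_lt : ∀ i : Fin 8, sk i < 248 := by decide

theorem sr_ne : ∀ i : Fin 8, (sr i : Q8) ≠ 0 := by decide +kernel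

theorem cf_eS : ∀ c : Fin 11, ∀ k < 248, cf (eS c) k = if k ∈ (SS c).map sk then 1 else 0 := by decide +kernel

theorem mS_spec : ∀ (c : Fin 11) (i : Fin 8), (mS c).testBit i.val = true → i ∈ SS c := by decide +kernel

theorem lab_SS : ∀ c : Fin 11, ∀ i ∈ SS c, ex (lab c) (sr i) = 2 := by decide +kernel

theorem labx_SS : ∀ c : Fin 11, 9 ≤ c.val → ∀ i ∈ SS c, ex (labx c) (sr i) = 2 := by decide +kernel

theorem nm_lab : ∀ c : Fin 11, Two.nm (lab c) = nrc c := by decide +kernel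

theorem nm_labx : ∀ c : Fin 11, 9 ≤ c.val → Two.nm (labx c) = nrc c + 6 := by decide +kernel

/-- the tops -/
def tp (c : Fin 11) : ℕ → Bool := Nat.testBit (MN c)

/-- the key of the first entry -/
noncomputable def hk (c : Fin 11) (p : ℕ) : ℕ := hd (vv (BN c) p)

/-- a weight of the vector -/
noncomputable def sw (c : Fin 11) (p : ℕ) : Q8 := wk (hk c p)

/-- the degree of the vector -/
noncomputable def ld (c : Fin 11) (p : ℕ) : ℤ := dg (lab c) (hk c p)

theorem len_le : ∀ c : Fin 11, ∀ p < 248, tp c p = true ∨ tp c (p + 1) = true ∨ tp c (p + 2) = true := by decide +kernel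

theorem card_tp : ∀ c : Fin 11, ((range 248).filter fun p => tp c p = true).card = cdc c := by decide +kernel

theorem ld_top : ∀ c : Fin 11, ∀ p < 248, tp c p = true → (if c.val ≤ 8 then 0 else -1) ≤ ld c p := by decide +kernel

theorem ld_bot : ∀ c : Fin 11, ∀ p < 248, bot (tp c) p = true → ld c p ≤ (if c.val ≤ 8 then 0 else 1) := by decide +kernel

theorem filt_K : ∀ c : Fin 11, ((range 248).filter fun p => tp c p = true ∧ ld c p = -1) =
    if c.val ≤ 8 then ∅ else if c.val = 9 then {51, 183} else {51, 90, 144, 183} := by decide +kernel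

/-- the basis of `KK` -/
def k0 : SV := [(50, -1), (52, 1), (58, -1), (59, -1), (79, -1)]

/-- the basis of `KK` -/
def k1 : SV := [(70, 1), (74, -1), (91, 1), (95, -1), (101, 1)]

/-- the basis of `KK` -/
def k2 : SV := [(132, 1), (137, 1), (143, 1), (147, 1), (164, 1)]

variable {K : Type u} [Field K]

variable (K) in
/-- the basis of strings -/
noncomputable def sb (c : Fin 11) (p : ℕ) : L8 K := sv K (vv (BN c) p)

theorem ec_eq (c : Fin 11) : ec K c = sv K (eS c) := by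
  funext x
  have h : wt x ∈ (SS c).map (sr : Fin 8 → Q8) ↔ ky x ∈ (SS c).map sk := by
    simp only [List.mem_map]
    refine exists_congr fun i => and_congr_right fun _ => ⟨fun h => ?_, fun h => by rw [← wk_ky, ← h, wk_sk]⟩
    obtain ⟨z, hz⟩ := ky_surj (sk_lt i)
    have h1 : wt z = sr i := by rw [← wk_ky, hz, wk_sk]
    rw [← hz, H288.E8L.wt_inj (h1.trans h) (h1 ▸ sr_ne i)]
  rw [cf_eq, cf_eS c _ (ky_lt x), ec]
  by_cases h1 : ky x ∈ (SS c).map sk
  · rw [if_pos h1, if_pos (h.2 h1), Int.cast_one]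
  · rw [if_neg h1, if_neg fun h2 => h1 (h.1 h2), Int.cast_zero]

theorem ec_mem {c : Fin 11} {κ : Q8 →+ ℝ} {δ : ℝ} (hκ : ∀ i ∈ SS c, κ (sr i) = δ) : ec K c ∈ LS K (Eq' κ δ) := by
  refine mem_LS.2 fun x hx => ?_
  have h : wt x ∈ (SS c).map (sr : Fin 8 → Q8) := by
    by_contra h
    exact hx (if_neg h)
  obtain ⟨i, hi, h1⟩ := List.mem_map.1 h
  rw [mem_Eq, ← h1, hκ i hi]

theorem hmc (c : Fin 11) {κ : Q8 →+ ℝ} {δ : ℝ} (hκ : ∀ i ∈ SS c, κ (sr i) = δ) : Hm (sb K c) κ fun p => κ (sw c p) :=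
  chkH_sound (hom_all c) fun i hi => hκ i (mS_spec c i hi)

theorem cl_lab (c : Fin 11) : ∀ i ∈ SS c, cl (lab c) (sr i) = 2 := fun i hi => by
  rw [cl_apply, lab_SS c i hi]; norm_num

theorem cl_labx {c : Fin 11} (h : 9 ≤ c.val) : ∀ i ∈ SS c, cl (labx c) (sr i) = 2 := fun i hi => by
  rw [cl_apply, labx_SS c h i hi]; norm_num

theorem cl_sw (y : Q8) (c : Fin 11) (p : ℕ) : cl y (sw c p) = (dg y (hk c p) : ℝ) := by rw [cl_apply, dg_eq]; rfl

theorem cl_ld (c : Fin 11) (p : ℕ) : cl (lab c) (sw c p) = (ld c p : ℝ) := cl_sw _ c p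

theorem hml (c : Fin 11) : Hm (sb K c) (cl (lab c)) fun p => (ld c p : ℝ) := fun p hp => by
  have h := hmc (K := K) c (cl_lab c) p hp
  beta_reduce at h ⊢
  rwa [cl_ld] at h

variable [CharP K 3]

theorem sbc (c : Fin 11) : Sb (ec K c) (sb K c) (tp c) := by
  rw [ec_eq]
  exact chkSb_sound (chk_all c)

open Classical in
/-- the bottoms span a graded complement of the image -/
theorem splitc (c : Fin 11) {κ : Q8 →+ ℝ} {δ : ℝ} (hκ : ∀ i ∈ SS c, κ (sr i) = δ) {J : Set ℝ} {v : L8 K}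
    (hv : v ∈ LS K {a | κ a ∈ J}) :
    ∃ s ∈ Sp (sb K c) ((range 248).filter fun p => bot (tp c) p = true ∧ κ (sw c p) ∈ J),
      ∃ w ∈ LS K {a | κ a + δ ∈ J}, v = s + br (ec K c) w :=
  (sbc c).split (hmc c hκ) (ec_mem hκ) hv

theorem KK_eq (c : Fin 11) :
    KK K c = Sp (sb K c) (if c.val ≤ 8 then ∅ else if c.val = 9 then {51, 183} else {51, 90, 144, 183}) := by
  have h := (sbc (K := K) c).cen_deg (hml c) {-1}
  rw [← filt_K c]
  refine h.trans ?_
  congr 1
  refine filter_congr fun p _ => and_congr_right fun _ => ?_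
  rw [Set.mem_singleton_iff]
  exact_mod_cast Iff.rfl

theorem KK_bot {c : Fin 11} (h : c.val ≤ 8) : KK K c = ⊥ := by
  rw [KK_eq, if_pos h, Sp, coe_empty, Set.image_empty, Submodule.span_empty]

theorem KK9 {z : L8 K} : z ∈ KK K 9 ↔ ∃ a b : K, z = a • sv K k0 + b • sv K kx := by
  have h1 : sb K 9 51 = sv K k0 := sv_eq3 (by decide +kernel)
  have h2 : sb K 9 183 = sv K kx := sv_eq3 (by decide +kernel)
  rw [KK_eq, if_neg (by decide), if_pos (by decide)]
  constructor
  · intro h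
    obtain ⟨c, hc⟩ := exists_of_mem_Sp h
    rw [sum_pair (by decide), h1, h2] at hc
    exact ⟨_, _, hc⟩
  · rintro ⟨a, b, rfl⟩
    rw [← h1, ← h2]
    exact Submodule.add_mem _ (Submodule.smul_mem _ _ (mem_Sp (by decide))) (Submodule.smul_mem _ _ (mem_Sp (by decide)))

theorem KK10 {z : L8 K} : z ∈ KK K 10 ↔ ∃ a b c d : K, z = a • sv K k0 + b • sv K k1 + c • sv K k2 + d • sv K kx := by
  have h1 : sb K 10 51 = sv K k0 := sv_eq3 (by decide +kernel)
  have h2 : sb K 10 90 = sv K k1 := sv_eq3 (by decide +kernel)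
  have h3 : sb K 10 144 = sv K k2 := sv_eq3 (by decide +kernel)
  have h4 : sb K 10 183 = sv K kx := sv_eq3 (by decide +kernel)
  rw [KK_eq, if_neg (by decide), if_neg (by decide)]
  constructor
  · intro h
    obtain ⟨c, hc⟩ := exists_of_mem_Sp h
    rw [sum_insert (by decide), sum_insert (by decide), sum_pair (by decide), h1, h2, h3, h4, ← add_assoc, ← add_assoc] at hc
    exact ⟨_, _, _, _, hc⟩
  · rintro ⟨a, b, c, d, rfl⟩
    rw [← h1, ← h2, ← h3, ← h4]
    exact Submodule.add_mem _ (Submodule.add_mem _ (Submodule.add_mem _ (Submodule.smul_mem _ _ (mem_Sp (by decide)))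
      (Submodule.smul_mem _ _ (mem_Sp (by decide)))) (Submodule.smul_mem _ _ (mem_Sp (by decide))))
      (Submodule.smul_mem _ _ (mem_Sp (by decide)))

end Cfsg.Agent.E8A.C63.Sv

namespace Cfsg.Agent.E8A.C63

open Cfsg Cfsg.Lie Module Finset Sv
open Cfsg.Agent.E8A.Kem (Ge mem_Ge)

universe u

/-- **STR** -/
theorem str : STR.{u} := by
  intro K _ _ c
  have H := sbc (K := K) c
  refine ⟨H.cz (len_le c), H.cd_eq.trans (card_tp c), nm_lab c, ec_mem (cl_lab c), ?_, fun j hj v hv => ?_, ?_⟩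
  · rw [H.cen_eq]
    refine Sp_le fun p hp => ?_
    obtain ⟨h1, h2⟩ := mem_filter.1 hp
    refine LS_mono (fun a ha => ?_) (hml c p (mem_range.1 h1))
    have h3 := ld_top c p (mem_range.1 h1) h2
    rw [mem_Ge, mem_Eq.1 ha]
    beta_reduce
    split_ifs at h3 ⊢ <;> exact_mod_cast h3
  · obtain ⟨s, hs, w, hw, h⟩ := splitc c (cl_lab c) (J := {j}) hv
    have h0 : s = 0 := by
      refine (Submodule.mem_bot K).1 (Sp_le (fun p hp => ?_) hs)
      obtain ⟨h1, h2, h3⟩ := mem_filter.1 hp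
      have h4 := ld_bot c p (mem_range.1 h1) h2
      rw [Set.mem_singleton_iff, cl_ld] at h3
      have h5 : (2 : ℤ) ≤ ld c p := by exact_mod_cast h3 ▸ hj
      split_ifs at h4 <;> omega
    refine ⟨w, LS_mono (fun a ha => ?_) hw, by rw [h, h0, zero_add]⟩
    exact mem_Eq.2 (eq_sub_of_add_eq ha)
  · rw [KK_eq, H.finrank_Sp]
    · split_ifs <;> rfl
    · split_ifs <;> decide

end Cfsg.Agent.E8A.C63
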