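import Cfsg.Agent.E8A.C63.TorD
import Cfsg.Agent.E8A.C63.ModC

/-!
# The box NOTOR without hypotheses (helper97)
-/

set_option autoImplicit false

namespace Cfsg.Agent.E8A.C63

universe u

/-- **NOTOR** -/
theorem notor : NOTOR.{u} := notor_of mod

end Cfsg.Agent.E8A.C63
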