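import Cfsg.Agent.E8A.C63.WitC

/-!
# WIT: a filtration for a restricted `sl₂` (helper5)

`wit_of : STR → WIT`.
-/

set_option autoImplicit false
set_option maxRecDepth 100000

namespace Cfsg.Agent.E8A.C63

open Cfsg Cfsg.Lie Module Matrix
open Cfsg.Agent.H288.E8L (Q8 wt wt_inl wt_inr)
open Cfsg.Agent.Tits.Roots (sr)
open Cfsg.Agent.E8A.Reg5.Cls (ex ex_zero)
open Cfsg.Agent.E8A.Kem (Ge mem_Ge)
open Cfsg.Agent.E8A.TwoH (br_zero_right)
open Cfsg.Agent.E8A.C63.Sv (sv)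

universe u

namespace Wt

variable {K : Type u} [Field K] {y : Q8}

theorem ge_LB {v : L8 K} (n : ℤ) : v ∈ LS K (Ge (cl y) (n : ℝ)) ↔ v ∈ LB K y fun l _ => n ≤ l :=
  forall_congr' fun i => imp_congr_right fun _ => by
    show (n : ℝ) ≤ ((ex y (wt i) : ℤ) : ℝ) ↔ n ≤ ex y (wt i)
    exact Int.cast_le

theorem eq_LB {v : L8 K} (n : ℤ) : v ∈ LS K (Eq' (cl y) (n : ℝ)) ↔ v ∈ LB K y fun l _ => l = n :=
  forall_congr' fun i => imp_congr_right fun _ => by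
    show ((ex y (wt i) : ℤ) : ℝ) = (n : ℝ) ↔ ex y (wt i) = n
    exact Int.cast_inj

theorem ex_x (y a : Q8) : ex (y + sr 6) a = ex y a + a 6 := by
  simp [ex, sr, mul_add, Finset.sum_add_distrib, Pi.single_apply]

theorem ge_x {v : L8 K} (n : ℤ) (h : v ∈ LB K y fun l m => n ≤ l + m) : v ∈ LS K (Ge (cl (y + sr 6)) (n : ℝ)) :=
  (ge_LB n).2 fun i hi => by
    show n ≤ ex (y + sr 6) (wt i)
    rw [ex_x]
    exact h i hi

theorem eq_x {v : L8 K} (n : ℤ) (h : v ∈ LB K y fun l m => l + m = n) : v ∈ LS K (Eq' (cl (y + sr 6)) (n : ℝ)) :=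
  (eq_LB n).2 fun i hi => by
    show ex (y + sr 6) (wt i) = n
    rw [ex_x]
    exact h i hi

theorem dp_of {e h f : L8 K} {g : G8 K} {lam : Q8 →+ ℝ} (h1 : act g e ∈ LS K (Ge lam ((2 : ℤ) : ℝ)))
    (h2 : act g h ∈ LS K (Ge lam ((0 : ℤ) : ℝ))) (h3 : act g f ∈ LS K (Ge lam ((-2 : ℤ) : ℝ))) :
    Dp ![e, h, f] ![2, 0, -2] g lam := by
  intro i
  fin_cases i
  · simpa using h1
  · simpa using h2
  · simpa using h3

theorem first {e h f : L8 K} (S : Sl2 e h f) (he : e ∈ LB K y fun l _ => l = 2)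
    (hc : ∀ v, br e v = 0 → v ∈ LB K y fun l _ => -1 ≤ l) (hh : h ∈ LB K y fun l _ => 0 ≤ l) :
    Dp ![e, h, f] ![2, 0, -2] 1 (cl y) := by
  have h1 : br e (pj y (fun l _ => l < -2) f) = 0 := by
    rw [br_pj he (Q := fun l _ => l < 0) (fun _ _ _ _ a b => by omega) (fun _ _ _ _ a b => by omega), S.ef]
    exact pj_eq (zero_mem _) (by rwa [sub_zero]) fun _ _ a b => by omega
  have h2 : f ∈ LB K y fun l _ => -2 ≤ l :=
    mem_of_pj (mem_top f) (LB_zero (hc _ h1) (pj_mem' f) fun _ _ a b => by omega) fun _ _ _ a => by omega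
  refine dp_of ?_ ?_ ?_ <;> rw [act_one, ge_LB]
  exacts [LB_mono he fun _ _ a => by omega, hh, h2]

theorem onto_of {e : L8 K}
    (h : ∀ j : ℝ, 2 ≤ j → ∀ v ∈ LS K (Eq' (cl y) j), ∃ w ∈ LS K (Eq' (cl y) (j - 2)), br e w = v) :
    ∀ d ∈ LB K y fun l _ => 2 ≤ l, ∃ w, br e w = d := fun d hd => by
  refine LB_ind (M := fun d => ∃ w, br e w = d) ⟨0, br_zero_right _⟩ ?_ (fun i t hi => ?_) hd
  · rintro _ _ ⟨w, rfl⟩ ⟨w', rfl⟩
    exact ⟨w + w', br_add_right _ _ _⟩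
  · obtain ⟨w, _, hw⟩ := h ((ex y (wt i) : ℤ) : ℝ) (by exact_mod_cast hi) (t • ee K i)
      (Submodule.smul_mem _ _ (ee_mem_LS rfl))
    exact ⟨w, hw⟩

theorem second {e z h0 h f : L8 K} {b : Prop} (F : Fa y e z) (H : IsH y h0) (G : Goal y e z h0 b h f) :
    e ∈ LS K (Eq' (cl (y + sr 6)) 2) ∧ ∃ g : G8 K, act g e = e ∧ Dp ![e, h, f] ![2, 0, -2] g (cl (y + sr 6)) ∧
      (b → ∃ h₀ z, IsH y h₀ ∧ z ∈ cen {e} ⊓ LS K (Eq' (cl y) (-1)) ∧ z ≠ 0 ∧
        pr (cl (y + sr 6)) 0 (act g h) = h₀ + z) := by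
  obtain ⟨g, g1, g2, g3, g4⟩ := G
  have he : e ∈ LS K (Eq' (cl (y + sr 6)) ((2 : ℤ) : ℝ)) := eq_x 2 (LB_mono F.nl.mem fun _ _ a => by omega)
  refine ⟨by simpa using he, g, g1, dp_of (by rw [g1]; exact Eq_le_Ge he) (ge_x 0 g2) (ge_x (-2) g3), fun hb => ?_⟩
  obtain ⟨a, ha, hr⟩ := g4 hb
  have hx : a • z ∈ LB K y fun l m => l = -1 ∧ m = 1 := Submodule.smul_mem _ _ F.zm
  refine ⟨h0, a • z, H, ⟨mem_cen_one.2 (by rw [br_smul_right, F.zc, smul_zero]), ?_⟩, ha, ?_⟩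
  · simpa using (eq_LB (-1)).2 (LB_mono hx fun _ _ a => a.1)
  · have h1 : h0 + a • z ∈ LS K (Eq' (cl (y + sr 6)) 0) := by
      simpa using eq_x 0 (add_mem (inT_LB H.1 rfl) (LB_mono hx fun _ _ a => by omega))
    have h2 : pr (cl (y + sr 6)) 0 (act g h - (a • z + h0)) = 0 :=
      eq_zero_of_LS (pr_mem _ _ _) (pr_LS (ge_x 1 hr) _ _) fun a h1 h2 => by
        rw [mem_Eq] at h1
        rw [mem_Ge, h1] at h2
        norm_num at h2
    rw [show act g h = (h0 + a • z) + (act g h - (a • z + h0)) by abel, pr_add, pr_of_mem h1, h2, add_zero]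

theorem nm_x : Two.nm (labx 9) = nrc 9 + 6 ∧ Two.nm (labx 10) = nrc 10 + 6 := by decide +kernel

end Wt

open Wt in
/-- **WIT** -/
theorem wit_of (S : STR.{u}) : WIT.{u} := by
  intro K _ _ _ c h f R
  obtain ⟨-, -, -, s1, s2, s3, -⟩ := S K c
  obtain ⟨h0, H⟩ : ∃ h0 : L8 K, IsH (lab c) h0 := by
    obtain ⟨h, h1, h2⟩ := exists_rl (K := K) (AddMonoidHom.mk' (fun a => ((ex (lab c) a : ℤ) : K)) fun a b => by
      rw [exa, Int.cast_add])
    exact ⟨h, h1, fun a => by rw [h2]; rfl⟩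
  have he : ec K c ∈ LB K (lab c) fun l _ => l = 2 := (eq_LB 2).1 (by simpa using s1)
  have hc : ∀ v, br (ec K c) v = 0 → v ∈ LB K (lab c) fun l _ => -1 ≤ l := fun v hv => by
    have h1 := s2 (mem_cen_one.2 hv)
    split_ifs at h1
    · exact LB_mono ((ge_LB 0).1 (by simpa using h1)) fun _ _ a => by omega
    · exact (ge_LB (-1)).1 (by simpa using h1)
  by_cases h8 : c.val ≤ 8
  · refine Or.inl (first R.toSl2 he hc ?_)
    have h1 := s2 (mem_cen_one.2 (cen0 H he R.toSl2))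
    rw [if_pos h8] at h1
    rw [← sub_add_cancel h h0]
    exact add_mem ((ge_LB 0).1 (by simpa using h1)) (inT_LB H.1 le_rfl)
  have key : ∀ z : L8 K, Fa (lab c) (ec K c) z → (c.val = 9 → Fb (lab c) (ec K c) z h0) →
      Two.nm (labx c) = nrc c + 6 → _ := fun z F G hn =>
    (goal F G H R).imp (first R.toSl2 he hc) fun g => And.intro (not_le.1 h8) (And.intro hn (second F H g))
  have s4 := onto_of s3
  have h9 : c = 9 ∨ c = 10 := by
    have := c.2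
    rcases (by omega : c.val = 9 ∨ c.val = 10) with h | h
    exacts [Or.inl (Fin.ext h), Or.inr (Fin.ext h)]
  rcases h9 with rfl | rfl
  · refine key (sv K zz) ?_ (fun _ => ?_) nm_x.1
    · rw [ec9] at s4 hc ⊢
      exact fa_of pre9 s4 hc
    · rw [ec9]
      exact fb9 H
  · refine key (sv K zz) ?_ (fun h => absurd h (by decide)) nm_x.2
    rw [ec10] at s4 hc ⊢
    exact fa_of pre10 s4 hc

end Cfsg.Agent.E8A.C63
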