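import Cfsg.Agent.E8A.C63.Pre
import Cfsg.Agent.E8A.C63.Wit
import Cfsg.Agent.E8A.C63.Str
import Cfsg.Agent.E8A.C63.Tor
import Cfsg.Agent.E8A.C63.Desc
import Cfsg.Agent.E8A.C63.G2C
import Cfsg.Agent.E8A.C63.Cen
import Cfsg.Agent.E8A.D44.Main

/-!
# S5930, the case `A₆`, `p = 3`: all boxes but `NIL3` (helper13)
-/

set_option autoImplicit false

namespace Cfsg.Agent.E8A.C63

universe u

theorem c63_nil (hN : NIL3.{u}) : CASE.{u} 6 fun p => p = 3 :=
  c63_pre hN (wit_of str) notor dab desc ea2 e2a2 eex en3 g2ab ctx (iso_of notor) (cen_of (iso_of notor) D44.d44)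

end Cfsg.Agent.E8A.C63
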