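import Cfsg.Agent.E8A.C63.Basic

/-!
# `A₆` in characteristic 3: the assembly (helper13)
-/

set_option autoImplicit false
set_option maxRecDepth 100000

namespace Cfsg.Agent.E8A.C63

open Cfsg Cfsg.Lie Module
open Cfsg.Agent.H952.F4 (MaxAlt)

universe u

section

variable {K : Type u} [Field K] [IsAlgClosed K] [CharP K 3] {ψ : Alt 6 →* G8 K}

theorem noAb_aux (hT : NOTOR.{u}) (hD : DAB.{u}) (hA : ABC.{u}) (hc : Ctx ψ) {Y : Submodule K (L8 K)} (hY : PCl Y)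
    (hl : ∀ x ∈ Y, Cz x → 92 < cd x) (g : G8 K) {U : Submodule K (L8 K)} (h0 : U ≠ ⊥) (hi : Inv ψ U) (ha : Ab U)
    (hU : ∀ x ∈ U, act g x ∈ Y) : False := by
  rcases hD K ψ (pb g Y) U (hY.pb g) hU h0 hi ha with ⟨U', h1, h2, h3, h4, h5⟩ | ⟨g', U', h1, h2, h3⟩
  · obtain ⟨⟨x, hx, -, h6⟩, -⟩ := hA K ψ hc U' h2 h3 h4 h5
    have h7 := hl (act g x) (h1 hx) ((h5 x hx).act g)
    rw [cd_act] at h7
    omega
  · exact hT K ψ hc g' U' h1 h2 h3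

theorem noAb (hT : NOTOR.{u}) (hD : DAB.{u}) (hA : ABC.{u}) (hL : LOW.{u}) (hc : Ctx ψ) : NoAb ψ := by
  intro g U h0 hi ha hU
  obtain ⟨l1, l2, l3, l4⟩ := hL K
  rcases hU with hU | hU
  · exact noAb_aux hT hD hA hc l1 l3 g h0 hi ha hU
  · exact noAb_aux hT hD hA hc l2 l4 g h0 hi ha hU

theorem low_inv (hT : NOTOR.{u}) (hD : DAB.{u}) (hA : ABC.{u}) (hE : DESC.{u}) (hS : SC.{u}) (hc : Ctx ψ)
    {Y : Submodule K (L8 K)} (hY : PCl Y) (hl : ∀ x ∈ Y, Cz x → 92 < cd x) (g : G8 K) {C : Submodule K (L8 K)}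
    (h0 : C ≠ ⊥) (hi : Inv ψ C) (hs : Sa C) (hC : ∀ x ∈ C, act g x ∈ Y) :
    ∃ z : G8 K, z ≠ 1 ∧ z ^ 2 = 1 ∧ (∀ a, Commute z (ψ a)) ∧ ∀ c : G8 K, (∀ x ∈ C, act c x = x) → Commute z c := by
  rcases hE K ψ hc.fx (pb g Y) C (hY.pb g) hC h0 hi hs with ⟨U, h1, h2, h3, h4⟩ | ⟨ι, e, h, f, h1, h2, h3, he, hh, hf⟩
  · exact (noAb_aux hT hD hA hc hY hl g h2 h3 h4 h1).elim
  · rcases hS K ψ hc ι e h f h1 h2 h3 with ⟨z, z1, z2, z3, z4⟩ | ⟨h4, -⟩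
    · exact ⟨z, z1, z2, z3, fun c hx => z4 c (hx e he) (hx h hh) (hx f hf)⟩
    · have h5 := hl _ (hC e he) (h3.ce.act g)
      rw [cd_act] at h5
      omega

end

/-- **the case `(6, 3)` from the boxes** -/
theorem c63_of (hT : NOTOR.{u}) (hD : DAB.{u}) (hA : ABC.{u}) (hE : DESC.{u}) (hS : SC.{u}) (hL : LOW.{u})
    (hX : CTX.{u}) (hI : ISO.{u}) (hC : CEN.{u}) : CASE.{u} 6 fun p => p = 3 := by
  intro F _ _ p _ _ hp H φ hM hfx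
  subst hp
  have : CharP (Kb F) 3 := charP_of_injective_algebraMap (algebraMap F (Kb F)).injective 3
  have hc := hX F H φ hM hfx
  obtain ⟨l1, l2, l3, l4⟩ := hL (Kb F)
  obtain ⟨i1, i2, -⟩ := hI F _ hc
  have h5 : ∀ s : G8 (Kb F), (∀ a, Commute s (emb0 (φ a))) → orderOf s ≠ 5 := fun s hs h5 => by
    obtain ⟨g, C, h0, hi, hs', hC'⟩ := i2 s hs h5
    obtain ⟨z, z1, z2, z3, z4⟩ := low_inv hT hD hA hE hS hc l2 l4 g h0 hi hs' fun x hx => (hC' x hx).1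
    have h2 : orderOf z = 2 := orderOf_eq_prime z2 z1
    have h10 : orderOf (z * s) = 10 := by
      rw [(z4 s fun x hx => (hC' x hx).2).orderOf_mul_eq_mul_orderOf_of_coprime (by rw [h2, h5]; norm_num), h2, h5]
    have := i1 (z * s) (fun a => (z3 a).mul_left (hs a)) 10 (by norm_num) h10
    omega
  have hz := hC F H φ hM hfx h5 (noAb hT hD hA hL hc)
  have hlow : ¬ LowEnd (emb0.comp φ) := fun ⟨g, C, h0, hi, hs, hy⟩ => by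
    obtain ⟨z, z1, z2, z3, -⟩ := low_inv hT hD hA hE hS hc l1 l3 g h0 hi hs hy
    exact hz z z1 z2 z3
  have h0 : (⊤ : Submodule (Kb F) (L8 (Kb F))) ≠ ⊥ := fun h => by
    have h1 : ee (Kb F) (Sum.inl (xi 0)) ∈ (⊥ : Submodule (Kb F) (L8 (Kb F))) := h ▸ Submodule.mem_top
    exact ee_ne_zero _ ((Submodule.mem_bot _).1 h1)
  rcases hE _ _ hc.fx ⊤ ⊤ pcl_top le_rfl h0 (fun _ _ _ => trivial) pcl_top.1 with
    ⟨U, h1, h2, h3, h4⟩ | ⟨ι, e, h, f, h1, h2, h3, -⟩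
  · rcases hD _ _ ⊤ U pcl_top h1 h2 h3 h4 with ⟨U', -, h6, h7, h8, h9⟩ | ⟨g', U', h6, h7, h8⟩
    · exact hlow (hA _ _ hc U' h6 h7 h8 h9).2
    · exact hT _ _ hc g' U' h6 h7 h8
  · rcases hS _ _ hc ι e h f h1 h2 h3 with ⟨z, z1, z2, z3, -⟩ | ⟨-, h4⟩
    · exact hz z z1 z2 z3
    · exact hlow h4

end Cfsg.Agent.E8A.C63
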