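import Cfsg.Agent.E8A.C63.Iface
import Cfsg.Agent.E8A.TwoH.Lie
import Cfsg.Agent.E8A.Inf.Pat

/-!
# `A₆` in characteristic 3: conjugation (helper13)

* `Cz.act`, `Tor.act`, `cd_act`, `RS.act`, `cen_act`; `pb g Y` : the preimage of a subspace, `PCl.pb`;
* `cj_apply`, `act_cj`, `Ctx.cj`, `T3.cj`, `T4.cj`, `Inv.cj`, `LowEnd.of_cj`; `perfect6`, `hom_trivial`, `line_fix`;
* `pr` : `pr_mem`, `pr_of_mem`, `pr_add`, `sub_pr`; `mem_Eq_iff`.
-/

set_option autoImplicit false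
set_option maxRecDepth 100000

namespace Cfsg.Agent.E8A.C63

open Cfsg Cfsg.Lie Module
open scoped commutatorElement
open Cfsg.Agent.H952.F4 (MaxAlt ev)
open Cfsg.Agent.H288.E8L (Q8 wt)
open Cfsg.Agent.E8A.Kem (St Ge nrm mem_Ge)

universe u

variable {K : Type u} [Field K]

theorem adm_act_pow (g : G8 K) (x : L8 K) (n : ℕ) : adm (act g x) ^ n = mx g * adm x ^ n * mx g⁻¹ := by
  induction n with
  | zero => rw [pow_zero, pow_zero, mul_one, mx_mul_inv]
  | succ n ih =>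
    rw [pow_succ, ih, adm_act, pow_succ]
    calc mx g * adm x ^ n * mx g⁻¹ * (mx g * adm x * mx g⁻¹)
        = mx g * adm x ^ n * (mx g⁻¹ * mx g) * adm x * mx g⁻¹ := by simp only [mul_assoc]
      _ = mx g * (adm x ^ n * adm x) * mx g⁻¹ := by rw [mx_inv_mul, mul_one, mul_assoc (mx g)]

theorem Cz.act {x : L8 K} (h : Cz x) (g : G8 K) : Cz (act g x) := by
  unfold Cz at h ⊢
  rw [adm_act_pow, h, mul_zero, zero_mul]

theorem Tor.act {x : L8 K} (h : Tor x) (g : G8 K) : Tor (act g x) := by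
  unfold Tor at h ⊢
  rw [adm_act_pow, h, adm_act]

theorem Cz.br3 {x : L8 K} (h : Cz x) (v : L8 K) : br x (br x (br x v)) = 0 := by
  have h1 : adm x ^ 3 = adm x * (adm x * adm x) := by rw [pow_succ', pow_two]
  unfold br
  rw [Matrix.mulVec_mulVec, Matrix.mulVec_mulVec, mul_assoc, ← h1, h, Matrix.zero_mulVec]

theorem mem_cen {S : Set (L8 K)} {v : L8 K} : v ∈ cen S ↔ ∀ s ∈ S, br s v = 0 := Iff.rfl

theorem mem_cen_one {x v : L8 K} : v ∈ cen {x} ↔ br x v = 0 := ⟨fun h => h x rfl, fun h _ hs => hs ▸ h⟩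

theorem cen_act (g : G8 K) {x v : L8 K} : act g v ∈ cen {act g x} ↔ v ∈ cen {x} := by
  rw [mem_cen_one, mem_cen_one, ← act_br]
  exact ⟨act_eq_zero, fun h => by rw [h, act_zero]⟩

/-- the action as a linear equivalence -/
noncomputable def ae (g : G8 K) : L8 K ≃ₗ[K] L8 K :=
  { LK K g with
    invFun := act g⁻¹
    left_inv := act_inv g
    right_inv := act_inv' g }

theorem ae_apply (g : G8 K) (v : L8 K) : ae g v = act g v := rfl

/-- the preimage of a subspace -/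
noncomputable def pb (g : G8 K) (Y : Submodule K (L8 K)) : Submodule K (L8 K) := Y.comap (LK K g)

theorem mem_pb {g : G8 K} {Y : Submodule K (L8 K)} {v : L8 K} : v ∈ pb g Y ↔ act g v ∈ Y := Iff.rfl

theorem finrank_pb (g : G8 K) (Y : Submodule K (L8 K)) : finrank K ↥(pb g Y) = finrank K ↥Y :=
  (LinearEquiv.ofSubmodule' (ae g) Y).finrank_eq

theorem pb_ne_bot {g : G8 K} {Y : Submodule K (L8 K)} (h : Y ≠ ⊥) : pb g Y ≠ ⊥ := by
  obtain ⟨v, hv, h0⟩ := (Submodule.ne_bot_iff _).1 h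
  refine (Submodule.ne_bot_iff _).2 ⟨act g⁻¹ v, by rwa [mem_pb, act_inv'], fun h1 => h0 (act_eq_zero h1)⟩

theorem cd_act (g : G8 K) (x : L8 K) : cd (act g x) = cd x := by
  have h : cen {x} = pb g (cen {act g x}) := Submodule.ext fun v => (cen_act g).symm
  unfold cd
  rw [h, finrank_pb]

theorem Sa.pb {Y : Submodule K (L8 K)} (h : Sa Y) (g : G8 K) : Sa (pb g Y) := fun x hx y hy => by
  rw [mem_pb, act_br]
  exact h _ hx _ hy

theorem Ab.pb {Y : Submodule K (L8 K)} (h : Ab Y) (g : G8 K) : Ab (pb g Y) := fun x hx y hy =>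
  act_eq_zero (g := g) (by rw [act_br]; exact h _ hx _ hy)

theorem PCl.pb {Y : Submodule K (L8 K)} (h : PCl Y) (g : G8 K) : PCl (pb g Y) :=
  ⟨h.1.pb g, fun x hx y hy => h.2 (act g x) hx (act g y) (by rw [adm_act_pow, ← hy, adm_act])⟩

theorem pcl_top : PCl (⊤ : Submodule K (L8 K)) := ⟨fun _ _ _ _ => trivial, fun _ _ _ _ => trivial⟩

theorem Sl2.act {e h f : L8 K} (H : Sl2 e h f) (g : G8 K) : Sl2 (act g e) (act g h) (act g f) where
  he := by rw [← act_br, H.he, act_smul]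
  hf := by rw [← act_br, H.hf, act_smul]
  ef := by rw [← act_br, H.ef]

theorem RS.act {e h f : L8 K} (H : RS e h f) (g : G8 K) : RS (act g e) (act g h) (act g f) where
  toSl2 := H.toSl2.act g
  ce := H.ce.act g
  cf := H.cf.act g
  th := H.th.act g

/-! ### conjugates of the homomorphism -/

variable {ψ : Alt 6 →* G8 K}

theorem rp_apply (a : Alt 6) (v : L8 K) : rp ψ a v = act (ψ a) v := rfl

theorem cj_apply (g : G8 K) (a : Alt 6) : cj g ψ a = g * ψ a * g⁻¹ := rfl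

theorem act_cj (g : G8 K) (a : Alt 6) (v : L8 K) : act (cj g ψ a) (act g v) = act g (act (ψ a) v) := by
  rw [cj_apply, act_mul, act_mul, act_inv]

theorem cj_cj (g g' : G8 K) : cj g (cj g' ψ) = cj (g * g') ψ := MonoidHom.ext fun a => by
  rw [cj_apply, cj_apply, cj_apply]; group

theorem cj_one : cj 1 ψ = ψ := MonoidHom.ext fun a => by rw [cj_apply]; group

theorem invR_iff {U : Submodule K (L8 K)} : InvR (rp ψ) U ↔ Inv ψ U := Iff.rfl

/-- the image of an invariant subspace -/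
theorem Inv.cj {U : Submodule K (L8 K)} (h : Inv ψ U) (g : G8 K) : Inv (cj g ψ) (pb g⁻¹ U) := fun a v hv => by
  rw [mem_pb, cj_apply, act_mul, act_mul, act_inv]
  exact h a _ hv

theorem Inv.of_cj {g : G8 K} {U : Submodule K (L8 K)} (h : Inv (C63.cj g ψ) U) : Inv ψ (pb g U) := fun a v hv => by
  rw [mem_pb, ← act_cj]
  exact h a _ hv

theorem noFx_cj (h : NoFx ψ) (g : G8 K) : NoFx (cj g ψ) := fun v hv => by
  have h1 := h (act g⁻¹ v) fun a => act_injective g (by rw [← act_cj, act_inv', hv])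
  exact act_eq_zero h1

theorem NoPar.cj (h : NoPar ψ) (g : G8 K) : NoPar (cj g ψ) := fun g' lam h0 hy => h (g' * g) lam h0 fun a => by
  have h1 := hy a
  rwa [cj_apply, show g' * (g * ψ a * g⁻¹) * g'⁻¹ = g' * g * ψ a * (g' * g)⁻¹ by group] at h1

theorem fd_conj (c g : G8 K) : fd (c * g * c⁻¹) = fd g := Inf.ev_conj c g 1

theorem Ctx.cj (h : Ctx ψ) (g : G8 K) : Ctx (cj g ψ) where
  fx := noFx_cj h.fx g
  par := h.par.cj g
  d2 := fun a ha => by rw [cj_apply, fd_conj, h.d2 a ha]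
  d4 := by rw [cj_apply, fd_conj]; exact h.d4

theorem T3.cj {ι : K} {e h f : L8 K} (H : T3 (rp ψ) ι e h f) (g : G8 K) :
    T3 (rp (cj g ψ)) ι (act g e) (act g h) (act g f) where
  sq := H.sq
  ue := by rw [rp_apply, act_cj, ← rp_apply, H.ue]
  uh := by rw [rp_apply, act_cj, ← rp_apply, H.uh, act_add]
  uf := by rw [rp_apply, act_cj, ← rp_apply, H.uf, act_sub, act_add]
  ye := by rw [rp_apply, act_cj, ← rp_apply, H.ye, act_smul]
  yh := by rw [rp_apply, act_cj, ← rp_apply, H.yh]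
  yf := by rw [rp_apply, act_cj, ← rp_apply, H.yf, act_smul]
  de := by rw [rp_apply, act_cj, ← rp_apply, H.de, act_neg]
  dh := by rw [rp_apply, act_cj, ← rp_apply, H.dh, act_neg]
  df := by rw [rp_apply, act_cj, ← rp_apply, H.df, act_neg]

theorem T4.cj {r : Fin 6 → Fin 6 → L8 K} (H : T4 (rp ψ) r) (g : G8 K) : T4 (rp (cj g ψ)) fun i j => E8A.act g (r i j) where
  act := fun a i j => by rw [rp_apply, act_cj, ← rp_apply, H.act]
  add := fun i j k => by rw [← act_add, H.add]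
  sum := fun i => by rw [← TwoH.act_sum, H.sum, act_zero]

theorem LowEnd.of_cj {g : G8 K} (h : LowEnd (cj g ψ)) : LowEnd ψ := by
  obtain ⟨g', C, h0, hi, hs, hy⟩ := h
  exact ⟨g' * g, pb g C, pb_ne_bot h0, hi.of_cj, hs.pb g, fun x hx => by rw [act_mul]; exact hy _ hx⟩

theorem span_act (g : G8 K) (S : Set (L8 K)) : Submodule.span K (act g '' S) = pb g⁻¹ (Submodule.span K S) := by
  have h : pb g⁻¹ (Submodule.span K S) = (Submodule.span K S).map (LK K g) := by
    ext v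
    rw [mem_pb, Submodule.mem_map]
    exact ⟨fun h => ⟨_, h, act_inv' g v⟩, fun ⟨w, hw, e⟩ => by rw [← e, LK_apply, act_inv]; exact hw⟩
  rw [h, Submodule.map_span]
  rfl

/-! ### the group is perfect -/

theorem perfect6 : commutator (Alt 6) = ⊤ := by
  have : IsSimpleGroup (Alt 6) := alternatingGroup.isSimpleGroup (by simp)
  rcases (inferInstance : (commutator (Alt 6)).Normal).eq_bot_or_eq_top with h | h
  · have h1 : ⁅uu, dd⁆ ∈ commutator (Alt 6) :=
      Subgroup.commutator_mem_commutator (Subgroup.mem_top _) (Subgroup.mem_top _)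
    rw [h, Subgroup.mem_bot] at h1
    exact absurd h1 (by decide)
  · exact h

theorem hom_trivial {M : Type*} [CommGroup M] (χ : Alt 6 →* M) (a : Alt 6) : χ a = 1 := by
  have h : commutator (Alt 6) ≤ χ.ker := Abelianization.commutator_subset_ker χ
  rw [perfect6] at h
  exact h (Subgroup.mem_top a)

/-- an invariant line is fixed -/
theorem line_fix {V : Type*} [AddCommGroup V] [Module K V] (ρ : Representation K (Alt 6) V) {v : V}
    (h : ∀ a, ∃ c : K, ρ a v = c • v) (a : Alt 6) : ρ a v = v := by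
  by_cases h0 : v = 0
  · rw [h0, map_zero]
  choose c hc using h
  have hm : ∀ a b, c (a * b) = c a * c b := fun a b => smul_left_injective K h0 (by
    show c (a * b) • v = (c a * c b) • v
    rw [← hc, map_mul, Module.End.mul_apply, hc, map_smul, hc, smul_smul, mul_comm])
  have h1 : c 1 = 1 := smul_left_injective K h0 (by
    show c 1 • v = (1 : K) • v
    rw [← hc, map_one, one_smul, Module.End.one_apply])
  have h2 := hom_trivial (MonoidHom.toHomUnits (⟨⟨c, h1⟩, hm⟩ : Alt 6 →* K)) a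
  have h3 : c a = 1 := congrArg Units.val h2
  rw [hc, h3, one_smul]

/-! ### graded pieces -/

theorem mem_Eq {lam : Q8 →+ ℝ} {c : ℝ} {a : Q8} : a ∈ Eq' lam c ↔ lam a = c := Iff.rfl

theorem Eq_le_Ge {lam : Q8 →+ ℝ} {c : ℝ} {v : L8 K} (h : v ∈ LS K (Eq' lam c)) : v ∈ LS K (Ge lam c) :=
  LS_mono (fun _ ha => mem_Ge.2 (mem_Eq.1 ha).ge) h

theorem Eq_le_Ge_neg {lam : Q8 →+ ℝ} {c : ℝ} {v : L8 K} (h : v ∈ LS K (Eq' lam c)) : v ∈ LS K (Ge (-lam) (-c)) :=
  LS_mono (fun a ha => mem_Ge.2 (by rw [AddMonoidHom.neg_apply, mem_Eq.1 ha])) h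

theorem mem_Eq_iff {lam : Q8 →+ ℝ} {c : ℝ} {v : L8 K} :
    v ∈ LS K (Eq' lam c) ↔ v ∈ LS K (Ge lam c) ∧ v ∈ LS K (Ge (-lam) (-c)) :=
  ⟨fun h => ⟨Eq_le_Ge h, Eq_le_Ge_neg h⟩, fun h i hi => le_antisymm
    (by have := mem_Ge.1 (h.2 i hi); rw [AddMonoidHom.neg_apply] at this; linarith) (mem_Ge.1 (h.1 i hi))⟩

theorem pr_pos {lam : Q8 →+ ℝ} {c : ℝ} (v : L8 K) {i : chevE8.Idx} (h : lam (wt i) = c) : pr lam c v i = v i := if_pos h

theorem pr_neg {lam : Q8 →+ ℝ} {c : ℝ} (v : L8 K) {i : chevE8.Idx} (h : lam (wt i) ≠ c) : pr lam c v i = 0 := if_neg h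

theorem pr_mem (lam : Q8 →+ ℝ) (c : ℝ) (v : L8 K) : pr lam c v ∈ LS K (Eq' lam c) := fun i hi => by
  by_contra h
  exact hi (pr_neg v h)

theorem pr_of_mem {lam : Q8 →+ ℝ} {c : ℝ} {v : L8 K} (h : v ∈ LS K (Eq' lam c)) : pr lam c v = v := funext fun i => by
  by_cases hi : lam (wt i) = c
  · exact pr_pos v hi
  · rw [pr_neg v hi, LS_zero h hi]

theorem pr_LS {A : Set Q8} {v : L8 K} (h : v ∈ LS K A) (lam : Q8 →+ ℝ) (c : ℝ) : pr lam c v ∈ LS K A := fun i hi => by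
  by_cases h1 : lam (wt i) = c
  · rw [pr_pos v h1] at hi
    exact h i hi
  · exact absurd (pr_neg v h1) hi

theorem pr_add (lam : Q8 →+ ℝ) (c : ℝ) (v w : L8 K) : pr lam c (v + w) = pr lam c v + pr lam c w := funext fun i => by
  by_cases hi : lam (wt i) = c
  · rw [Pi.add_apply, pr_pos _ hi, pr_pos _ hi, pr_pos _ hi, Pi.add_apply]
  · rw [Pi.add_apply, pr_neg _ hi, pr_neg _ hi, pr_neg _ hi, add_zero]

theorem pr_smul (lam : Q8 →+ ℝ) (c : ℝ) (a : K) (v : L8 K) : pr lam c (a • v) = a • pr lam c v := funext fun i => by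
  by_cases hi : lam (wt i) = c
  · rw [Pi.smul_apply, pr_pos _ hi, pr_pos _ hi, Pi.smul_apply]
  · rw [Pi.smul_apply, pr_neg _ hi, pr_neg _ hi, smul_zero]

theorem cl_apply (y a : Q8) : cl y a = (Reg5.Cls.ex y a : ℝ) := rfl

end Cfsg.Agent.E8A.C63
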