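import Cfsg.Agent.E8A.C63.Basic
import Cfsg.Agent.E8A.C63.Lat

/-!
# `A₆` in characteristic 3: `LOW`, projections, the splitting lemma (helper52)

* `G2.pj A` : the projection to the weights in `A`; `br_pj`, `pj_br` (leading terms), `lead_zero`;
* `low : LOW`;
* `G2.Min g s` : `g` is perfect and all its nonzero ideals contain the noncentral element `s`; `G2.split`;
* `G2.exists_YD` : a conjugate of the Levi subalgebra `YD`.
-/

set_option autoImplicit false
set_option maxRecDepth 100000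
set_option maxHeartbeats 400000
set_option linter.unusedVariables false

namespace Cfsg.Agent.E8A.C63

open Cfsg Cfsg.Lie Module
open Cfsg.Agent.H288.E8L (Q8 wt act8 wt_inl wt_inr)
open Cfsg.Agent.H942.E8Tab (e8T)
open Cfsg.Agent.H944.Kac (srefl)
open Cfsg.Agent.ChevalleyStructure.CoxeterGeom (pairing)
open Cfsg.Agent.ChevalleyStructure.CoxeterGeomTypes (cartanOf)
open Cfsg.Agent.E8A.Kem (Ge mem_Ge)
open Cfsg.Agent.E8A.Reg5.Cls (ex ex_refl)
open Cfsg.Agent.E8A.TwoH (br_anti br_self br_jac br_zero_left br_zero_right br_comm_zero br_br_zero finrank_LS)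

universe u

namespace G2

variable {K : Type u} [Field K]

/-! ### projections -/

open Classical in
/-- the projection to the weights in `A` -/
noncomputable def pj (A : Set Q8) : L8 K →ₗ[K] L8 K where
  toFun v := fun i => if wt i ∈ A then v i else 0
  map_add' v w := funext fun i => by
    simp only [Pi.add_apply]
    split_ifs <;> simp
  map_smul' c v := funext fun i => by
    simp only [Pi.smul_apply, RingHom.id_apply]
    split_ifs <;> simp

variable {A B : Set Q8} {v : L8 K}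

theorem pj_pos (v : L8 K) {i : chevE8.Idx} (h : wt i ∈ A) : pj A v i = v i := if_pos h

theorem pj_neg (v : L8 K) {i : chevE8.Idx} (h : wt i ∉ A) : pj A v i = 0 := if_neg h

theorem pj_mem (A : Set Q8) (v : L8 K) : pj A v ∈ LS K A := fun i hi => by
  by_contra h
  exact hi (pj_neg v h)

theorem pj_LS (hv : v ∈ LS K B) (A : Set Q8) : pj A v ∈ LS K B := fun i hi => by
  by_cases h : wt i ∈ A
  · exact hv i (by rwa [pj_pos v h] at hi)
  · exact absurd (pj_neg v h) hi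

theorem sub_pj (A : Set Q8) (v : L8 K) : v - pj A v ∈ LS K Aᶜ := fun i hi h => hi (by
  rw [Pi.sub_apply, pj_pos v h, sub_self])

theorem pj_of_mem (hv : v ∈ LS K A) : pj A v = v := funext fun i => by
  by_cases h : wt i ∈ A
  · exact pj_pos v h
  · rw [pj_neg v h, LS_zero hv h]

theorem pj_eq_zero (hv : v ∈ LS K B) (h : ∀ a ∈ B, a ∉ A) : pj A v = 0 :=
  eq_zero_of_LS (pj_LS hv A) (pj_mem A v) h

theorem mem_inter (h : v ∈ LS K A) (h' : v ∈ LS K B) : v ∈ LS K (A ∩ B) := fun i hi => ⟨h i hi, h' i hi⟩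

/-- the components of an element of the centralizer of a homogeneous element -/
theorem br_pj {l : Q8 →+ ℝ} {k : ℝ} {s : L8 K} (hs : s ∈ LS K (Eq' l k)) (h : br s v = 0) (P : ℝ → Prop) :
    br s (pj {a | P (l a)} v) = 0 := by
  have h1 : br s (pj {a | P (l a)} v) ∈ LS K {a | P (l a - k)} :=
    br_LS (fun a ha b hb => by
      show P (l (a + b) - k)
      rwa [map_add, mem_Eq.1 ha, add_sub_cancel_left]) hs (pj_mem _ v)
  have h2 : br s (v - pj {a | P (l a)} v) ∈ LS K {a | ¬ P (l a - k)} :=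
    br_LS (fun a ha b hb => by
      show ¬ P (l (a + b) - k)
      rwa [map_add, mem_Eq.1 ha, add_sub_cancel_left]) hs (sub_pj _ v)
  rw [br_sub_right, h, zero_sub] at h2
  exact eq_zero_of_LS h1 (neg_mem_iff.1 h2) fun a ha hb => hb ha

theorem sub_pj_gt {l : Q8 →+ ℝ} {c : ℝ} (h : v ∈ LS K (Ge l c)) : v - pj (Eq' l c) v ∈ LS K {a | c < l a} :=
  LS_mono (fun a ha => lt_of_le_of_ne ha.1 fun e => ha.2 e.symm)
    (mem_inter (sub_mem h (pj_LS h _)) (sub_pj _ v))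

/-- leading terms -/
theorem pj_br {l : Q8 →+ ℝ} {c c' : ℝ} {x y : L8 K} (hx : x ∈ LS K (Ge l c)) (hy : y ∈ LS K (Ge l c')) :
    pj (Eq' l (c + c')) (br x y) = br (pj (Eq' l c) x) (pj (Eq' l c') y) := by
  have e : br x y = br (pj (Eq' l c) x) (pj (Eq' l c') y) +
      (br (pj (Eq' l c) x) (y - pj (Eq' l c') y) + br (x - pj (Eq' l c) x) y) := by
    rw [br_sub_left, br_sub_right]
    abel
  have h1 : br (pj (Eq' l c) x) (pj (Eq' l c') y) ∈ LS K (Eq' l (c + c')) :=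
    br_LS (fun a ha b hb => by rw [mem_Eq, map_add, mem_Eq.1 ha, mem_Eq.1 hb]) (pj_mem _ x) (pj_mem _ y)
  have h2 : br (pj (Eq' l c) x) (y - pj (Eq' l c') y) + br (x - pj (Eq' l c) x) y ∈ LS K {a | c + c' < l a} :=
    add_mem (br_LS (fun a ha b hb => by
      show c + c' < l (a + b)
      rw [map_add, mem_Eq.1 ha]
      exact add_lt_add_right hb _) (pj_mem _ x) (sub_pj_gt hy)) (br_LS (fun a ha b hb => by
      show c + c' < l (a + b)
      rw [map_add]
      exact add_lt_add_of_lt_of_le ha hb) (sub_pj_gt hx) hy)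
  rw [e, map_add, pj_of_mem h1, pj_eq_zero (A := Eq' l (c + c')) h2 fun a ha hb => ne_of_gt ha hb, add_zero]

theorem br_Ge {l : Q8 →+ ℝ} {c c' : ℝ} {x y : L8 K} (hx : x ∈ LS K (Ge l c)) (hy : y ∈ LS K (Ge l c')) :
    br x y ∈ LS K (Ge l (c + c')) :=
  br_LS (fun a ha b hb => by rw [mem_Ge, map_add]; exact add_le_add ha hb) hx hy

/-- the leading term of an element of cube zero is not toral -/
theorem lead_zero {l : Q8 →+ ℝ} {x : L8 K} (hx : x ∈ LS K (Ge l 0)) (hc : Cz x) (ht : InT (pj (Eq' l 0) x)) :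
    pj (Eq' l 0) x = 0 := by
  refine eq_zero_of_rl ht fun r => ?_
  have h0 : ee K (Sum.inr r) ∈ LS K (Eq' l (l (wt (Sum.inr r)))) := ee_mem_LS rfl
  have h1 := Eq_le_Ge h0
  have h2 := pj_br hx (br_Ge hx (br_Ge hx h1))
  rw [hc.br3, map_zero, pj_br hx (br_Ge hx h1), pj_br hx h1, pj_of_mem h0, br_T_ee ht, br_smul_right, br_smul_right,
    br_T_ee ht, br_smul_right, br_T_ee ht, smul_smul, smul_smul] at h2
  have h3 := (smul_eq_zero.1 h2.symm).resolve_right (ee_ne_zero _)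
  simpa using h3

/-! ### Levi subalgebras -/

theorem pcl_LS (h0 : (0 : Q8) ∈ A) (ha : ∀ a ∈ A, ∀ b ∈ A, a + b ∈ A) : PCl (LS K A) := by
  refine ⟨fun x hx y hy => br_LS ha hx hy, fun x hx y hy i hi => ?_⟩
  rcases i with i | s
  · exact h0
  obtain ⟨j, hj⟩ := exists_cartan_ne (K := K) s
  have h1 : br x (br x (br x (ee K (Sum.inl j)))) ∈ LS K A :=
    br_LS ha hx (br_LS ha hx (br_LS ha hx (ee_mem_LS (i := Sum.inl j) h0)))
  refine h1 _ ?_
  have h2 : adm x ^ 3 = adm x * (adm x * adm x) := by rw [pow_succ', pow_two]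
  unfold br
  rw [Matrix.mulVec_mulVec, Matrix.mulVec_mulVec, mul_assoc, ← h2, ← hy, mulVec_ee, adm_inr_inl]
  exact neg_ne_zero.2 (mul_ne_zero hj hi)

theorem rank_cube {V : Type*} [AddCommGroup V] [Module K V] [FiniteDimensional K V] {D : Module.End K V}
    (h : ∀ v, D (D (D v)) = 0) {T : Submodule K V} (h1 : T ≤ LinearMap.ker D) (h2 : Disjoint (LinearMap.range D) T) :
    finrank K V + 2 * finrank K T ≤ 3 * finrank K (LinearMap.ker D) := by
  have e1 := LinearMap.finrank_range_add_finrank_ker D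
  have e2 := Lt.fr D (LinearMap.range D)
  have e3 : finrank K ((LinearMap.range D).map D) ≤ finrank K ↥(LinearMap.range D ⊓ LinearMap.ker D) :=
    Submodule.finrank_mono (by
      rintro _ ⟨_, ⟨v, rfl⟩, rfl⟩
      exact ⟨⟨_, rfl⟩, h v⟩)
  have e4 := Submodule.finrank_sup_add_finrank_inf_eq (LinearMap.range D ⊓ LinearMap.ker D) T
  rw [(h2.mono_left inf_le_left).eq_bot, finrank_bot, add_zero] at e4
  have e5 : finrank K ↥(LinearMap.range D ⊓ LinearMap.ker D ⊔ T) ≤ finrank K (LinearMap.ker D) :=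
    Submodule.finrank_mono (sup_le inf_le_right h1)
  omega

theorem cd_ge {x : L8 K} (hx : x ∈ LS K A) (hc : Cz x) [DecidablePred (· ∈ B)]
    (h : ∀ i j, wt i ∈ B ∨ wt j ∈ B → ∀ a ∈ A, wt i = a + wt j → i = j) :
    248 + 2 * (Finset.univ.filter fun i : chevE8.Idx => wt i ∈ B).card ≤ 3 * cd x := by
  have h1 : ∀ i j, wt i ∈ B ∨ wt j ∈ B → adm x i j ≠ 0 → i = j := fun i j hij e => by
    obtain ⟨k, hk, e'⟩ := adm_wt e
    exact h i j hij _ (hx k hk) e'
  have h2 : ∀ j, wt j ∈ B → adm x j j = 0 := fun j hj => by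
    have h3 : br x (ee K j) = adm x j j • ee K j := funext fun i => by
      rw [br, mulVec_ee, Pi.smul_apply, smul_eq_mul]
      by_cases e : i = j
      · rw [e, ee_self, mul_one]
      · rw [ee_ne e, mul_zero]
        by_contra e'
        exact e (h1 i j (Or.inr hj) e')
    have h4 := hc.br3 (ee K j)
    rw [h3, br_smul_right, h3, br_smul_right, br_smul_right, h3, smul_smul, smul_smul] at h4
    have h5 := (smul_eq_zero.1 h4).resolve_right (ee_ne_zero _)
    simpa using h5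
  have h3 : ∀ i j, adm x i j ≠ 0 → wt i ∉ B ∧ wt j ∉ B := fun i j e =>
    ⟨fun hi => e (by have := h1 i j (Or.inl hi) e; subst this; exact h2 _ hi),
      fun hj => e (by have := h1 i j (Or.inr hj) e; subst this; exact h2 _ hj)⟩
  have h4 := rank_cube (D := TwoH.brL K x) hc.br3 (T := LS K B) (fun v hv => funext fun i => by
      by_contra e
      obtain ⟨j, e1, e2⟩ := exists_ne_of_mulVec e
      exact (h3 i j e1).2 (hv j e2))
    ((Lt.disj (A := Bᶜ) fun a ha => ha).mono_left (by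
      rintro _ ⟨v, rfl⟩ i e
      obtain ⟨j, e1, -⟩ := exists_ne_of_mulVec e
      exact (h3 i j e1).1))
  rw [Inf.finrank_L8, finrank_LS] at h4
  have h5 : LinearMap.ker (TwoH.brL K x) = cen {x} := Submodule.ext fun v => mem_cen_one.symm
  rwa [h5] at h4

/-- the roots orthogonal to four fundamental roots -/
def Orth (l : List (Fin 8)) : Set Q8 := {a | a ≠ 0 ∧ ∀ i ∈ l, pairing (cartanOf chevE8 8) i a = 0}

instance decOrth (l : List (Fin 8)) : DecidablePred (· ∈ Orth l) := fun a =>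
  inferInstanceAs (Decidable (a ≠ 0 ∧ ∀ i ∈ l, pairing (cartanOf chevE8 8) i a = 0))

theorem orth_D : (Finset.univ.filter fun i : chevE8.Idx => wt i ∈ Orth [1, 2, 3, 4]).card = 24 ∧
    ∀ j : chevE8.Idx, wt j ∈ Orth [1, 2, 3, 4] → ∀ i : chevE8.Idx, wt i 0 = wt j 0 → wt i 5 = wt j 5 → wt i 6 = wt j 6 →
      wt i 7 = wt j 7 → i = j := by decide +kernel

theorem orth_A : (Finset.univ.filter fun i : chevE8.Idx => wt i ∈ Orth [0, 1, 2, 3]).card = 20 ∧
    ∀ j : chevE8.Idx, wt j ∈ Orth [0, 1, 2, 3] → ∀ i : chevE8.Idx, wt i 4 = wt j 4 → wt i 5 = wt j 5 → wt i 6 = wt j 6 →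
      wt i 7 = wt j 7 → i = j := by decide +kernel

theorem cd_ge' {x : L8 K} {p q r s : Fin 8} (hx : x ∈ LS K {a | a p = 0 ∧ a q = 0 ∧ a r = 0 ∧ a s = 0}) (hc : Cz x)
    {l : List (Fin 8)} {n : ℕ} (h : (Finset.univ.filter fun i : chevE8.Idx => wt i ∈ Orth l).card = n ∧
      ∀ j : chevE8.Idx, wt j ∈ Orth l → ∀ i : chevE8.Idx, wt i p = wt j p → wt i q = wt j q → wt i r = wt j r →
        wt i s = wt j s → i = j) : 248 + 2 * n ≤ 3 * cd x := by
  rw [← h.1]
  refine cd_ge hx hc fun i j hij a ha e => ?_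
  have h1 : ∀ t, a t = 0 → wt i t = wt j t := fun t ht => by rw [e, Pi.add_apply, ht, zero_add]
  rcases hij with hi | hj
  · exact (h.2 i hi j (h1 _ ha.1).symm (h1 _ ha.2.1).symm (h1 _ ha.2.2.1).symm (h1 _ ha.2.2.2).symm).symm
  · exact h.2 j hj i (h1 _ ha.1) (h1 _ ha.2.1) (h1 _ ha.2.2.1) (h1 _ ha.2.2.2)

theorem pcl4 (p q r s : Fin 8) : PCl (LS K {a | a p = 0 ∧ a q = 0 ∧ a r = 0 ∧ a s = 0}) :=
  pcl_LS ⟨rfl, rfl, rfl, rfl⟩ fun a ha b hb => ⟨by rw [Pi.add_apply, ha.1, hb.1, add_zero],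
    by rw [Pi.add_apply, ha.2.1, hb.2.1, add_zero], by rw [Pi.add_apply, ha.2.2.1, hb.2.2.1, add_zero],
    by rw [Pi.add_apply, ha.2.2.2, hb.2.2.2, add_zero]⟩

/-! ### a conjugate of `YD` -/

theorem conj_ex (i : Fin 8) (y : Q8) (hv : v ∈ LS K {a | ex (srefl chevE8 8 i y) a = 0}) :
    act (KFacts.RgdChevCoord.nc e8T K i) v ∈ LS K {a | ex y a = 0} :=
  mulVec_LS (fun a b hab hb => by
    show ex y (wt a) = 0
    rw [nc_wt i hab, ex_refl]
    exact hb) hv

theorem yd_chk : ∀ j : chevE8.Idx, ex ![1, 0, 0, 0, 0, 1, 1, 1] (wt j) = 0 →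
    wt j 0 = 0 ∧ wt j 5 = 0 ∧ wt j 6 = 0 ∧ wt j 7 = 0 := by decide +kernel

/-- the cocharacter which vanishes on the roots of the algebra `G₂` -/
def y4 : Q8 := ![1, 0, 1, -2, 1, 1, 2, 1]

theorem y4_eq : y4 = [(3 : Fin 8), 1, 2, 3, 4, 3, 2, 0, 5].foldr (srefl chevE8 8) ![1, 0, 0, 0, 0, 1, 1, 1] := by
  decide +kernel

theorem exists_YD : ∃ n : G8 K, ∀ v ∈ LS K {a | ex y4 a = 0}, act n v ∈ YD K := by
  rw [y4_eq]
  induction [(3 : Fin 8), 1, 2, 3, 4, 3, 2, 0, 5] with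
  | nil => exact ⟨1, fun v hv i hi => yd_chk i (hv i (by rwa [act_one] at hi))⟩
  | cons i l ih =>
    obtain ⟨n, hn⟩ := ih
    exact ⟨n * KFacts.RgdChevCoord.nc e8T K i, fun v hv => by rw [act_mul]; exact hn _ (conj_ex i _ hv)⟩

/-! ### centralizers -/

variable {ψ : Alt 6 →* G8 K}

theorem sa_cen (S : Set (L8 K)) : Sa (cen S) := fun x hx y hy s hs => br_br_zero (hx s hs) (hy s hs)

theorem cen_span (S : Set (L8 K)) : cen (Submodule.span K S : Set (L8 K)) = cen S := by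
  refine le_antisymm (fun v hv s hs => hv s (Submodule.subset_span hs)) fun v hv s hs => ?_
  have h1 : Submodule.span K S ≤ cen {v} := Submodule.span_le.2 fun s hs => mem_cen_one.2 (br_comm_zero (hv s hs))
  exact br_comm_zero (mem_cen_one.1 (h1 hs))

theorem inv_cen {U : Submodule K (L8 K)} (h : Inv ψ U) : Inv ψ (cen (U : Set (L8 K))) := fun a v hv s hs => by
  have h1 := hv _ (h a⁻¹ s hs)
  rw [← act_inv' (ψ a) s, ← act_br, ← map_inv, h1, act_zero]

/-- a perfect algebra whose nonzero ideals contain the noncentral element `s` -/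
structure Min (g : Submodule K (L8 K)) (s : L8 K) : Prop where
  sa : Sa g
  perf : g ≤ Submodule.span K {z | ∃ x ∈ g, ∃ y ∈ g, z = br x y}
  min : ∀ I ≤ g, I ≠ ⊥ → (∀ x ∈ g, ∀ y ∈ I, br x y ∈ I) → s ∈ I
  nc : ∃ x ∈ g, br x s ≠ 0

variable {g c : Submodule K (L8 K)} {s : L8 K}

theorem Min.centre (H : Min g s) (hv : v ∈ g) (hv' : v ∈ cen (g : Set (L8 K))) : v = 0 := by
  by_contra h
  obtain ⟨x, hx, h1⟩ := H.nc
  exact h1 ((H.min (g ⊓ cen g) inf_le_left ((Submodule.ne_bot_iff _).2 ⟨v, ⟨hv, hv'⟩, h⟩) fun x hx y hy => by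
    rw [hy.2 x hx]
    exact zero_mem _).2 x hx)

/-- a subspace which the algebra normalises and on which its elements commute -/
theorem Min.kill (H : Min g s) (h : ∀ x ∈ g, br x v ∈ cen (g : Set (L8 K))) : v ∈ cen (g : Set (L8 K)) := fun x hx => by
  have h1 : Submodule.span K {z | ∃ x ∈ g, ∃ y ∈ g, z = br x y} ≤ cen {v} := Submodule.span_le.2 (by
    rintro _ ⟨x, hx, y, hy, rfl⟩
    refine mem_cen_one.2 (br_comm_zero ?_)
    rw [br_jac, h y hy x hx, h x hx y hy, sub_zero])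
  exact br_comm_zero (mem_cen_one.1 (h1 (H.perf hx)))

theorem Min.ideal (H : Min g s) {x y : L8 K} (hx : x ∈ g ⊔ cen (g : Set (L8 K))) (hy : y ∈ g) : br x y ∈ g := by
  obtain ⟨a, ha, b, hb, rfl⟩ := Submodule.mem_sup.1 hx
  rw [br_add_left, br_comm_zero (hb y hy), add_zero]
  exact H.sa a ha y hy

theorem ideal_cen {x y : L8 K} (hx : x ∈ g ⊔ cen (g : Set (L8 K))) (hy : y ∈ cen (g : Set (L8 K))) :
    br x y ∈ cen (g : Set (L8 K)) := by
  obtain ⟨a, ha, b, hb, rfl⟩ := Submodule.mem_sup.1 hx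
  rw [br_add_left, hy a ha, zero_add]
  exact sa_cen _ b hb y hy

theorem Min.split1 (H : Min g s) (h1 : g ≤ c) (h2 : c ≤ g ⊔ cen (g : Set (L8 K))) {t : G8 K} (ht : ∀ v ∈ c, act t v ∈ c)
    (ht' : ∀ v ∈ c, act t⁻¹ v ∈ c) : (∀ x ∈ g, act t x ∈ g) ∨ ∀ x ∈ g, act t x ∈ cen (g : Set (L8 K)) := by
  have h3 : g ≤ g ⊓ pb t g ⊔ g ⊓ pb t (cen g) := H.perf.trans (Submodule.span_le.2 (by
    rintro _ ⟨x, hx, y, hy, rfl⟩
    obtain ⟨a, ha, b, hb, e⟩ := Submodule.mem_sup.1 (h2 (ht y (h1 hy)))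
    have e1 : y = act t⁻¹ a + act t⁻¹ b := by rw [← act_add, e, act_inv]
    have e2 : br x (act t⁻¹ a) ∈ g := by
      rw [br_anti]
      exact neg_mem (H.ideal (h2 (ht' a (h1 ha))) hx)
    refine Submodule.mem_sup.2 ⟨br x (act t⁻¹ a), ⟨e2, ?_⟩, br x (act t⁻¹ b), ⟨?_, ?_⟩, by rw [← br_add_right, ← e1]⟩
    · show act t _ ∈ g
      rw [act_br, act_inv']
      exact H.ideal (h2 (ht x (h1 hx))) ha
    · have e3 : br x (act t⁻¹ b) = br x y - br x (act t⁻¹ a) := by rw [← br_sub_right, e1, add_sub_cancel_left]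
      show _ ∈ g
      rw [e3]
      exact sub_mem (H.sa x hx y hy) e2
    · show act t _ ∈ cen _
      rw [act_br, act_inv']
      exact ideal_cen (h2 (ht x (h1 hx))) hb))
  by_cases h4 : g ⊓ pb t g = ⊥
  · rw [h4, bot_sup_eq] at h3
    exact Or.inr fun x hx => (h3 hx).2
  by_cases h5 : g ⊓ pb t (cen g) = ⊥
  · rw [h5, sup_bot_eq] at h3
    exact Or.inl fun x hx => (h3 hx).2
  have h6 := H.min _ inf_le_left h4 fun x hx y hy => ⟨H.sa x hx y hy.1, by
    show act t _ ∈ g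
    rw [act_br]
    exact H.ideal (h2 (ht x (h1 hx))) hy.2⟩
  have h7 := H.min _ inf_le_left h5 fun x hx y hy => ⟨H.sa x hx y hy.1, by
    show act t _ ∈ cen _
    rw [act_br]
    exact ideal_cen (h2 (ht x (h1 hx))) hy.2⟩
  obtain ⟨x, -, h8⟩ := H.nc
  rw [act_eq_zero (H.centre h6.2 h7.2), br_zero_right] at h8
  exact absurd rfl h8

theorem Min.split3 (H : Min g s) (h1 : g ≤ c) (h2 : c ≤ g ⊔ cen (g : Set (L8 K))) (hd : finrank K c < 3 * finrank K g)
    {t : G8 K} (ht : ∀ v ∈ c, act t v ∈ c) (ht' : ∀ v ∈ c, act t⁻¹ v ∈ c) (h3 : t * t = t⁻¹) : ∀ x ∈ g, act t x ∈ g := by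
  refine (H.split1 h1 h2 ht ht').resolve_right fun h4 => ?_
  rcases H.split1 h1 h2 ht' (by rwa [inv_inv]) with h5 | h5
  · obtain ⟨x, hx, h6⟩ := H.nc
    have h7 : act t x = act t⁻¹ (act t⁻¹ x) := by rw [← act_mul, ← _root_.mul_inv_rev, h3, inv_inv]
    rw [act_eq_zero (H.centre (h7 ▸ h5 _ (h5 x hx)) (h4 x hx)), br_zero_left] at h6
    exact h6 rfl
  have e1 : pb t⁻¹ g ⊔ pb t g ≤ cen g ⊓ c := sup_le
    (fun v hv => by rw [← act_inv' t v]; exact ⟨h4 _ hv, ht _ (h1 hv)⟩)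
    fun v hv => by rw [← act_inv t v]; exact ⟨h5 _ hv, ht' _ (h1 hv)⟩
  have e2 := Submodule.finrank_sup_add_finrank_inf_eq (pb t⁻¹ g) (pb t g)
  have e3 := Submodule.finrank_sup_add_finrank_inf_eq g (pb t⁻¹ g ⊔ pb t g)
  have e4 : pb t⁻¹ g ⊓ pb t g = ⊥ := (Submodule.eq_bot_iff _).2 fun v hv =>
    act_eq_zero (g := t⁻¹) (H.centre (mem_pb.1 hv.1) (by rw [← h3, act_mul]; exact h4 _ hv.2))
  have e5 : g ⊓ (pb t⁻¹ g ⊔ pb t g) = ⊥ := (Submodule.eq_bot_iff _).2 fun v hv => H.centre hv.1 (e1 hv.2).1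
  have e6 : finrank K ↥(g ⊔ (pb t⁻¹ g ⊔ pb t g)) ≤ finrank K c :=
    Submodule.finrank_mono (sup_le h1 (e1.trans inf_le_right))
  rw [e4, finrank_bot, finrank_pb, finrank_pb] at e2
  rw [e5, finrank_bot] at e3
  omega

/-- **the splitting lemma** -/
theorem Min.split (H : Min g s) (hc : Inv ψ c) (h1 : g ≤ c) (h2 : c ≤ g ⊔ cen (g : Set (L8 K)))
    (hd : finrank K c < 3 * finrank K g) : Inv ψ g := by
  have h3 : ∀ a : Alt 6, a ^ 3 = 1 → ∀ x ∈ g, act (ψ a) x ∈ g := fun a ha =>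
    H.split3 h1 h2 hd (hc a) (by rw [← map_inv]; exact hc _) (by
      rw [eq_inv_iff_mul_eq_one, ← map_mul, ← map_mul, ← pow_three', ha, map_one])
  have h4 : alternatingGroup (Fin 6) ≤ ((stabL g).comap ψ).map (alternatingGroup (Fin 6)).subtype := by
    conv_lhs => rw [← Equiv.Perm.closure_three_cycles_eq_alternating]
    refine (Subgroup.closure_le _).2 fun σ hσ => ?_
    have h5 : (⟨σ, Equiv.Perm.IsThreeCycle.mem_alternatingGroup hσ⟩ : Alt 6) ^ 3 = 1 := Subtype.ext (by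
      have := pow_orderOf_eq_one σ
      rwa [Equiv.Perm.IsThreeCycle.orderOf hσ] at this)
    refine ⟨⟨σ, Equiv.Perm.IsThreeCycle.mem_alternatingGroup hσ⟩, mem_stabL.2 ⟨h3 _ h5, ?_⟩, rfl⟩
    rw [← map_inv]
    exact h3 _ (by rw [inv_pow, h5, inv_one])
  intro a
  obtain ⟨b, hb, e⟩ := h4 a.2
  rw [← show b = a from Subtype.ext e]
  exact (mem_stabL.1 hb).1

end G2

open G2

/-- **LOW** -/
theorem low : LOW.{u} := fun K _ _ => ⟨pcl4 0 5 6 7, pcl4 4 5 6 7,
  fun x hx hc => by have := cd_ge' hx hc orth_D; omega, fun x hx hc => by have := cd_ge' hx hc orth_A; omega⟩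

end Cfsg.Agent.E8A.C63
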