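import Cfsg.Agent.E8A.C63.G2A
import Cfsg.Agent.E8A.C63.Sv
import Cfsg.Agent.E8A.Odd.Sl2

/-!
# `A₆` in characteristic 3: certificates for centralizers (helper52)

* `spn K B` : the span of a list of sparse vectors; `finrank_spn_le`, `le_finrank_spn`, `mem_of_memS`;
* `mem_of_cert` : the common centralizer of `xs` inside `LS A` lies in `spn K B`;
* `min_of_chk` : `Min (spn K B) s` from kernel checks; `isH_eq`.
-/

set_option autoImplicit false
set_option maxRecDepth 100000
set_option maxHeartbeats 400000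
set_option linter.unusedVariables false
set_option linter.unusedSectionVars false

namespace Cfsg.Agent.E8A.C63.G2

open Cfsg Cfsg.Lie Module
open Cfsg.Agent.H288.E8L (Q8 wt wt_inl wt_inr)
open Cfsg.Agent.Tits.Roots (sr)
open Cfsg.Agent.ChevalleyStructure.JacTab
open Cfsg.Agent.ChevalleyStructure.JacDataE8 (rows)
open Cfsg.Agent.ChevalleyStructure.CoxeterGeom (pairing)
open Cfsg.Agent.ChevalleyStructure.CoxeterGeomTypes (cartanOf)
open Cfsg.Agent.E8A.Inf (kf)
open Cfsg.Agent.E8A.Reg5.Cls (ex)
open Cfsg.Agent.E8A.TwoH (br_anti br_self br_jac br_zero_left br_zero_right br_comm_zero br_br_zero hq kf_hq inT_hq)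
open Cfsg.Agent.E8A.C63.Sv

universe u

/-! ### the computations -/

/-- all members satisfy `p` -/
noncomputable def allL {α : Type} (p : α → Bool) (l : List α) : Bool :=
  List.rec (motive := fun _ => Bool) true (fun q _ ih => Bool.rec (motive := fun _ => Bool) false ih (p q)) l

/-- the toral vector of a lattice vector -/
def hv (a : Q8) : SV :=
  [(240, a 0), (241, a 1), (242, a 2), (243, a 3), (244, a 4), (245, a 5), (246, a 6), (247, a 7)]

/-- the fundamental weights -/
def fw (i : ℕ) : Q8 :=
  ([![4, 5, 7, 10, 8, 6, 4, 2], ![5, 8, 10, 15, 12, 9, 6, 3], ![7, 10, 14, 20, 16, 12, 8, 4],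
    ![10, 15, 20, 30, 24, 18, 12, 6], ![8, 12, 16, 24, 20, 15, 10, 5], ![6, 9, 12, 18, 15, 12, 8, 4],
    ![4, 6, 8, 12, 10, 8, 6, 3], ![2, 3, 4, 6, 5, 4, 3, 2]] : List Q8).getD i 0

/-- the dual basis -/
noncomputable def dv (k : ℕ) : SV :=
  Bool.rec (motive := fun _ => SV) (hv (fw (Nat.sub k 240))) [(Nat.sub 239 k, Int.ofNat 1)] (Nat.blt k 240)

/-- the first key -/
noncomputable def hd (b : SV) : ℕ := List.rec (motive := fun _ => ℕ) 0 (fun p _ _ => p.1) b

/-- add a multiple -/
noncomputable def addZ (c : ℤ) (h acc : SV) : SV := Bool.rec (motive := fun _ => SV) (addH c h acc) acc (intZ c)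

/-- add a bracket -/
noncomputable def brA (x y acc : SV) : SV :=
  List.rec (motive := fun _ => SV) acc (fun p _ ih => adS (rowAt rows p.1) p.2 y ih) x

/-- add the brackets with packed vectors -/
noncomputable def brL (xs : List SV) : List ℕ → SV → SV :=
  List.rec (motive := fun _ => List ℕ → SV → SV) (fun _ acc => acc)
    (fun x _ ih ws acc => List.rec (motive := fun _ => SV) acc
      (fun w ws' _ => Bool.rec (motive := fun _ => SV) (brA x (dec w) (ih ws' acc)) (ih ws' acc) (Nat.beq w 0)) ws) xs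

/-- add the functional of a coordinate of the combination -/
noncomputable def cmb (k : ℕ) (acc : SV) (B : List SV) : List ℕ → SV :=
  List.rec (motive := fun _ => List ℕ → SV) (fun _ => acc)
    (fun b _ ih D => List.rec (motive := fun _ => SV) acc (fun d D' _ => addZ (cf b k) (dec d) (ih D')) D) B

/-- zero modulo three and the good keys -/
noncomputable def zk (ok : ℕ → Bool) (l : SV) : Bool :=
  allL (fun p => Bool.rec (motive := fun _ => Bool) (ok p.1) true (Nat.beq (m3 p.2) 0)) l

/-- all rows -/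
noncomputable def allR (f : ℕ → List ℕ → Bool) (R : List (List ℕ)) : ℕ → Bool :=
  List.rec (motive := fun _ => ℕ → Bool) (fun k => Nat.ble 248 k)
    (fun ws _ ih k => Bool.rec (motive := fun _ => Bool) false (frc (Nat.succ k) ih) (f k ws)) R

/-- the certificate -/
noncomputable def cert (xs : List SV) (ok : ℕ → Bool) (B : List SV) (D : List ℕ) (R : List (List ℕ)) : Bool :=
  allR (fun k ws => zk ok (brL xs ws (cmb k (addH (Int.negSucc 0) (dv k) []) B D))) R 0

/-- reduction by a triangular list -/
noncomputable def red (B : List SV) : SV → SV :=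
  List.rec (motive := fun _ => SV → SV) (fun l => l) (fun b _ ih l => ih (addZ (Int.neg (cf l (hd b))) b l)) B

/-- membership -/
noncomputable def memS (B : List SV) (l : SV) : Bool := Sv.z3 (red B l)

/-- the list is triangular -/
noncomputable def tri (B : List SV) : Bool :=
  List.rec (motive := fun _ => Bool) true
    (fun b t ih => Nat.blt (hd b) 248 && !Nat.beq (m3 (cf b (hd b))) 0 && allL (fun c => Nat.beq (m3 (cf c (hd b))) 0) t && ih) B

/-- a word of brackets -/
noncomputable def adW (w : List SV) (l : SV) : SV := List.rec (motive := fun _ => SV) l (fun x _ ih => brS x ih) w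

/-- the words which lead to `s` -/
noncomputable def minC (B : List SV) (s : SV) (O : List (SV × List SV)) : Bool :=
  List.rec (motive := fun _ => Bool) true
    (fun q t ih => allL (memS B) q.2 && eq3 (adW q.2 q.1) s && allL (fun r => Sv.z3 (adW q.2 r.1)) t && ih) O

/-- a sum of brackets -/
noncomputable def sumB (P : List (SV × SV)) : SV := List.rec (motive := fun _ => SV) [] (fun q _ ih => brA q.1 q.2 ih) P

/-- all brackets vanish -/
noncomputable def comm (X Y : List SV) : Bool := allL (fun x => allL (fun y => Sv.z3 (br0 x y)) Y) X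

/-- the first coefficient is not divisible by three -/
noncomputable def nzK (l : SV) : Bool := Nat.blt (hd l) 248 && !Nat.beq (m3 (cf l (hd l))) 0

/-- the degree of the dual key is not `d` -/
noncomputable def okE (y : Q8) (d : ℤ) (k : ℕ) : Bool := !intZ (Int.add (dg y k) d)

/-- the degree of the dual key is not negative -/
noncomputable def okN (y : Q8) (k : ℕ) : Bool := decide (dg y k ≤ 0)

theorem allL_spec {α : Type} {p : α → Bool} {l : List α} (h : allL p l = true) : ∀ q ∈ l, p q = true := by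
  induction l with
  | nil => intro q hq; cases hq
  | cons a l ih =>
    have e : allL p (a :: l) = Bool.rec (motive := fun _ => Bool) false (allL p l) (p a) := rfl
    rw [e] at h
    cases h1 : p a
    · rw [h1] at h; cases h
    · rw [h1] at h
      intro q hq
      rcases List.mem_cons.1 hq with rfl | hq
      · exact h1
      · exact ih h q hq

theorem allR_spec {f : ℕ → List ℕ → Bool} {R : List (List ℕ)} : ∀ {j : ℕ}, allR f R j = true → ∀ k, j ≤ k → k < 248 →
    ∃ ws, f k ws = true := by
  induction R with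
  | nil =>
    intro j h k h1 h2
    have : 248 ≤ j := Nat.le_of_ble_eq_true h
    omega
  | cons ws R ih =>
    intro j h k h1 h2
    have e : allR f (ws :: R) j = Bool.rec (motive := fun _ => Bool) false (frc (Nat.succ j) (allR f R)) (f j ws) := rfl
    rw [e, frc_eq] at h
    cases h3 : f j ws
    · rw [h3] at h; cases h
    · rw [h3] at h
      rcases h1.eq_or_lt with rfl | h4
      · exact ⟨ws, h3⟩
      · exact ih h k h4 h2

theorem fw_chk : ∀ i j : Fin 8, pairing (cartanOf chevE8 8) j (fw i.val) = if j = i then 1 else 0 := by decide +kernel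

/-! ### the semantics -/

variable {K : Type u} [Field K]

variable (K) in
/-- the span of a list -/
def spn (B : List SV) : Submodule K (L8 K) := Submodule.span K {v | ∃ b ∈ B, v = sv K b}

variable {B : List SV} {v : L8 K}

theorem sv_mem_spn {b : SV} (h : b ∈ B) : sv K b ∈ spn K B := Submodule.subset_span ⟨b, h, rfl⟩

theorem spn_le {U : Submodule K (L8 K)} (h : ∀ b ∈ B, sv K b ∈ U) : spn K B ≤ U :=
  Submodule.span_le.2 (by rintro _ ⟨b, hb, rfl⟩; exact h b hb)

theorem spn_nil : spn K [] = ⊥ := le_bot_iff.1 (spn_le fun b hb => by cases hb)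

theorem spn_cons (b : SV) (B : List SV) : spn K (b :: B) = Submodule.span K {sv K b} ⊔ spn K B :=
  le_antisymm (spn_le fun c hc => by
      rcases List.mem_cons.1 hc with rfl | hc
      · exact Submodule.mem_sup_left (Submodule.mem_span_singleton_self _)
      · exact Submodule.mem_sup_right (sv_mem_spn hc))
    (sup_le ((Submodule.span_singleton_le_iff_mem _ _).2 (sv_mem_spn List.mem_cons_self))
      (spn_le fun c hc => sv_mem_spn (List.mem_cons_of_mem _ hc)))

theorem mem_spn_cons {b : SV} (h : v ∈ spn K (b :: B)) : ∃ c : K, ∃ w ∈ spn K B, v = c • sv K b + w := by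
  rw [spn_cons] at h
  obtain ⟨a, ha, w, hw, rfl⟩ := Submodule.mem_sup.1 h
  obtain ⟨c, rfl⟩ := Submodule.mem_span_singleton.1 ha
  exact ⟨c, w, hw, rfl⟩

theorem mem_spn_one {b : SV} (h : v ∈ spn K [b]) : ∃ c : K, v = c • sv K b := by
  obtain ⟨c, w, hw, rfl⟩ := mem_spn_cons h
  rw [spn_nil, Submodule.mem_bot] at hw
  exact ⟨c, by rw [hw, add_zero]⟩

theorem spn_append (B B' : List SV) : spn K (B ++ B') = spn K B ⊔ spn K B' :=
  le_antisymm (spn_le fun c hc => by
      rcases List.mem_append.1 hc with hc | hc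
      · exact Submodule.mem_sup_left (sv_mem_spn hc)
      · exact Submodule.mem_sup_right (sv_mem_spn hc))
    (sup_le (spn_le fun c hc => sv_mem_spn (List.mem_append_left _ hc))
      (spn_le fun c hc => sv_mem_spn (List.mem_append_right _ hc)))

theorem finrank_spn_le (B : List SV) : finrank K (spn K B) ≤ B.length := by
  induction B with
  | nil => rw [spn_nil, finrank_bot]; exact Nat.zero_le _
  | cons b B ih =>
    have h1 := Submodule.finrank_add_le_finrank_add_finrank (Submodule.span K {sv K b}) (spn K B)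
    have h2 : finrank K (Submodule.span K {sv K b}) ≤ 1 := by
      simpa using finrank_span_le_card ({sv K b} : Set (L8 K))
    rw [spn_cons, List.length_cons]
    omega

theorem sv_addZ (c : ℤ) (h acc : SV) : sv K (addZ c h acc) = (c : K) • sv K h + sv K acc := by
  unfold addZ
  cases e : intZ c
  · exact sv_addH _ _ _
  · rw [eq_zero_of_intZ c e, Int.cast_zero, zero_smul, zero_add]

theorem sv_brA (x y acc : SV) : sv K (brA x y acc) = br (sv K x) (sv K y) + sv K acc := by
  induction x with
  | nil => rw [sv_nil, br_zero_left, zero_add]; rfl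
  | cons p x ih =>
    have : brA (p :: x) y acc = adS (rowAt rows p.1) p.2 y (brA x y acc) := rfl
    rw [this, sv_adS, ih, sv_cons, br_add_left, br_smul_left, add_assoc]

theorem sv_hv (a : Q8) : sv K (hv a) = hq K a := by
  funext x
  rcases x with j | r
  · obtain ⟨j, rfl⟩ : ∃ i, j = xi i := ⟨ix j, rfl⟩
    rw [cf_eq, ky_inl]
    show _ = ((a j : ℤ) : K)
    congr 1
    fin_cases j <;> exact Int.add_zero _
  · have h : r.val < 240 := nroots8 ▸ r.2
    have h1 : ∀ k, 240 ≤ k → eb K k (Sum.inr r) = 0 := fun k hk => if_neg (by rw [ky_inr]; omega)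
    show _ = (0 : K)
    simp only [hv, sv_cons, sv_nil, Pi.add_apply, Pi.smul_apply, smul_eq_mul, Pi.zero_apply]
    rw [h1 240 (by omega), h1 241 (by omega), h1 242 (by omega), h1 243 (by omega), h1 244 (by omega), h1 245 (by omega),
      h1 246 (by omega), h1 247 (by omega)]
    simp

theorem isH_eq {y a : Q8} {h : L8 K} (H : IsH y h) (e : ∀ i, Frm.B0 a (sr i) = ex y (sr i)) : h = sv K (hv a) := by
  rw [sv_hv]
  exact inT_ext H.1 (inT_hq a) fun i => by rw [H.2, TwoH.rl_hq, e]

theorem kf_dv (x : chevE8.Idx) (v : L8 K) : kf K (sv K (dv (ky x))) v = v x := by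
  unfold dv
  rcases x with i | r
  · obtain ⟨i, rfl⟩ : ∃ j, i = xi j := ⟨ix i, rfl⟩
    have h1 : Nat.blt (ky (Sum.inl (xi i))) 240 = false := by
      rw [ky_inl, ← Bool.not_eq_true, Nat.blt_eq]
      omega
    have h2 : Nat.sub (ky (Sum.inl (xi i))) 240 = i.val := by
      rw [ky_inl]
      exact Nat.add_sub_cancel_left _ _
    rw [h1, h2]
    show kf K (sv K (hv (fw i.val))) v = _
    rw [sv_hv, kf_hq, rl_apply, Finset.sum_eq_single (xi i)]
    · rw [ix_xi, fw_chk, if_pos rfl, Int.cast_one, one_mul]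
    · intro j _ hj
      rw [fw_chk, if_neg fun e => hj (by rw [← e, xi_ix]), Int.cast_zero, zero_mul]
    · exact fun h => absurd (Finset.mem_univ _) h
  · have h1 : Nat.blt (ky (Sum.inr r)) 240 = true := by
      rw [ky_inr, Nat.blt_eq, ← nroots8]
      exact r.2
    have h2 : Nat.sub 239 (ky (Sum.inr r)) = ky (Sum.inr (Par.op r)) := by
      rw [ky_inr, ky_inr, Par.op_eq_rv, H597.E8Form.rv_val]; rfl
    rw [h1, h2]
    show kf K (sv K [(ky (Sum.inr (Par.op r)), 1)]) v = _
    rw [sv_one, eb_ky, Par.kf_ee, Odd.op_op]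

theorem kf_eb_zero {A : Set Q8} (hv : v ∈ LS K A) {k : ℕ} (h : -wk k ∉ A) : kf K (eb K k) v = 0 := by
  by_cases hk : k < 248
  · obtain ⟨x, rfl⟩ := ky_surj hk
    rw [wk_ky] at h
    rw [eb_ky]
    rcases x with i | r
    · rw [wt_inl, neg_zero] at h
      rw [TwoH.kf_T fun r => ee_ne (by simp)]
      refine Finset.sum_eq_zero fun j _ => ?_
      rw [rl_apply, Finset.sum_eq_zero fun l _ => by rw [LS_zero hv (i := Sum.inl l) h, mul_zero], mul_zero]
    · rw [Par.kf_ee]
      exact LS_zero hv (by rwa [wt_inr, Par.vec_op])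
  · rw [eb_ge (not_lt.1 hk), map_zero, LinearMap.zero_apply]

theorem okE_spec {y : Q8} {d : ℤ} (hv : v ∈ LS K (Eq' (cl y) (d : ℝ))) (k : ℕ) (h : okE y d k = true) :
    kf K (eb K k) v = 0 := kf_eb_zero hv fun e => by
  rw [mem_Eq, map_neg, cl_apply, ← dg_eq, ← Int.cast_neg, Int.cast_inj] at e
  have h1 : Int.add (dg y k) d = 0 := by
    show dg y k + d = 0
    omega
  rw [okE, h1] at h
  cases h

theorem okN_spec {y : Q8} (hv : v ∈ LS K {a | cl y a < 0}) (k : ℕ) (h : okN y k = true) : kf K (eb K k) v = 0 :=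
  kf_eb_zero hv fun e => by
    have h1 : cl y (-wk k) < 0 := e
    rw [map_neg, cl_apply, ← dg_eq, neg_lt_zero, Int.cast_pos] at h1
    exact absurd (of_decide_eq_true h) (not_le.2 h1)

theorem kf_cmb (v : L8 K) (B : List SV) : ∀ D, ∃ w ∈ spn K B, ∀ (x : chevE8.Idx) (acc : SV),
    kf K (sv K (cmb (ky x) acc B D)) v = w x + kf K (sv K acc) v := by
  induction B with
  | nil => exact fun D => ⟨0, zero_mem _, fun x acc => (zero_add _).symm⟩
  | cons b B ih =>
    intro D
    cases D with
    | nil => exact ⟨0, zero_mem _, fun x acc => (zero_add _).symm⟩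
    | cons d D =>
      obtain ⟨w, hw, h⟩ := ih D
      refine ⟨kf K (sv K (dec d)) v • sv K b + w, add_mem (Submodule.smul_mem _ _ (sv_mem_spn List.mem_cons_self))
        (spn_le (fun c hc => sv_mem_spn (List.mem_cons_of_mem _ hc)) hw), fun x acc => ?_⟩
      have e : cmb (ky x) acc (b :: B) (d :: D) = addZ (cf b (ky x)) (dec d) (cmb (ky x) acc B D) := rfl
      rw [e, sv_addZ, map_add, map_smul, LinearMap.add_apply, LinearMap.smul_apply, h, Pi.add_apply, Pi.smul_apply,
        cf_eq, smul_eq_mul, smul_eq_mul]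
      ring

theorem red_spec (B : List SV) : ∀ l, sv K l - sv K (red B l) ∈ spn K B := by
  induction B with
  | nil => intro l; rw [show red [] l = l from rfl, sub_self]; exact zero_mem _
  | cons b B ih =>
    intro l
    have e : red (b :: B) l = red B (addZ (Int.neg (cf l (hd b))) b l) := rfl
    have h1 := ih (addZ (Int.neg (cf l (hd b))) b l)
    rw [sv_addZ] at h1
    rw [e, spn_cons]
    have h2 := sub_mem (Submodule.mem_sup_right (S := Submodule.span K {sv K b}) h1) (Submodule.mem_sup_left
      (Submodule.smul_mem _ ((Int.neg (cf l (hd b)) : ℤ) : K) (Submodule.mem_span_singleton_self (sv K b))))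
    convert h2 using 1
    abel

theorem sv_sumB {U : Submodule K (L8 K)} {P : List (SV × SV)} (h : ∀ q ∈ P, br (sv K q.1) (sv K q.2) ∈ U) :
    sv K (sumB P) ∈ U := by
  induction P with
  | nil => exact sv_nil (K := K) ▸ U.zero_mem
  | cons q P ih =>
    rw [show sumB (q :: P) = brA q.1 q.2 (sumB P) from rfl, sv_brA]
    exact add_mem (h q List.mem_cons_self) (ih fun r hr => h r (List.mem_cons_of_mem _ hr))

variable [CharP K 3]

theorem two_ne : (2 : K) ≠ 0 := by
  rw [two_eq]
  exact neg_ne_zero.2 one_ne_zero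

theorem kf_brL {xs : List SV} (hx : ∀ x ∈ xs, br (sv K x) v = 0) : ∀ ws acc, kf K (sv K (brL xs ws acc)) v = kf K (sv K acc) v := by
  induction xs with
  | nil => exact fun _ _ => rfl
  | cons x xs ih =>
    intro ws acc
    have h1 := ih fun y hy => hx y (List.mem_cons_of_mem _ hy)
    cases ws with
    | nil => rfl
    | cons w ws =>
      have e : brL (x :: xs) (w :: ws) acc =
        Bool.rec (motive := fun _ => SV) (brA x (dec w) (brL xs ws acc)) (brL xs ws acc) (Nat.beq w 0) := rfl
      rw [e]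
      cases Nat.beq w 0
      · show kf K (sv K (brA x (dec w) (brL xs ws acc))) v = _
        rw [sv_brA, map_add, LinearMap.add_apply, Odd.kf_inv two_ne, hx x List.mem_cons_self, map_zero, neg_zero, zero_add, h1]
      · exact h1 ws acc

theorem kf_zk {ok : ℕ → Bool} (hk : ∀ k, ok k = true → kf K (eb K k) v = 0) {l : SV} (h : zk ok l = true) :
    kf K (sv K l) v = 0 := by
  have h1 := allL_spec h
  clear h
  induction l with
  | nil => rw [sv_nil, map_zero, LinearMap.zero_apply]
  | cons p l ih =>
    rw [sv_cons, map_add, map_smul, LinearMap.add_apply, LinearMap.smul_apply, ih fun q hq => h1 q (List.mem_cons_of_mem _ hq),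
      add_zero, smul_eq_mul]
    have h2 := h1 p List.mem_cons_self
    cases h3 : Nat.beq (m3 p.2) 0
    · rw [h3] at h2
      rw [hk _ h2, mul_zero]
    · rw [cast_m3, Nat.eq_of_beq_eq_true h3, Nat.cast_zero, zero_mul]

/-- **the certificates** -/
theorem mem_of_cert {xs : List SV} {ok : ℕ → Bool} {D : List ℕ} {R : List (List ℕ)} (h : cert xs ok B D R = true)
    (hx : ∀ x ∈ xs, br (sv K x) v = 0) (hk : ∀ k, ok k = true → kf K (eb K k) v = 0) : v ∈ spn K B := by
  obtain ⟨w, hw, h0⟩ := kf_cmb v B D
  have e : v = w := funext fun x => by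
    obtain ⟨ws, h1⟩ := allR_spec h (ky x) (Nat.zero_le _) (ky_lt x)
    have h2 := kf_zk hk h1
    rw [kf_brL hx, h0, sv_addH, sv_nil, add_zero, map_smul, LinearMap.smul_apply, kf_dv] at h2
    have h3 : ((Int.negSucc 0 : ℤ) : K) = -1 := by simp
    rw [h3, smul_eq_mul, neg_one_mul, add_neg_eq_zero] at h2
    exact h2.symm
  rwa [e]

theorem mem_of_cert' {xs : List SV} {D : List ℕ} {R : List (List ℕ)} (h : cert xs (fun _ => false) B D R = true)
    (hx : ∀ x ∈ xs, br (sv K x) v = 0) : v ∈ spn K B := mem_of_cert h hx fun _ h => by cases h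

theorem mem_of_memS {l : SV} (h : memS B l = true) : sv K l ∈ spn K B := by
  have h1 := red_spec (K := K) B l
  rwa [sv_z3 h, sub_zero] at h1

theorem ne_zero_of_nzK {l : SV} (h : nzK l = true) : sv K l ≠ 0 := by
  rw [nzK, Bool.and_eq_true, Nat.blt_eq, Bool.not_eq_true'] at h
  exact sv_ne_zero h.1 h.2

theorem le_finrank_spn (h : tri B = true) : B.length ≤ finrank K (spn K B) := by
  induction B with
  | nil => exact Nat.zero_le _
  | cons b B ih =>
    have e : tri (b :: B) = (Nat.blt (hd b) 248 && !Nat.beq (m3 (cf b (hd b))) 0 &&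
      allL (fun c => Nat.beq (m3 (cf c (hd b))) 0) B && tri B) := rfl
    rw [e, Bool.and_eq_true, Bool.and_eq_true, Bool.and_eq_true, Nat.blt_eq, Bool.not_eq_true'] at h
    obtain ⟨⟨⟨h1, h2⟩, h3⟩, h4⟩ := h
    obtain ⟨x, hx⟩ := ky_surj h1
    have h5 : spn K B ≤ LinearMap.ker (LinearMap.proj x) := spn_le fun c hc => by
      show sv K c x = 0
      rw [cf_eq, hx, cast_m3, Nat.eq_of_beq_eq_true (allL_spec h3 c hc), Nat.cast_zero]
    have h6 : spn K B < spn K (b :: B) := lt_of_le_of_ne (spn_le fun c hc => sv_mem_spn (List.mem_cons_of_mem _ hc)) fun e => by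
      have h7 : sv K b x = 0 := h5 (e ▸ sv_mem_spn List.mem_cons_self)
      rw [cf_eq, hx, cast_m3, CharP.cast_eq_zero_iff K 3] at h7
      exact Nat.ne_of_beq_eq_false h2 (Nat.eq_zero_of_dvd_of_lt h7 (m3_lt _))
    have h7 := Submodule.finrank_lt_finrank_of_lt h6
    have h8 := ih h4
    rw [List.length_cons]
    omega

theorem comm_spec {X Y : List SV} (h : comm X Y = true) : spn K Y ≤ cen (spn K X : Set (L8 K)) := by
  rw [spn, spn, cen_span]
  refine Submodule.span_le.2 ?_
  rintro _ ⟨y, hy, rfl⟩ _ ⟨x, hx, rfl⟩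
  exact br_of_z3 (allL_spec (allL_spec h x hx) y hy)

theorem sa_of_chk (h : allL (fun x => allL (fun y => memS B (br0 x y)) B) B = true) : Sa (spn K B) := fun x hx y hy => by
  have h1 : ∀ b ∈ B, spn K B ≤ (spn K B).comap (TwoH.brL K (sv K b)) := fun b hb => spn_le fun c hc => by
    show br (sv K b) (sv K c) ∈ spn K B
    rw [← sv_br0]
    exact mem_of_memS (allL_spec (allL_spec h b hb) c hc)
  have h2 : spn K B ≤ (spn K B).comap (TwoH.brL K y) := spn_le fun b hb => by
    show br y (sv K b) ∈ spn K B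
    rw [br_anti]
    exact neg_mem (h1 b hb hy)
  rw [br_anti]
  exact neg_mem (h2 hx)

/-- the linear map of a word -/
noncomputable def adM (w : List SV) : L8 K →ₗ[K] L8 K := (w.map fun x => TwoH.brL K (sv K x)).prod

theorem adM_cons (x : SV) (w : List SV) (v : L8 K) : adM (x :: w) v = br (sv K x) (adM w v) := by
  rw [adM, List.map_cons, List.prod_cons]; rfl

theorem adM_sv (w : List SV) (l : SV) : adM w (sv K l) = sv K (adW w l) := by
  induction w with
  | nil => rfl
  | cons x w ih => rw [adM_cons, ih, br_sv]; rfl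

theorem adM_mem {g I : Submodule K (L8 K)} (hI : ∀ x ∈ g, ∀ y ∈ I, br x y ∈ I) {w : List SV} (hw : ∀ x ∈ w, sv K x ∈ g)
    (hv : v ∈ I) : adM w v ∈ I := by
  induction w with
  | nil => exact hv
  | cons x w ih =>
    rw [adM_cons]
    exact hI _ (hw x List.mem_cons_self) _ (ih fun y hy => hw y (List.mem_cons_of_mem _ hy))

theorem min_spec {s : SV} {I : Submodule K (L8 K)} (hI : ∀ x ∈ spn K B, ∀ y ∈ I, br x y ∈ I) {O : List (SV × List SV)}
    (h : minC B s O = true) (hv : v ∈ I) (h0 : v ≠ 0) (h1 : v ∈ spn K (O.map Prod.fst)) : sv K s ∈ I := by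
  induction O with
  | nil => exact absurd (by rwa [List.map_nil, spn_nil] at h1) h0
  | cons q O ih =>
    have e : minC B s (q :: O) =
      (allL (memS B) q.2 && eq3 (adW q.2 q.1) s && allL (fun r => Sv.z3 (adW q.2 r.1)) O && minC B s O) := rfl
    rw [e, Bool.and_eq_true, Bool.and_eq_true, Bool.and_eq_true] at h
    obtain ⟨⟨⟨h2, h3⟩, h4⟩, h5⟩ := h
    obtain ⟨c, w, hw, rfl⟩ := mem_spn_cons h1
    by_cases hc : c = 0
    · exact ih h5 (by rwa [hc, zero_smul, zero_add])
    have h6 : spn K (O.map Prod.fst) ≤ LinearMap.ker (adM q.2) := spn_le fun b hb => by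
      obtain ⟨r, hr, rfl⟩ := List.mem_map.1 hb
      rw [LinearMap.mem_ker, adM_sv, sv_z3 (allL_spec h4 r hr)]
    have h7 := adM_mem hI (fun x hx => mem_of_memS (allL_spec h2 x hx)) hv
    rw [map_add, map_smul, adM_sv, sv_eq3 h3, LinearMap.mem_ker.1 (h6 hw), add_zero] at h7
    exact (Submodule.smul_mem_iff _ hc).1 h7

/-- the checks for `Min` -/
theorem min_of_chk {s x : SV} {k : ℕ} {P : List (SV × List (SV × SV))} {O : List (SV × List SV)}
    (h1 : allL (fun x => allL (fun y => memS B (br0 x y)) B) B = true) (h2 : allL (memS (P.map Prod.fst)) B = true)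
    (h3 : allL (fun p => allL (fun q => memS B q.1 && memS B q.2) p.2 && eq3 (sumB p.2) p.1) P = true)
    (h4 : allL (memS (O.map Prod.fst)) B = true) (h5 : minC B s O = true) (h6 : memS B x = true) (h7 : k < 248)
    (h8 : Nat.beq (m3 (cf (br0 x s) k)) 0 = false) : Min (spn K B) (sv K s) where
  sa := sa_of_chk h1
  perf := (spn_le fun b hb => mem_of_memS (allL_spec h2 b hb)).trans (spn_le fun b hb => by
    obtain ⟨p, hp, rfl⟩ := List.mem_map.1 hb
    have h9 := allL_spec h3 p hp
    rw [Bool.and_eq_true] at h9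
    rw [← sv_eq3 h9.2]
    refine sv_sumB fun q hq => Submodule.subset_span ?_
    have h10 := allL_spec h9.1 q hq
    rw [Bool.and_eq_true] at h10
    exact ⟨_, mem_of_memS h10.1, _, mem_of_memS h10.2, rfl⟩)
  min := fun I hI h0 h => by
    obtain ⟨v, hv, h9⟩ := (Submodule.ne_bot_iff _).1 h0
    exact min_spec h h5 hv h9 (spn_le (fun b hb => mem_of_memS (allL_spec h4 b hb)) (hI hv))
  nc := ⟨_, mem_of_memS h6, by rw [← sv_br0]; exact sv_ne_zero h7 h8⟩

end Cfsg.Agent.E8A.C63.G2
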