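import Cfsg.Agent.E8A.Par.Ext
import Cfsg.Agent.E8A.Inf.Form
import Cfsg.Agent.E8A.Two.Wcj

/-!
# `A₆` in characteristic 3: definitions and boxes (helper13)

The proof and the proofs of the boxes are in `notes/E8A/c63.md`.
-/

set_option autoImplicit false
set_option maxRecDepth 100000

namespace Cfsg.Agent.E8A.C63

open Cfsg Cfsg.Lie Module
open Cfsg.Agent.H952.F4 (MaxAlt ev)
open Cfsg.Agent.H288.E8L (Q8 wt)
open Cfsg.Agent.Tits.Roots (sr)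
open Cfsg.Agent.E8A.Kem (St Ge nrm)
open Cfsg.Agent.E8A.Par (KS Opt)
open Cfsg.Agent.E8A.Reg5.Cls (ex)

universe u

/-! ### the group -/

/-- `(0 1 2)` -/
def uu : Alt 6 := ⟨⟨![1, 2, 0, 3, 4, 5], ![2, 0, 1, 3, 4, 5], by decide, by decide⟩, by
  rw [Equiv.Perm.mem_alternatingGroup]; decide⟩

/-- `(0 3)(1 4 2 5)` -/
def yy : Alt 6 := ⟨⟨![3, 4, 5, 0, 2, 1], ![3, 5, 4, 0, 1, 2], by decide, by decide⟩, by
  rw [Equiv.Perm.mem_alternatingGroup]; decide⟩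

/-- `(0 3)(1 2)` -/
def dd : Alt 6 := ⟨⟨![3, 2, 1, 0, 4, 5], ![3, 2, 1, 0, 4, 5], by decide, by decide⟩, by
  rw [Equiv.Perm.mem_alternatingGroup]; decide⟩

/-- `(0 1)(2 3)` -/
def v1 : Alt 6 := ⟨⟨![1, 0, 3, 2, 4, 5], ![1, 0, 3, 2, 4, 5], by decide, by decide⟩, by
  rw [Equiv.Perm.mem_alternatingGroup]; decide⟩

/-- `(0 2)(1 3)` -/
def v2 : Alt 6 := ⟨⟨![2, 3, 0, 1, 4, 5], ![2, 3, 0, 1, 4, 5], by decide, by decide⟩, by
  rw [Equiv.Perm.mem_alternatingGroup]; decide⟩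

section Mod

variable {K : Type u} [Field K] {V : Type u} [AddCommGroup V] [Module K V]

/-- invariant subspaces -/
def InvR (ρ : Representation K (Alt 6) V) (U : Submodule K V) : Prop := ∀ a, ∀ v ∈ U, ρ a v ∈ U

/-- the three-dimensional modules -/
structure T3 (ρ : Representation K (Alt 6) V) (ι : K) (e h f : V) : Prop where
  sq : ι * ι = -1
  ue : ρ uu e = e
  uh : ρ uu h = h + e
  uf : ρ uu f = f + h - e
  ye : ρ yy e = ι • e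
  yh : ρ yy h = h
  yf : ρ yy f = -ι • f
  de : ρ dd e = -f
  dh : ρ dd h = -h
  df : ρ dd f = -e

/-- the four-dimensional module: `r i j` is the image of `e_i - e_j` -/
structure T4 (ρ : Representation K (Alt 6) V) (r : Fin 6 → Fin 6 → V) : Prop where
  act : ∀ (a : Alt 6) (i j : Fin 6), ρ a (r i j) = r ((a : Equiv.Perm (Fin 6)) i) ((a : Equiv.Perm (Fin 6)) j)
  add : ∀ i j k, r i j + r j k = r i k
  sum : ∀ i, ∑ j, r i j = 0

end Mod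

/-- **GEN**: generators -/
def GEN : Prop := Subgroup.closure {uu, yy, dd} = ⊤

/-- **MOD**: the simple modules -/
def MOD : Prop := ∀ (K : Type u) [Field K] [IsAlgClosed K] [CharP K 3] (V : Type u) [AddCommGroup V] [Module K V]
  [FiniteDimensional K V] (ρ : Representation K (Alt 6) V) (U : Submodule K V), U ≠ ⊥ → InvR ρ U →
  (∃ v ∈ U, v ≠ 0 ∧ ∀ a, ρ a v = v) ∨ (∃ ι e h f, T3 ρ ι e h f ∧ e ≠ 0 ∧ e ∈ U ∧ h ∈ U ∧ f ∈ U) ∨
  (∃ r, T4 ρ r ∧ r 0 1 ≠ 0 ∧ ∀ i j, r i j ∈ U) ∨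
  (∃ U' ≤ U, InvR ρ U' ∧ finrank K ↥U' = 9 ∧ ∃ x ∈ U', x ≠ 0 ∧ ρ v1 x = x ∧ ρ v2 x = x)

/-- **T3B**: the three-dimensional modules are simple -/
def T3B : Prop := ∀ (K : Type u) [Field K] [CharP K 3] (V : Type u) [AddCommGroup V] [Module K V]
  (ρ : Representation K (Alt 6) V) (ι : K) (e h f : V), T3 ρ ι e h f → e ≠ 0 →
  LinearIndependent K ![e, h, f] ∧ InvR ρ (Submodule.span K {e, h, f}) ∧
  ∀ U ≤ Submodule.span K {e, h, f}, U ≠ ⊥ → InvR ρ U → U = Submodule.span K {e, h, f}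

/-- **T4B**: the four-dimensional module is simple -/
def T4B : Prop := ∀ (K : Type u) [Field K] [CharP K 3] (V : Type u) [AddCommGroup V] [Module K V]
  (ρ : Representation K (Alt 6) V) (r : Fin 6 → Fin 6 → V), T4 ρ r → r 0 1 ≠ 0 →
  LinearIndependent K ![r 0 1, r 0 2, r 0 3, r 0 4] ∧
  (∀ i j, r i j ∈ Submodule.span K {r 0 1, r 0 2, r 0 3, r 0 4}) ∧ InvR ρ (Submodule.span K {r 0 1, r 0 2, r 0 3, r 0 4}) ∧
  ∀ U ≤ Submodule.span K {r 0 1, r 0 2, r 0 3, r 0 4}, U ≠ ⊥ → InvR ρ U →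
    U = Submodule.span K {r 0 1, r 0 2, r 0 3, r 0 4}

/-- **ALG**: a commutative algebra has an idempotent or an element of square zero -/
def ALG : Prop := ∀ (K : Type u) [Field K] [IsAlgClosed K] (M : Type u) [AddCommGroup M] [Module K M]
  [FiniteDimensional K M] [Nontrivial M] (B : M →ₗ[K] M →ₗ[K] M), ∃ v, v ≠ 0 ∧ (B v v = 0 ∨ B v v = v)

/-! ### the Lie algebra -/

section Lie

variable {K : Type u} [Field K]

/-- the representation on the Lie algebra -/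
noncomputable abbrev rp (ψ : Alt 6 →* G8 K) : Representation K (Alt 6) (L8 K) := (LK K).comp ψ

/-- conjugates -/
def cj (g : G8 K) (ψ : Alt 6 →* G8 K) : Alt 6 →* G8 K := (MulAut.conj g).toMonoidHom.comp ψ

/-- invariant subspaces -/
def Inv (ψ : Alt 6 →* G8 K) (U : Submodule K (L8 K)) : Prop := ∀ a, ∀ v ∈ U, act (ψ a) v ∈ U

/-- cube zero -/
def Cz (x : L8 K) : Prop := adm x ^ 3 = 0

/-- toral -/
def Tor (x : L8 K) : Prop := adm x ^ 3 = adm x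

/-- abelian -/
def Ab (U : Submodule K (L8 K)) : Prop := ∀ x ∈ U, ∀ y ∈ U, br x y = 0

/-- subalgebra -/
def Sa (U : Submodule K (L8 K)) : Prop := ∀ x ∈ U, ∀ y ∈ U, br x y ∈ U

/-- restricted subalgebra -/
def PCl (U : Submodule K (L8 K)) : Prop := Sa U ∧ ∀ x ∈ U, ∀ y, adm y = adm x ^ 3 → y ∈ U

/-- centralizer -/
def cen (S : Set (L8 K)) : Submodule K (L8 K) where
  carrier := {v | ∀ s ∈ S, br s v = 0}
  zero_mem' := fun _ _ => Matrix.mulVec_zero _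
  add_mem' := fun {a b} ha hb s hs => by rw [br_add_right, ha s hs, hb s hs, add_zero]
  smul_mem' := fun c a ha s hs => by rw [br_smul_right, ha s hs, smul_zero]

/-- dimension of the centralizer -/
noncomputable def cd (x : L8 K) : ℕ := finrank K ↥(cen {x})

/-- dimension of the fixed space -/
noncomputable def fd (g : G8 K) : ℕ := ev (LK K g) 1

/-- the relations of `sl₂` -/
structure Sl2 (e h f : L8 K) : Prop where
  he : br h e = (2 : K) • e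
  hf : br h f = (-2 : K) • f
  ef : br e f = h

/-- restricted `sl₂` -/
structure RS (e h f : L8 K) : Prop extends Sl2 e h f where
  ce : Cz e
  cf : Cz f
  th : Tor h

/-- the graded pieces -/
def Eq' (lam : Q8 →+ ℝ) (c : ℝ) : Set Q8 := {a | lam a = c}

/-- the component of degree `c` -/
noncomputable def pr (lam : Q8 →+ ℝ) (c : ℝ) (v : L8 K) : L8 K :=
  fun i => haveI := Classical.propDecidable (lam (wt i) = c); if lam (wt i) = c then v i else 0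

/-- the integral cocharacter with labels `y` -/
noncomputable def cl (y : Q8) : Q8 →+ ℝ where
  toFun a := (ex y a : ℝ)
  map_zero' := by rw [Reg5.Cls.ex_zero]; simp
  map_add' a b := by simp [ex, add_mul, Finset.sum_add_distrib]

/-- sixty times the invariant form -/
noncomputable def B2 (l₁ l₂ : Q8 →+ ℝ) : ℝ := ∑ i : chevE8.Idx, l₁ (wt i) * l₂ (wt i)

/-- the pairs which push `b i` into degree at least `d i` -/
def Dp {ι : Type} (b : ι → L8 K) (d : ι → ℝ) (g : G8 K) (lam : Q8 →+ ℝ) : Prop := ∀ i, act g (b i) ∈ LS K (Ge lam (d i))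

/-- the same filtration -/
def SameF (g₁ : G8 K) (l₁ : Q8 →+ ℝ) (g₂ : G8 K) (l₂ : Q8 →+ ℝ) : Prop :=
  ∀ (c : ℝ) (v : L8 K), act g₁ v ∈ LS K (Ge l₁ c) ↔ act g₂ v ∈ LS K (Ge l₂ c)

/-- in no proper parabolic subgroup -/
def NoPar (ψ : Alt 6 →* G8 K) : Prop := ∀ (g : G8 K) (lam : Q8 →+ ℝ), lam ≠ 0 → (∀ a, g * ψ a * g⁻¹ ∈ St K lam) → False

/-- the standing hypotheses -/
structure Ctx (ψ : Alt 6 →* G8 K) : Prop where
  fx : NoFx ψ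
  par : NoPar ψ
  d2 : ∀ a, orderOf a = 2 → fd (ψ a) = 120
  d4 : fd (ψ yy) = 60 ∨ fd (ψ yy) = 64

variable (K) in
/-- the Levi subalgebra of type `D₄` -/
def YD : Submodule K (L8 K) := LS K {a | a 0 = 0 ∧ a 5 = 0 ∧ a 6 = 0 ∧ a 7 = 0}

variable (K) in
/-- the Levi subalgebra of type `A₄` -/
def YA : Submodule K (L8 K) := LS K {a | a 4 = 0 ∧ a 5 = 0 ∧ a 6 = 0 ∧ a 7 = 0}

/-- an invariant subalgebra inside a Levi subalgebra of type `D₄` -/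
def LowEnd (ψ : Alt 6 →* G8 K) : Prop :=
  ∃ (g : G8 K) (C : Submodule K (L8 K)), C ≠ ⊥ ∧ Inv ψ C ∧ Sa C ∧ ∀ x ∈ C, act g x ∈ YD K

/-! ### the eleven classes -/

/-- the simple roots of the classes `A₁, 2A₁, 3A₁, A₂, 4A₁, A₂A₁, A₂2A₁, A₂3A₁, 2A₂, 2A₂A₁, 2A₂2A₁` -/
def SS : Fin 11 → List (Fin 8) :=
  ![[7], [7, 5], [7, 5, 1], [7, 6], [7, 5, 1, 0], [7, 6, 1], [7, 6, 1, 0], [0, 2, 1, 4, 6], [0, 2, 4, 5], [0, 2, 4, 5, 7],
    [0, 2, 4, 5, 7, 1]]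

/-- the labels of their cocharacters -/
def lab : Fin 11 → Q8 :=
  ![![0, 0, 0, 0, 0, 0, -1, 2], ![0, 0, 0, 0, -1, 2, -2, 2], ![0, 2, 0, -1, -1, 2, -2, 2], ![0, 0, 0, 0, 0, -2, 2, 2],
    ![2, 2, -1, -1, -1, 2, -2, 2], ![0, 2, 0, -1, 0, -2, 2, 2], ![2, 2, -1, -1, 0, -2, 2, 2], ![2, 2, 2, -4, 2, -2, 2, -1],
    ![2, 0, 2, -4, 2, 2, -2, 0], ![2, 0, 2, -4, 2, 2, -3, 2], ![2, 2, 2, -5, 2, 2, -3, 2]]

/-- the labels of the exotic cocharacters (classes 9 and 10; norms 24 and 26) -/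
def labx (c : Fin 11) : Q8 := lab c + sr 6

/-- the norms -/
def nrc : Fin 11 → ℕ := ![2, 4, 6, 8, 8, 10, 12, 14, 16, 18, 20]

/-- the dimensions of the centralizers -/
def cdc : Fin 11 → ℕ := ![190, 156, 136, 134, 120, 112, 102, 94, 92, 88, 84]

variable (K) in
/-- the representatives -/
def ec (c : Fin 11) : L8 K := fun j => if wt j ∈ (SS c).map (sr : Fin 8 → Q8) then 1 else 0

/-- `h` is the toral element of the cocharacter with labels `y` -/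
def IsH (y : Q8) (h : L8 K) : Prop := InT h ∧ ∀ a, rl h a = ((ex y a : ℤ) : K)

variable (K) in
/-- the part of degree `-1` of the centralizer -/
def KK (c : Fin 11) : Submodule K (L8 K) := cen {ec K c} ⊓ LS K (Eq' (cl (lab c)) (-1))

end Lie

/-! ### boxes: optimal cocharacters -/

/-- **KSD** -/
def KSD : Prop := ∀ (K : Type u) [Field K] (ι : Type) [Finite ι] (b : ι → L8 K) (d : ι → ℝ), KS (Dp b d)

/-- **NRM** -/
def NRM : Prop := (∃ c : ℝ, 0 < c ∧ ∀ lam, nrm lam = c * B2 lam lam) ∧ ∀ y : Q8, B2 (cl y) (cl y) = 60 * (Two.nm y : ℝ)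

/-- **CANF**: the optimal filtration is canonical -/
def CANF : Prop := ∀ (K : Type u) [Field K] (D : G8 K → (Q8 →+ ℝ) → Prop), KS D → ∀ g₁ l₁ g₂ l₂,
  Opt D g₁ l₁ → Opt D g₂ l₂ → SameF g₁ l₁ g₂ l₂

/-- **APT**: common apartments -/
def APT : Prop := ∀ (K : Type u) [Field K] (g₁ g₂ : G8 K) (l₁ l₂ : Q8 →+ ℝ), ∃ g m₁ m₂, nrm m₁ = nrm l₁ ∧ nrm m₂ = nrm l₂ ∧
  SameF g m₁ g₁ l₁ ∧ SameF g m₂ g₂ l₂

/-- **TRANS**: transfer of a grading -/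
def TRANS : Prop := ∀ (K : Type u) [Field K] (g g₁ : G8 K) (ν l : Q8 →+ ℝ), SameF g ν g₁ l → ∃ g' : G8 K,
  ∀ (c : ℝ) (v : L8 K), act g v ∈ LS K (Eq' ν c) → act g' v = pr l c (act g₁ v)

/-- **KB**: an invariant subspace has degree at most zero -/
def KB : Prop := ∀ (K : Type u) [Field K] (ψ : Alt 6 →* G8 K), NoPar ψ → ∀ (ι : Type) [Fintype ι] (b : ι → L8 K) (d : ι → ℝ),
  LinearIndependent K b → Inv ψ (Submodule.span K (Set.range b)) → ∀ g lam, Dp b d g lam → ∑ i, d i ≤ 0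

/-- **GRADE**: two opposite filtrations of an invariant subspace come from a grading -/
def GRADE : Prop := ∀ (K : Type u) [Field K] (ψ : Alt 6 →* G8 K), NoPar ψ → ∀ (ι : Type) [Fintype ι] (b : ι → L8 K)
  (d : ι → ℝ), Inv ψ (Submodule.span K (Set.range b)) → (∃ g lam, Dp b d g lam) → (∃ g lam, Dp b (-d) g lam) →
  ∃ g ν, Opt (Dp b d) g ν ∧ Opt (Dp b (-d)) g (-ν) ∧ (∀ i, act g (b i) ∈ LS K (Eq' ν (d i))) ∧
    ∀ a : Q8 →+ ℝ, Dp b 0 g a → B2 a ν = 0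

/-! ### boxes: toral elements -/

/-- **TORL** -/
def TORL : Prop := ∀ (K : Type u) [Field K] [IsAlgClosed K] [CharP K 3] (S : Set (L8 K)), (∀ x ∈ S, Tor x) →
  (∀ x ∈ S, ∀ y ∈ S, br x y = 0) → ∃ g : G8 K, ∀ x ∈ S, InT (act g x)

/-- **TORV**: inside a Levi subgroup -/
def TORV : Prop := ∀ (K : Type u) [Field K] [IsAlgClosed K] [CharP K 3] (ν : Q8 →+ ℝ) (h : L8 K), Tor h →
  h ∈ LS K (Eq' ν 0) → ∃ l : G8 K, (∀ c v, act l v ∈ LS K (Eq' ν c) ↔ v ∈ LS K (Eq' ν c)) ∧ InT (act l h)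

/-- **NOTOR**: no invariant toral subalgebra -/
def NOTOR : Prop := ∀ (K : Type u) [Field K] [IsAlgClosed K] [CharP K 3] (ψ : Alt 6 →* G8 K), Ctx ψ →
  ∀ (g : G8 K) (U : Submodule K (L8 K)), U ≠ ⊥ → Inv ψ U → (∀ x ∈ U, InT (act g x)) → False

/-! ### boxes: elements of cube zero -/

/-- **STR**: the centralizers of the representatives -/
def STR : Prop := ∀ (K : Type u) [Field K] [CharP K 3] (c : Fin 11), Cz (ec K c) ∧ cd (ec K c) = cdc c ∧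
  Two.nm (lab c) = nrc c ∧ ec K c ∈ LS K (Eq' (cl (lab c)) 2) ∧
  cen {ec K c} ≤ LS K (Ge (cl (lab c)) (if c.val ≤ 8 then 0 else -1)) ∧
  (∀ j : ℝ, 2 ≤ j → ∀ v ∈ LS K (Eq' (cl (lab c)) j), ∃ w ∈ LS K (Eq' (cl (lab c)) (j - 2)), br (ec K c) w = v) ∧
  finrank K ↥(KK K c) = if c.val ≤ 8 then 0 else if c.val = 9 then 2 else 4

/-- **NIL3**: the classes, with the optimality of their cocharacters -/
def NIL3 : Prop := ∀ (K : Type u) [Field K] [IsAlgClosed K] [CharP K 3] (x : L8 K), x ≠ 0 → Cz x →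
  ∃ (c : Fin 11) (g : G8 K), act g x = ec K c ∧
    ∀ (g' : G8 K) (lam : Q8 →+ ℝ), act g' x ∈ LS K (Ge lam 2) → nrm (cl (lab c)) ≤ nrm lam

/-- **KRK**: the elements of degree `-1` of the centralizer of the last class lie in smaller classes -/
def KRK : Prop := ∀ (K : Type u) [Field K] [IsAlgClosed K] [CharP K 3], ∀ z ∈ KK K 10, 84 < cd z

/-- **WIT**: a filtration for a restricted `sl₂` -/
def WIT : Prop := ∀ (K : Type u) [Field K] [IsAlgClosed K] [CharP K 3] (c : Fin 11) (h f : L8 K), RS (ec K c) h f →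
  Dp ![ec K c, h, f] ![2, 0, -2] 1 (cl (lab c)) ∨
  (9 ≤ c.val ∧ Two.nm (labx c) = nrc c + 6 ∧ ec K c ∈ LS K (Eq' (cl (labx c)) 2) ∧ ∃ g : G8 K, act g (ec K c) = ec K c ∧
    Dp ![ec K c, h, f] ![2, 0, -2] g (cl (labx c)) ∧
    (c.val = 9 → ∃ h₀ z, IsH (lab c) h₀ ∧ z ∈ KK K c ∧ z ≠ 0 ∧ pr (cl (labx c)) 0 (act g h) = h₀ + z))

/-- **Z3**: a bound for the centralizer from a grading modulo three -/
def Z3 : Prop := ∀ (K : Type u) [Field K] (y : Q8) (x : L8 K), Cz x → x ∈ LS K (Eq' (cl y) 1) →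
  (Two.nm y = 2 → 134 ≤ cd x) ∧ (Two.nm y = 4 → 92 ≤ cd x) ∧ (Two.nm y = 6 → 86 ≤ cd x)

/-- **K9**: no vector of order nine in the dual of a root sublattice -/
def K9 : Prop := ∀ (y : Q8) (S : Set chevE8.Idx), (∀ j ∈ S, (9 : ℤ) ∣ ex y (wt j)) →
  (∀ k : Q8, (∀ j ∈ S, ex k (wt j) = 0) → Two.bw k y = 0) → ∀ i, (3 : ℤ) ∣ y i

/-- **LOW**: the two small Levi subalgebras -/
def LOW : Prop := ∀ (K : Type u) [Field K] [CharP K 3], PCl (YD K) ∧ PCl (YA K) ∧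
  (∀ x ∈ YD K, Cz x → 92 < cd x) ∧ ∀ x ∈ YA K, Cz x → 92 < cd x

/-! ### boxes: the descent -/

/-- **MODL** -/
def MODL : Prop := ∀ (K : Type u) [Field K] [IsAlgClosed K] [CharP K 3] (ψ : Alt 6 →* G8 K), NoFx ψ →
  ∀ C : Submodule K (L8 K), C ≠ ⊥ → Inv ψ C → Sa C →
  (∃ ι e h f, T3 (rp ψ) ι e h f ∧ e ≠ 0 ∧ e ∈ C ∧ h ∈ C ∧ f ∈ C) ∨ ∃ U ≤ C, U ≠ ⊥ ∧ Inv ψ U ∧ Ab U

/-- **DAB**: abelian subspaces -/
def DAB : Prop := ∀ (K : Type u) [Field K] [IsAlgClosed K] [CharP K 3] (ψ : Alt 6 →* G8 K) (Y U : Submodule K (L8 K)),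
  PCl Y → U ≤ Y → U ≠ ⊥ → Inv ψ U → Ab U →
  (∃ U' ≤ Y, U' ≠ ⊥ ∧ Inv ψ U' ∧ Ab U' ∧ ∀ x ∈ U', Cz x) ∨
  ∃ (g : G8 K) (U' : Submodule K (L8 K)), U' ≠ ⊥ ∧ Inv ψ U' ∧ ∀ x ∈ U', InT (act g x)

/-- **DESC** -/
def DESC : Prop := ∀ (K : Type u) [Field K] [IsAlgClosed K] [CharP K 3] (ψ : Alt 6 →* G8 K), NoFx ψ →
  ∀ Y C : Submodule K (L8 K), PCl Y → C ≤ Y → C ≠ ⊥ → Inv ψ C → Sa C →
  (∃ U ≤ Y, U ≠ ⊥ ∧ Inv ψ U ∧ Ab U) ∨
  ∃ ι e h f, T3 (rp ψ) ι e h f ∧ e ≠ 0 ∧ RS e h f ∧ e ∈ C ∧ h ∈ C ∧ f ∈ C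

/-! ### boxes: the endings -/

/-- **EA2** -/
def EA2 : Prop := ∀ (K : Type u) [Field K] [CharP K 3] (ψ : Alt 6 →* G8 K), NoFx ψ → ∀ h f : L8 K, IsH (lab 3) h →
  f ∈ LS K (Eq' (cl (lab 3)) (-2)) → br (ec K 3) f = h → Inv ψ (Submodule.span K {ec K 3, h, f}) → False

/-- **E2A2** -/
def E2A2 : Prop := ∀ (K : Type u) [Field K] [CharP K 3] (ψ : Alt 6 →* G8 K) (h f : L8 K), IsH (lab 8) h →
  f ∈ LS K (Eq' (cl (lab 8)) (-2)) → br (ec K 8) f = h → Inv ψ (Submodule.span K {ec K 8, h, f}) → LowEnd ψ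

/-- **EEX** -/
def EEX : Prop := ∀ (K : Type u) [Field K] [IsAlgClosed K] [CharP K 3] (ψ : Alt 6 →* G8 K) (h₀ z f : L8 K) (d : G8 K),
  IsH (lab 9) h₀ → z ∈ KK K 9 → z ≠ 0 → z ∈ LS K (Eq' (cl (labx 9)) 0) → f ∈ LS K (Eq' (cl (labx 9)) (-2)) →
  br (ec K 9) f = h₀ + z → Inv ψ (Submodule.span K {ec K 9, h₀ + z, f}) →
  act d (ec K 9) = -f → act d (h₀ + z) = -(h₀ + z) → act d f = -ec K 9 →
  (∀ c, ∀ v ∈ LS K (Eq' (cl (labx 9)) c), act d v ∈ LS K (Eq' (cl (labx 9)) (-c))) → LowEnd ψ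

/-- **EN3** -/
def EN3 : Prop := ∀ (K : Type u) [Field K] [CharP K 3] (ψ : Alt 6 →* G8 K),
  Inv ψ (Submodule.span K {ec K 9} ⊔ KK K 9) → LowEnd ψ

/-- **G2AB**: abelian subspaces of `G₂` -/
def G2AB : Prop := ∀ (K : Type u) [Field K] [CharP K 3] (U : Submodule K (L8 K)),
  U ≤ cen ({ec K 9} ∪ (KK K 9 : Set (L8 K))) ⊓ LS K (Eq' (cl (lab 9)) 0) → Ab U → (∀ x ∈ U, Cz x) → finrank K ↥U ≤ 5

/-- **ABC**: abelian subspaces of cube zero -/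
def ABC : Prop := ∀ (K : Type u) [Field K] [IsAlgClosed K] [CharP K 3] (ψ : Alt 6 →* G8 K), Ctx ψ →
  ∀ U : Submodule K (L8 K), U ≠ ⊥ → Inv ψ U → Ab U → (∀ x ∈ U, Cz x) → (∃ x ∈ U, x ≠ 0 ∧ cd x ≤ 88) ∧ LowEnd ψ

/-- **SC**: restricted `sl₂` -/
def SC : Prop := ∀ (K : Type u) [Field K] [IsAlgClosed K] [CharP K 3] (ψ : Alt 6 →* G8 K), Ctx ψ →
  ∀ (ι : K) (e h f : L8 K), T3 (rp ψ) ι e h f → e ≠ 0 → RS e h f →
  (∃ z : G8 K, z ≠ 1 ∧ z ^ 2 = 1 ∧ (∀ a, Commute z (ψ a)) ∧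
    ∀ c : G8 K, act c e = e → act c h = h → act c f = f → Commute z c) ∨ (cd e ≤ 92 ∧ LowEnd ψ)

/-! ### boxes: the centralizer -/

/-- no invariant abelian subspace inside a conjugate of the two small Levi subalgebras -/
def NoAb {K : Type u} [Field K] (ψ : Alt 6 →* G8 K) : Prop := ∀ (g : G8 K) (U : Submodule K (L8 K)), U ≠ ⊥ → Inv ψ U → Ab U →
  ((∀ x ∈ U, act g x ∈ YD K) ∨ ∀ x ∈ U, act g x ∈ YA K) → False

/-- **D44**: no pure four-group of type `D₈` in the centralizer -/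
def D44 : Prop := ∀ (F : Type u) [Field F] [Finite F] [CharP F 3] (ψ : Alt 6 →* G8 (Kb F)), Ctx ψ → NoAb ψ →
  ∀ s t : G8 (Kb F), s ^ 2 = 1 → t ^ 2 = 1 → Commute s t → fd s = 120 → fd t = 120 → fd (s * t) = 120 →
  (∀ a, Commute s (ψ a)) → (∀ a, Commute t (ψ a)) → False

/-- **ISO**: the semisimple elements of the centralizer -/
def ISO : Prop := ∀ (F : Type u) [Field F] [Finite F] [CharP F 3] (ψ : Alt 6 →* G8 (Kb F)), Ctx ψ →
  (∀ s : G8 (Kb F), (∀ a, Commute s (ψ a)) → ∀ N : ℕ, N.Coprime 3 → orderOf s = N → N = 1 ∨ N = 2 ∨ N = 4 ∨ N = 5) ∧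
  (∀ s : G8 (Kb F), (∀ a, Commute s (ψ a)) → orderOf s = 5 → ∃ (g : G8 (Kb F)) (C : Submodule (Kb F) (L8 (Kb F))),
    C ≠ ⊥ ∧ Inv ψ C ∧ Sa C ∧ ∀ x ∈ C, act g x ∈ YA (Kb F) ∧ act s x = x) ∧
  ∀ s t : G8 (Kb F), s ^ 2 = 1 → t ^ 2 = 1 → s ≠ 1 → t ≠ 1 → s ≠ t → Commute s t → fd s = fd t →
    (∀ a, Commute s (ψ a)) → (∀ a, Commute t (ψ a)) → fd (s * t) = 120

/-- **CTX** -/
def CTX : Prop := ∀ (F : Type u) [Field F] [Finite F] [CharP F 3] (H : Subgroup (G8 F)) (φ : Alt 6 →* G8 F),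
  MaxAlt H 6 φ → NoFx φ → Ctx (emb0.comp φ)

/-- **CEN**: no involution centralizes the alternating group -/
def CEN : Prop := ∀ (F : Type u) [Field F] [Finite F] [CharP F 3] (H : Subgroup (G8 F)) (φ : Alt 6 →* G8 F),
  MaxAlt H 6 φ → NoFx φ → (∀ s : G8 (Kb F), (∀ a, Commute s (emb0 (φ a))) → orderOf s ≠ 5) → NoAb (emb0.comp φ) →
  ∀ z : G8 (Kb F), z ≠ 1 → z ^ 2 = 1 → (∀ a, Commute z (emb0 (φ a))) → False

end Cfsg.Agent.E8A.C63
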