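import Cfsg.Agent.E8A.C63.Iface

/-!
# The boxes KSD, NRM, CANF, APT, TRANS (helper8)

* `SameF.exists_rep` : two pairs with the same filtration differ by a Weyl element and an element of the parabolic subgroup;
* `apt'` : a common apartment which keeps the second cocharacter.
-/

set_option autoImplicit false
set_option maxRecDepth 100000

namespace Cfsg.Agent.E8A.C63

open CoxeterSystem Cfsg Cfsg.Lie Matrix
open Cfsg.Agent.ChevalleyStructure Cfsg.Agent.ChevalleyStructure.Elts Cfsg.Agent.ChevalleyStructure.CoxeterGeom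
  Cfsg.Agent.ChevalleyStructure.CoxeterGeomTypes
open Cfsg.Agent.Tits.Roots Cfsg.Agent.Nodes.Reps Cfsg.Agent.Nodes.BNOf Cfsg.Agent.Nodes.RGDChev
  Cfsg.Agent.Nodes.NormalForm
open Cfsg.Agent.KFacts.RgdChevCoord
open Cfsg.Agent.H942.E8Tab (e8T)
open Cfsg.Agent.H288.E8L (wt act8)
open Cfsg.Agent.E8A.Kem (cw cw_apply nrm nrm_cw nrm_mid eq_of_nrm mk mk_apply mk_sr mk_eq continuous_mk
  Dm exists_dm Ge mem_Ge SP PL St sp_le_PL PL_le_St)
open Cfsg.Agent.E8A.Par (KS Opt Up up_of_LS up_of_St up_rep up_rep_inv mem_St)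

universe u

namespace KemA

variable {K : Type u} [Field K]

/-! ### the relation `SameF` -/

theorem sf_refl (g : G8 K) (l : Q8 →+ ℝ) : SameF g l g l := fun _ _ => Iff.rfl

theorem sf_symm {g₁ g₂ : G8 K} {l₁ l₂ : Q8 →+ ℝ} (h : SameF g₁ l₁ g₂ l₂) : SameF g₂ l₂ g₁ l₁ := fun c v => (h c v).symm

theorem sf_trans {g₁ g₂ g₃ : G8 K} {l₁ l₂ l₃ : Q8 →+ ℝ} (h : SameF g₁ l₁ g₂ l₂) (h' : SameF g₂ l₂ g₃ l₃) :
    SameF g₁ l₁ g₃ l₃ := fun c v => (h c v).trans (h' c v)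

theorem sf_up {g₁ g₂ : G8 K} {l₁ l₂ : Q8 →+ ℝ} (h : SameF g₁ l₁ g₂ l₂) : Up l₁ l₂ (mx (g₂ * g₁⁻¹)) :=
  up_of_LS fun c v hv => by
    rw [act_mul]
    exact (h c _).1 (by rwa [act_inv'])

theorem sf_of_up {g x : G8 K} {l l' : Q8 →+ ℝ} (h : Up l l' (mx x)) (h' : Up l' l (mx x⁻¹)) : SameF g l (x * g) l' :=
  fun c v => ⟨fun hv => by rw [act_mul]; exact h.LS c hv, fun hv => by
    have h1 := h'.LS c hv
    rwa [act_mul, act_inv] at h1⟩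

theorem sf_St {g m : G8 K} {l : Q8 →+ ℝ} (hm : m ∈ St K l) : SameF g l (m * g) l :=
  sf_of_up (up_of_St hm) (up_of_St (inv_mem hm))

theorem sf_sp {g m : G8 K} {l : Q8 →+ ℝ} (hm : m ∈ RGD.Sup (XX chevE8 8 K) (SP l)) : SameF g l (m * g) l :=
  sf_St (PL_le_St l (sp_le_PL l hm))

theorem sf_rep {g n : G8 K} {w : W8} (l : Q8 →+ ℝ) (hn : RepK w n) : SameF g l (n⁻¹ * g) (cw l w) :=
  sf_of_up (up_rep_inv hn) (by rw [inv_inv]; exact up_rep hn)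

theorem St_of_sf {g₁ g₂ : G8 K} {l : Q8 →+ ℝ} (h : SameF g₁ l g₂ l) : g₂ * g₁⁻¹ ∈ St K l :=
  mem_St (sf_up h) (by rw [_root_.mul_inv_rev, inv_inv]; exact sf_up (sf_symm h))

theorem cw_mul (l : Q8 →+ ℝ) (v w : W8) : cw (cw l v) w = cw l (v * w) :=
  AddMonoidHom.ext fun a => by rw [cw_apply, cw_apply, cw_apply, act8_mul]

theorem cw_one (l : Q8 →+ ℝ) : cw l 1 = l := AddMonoidHom.ext fun a => by rw [cw_apply, act8_one]

theorem cw_eq_of_up {l l' : Q8 →+ ℝ} {w : W8} {n : G8 K} (hn : RepK w n) (h : Up l l' (mx n)) : cw l' w = l := by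
  have h1 : ∀ a, Rt a → l a ≤ l' (act8 w a) := by
    intro a ha
    obtain ⟨r, rfl⟩ := H288.E8L.exists_idx ha
    obtain ⟨s, hs⟩ := H288.E8L.exists_idx ((H288.E8L.rt_vec r).act w)
    obtain ⟨c, hc, e⟩ := RepK.ee hn hs
    have h2 : mx n (Sum.inr s) (Sum.inr r) ≠ 0 := by
      rw [← act_ee, e, Pi.smul_apply, ee_self, smul_eq_mul, mul_one]
      exact hc
    have h3 := h _ _ h2
    rw [H288.E8L.wt_inr, H288.E8L.wt_inr, hs] at h3
    exact h3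
  refine Frm.hom_ext fun i => le_antisymm ?_ (h1 _ (isRoot_sr cs8 e8T.isCartan i))
  have h2 := h1 _ (isRoot_sr cs8 e8T.isCartan i).neg
  rw [act8_neg, map_neg, map_neg] at h2
  rw [cw_apply]
  linarith

theorem conj_sp {l : Q8 →+ ℝ} {w : W8} {n m : G8 K} (hn : RepK w n) (hm : m ∈ RGD.Sup (XX chevE8 8 K) (SP (cw l w))) :
    n * m * n⁻¹ ∈ RGD.Sup (XX chevE8 8 K) (SP l) :=
  RepK.conj_Sup (S := SP (cw l w)) (S' := SP l) hn (fun _ ha => ha.1) (fun _ ha => ⟨ha.1.act w, ha.2⟩) hm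

/-- the relative position of two pairs -/
theorem exists_pos (g₁ g₂ : G8 K) (l₁ l₂ : Q8 →+ ℝ) : ∃ m₁ ∈ RGD.Sup (XX chevE8 8 K) (SP l₁),
    ∃ m₂ ∈ RGD.Sup (XX chevE8 8 K) (SP l₂), ∃ w n, RepK w n ∧ m₂ * g₂ = n * (m₁ * g₁) := by
  obtain ⟨w₁, hw₁⟩ := exists_dm l₁
  obtain ⟨n₁, hn₁⟩ := exists_rp cs8 (nsysK K) w₁
  obtain ⟨w₂, hw₂⟩ := exists_dm l₂
  obtain ⟨n₂, hn₂⟩ := exists_rp cs8 (nsysK K) w₂
  obtain ⟨u, hu, w, n, hn, u', hu', e⟩ := bruhat (n₂⁻¹ * g₂ * g₁⁻¹ * n₁)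
  have hu1 : u ∈ RGD.Sup (XX chevE8 8 K) (SP (cw l₂ w₂)) := hw₂.U_le hu
  have hu2 : u' ∈ RGD.Sup (XX chevE8 8 K) (SP (cw l₁ w₁)) :=
    RGD.Sup_mono (S' := SP _) (fun _ ha => ⟨ha.1, hw₁.nonneg ha.2.1⟩) hu'
  refine ⟨_, conj_sp hn₁ hu2, _, conj_sp hn₂ (inv_mem hu1), w₂ * w * w₁⁻¹, n₂ * n * n₁⁻¹,
    Rp.mul (Rp.mul hn₂ hn) (Rp.inv hn₁), ?_⟩
  rw [show g₂ = n₂ * (u * n * u') * n₁⁻¹ * g₁ by rw [← e]; group]
  group

/-- **structure of `SameF`** -/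
theorem sf_rep_sp {g₁ g₂ : G8 K} {l₁ l₂ : Q8 →+ ℝ} (h : SameF g₁ l₁ g₂ l₂) : ∃ m ∈ RGD.Sup (XX chevE8 8 K) (SP l₁),
    ∃ w n, RepK w n ∧ g₂ = n * (m * g₁) ∧ cw l₂ w = l₁ := by
  obtain ⟨m₁, hm₁, m₂, hm₂, w, n, hn, e⟩ := exists_pos g₁ g₂ l₁ l₂
  have h1 : SameF (m₁ * g₁) l₁ (m₂ * g₂) l₂ := sf_trans (sf_trans (sf_symm (sf_sp hm₁)) h) (sf_sp hm₂)
  have h2 := sf_up h1
  rw [e, mul_inv_cancel_right] at h2
  have h3 := cw_eq_of_up hn h2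
  have h4 : n⁻¹ * m₂⁻¹ * n⁻¹⁻¹ ∈ RGD.Sup (XX chevE8 8 K) (SP l₁) := by
    refine conj_sp (w := w⁻¹) (Rp.inv hn) ?_
    rw [← h3, cw_mul, mul_inv_cancel, cw_one]
    exact inv_mem hm₂
  refine ⟨_, mul_mem h4 hm₁, w, n, hn, ?_, h3⟩
  rw [show g₂ = m₂⁻¹ * (n * (m₁ * g₁)) by rw [← e]; group]
  group

theorem sf_nrm {g₁ g₂ : G8 K} {l₁ l₂ : Q8 →+ ℝ} (h : SameF g₁ l₁ g₂ l₂) : nrm l₁ = nrm l₂ := by
  obtain ⟨m, -, w, n, -, -, e⟩ := sf_rep_sp h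
  rw [← e, nrm_cw]

theorem ks_sf {D : G8 K → (Q8 →+ ℝ) → Prop} (hD : KS D) {g₁ g₂ : G8 K} {l₁ l₂ : Q8 →+ ℝ} (h : SameF g₁ l₁ g₂ l₂)
    (h₁ : D g₁ l₁) : D g₂ l₂ := by
  obtain ⟨m, hm, w, n, hn, e, e'⟩ := sf_rep_sp h
  have h2 := hD.rep _ _ w⁻¹ n⁻¹ (hD.sp _ _ _ h₁ hm) (Rp.inv hn)
  rwa [inv_inv, ← e, ← e', cw_mul, mul_inv_cancel, cw_one] at h2

theorem opt_sf {D : G8 K → (Q8 →+ ℝ) → Prop} (hD : KS D) {g₁ g₂ : G8 K} {l₁ l₂ : Q8 →+ ℝ} (h : SameF g₁ l₁ g₂ l₂)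
    (h₁ : Opt D g₁ l₁) : Opt D g₂ l₂ := h₁.of (ks_sf hD h h₁.1) (sf_nrm h).symm

/-- a common apartment which keeps the first cocharacter -/
theorem apt' (g₁ g₂ : G8 K) (l₁ l₂ : Q8 →+ ℝ) : ∃ g m, SameF g₁ l₁ g l₁ ∧ SameF g₂ l₂ g m := by
  obtain ⟨m₁, hm₁, m₂, hm₂, w, n, hn, e⟩ := exists_pos g₁ g₂ l₁ l₂
  refine ⟨m₁ * g₁, cw l₂ w, sf_sp hm₁, ?_⟩
  have h1 := sf_trans (sf_sp (g := g₂) hm₂) (sf_rep l₂ hn)
  rwa [e, inv_mul_cancel_left] at h1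

theorem dp_sf {ι : Type} {b : ι → L8 K} {d : ι → ℝ} {g₁ g₂ : G8 K} {l₁ l₂ : Q8 →+ ℝ} (h : SameF g₁ l₁ g₂ l₂)
    (h₁ : Dp b d g₁ l₁) : Dp b d g₂ l₂ := fun i => (h _ _).1 (h₁ i)

theorem ks_dp {ι : Type} [Finite ι] (b : ι → L8 K) (d : ι → ℝ) : KS (Dp b d) where
  closed := by
    have e : {x : Fin 8 → ℝ | ∃ g, Dp b d g (mk x)} =
        ⋃ S ∈ {S : Set (ι × chevE8.Idx) | ∃ g : G8 K, ∀ i j, act g (b i) j ≠ 0 → (i, j) ∈ S},
          ⋂ e ∈ S, {x : Fin 8 → ℝ | d e.1 ≤ mk x (wt e.2)} := by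
      ext x
      simp only [Set.mem_ofPred_eq, Set.mem_iUnion, Set.mem_iInter]
      constructor
      · rintro ⟨g, hg⟩
        exact ⟨{e | d e.1 ≤ mk x (wt e.2)}, ⟨g, fun i j hj => hg i j hj⟩, fun _ hi => hi⟩
      · rintro ⟨S, ⟨g, hg⟩, hx⟩
        exact ⟨g, fun i j hj => hx (i, j) (hg i j hj)⟩
    rw [e]
    exact (Set.toFinite _).isClosed_biUnion fun S _ =>
      isClosed_biInter fun i _ => isClosed_le continuous_const (continuous_mk _)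
  mid g l₁ l₂ h₁ h₂ := fun i j hj => by
    have e₁ := mem_Ge.1 (h₁ i j hj)
    have e₂ := mem_Ge.1 (h₂ i j hj)
    rw [mem_Ge, AddMonoidHom.smul_apply, AddMonoidHom.add_apply, smul_eq_mul]
    linarith
  sp _ _ _ h hm := dp_sf (sf_sp hm) h
  rep _ lam _ _ h hn := dp_sf (sf_rep lam hn) h

/-! ### the Levi part -/

theorem pr_apply (l : Q8 →+ ℝ) (c : ℝ) (v : L8 K) (i : chevE8.Idx) [Decidable (l (wt i) = c)] :
    pr l c v i = if l (wt i) = c then v i else 0 := by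
  unfold pr
  congr

theorem pr_of_eq {l : Q8 →+ ℝ} {c : ℝ} {v : L8 K} (hv : v ∈ LS K (Eq' l c)) : pr l c v = v := by
  classical
  funext i
  rw [pr_apply]
  split_ifs with h
  · rfl
  · exact (LS_zero hv h).symm

theorem pr_of_gt {l : Q8 →+ ℝ} {c : ℝ} {v : L8 K} (hv : v ∈ LS K {a | c < l a}) : pr l c v = 0 := by
  classical
  funext i
  rw [pr_apply]
  split_ifs with h
  · exact LS_zero hv fun h' => absurd h (ne_of_gt h')
  · rfl

theorem pr_add (l : Q8 →+ ℝ) (c : ℝ) (v w : L8 K) : pr l c (v + w) = pr l c v + pr l c w := by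
  classical
  funext i
  rw [Pi.add_apply, pr_apply, pr_apply, pr_apply]
  split_ifs
  · rfl
  · rw [add_zero]

theorem pr_mem (l : Q8 →+ ℝ) (c : ℝ) (v : L8 K) : pr l c v ∈ LS K (Eq' l c) := by
  classical
  intro i hi
  rw [pr_apply] at hi
  by_contra h
  exact hi (if_neg h)

theorem sub_pr_mem {l : Q8 →+ ℝ} {c : ℝ} {v : L8 K} (hv : v ∈ LS K (Ge l c)) : v - pr l c v ∈ LS K {a | c < l a} := by
  classical
  intro i hi
  rw [Pi.sub_apply, pr_apply] at hi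
  by_cases h : l (wt i) = c
  · rw [if_pos h, sub_self] at hi
    exact absurd rfl hi
  · rw [if_neg h, sub_zero] at hi
    exact lt_of_le_of_ne (mem_Ge.1 (hv i hi)) (Ne.symm h)

theorem St_gt {l : Q8 →+ ℝ} {y : G8 K} (hy : y ∈ St K l) (c : ℝ) {v : L8 K} (hv : v ∈ LS K {a | c < l a}) :
    act y v ∈ LS K {a | c < l a} :=
  mulVec_LS (A := {a | c < l a}) (A' := {a | c < l a}) (fun i j hij hj =>
    show c < l (wt i) from lt_of_lt_of_le (show c < l (wt j) from hj) (up_of_St hy i j hij)) hv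

theorem eq_le_ge (l : Q8 →+ ℝ) (c : ℝ) : LS K (Eq' l c) ≤ LS K (Ge l c) := LS_mono fun _ ha => mem_Ge.2 (ge_of_eq ha)

/-- `m₀` is the Levi part of `m` -/
def Lv (l : Q8 →+ ℝ) (m m₀ : G8 K) : Prop :=
  m ∈ St K l ∧ ∀ c, ∀ v ∈ LS K (Eq' l c), act m₀ v ∈ LS K (Eq' l c) ∧ act m v - act m₀ v ∈ LS K {a | c < l a}

theorem Lv.mul {l : Q8 →+ ℝ} {m m₀ n n₀ : G8 K} (h : Lv l m m₀) (h' : Lv l n n₀) : Lv l (m * n) (m₀ * n₀) := by
  refine ⟨mul_mem h.1 h'.1, fun c v hv => ?_⟩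
  obtain ⟨h1, h2⟩ := h'.2 c v hv
  obtain ⟨h3, h4⟩ := h.2 c _ h1
  refine ⟨by rwa [act_mul], ?_⟩
  have e : act (m * n) v - act (m₀ * n₀) v = act m (act n v - act n₀ v) + (act m (act n₀ v) - act m₀ (act n₀ v)) := by
    rw [act_mul, act_mul, act_sub]
    abel
  rw [e]
  exact add_mem (St_gt h.1 c h2) h4

theorem exists_lv {l : Q8 →+ ℝ} {m : G8 K} (hm : m ∈ RGD.Sup (XX chevE8 8 K) (SP l)) : ∃ m₀, Lv l m m₀ := by
  let P : Subgroup (G8 K) :=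
    { carrier := {m | (∃ m₀, Lv l m m₀) ∧ ∃ m₀, Lv l m⁻¹ m₀}
      one_mem' := by
        have h1 : Lv l (1 : G8 K) 1 := ⟨one_mem _, fun c v hv => ⟨by rwa [act_one], by rw [sub_self]; exact zero_mem _⟩⟩
        exact ⟨⟨1, h1⟩, ⟨1, by rwa [inv_one]⟩⟩
      mul_mem' := by
        rintro a b ⟨⟨a₀, ha⟩, a₁, ha'⟩ ⟨⟨b₀, hb⟩, b₁, hb'⟩
        exact ⟨⟨_, ha.mul hb⟩, ⟨_, by rw [_root_.mul_inv_rev]; exact hb'.mul ha'⟩⟩
      inv_mem' := by
        rintro a ⟨ha, ha'⟩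
        exact ⟨ha', by rwa [inv_inv]⟩ }
  have h0 : ∀ r : Fin chevE8.nroots, vec chevE8 8 r ∈ SP l → ∀ t : K, ∃ m₀, Lv l (xr r t) m₀ := by
    intro r hr t
    have h1 : xr r t ∈ St K l := PL_le_St l (sp_le_PL l (xr_mem_Sup hr t))
    rcases (show 0 ≤ l (vec chevE8 8 r) from hr.2).eq_or_lt with h2 | h2
    · refine ⟨xr r t, h1, fun c v hv => ⟨act_xr_LS (fun a ha => ?_) t hv, by rw [sub_self]; exact zero_mem _⟩⟩
      show l (a + vec chevE8 8 r) = c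
      rw [map_add, ← h2, add_zero]
      exact ha
    · refine ⟨1, h1, fun c v hv => ⟨by rwa [act_one], ?_⟩⟩
      rw [act_one]
      refine act_xr_sub (fun a ha k hk => ?_) t hv
      show c < l (a + (k : ℤ) • vec chevE8 8 r)
      have h3 : l a = c := ha
      have h4 : (1 : ℝ) ≤ (k : ℝ) := by exact_mod_cast hk
      rw [map_add, map_zsmul, zsmul_eq_mul, Int.cast_natCast, h3]
      nlinarith
  have h1 : RGD.Sup (XX chevE8 8 K) (SP l) ≤ P :=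
    sup_le_of (fun _ ha => ha.1) fun r hr t => ⟨h0 r hr t, by rw [xr_inv]; exact h0 r hr _⟩
  exact (h1 hm).1

/-! ### the invariant form -/

theorem B2_comm (l₁ l₂ : Q8 →+ ℝ) : B2 l₁ l₂ = B2 l₂ l₁ := Finset.sum_congr rfl fun _ _ => mul_comm _ _

theorem B2_add (l₁ l₂ l : Q8 →+ ℝ) : B2 (l₁ + l₂) l = B2 l₁ l + B2 l₂ l := by
  unfold B2
  rw [← Finset.sum_add_distrib]
  exact Finset.sum_congr rfl fun _ _ => add_mul _ _ _

theorem B2_smul (c : ℝ) (l₁ l : Q8 →+ ℝ) : B2 (c • l₁) l = c * B2 l₁ l := by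
  unfold B2
  rw [Finset.mul_sum]
  exact Finset.sum_congr rfl fun _ _ => mul_assoc _ _ _

theorem B2_neg (l₁ l : Q8 →+ ℝ) : B2 (-l₁) l = -B2 l₁ l := by
  unfold B2
  rw [← Finset.sum_neg_distrib]
  exact Finset.sum_congr rfl fun _ _ => neg_mul _ _

theorem B2_eq (l₁ l₂ : Q8 →+ ℝ) :
    B2 l₁ l₂ = ∑ r : Fin chevE8.nroots, l₁ (vec chevE8 8 r) * l₂ (vec chevE8 8 r) := by
  unfold B2
  rw [Fintype.sum_sum_type, Finset.sum_eq_zero fun i _ => by rw [H288.E8L.wt_inl, map_zero, zero_mul], zero_add]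
  rfl

theorem sum_act (w : W8) (f : Q8 → ℝ) :
    ∑ r : Fin chevE8.nroots, f (act8 w (vec chevE8 8 r)) = ∑ r : Fin chevE8.nroots, f (vec chevE8 8 r) := by
  choose σ hσ using fun r : Fin chevE8.nroots => H288.E8L.exists_idx ((H288.E8L.rt_vec r).act w)
  have hi : Function.Injective σ := fun r s h => vec_injective (by
    rw [← act8_inv_act w (vec chevE8 8 r), ← act8_inv_act w (vec chevE8 8 s)]
    congr 1
    exact (hσ r).symm.trans ((congrArg (fun x : Fin chevE8.nroots => vec chevE8 8 x) h).trans (hσ s)))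
  rw [← (Equiv.ofBijective σ (Finite.injective_iff_bijective.1 hi)).sum_comp fun r => f (vec chevE8 8 r)]
  exact Finset.sum_congr rfl fun r _ => congrArg f (hσ r).symm

theorem simple_conj : ∀ p ∈ [((0 : Fin 8), (2 : Fin 8)), (2, 3), (3, 1), (3, 4), (4, 5), (5, 6), (6, 7)],
    (sr p.1 - pairing (cartanOf chevE8 8) p.2 (sr p.1) • sr p.2 : Q8) -
      pairing (cartanOf chevE8 8) p.1 (sr p.1 - pairing (cartanOf chevE8 8) p.2 (sr p.1) • sr p.2) • sr p.1 = sr p.2 := by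
  decide +kernel

theorem exists_nrm : ∃ c : ℝ, 0 < c ∧ ∀ lam, nrm lam = c * B2 lam lam := by
  let _ : Fintype W8 := Fintype.ofFinite W8
  refine ⟨(Fintype.card W8 : ℝ) / 30, div_pos (Nat.cast_pos.2 Fintype.card_pos) (by norm_num), fun lam => ?_⟩
  let F : Q8 → ℝ := fun a => ∑ w : W8, lam (act8 w a) ^ 2
  have hF : ∀ v a, F (act8 v a) = F a := fun v a => by
    rw [show F a = ∑ w : W8, lam (act8 (w * v) a) ^ 2 from
      (Equiv.sum_comp (Equiv.mulRight v) fun w => lam (act8 w a) ^ 2).symm]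
    exact Finset.sum_congr rfl fun w _ => by rw [act8_mul]
  have h1 : ∀ p ∈ [((0 : Fin 8), (2 : Fin 8)), (2, 3), (3, 1), (3, 4), (4, 5), (5, 6), (6, 7)], F (sr p.2) = F (sr p.1) := by
    intro p hp
    rw [← simple_conj p hp, ← Kem.act8_simple, ← Kem.act8_simple, hF, hF]
  have h2 : ∀ i, F (sr i) = F (sr 0) := by
    have a2 := h1 (0, 2) (by simp)
    have a3 := h1 (2, 3) (by simp)
    have a1 := h1 (3, 1) (by simp)
    have a4 := h1 (3, 4) (by simp)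
    have a5 := h1 (4, 5) (by simp)
    have a6 := h1 (5, 6) (by simp)
    have a7 := h1 (6, 7) (by simp)
    intro i
    fin_cases i
    · rfl
    · exact a1.trans (a3.trans a2)
    · exact a2
    · exact a3.trans a2
    · exact a4.trans (a3.trans a2)
    · exact a5.trans (a4.trans (a3.trans a2))
    · exact a6.trans (a5.trans (a4.trans (a3.trans a2)))
    · exact a7.trans (a6.trans (a5.trans (a4.trans (a3.trans a2))))
  have h3 : ∀ r : Fin chevE8.nroots, F (vec chevE8 8 r) = F (sr 0) := fun r => by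
    obtain ⟨w, i, e⟩ := H288.E8L.rt_vec r
    rw [e]
    exact (hF w _).trans (h2 i)
  have h4 : nrm lam = 8 * F (sr 0) := by
    show ∑ w : W8, ∑ i : Fin 8, lam (act8 w (sr i)) ^ 2 = _
    rw [Finset.sum_comm, Finset.sum_congr rfl fun i _ => h2 i, Finset.sum_const, Finset.card_univ, Fintype.card_fin,
      nsmul_eq_mul, Nat.cast_ofNat]
  have h5 : ∑ r : Fin chevE8.nroots, F (vec chevE8 8 r) = 240 * F (sr 0) := by
    rw [Finset.sum_congr rfl fun r _ => h3 r, Finset.sum_const, Finset.card_univ, Fintype.card_fin, nroots8,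
      nsmul_eq_mul, Nat.cast_ofNat]
  have h6 : ∑ r : Fin chevE8.nroots, F (vec chevE8 8 r) = (Fintype.card W8 : ℝ) * B2 lam lam := by
    rw [show ∑ r : Fin chevE8.nroots, F (vec chevE8 8 r) =
      ∑ w : W8, ∑ r : Fin chevE8.nroots, lam (act8 w (vec chevE8 8 r)) ^ 2 from Finset.sum_comm,
      Finset.sum_congr rfl fun w _ => sum_act w fun a => lam a ^ 2, Finset.sum_const, Finset.card_univ, nsmul_eq_mul,
      B2_eq]
    congr 1
    exact Finset.sum_congr rfl fun r _ => sq _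
  rw [h4]
  linarith

theorem sum_vec : ∀ j k : Fin 8, ∑ r : Fin 240, vec chevE8 8 r j * vec chevE8 8 r k = 60 * B8 j k := by
  decide +kernel

theorem B2_cl (y z : Q8) : B2 (cl y) (cl z) = 60 * (Two.bw y z : ℝ) := by
  rw [B2_eq]
  have h1 : ∑ r : Fin chevE8.nroots, Reg5.Cls.ex y (vec chevE8 8 r) * Reg5.Cls.ex z (vec chevE8 8 r) = 60 * Two.bw y z := by
    show ∑ r : Fin 240, (∑ j, vec chevE8 8 r j * y j) * (∑ k, vec chevE8 8 r k * z k) = 60 * ∑ j, ∑ k, y j * B8 j k * z k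
    simp only [Finset.sum_mul_sum]
    rw [Finset.sum_comm, Finset.mul_sum]
    refine Finset.sum_congr rfl fun j _ => ?_
    rw [Finset.sum_comm, Finset.mul_sum]
    refine Finset.sum_congr rfl fun k _ => ?_
    rw [show 60 * (y j * B8 j k * z k) = 60 * B8 j k * (y j * z k) by ring, ← sum_vec, Finset.sum_mul]
    exact Finset.sum_congr rfl fun r _ => by ring
  have h2 := congrArg (fun x : ℤ => (x : ℝ)) h1
  simp only [Int.cast_sum, Int.cast_mul, Int.cast_ofNat] at h2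
  exact h2

end KemA

open KemA

/-- **KSD** -/
theorem ksd : KSD.{u} := fun _ _ _ _ b d => ks_dp b d

/-- **NRM** -/
theorem nrm_box : NRM := ⟨exists_nrm, fun y => B2_cl y y⟩

/-- **CANF** -/
theorem canf : CANF.{u} := by
  intro K _ D hD g₁ l₁ g₂ l₂ h₁ h₂
  obtain ⟨g, m, s₁, s₂⟩ := apt' g₁ g₂ l₁ l₂
  have e := hD.unique (opt_sf hD s₁ h₁) (opt_sf hD s₂ h₂)
  subst e
  exact sf_trans s₁ (sf_symm s₂)

/-- **APT** -/
theorem apt : APT.{u} := by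
  intro K _ g₁ g₂ l₁ l₂
  obtain ⟨g, m, s₁, s₂⟩ := apt' g₁ g₂ l₁ l₂
  exact ⟨g, l₁, m, rfl, (sf_nrm s₂).symm, sf_symm s₁, sf_symm s₂⟩

/-- **TRANS** -/
theorem trans_box : TRANS.{u} := by
  intro K _ g g₁ ν l h
  obtain ⟨m, hm, w, n, hn, e, e'⟩ := sf_rep_sp (sf_symm h)
  obtain ⟨m₀, h₀⟩ := exists_lv (inv_mem hm)
  refine ⟨m₀ * (m * g₁), fun c v hv => ?_⟩
  have h1 : act (m * g₁) v ∈ LS K (Eq' l c) := by
    rw [show m * g₁ = n⁻¹ * g by rw [e]; group, act_mul]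
    refine RepK.LS (w := w⁻¹) (Rp.inv hn) (fun a ha => ?_) hv
    show l (act8 w⁻¹ a) = c
    rw [← e', cw_apply, act8_act_inv]
    exact ha
  obtain ⟨h2, h3⟩ := h₀.2 c _ h1
  have e2 : act g₁ v = act m₀ (act (m * g₁) v) + (act m⁻¹ (act (m * g₁) v) - act m₀ (act (m * g₁) v)) := by
    rw [add_sub_cancel, act_mul, act_inv]
  rw [e2, pr_add, pr_of_eq h2, pr_of_gt h3, add_zero, act_mul]

end Cfsg.Agent.E8A.C63
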