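import Cfsg.Agent.E8A.C63.KemA

/-!
# The boxes KB, GRADE (helper8)

* `DG b w g mu` : the weighted sum of the degrees of the nonzero maximal minors of the families `g (b k)` is at least one;
* `no_DG` : such a class is empty if it is stable under a group which lies in no proper parabolic subgroup.
-/

set_option autoImplicit false
set_option maxRecDepth 100000

namespace Cfsg.Agent.E8A.C63

open CoxeterSystem Cfsg Cfsg.Lie Matrix
open Cfsg.Agent.ChevalleyStructure Cfsg.Agent.ChevalleyStructure.Elts Cfsg.Agent.ChevalleyStructure.CoxeterGeom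
  Cfsg.Agent.ChevalleyStructure.CoxeterGeomTypes
open Cfsg.Agent.Tits.Roots Cfsg.Agent.Nodes.Reps Cfsg.Agent.Nodes.BNOf Cfsg.Agent.Nodes.RGDChev
  Cfsg.Agent.Nodes.NormalForm
open Cfsg.Agent.KFacts.RgdChevCoord
open Cfsg.Agent.H942.E8Tab (e8T)
open Cfsg.Agent.H288.E8L (wt act8)
open Cfsg.Agent.E8A.Kem (cw cw_apply nrm nrm_cw nrm_mid eq_of_nrm mk mk_apply mk_sr mk_eq continuous_mk
  Dm exists_dm Ge mem_Ge SP PL St sp_le_PL PL_le_St)
open Cfsg.Agent.E8A.Par (KS Opt Up up_of_LS up_of_St up_rep up_rep_inv mem_St)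
open Cfsg.Agent.E8A.C63.KemA

universe u

namespace KemB

/-! ### minors -/

section Mn

variable {ι I : Type} [Fintype ι] [DecidableEq ι] [Fintype I] {K : Type u} [Field K]

theorem det_rows (c : ι → I → K) (R : I → ι → K) (h : (Matrix.of fun i => ∑ l, c i l • R l).det ≠ 0) :
    ∃ f : ι → I, (∀ i, c i (f i) ≠ 0) ∧ (Matrix.of fun i => R (f i)).det ≠ 0 := by
  have e : (Matrix.of fun i => ∑ l, c i l • R l).det = ∑ f : ι → I, (∏ i, c i (f i)) • (Matrix.of fun i => R (f i)).det := by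
    have h1 := (Matrix.detRowAlternating (n := ι) (R := K)).toMultilinearMap.map_sum fun i l => c i l • R l
    refine h1.trans (Finset.sum_congr rfl fun f _ => ?_)
    exact (Matrix.detRowAlternating (n := ι) (R := K)).toMultilinearMap.map_smul_univ (fun i => c i (f i))
      fun i => R (f i)
  rw [e] at h
  obtain ⟨f, -, hf⟩ := Finset.exists_ne_zero_of_sum_ne_zero h
  rw [smul_eq_mul] at hf
  exact ⟨f, fun i => Finset.prod_ne_zero_iff.1 (left_ne_zero_of_mul hf) i (Finset.mem_univ i), right_ne_zero_of_mul hf⟩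

/-- the minor with the rows `rho` -/
def mn (b : ι → I → K) (rho : ι → I) : K := (Matrix.of fun i j => b j (rho i)).det

theorem mn_mulVec {b : ι → I → K} {M : Matrix I I K} {rho : ι → I} (h : mn (fun j => M *ᵥ b j) rho ≠ 0) :
    ∃ f : ι → I, (∀ i, M (rho i) (f i) ≠ 0) ∧ mn b f ≠ 0 := by
  refine det_rows (fun i l => M (rho i) l) (fun l j => b j l) fun h0 => h (Eq.trans ?_ h0)
  unfold mn
  congr 1
  ext i j
  rw [Matrix.of_apply, Matrix.of_apply, Finset.sum_apply]
  rfl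

omit [Fintype I] in
theorem mn_span {b b' : ι → I → K} (hb : ∀ j, b' j ∈ Submodule.span K (Set.range b)) {rho : ι → I}
    (h : mn b' rho ≠ 0) : mn b rho ≠ 0 := by
  choose c hc using fun j => (Submodule.mem_span_range_iff_exists_fun K).1 (hb j)
  have e : (Matrix.of fun i j => b' j (rho i)) = (Matrix.of fun i j => b j (rho i)) * Matrix.of fun k j => c j k := by
    ext i j
    rw [Matrix.of_apply, Matrix.mul_apply, ← hc j, Finset.sum_apply]
    exact Finset.sum_congr rfl fun k _ => mul_comm _ _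
  unfold mn at h
  rw [e, Matrix.det_mul] at h
  exact left_ne_zero_of_mul h

omit [Fintype I] in
theorem exists_mn {b : ι → I → K} (hb : LinearIndependent K b) : ∃ rho, mn b rho ≠ 0 := by
  refine Par.exists_rows (fun l j => b j l) fun v hv => funext fun j => ?_
  refine Fintype.linearIndependent_iff.1 hb v (funext fun l => ?_) j
  rw [Finset.sum_apply]
  refine Eq.trans (Finset.sum_congr rfl fun k _ => ?_) (hv l)
  exact mul_comm _ _

omit [Fintype I] in
theorem mn_perm {b : ι → I → K} {rho : ι → I} (h : mn b rho ≠ 0) : ∃ π : Equiv.Perm ι, ∀ j, b j (rho (π j)) ≠ 0 :=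
  Par.exists_perm h

omit [Fintype I] in
theorem mn_inj {b : ι → I → K} {rho : ι → I} (h : mn b rho ≠ 0) : Function.Injective rho := fun i j e => by
  by_contra hc
  exact h (Matrix.det_zero_of_row_eq hc (funext fun k => by rw [Matrix.of_apply, Matrix.of_apply, e]))

end Mn

/-! ### the class of a weighted family -/

section Cls

variable {K : Type u} [Field K] {κ : Type} [Fintype κ] {ι : κ → Type} [∀ k, Fintype (ι k)] [∀ k, DecidableEq (ι k)]

/-- the weight of a choice of rows -/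
noncomputable def ws (w : κ → ℝ) (mu : Q8 →+ ℝ) (rho : (k : κ) → ι k → chevE8.Idx) : ℝ :=
  ∑ k, w k * ∑ i, mu (wt (rho k i))

/-- the class of a weighted family -/
def DG (b : (k : κ) → ι k → L8 K) (w : κ → ℝ) (g : G8 K) (mu : Q8 →+ ℝ) : Prop :=
  ∀ rho : (k : κ) → ι k → chevE8.Idx, (∀ k, mn (fun j => act g (b k j)) (rho k) ≠ 0) → 1 ≤ ws w mu rho

variable {b : (k : κ) → ι k → L8 K} {w : κ → ℝ}

theorem DG.mul (hw : ∀ k, 0 ≤ w k) {g x : G8 K} {l l' : Q8 →+ ℝ} (h : DG b w g l) (hx : Up l l' (mx x)) :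
    DG b w (x * g) l' := by
  intro rho hr
  choose f hf hf' using fun k => mn_mulVec (b := fun j => act g (b k j)) (M := mx x) (rho := rho k) (by
    have h1 := hr k
    simp only [act_mul] at h1
    exact h1)
  exact (h f hf').trans (Finset.sum_le_sum fun k _ => mul_le_mul_of_nonneg_left
    (Finset.sum_le_sum fun i _ => hx _ _ (hf k i)) (hw k))

omit [∀ k, DecidableEq (ι k)] in
theorem ws_smul (c : ℝ) (mu : Q8 →+ ℝ) (rho : (k : κ) → ι k → chevE8.Idx) : ws w (c • mu) rho = c * ws w mu rho := by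
  unfold ws
  rw [Finset.mul_sum]
  refine Finset.sum_congr rfl fun k _ => ?_
  rw [mul_left_comm, Finset.mul_sum _ _ c]
  rfl

omit [∀ k, DecidableEq (ι k)] in
theorem ws_add (l l' : Q8 →+ ℝ) (rho : (k : κ) → ι k → chevE8.Idx) : ws w (l + l') rho = ws w l rho + ws w l' rho := by
  unfold ws
  rw [← Finset.sum_add_distrib]
  refine Finset.sum_congr rfl fun k _ => ?_
  rw [← mul_add, ← Finset.sum_add_distrib]
  rfl

theorem ks_DG (hw : ∀ k, 0 ≤ w k) : KS (DG b w) where
  closed := by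
    have e : {x : Fin 8 → ℝ | ∃ g, DG b w g (mk x)} =
        ⋃ S ∈ {S : Set ((k : κ) → ι k → chevE8.Idx) | ∃ g : G8 K,
            ∀ rho : (k : κ) → ι k → chevE8.Idx, (∀ k, mn (fun j => act g (b k j)) (rho k) ≠ 0) → rho ∈ S},
          ⋂ rho ∈ S, {x : Fin 8 → ℝ | 1 ≤ ws w (mk x) rho} := by
      ext x
      simp only [Set.mem_ofPred_eq, Set.mem_iUnion, Set.mem_iInter]
      constructor
      · rintro ⟨g, hg⟩
        exact ⟨{rho | 1 ≤ ws w (mk x) rho}, ⟨g, hg⟩, fun _ hi => hi⟩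
      · rintro ⟨S, ⟨g, hg⟩, hx⟩
        exact ⟨g, fun rho hr => hx _ (hg rho hr)⟩
    rw [e]
    refine (Set.toFinite _).isClosed_biUnion fun S _ => isClosed_biInter fun rho _ => isClosed_le continuous_const ?_
    exact continuous_finsetSum _ fun k _ => continuous_const.mul (continuous_finsetSum _ fun i _ => continuous_mk _)
  mid g l₁ l₂ h₁ h₂ := fun rho hr => by
    have e₁ := h₁ rho hr
    have e₂ := h₂ rho hr
    rw [ws_smul, ws_add]
    linarith
  sp _ lam _ h hm := h.mul hw (up_of_St (PL_le_St lam (sp_le_PL lam hm)))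
  rep _ _ _ _ h hn := h.mul hw (up_rep_inv hn)

theorem li_act (g : G8 K) {ι' : Type} {v : ι' → L8 K} (hv : LinearIndependent K v) :
    LinearIndependent K fun j => act g (v j) :=
  hv.map' (LK K g) (LinearMap.ker_eq_bot.2 (act_injective g))

theorem not_DG_zero (hb : ∀ k, LinearIndependent K (b k)) (g : G8 K) : ¬ DG b w g 0 := by
  intro h
  choose rho hr using fun k => exists_mn (li_act g (hb k))
  have h1 := h rho hr
  have h2 : ws w (0 : Q8 →+ ℝ) rho = 0 :=
    Finset.sum_eq_zero fun k _ => by rw [Finset.sum_eq_zero fun i _ => AddMonoidHom.zero_apply _, mul_zero]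
  rw [h2] at h1
  exact absurd h1 (by norm_num)

/-- **no stable class** -/
theorem no_DG {ψ : Alt 6 →* G8 K} (hψ : NoPar ψ) (hw : ∀ k, 0 ≤ w k) (hb : ∀ k, LinearIndependent K (b k))
    (hst : ∀ a g mu, DG b w g mu → DG b w (g * ψ a) mu) {g₀ : G8 K} {mu₀ : Q8 →+ ℝ} {t : ℝ} (ht : 0 < t)
    (h₀ : ∀ rho : (k : κ) → ι k → chevE8.Idx, (∀ k, mn (fun j => act g₀ (b k j)) (rho k) ≠ 0) → t ≤ ws w mu₀ rho) :
    False := by
  have h1 : DG b w g₀ (t⁻¹ • mu₀) := fun rho hr => by
    rw [ws_smul, ← inv_mul_cancel₀ ht.ne']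
    exact mul_le_mul_of_nonneg_left (h₀ rho hr) (inv_nonneg.2 ht.le)
  obtain ⟨g, lam, ho, hd⟩ := (ks_DG hw).exists_opt h1
  refine hψ g lam (fun e => not_DG_zero hb g (e ▸ ho.1)) fun a => ?_
  exact PL_le_St lam ((ks_DG hw).rel hd ho (hst a _ _ ho.1))

end Cls

/-! ### the layers of a cocharacter -/

theorem exists_layer (s : Finset ℝ) : ∃ (w : ℝ → ℝ) (C : ℝ), (∀ c, 0 ≤ w c) ∧
    ∀ x ∈ s, ∑ c ∈ s, (if c ≤ x then w c else 0) = x + C := by
  induction s using Finset.induction_on_max with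
  | empty => exact ⟨0, 0, fun _ => le_rfl, fun x hx => absurd hx (Finset.notMem_empty x)⟩
  | insert a s ha ih =>
    have hn : a ∉ s := fun h => lt_irrefl a (ha a h)
    rcases s.eq_empty_or_nonempty with rfl | hs
    · refine ⟨0, -a, fun _ => le_rfl, fun x hx => ?_⟩
      have e : x = a := by simpa using hx
      simp [e]
    · obtain ⟨w, C, hw, h⟩ := ih
      have hm := s.max'_mem hs
      refine ⟨fun c => if c = a then a - s.max' hs else w c, C, fun c => ?_, fun x hx => ?_⟩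
      · by_cases e : c = a
        · simp only [if_pos e]
          exact sub_nonneg.2 (ha _ hm).le
        · simp only [if_neg e]
          exact hw c
      · have h1 : ∀ y : ℝ, ∑ c ∈ s, (if c ≤ y then (if c = a then a - s.max' hs else w c) else 0) =
            ∑ c ∈ s, (if c ≤ y then w c else 0) := fun y => Finset.sum_congr rfl fun c hc => by
          rw [if_neg (ha c hc).ne]
        rw [Finset.sum_insert hn, h1]
        rcases Finset.mem_insert.1 hx with rfl | hx
        · have h2 : ∑ c ∈ s, (if c ≤ x then w c else 0) = ∑ c ∈ s, (if c ≤ s.max' hs then w c else 0) :=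
            Finset.sum_congr rfl fun c hc => by rw [if_pos (ha c hc).le, if_pos (s.le_max' c hc)]
          rw [h2, h _ hm, if_pos le_rfl]
          simp only [if_true]
          ring
        · rw [if_neg (not_le.2 (ha x hx)), zero_add, h x hx]

variable {K : Type u} [Field K]

/-- the columns above a level -/
abbrev Jc (l : Q8 →+ ℝ) (c : ℝ) : Type := {j : chevE8.Idx // c ≤ l (wt j)}

open Classical in
/-- a nonzero minor on the columns above a level, in a common apartment -/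
theorem sum_le_of_mn {l m m' : Q8 →+ ℝ} {g g' g₁ : G8 K} (s₁ : SameF g₁ l g' l) (s₂ : SameF g m g' m') {c : ℝ}
    {rho : Jc l c → chevE8.Idx} (h : mn (fun j : Jc l c => act g (act g₁⁻¹ (ee K j.1))) rho ≠ 0) :
    ∑ j, (if c ≤ l (wt j) then m' (wt j) else 0) ≤ ∑ i, m (wt (rho i)) := by
  obtain ⟨f, hf, hf'⟩ := mn_mulVec (b := fun j : Jc l c => act (g' * g₁⁻¹) (ee K j.1)) (M := mx (g * g'⁻¹)) (rho := rho) (by
    have e : (fun j : Jc l c => act g (act g₁⁻¹ (ee K j.1))) =
        fun j : Jc l c => mx (g * g'⁻¹) *ᵥ act (g' * g₁⁻¹) (ee K j.1) := funext fun j => by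
      show _ = act (g * g'⁻¹) _
      rw [act_mul, act_mul, act_inv]
    rwa [e] at h)
  obtain ⟨π, hπ⟩ := mn_perm hf'
  have h1 : ∀ i, c ≤ l (wt (f i)) := fun i => by
    obtain ⟨j, rfl⟩ := π.surjective i
    have h2 := hπ j
    simp only [act_ee] at h2
    exact j.2.trans (sf_up s₁ _ _ h2)
  let f' : Jc l c → Jc l c := fun i => ⟨f i, h1 i⟩
  have h2 : Function.Injective f' := fun i j e => mn_inj hf' (congrArg Subtype.val e)
  have h3 := (Equiv.ofBijective f' (Finite.injective_iff_bijective.1 h2)).sum_comp fun j => m' (wt j.1)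
  rw [← Finset.sum_filter, Finset.sum_subtype (p := fun j => c ≤ l (wt j)) _ (fun j => by simp), ← h3]
  exact Finset.sum_le_sum fun i _ => sf_up (sf_symm s₂) _ _ (hf i)

/-- **the averaged product of two points is not positive** -/
theorem no_pos {ψ : Alt 6 →* G8 K} (hψ : NoPar ψ) {g₁ g : G8 K} {l m : Q8 →+ ℝ}
    (h : ∀ a, ∃ g' m', SameF g₁ l g' l ∧ SameF (g * ψ a) m g' m' ∧ 0 ≤ B2 m' l ∧ (a = 1 → 0 < B2 m' l)) : False := by
  classical
  choose g' m' s₁ s₂ h0 h1 using h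
  let s : Finset ℝ := Finset.univ.image fun j : chevE8.Idx => l (wt j)
  obtain ⟨w, C, hw, hC⟩ := exists_layer s
  refine no_DG (κ := Alt 6 × ↥s) (ι := fun p => Jc l p.2.1) (b := fun p j => act (ψ p.1 * g₁⁻¹) (ee K j.1))
    (w := fun p => w p.2.1) hψ (fun p => hw _) (fun p => li_act _ ?_) (fun a x mu hx rho hr => ?_) (g₀ := g) (mu₀ := m)
    (t := ∑ a, B2 (m' a) l) (Finset.sum_pos' (fun a _ => h0 a) ⟨1, Finset.mem_univ _, h1 1 rfl⟩) fun rho hr => ?_
  · exact (Pi.linearIndependent_single_one chevE8.Idx K).comp _ Subtype.val_injective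
  · have h2 := hx (fun p => rho (a⁻¹ * p.1, p.2)) fun p => by
      have h3 := hr (a⁻¹ * p.1, p.2)
      simp only [← act_mul] at h3 ⊢
      rwa [show x * ψ a * (ψ (a⁻¹ * p.1) * g₁⁻¹) = x * (ψ p.1 * g₁⁻¹) by rw [map_mul, map_inv]; group] at h3
    refine h2.trans (le_of_eq ?_)
    unfold ws
    rw [Fintype.sum_prod_type, Fintype.sum_prod_type]
    exact Equiv.sum_comp (Equiv.mulLeft a⁻¹) fun a' => ∑ c : ↥s, w c.1 * ∑ i, mu (wt (rho (a', c) i))
  · unfold ws
    rw [Fintype.sum_prod_type]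
    refine Finset.sum_le_sum fun a _ => ?_
    have h2 : ∀ c : ↥s, ∑ j, (if c.1 ≤ l (wt j) then m' a (wt j) else 0) ≤ ∑ i, m (wt (rho (a, c) i)) := fun c =>
      sum_le_of_mn (s₁ a) (s₂ a) (by
        have h3 := hr (a, c)
        simp only [act_mul] at h3 ⊢
        exact h3)
    refine le_trans (le_of_eq ?_) (Finset.sum_le_sum fun c _ => mul_le_mul_of_nonneg_left (h2 c) (hw c.1))
    have h3 : ∀ j : chevE8.Idx, ∑ c : ↥s, w c.1 * (if c.1 ≤ l (wt j) then m' a (wt j) else 0) =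
        m' a (wt j) * l (wt j) + C * m' a (wt j) := fun j => by
      have h4 := hC (l (wt j)) (Finset.mem_image_of_mem _ (Finset.mem_univ j))
      rw [← Finset.sum_coe_sort s] at h4
      rw [mul_comm (m' a (wt j)), ← add_mul, ← h4, Finset.sum_mul]
      refine Finset.sum_congr rfl fun c _ => ?_
      split_ifs
      · rfl
      · rw [mul_zero, zero_mul]
    simp only [Finset.mul_sum]
    rw [Finset.sum_comm, Finset.sum_congr rfl fun j _ => h3 j, Finset.sum_add_distrib, ← Finset.mul_sum, Par.sum_wt,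
      mul_zero, add_zero]
    rfl

/-- first variation of the norm -/
theorem B2_nonneg {ι : Type} {b : ι → L8 K} {d : ι → ℝ} {g : G8 K} {l a : Q8 →+ ℝ} (ho : Opt (Dp b d) g l)
    (ha : Dp b 0 g a) : 0 ≤ B2 a l := by
  obtain ⟨c, hc, hn⟩ := exists_nrm
  have h1 : ∀ ε : ℝ, 0 < ε → 0 ≤ 2 * B2 a l + ε * B2 a a := by
    intro ε hε
    have h2 : Dp b d g (l + ε • a) := fun i j hj => by
      have e₁ := mem_Ge.1 (ho.1 i j hj)
      have e₂ : (0 : ℝ) ≤ a (wt j) := mem_Ge.1 (ha i j hj)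
      rw [mem_Ge, AddMonoidHom.add_apply, AddMonoidHom.smul_apply, smul_eq_mul]
      have := mul_nonneg hε.le e₂
      linarith
    have h3 := ho.2 _ _ h2
    rw [hn, hn, B2_add, B2_smul, B2_comm l (l + ε • a), B2_comm a (l + ε • a), B2_add, B2_add, B2_smul, B2_smul,
      B2_comm l a] at h3
    have h4 := le_of_mul_le_mul_left h3 hc
    have h5 : 0 ≤ ε * (2 * B2 a l + ε * B2 a a) := by linarith
    exact nonneg_of_mul_nonneg_right h5 hε |> fun h => h
  by_contra hneg
  have h2 : B2 a l < 0 := not_le.1 hneg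
  have h3 : 0 ≤ B2 a a := Finset.sum_nonneg fun _ _ => mul_self_nonneg _
  have h4 := h1 (-B2 a l / (B2 a a + 1)) (div_pos (by linarith) (by linarith))
  have h5 : -B2 a l / (B2 a a + 1) * B2 a a ≤ -B2 a l := by
    rw [div_mul_eq_mul_div, div_le_iff₀ (by linarith)]
    nlinarith
  linarith

theorem dp_zero_mul {ι : Type} {b : ι → L8 K} {g y : G8 K} {m : Q8 →+ ℝ} (h : Dp b 0 g m)
    (hy : ∀ i, act y (b i) ∈ Submodule.span K (Set.range b)) : Dp b 0 (g * y) m := fun i => by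
  have h1 : Submodule.span K (Set.range b) ≤ (LS K (Ge m 0)).comap (LK K g) :=
    Submodule.span_le.2 (by rintro _ ⟨j, rfl⟩; exact h j)
  rw [act_mul]
  exact h1 (hy i)

theorem B2_nonpos {ψ : Alt 6 →* G8 K} (hψ : NoPar ψ) {ι : Type} [Finite ι] {b : ι → L8 K} {d : ι → ℝ}
    (hi : Inv ψ (Submodule.span K (Set.range b))) {g : G8 K} {l m : Q8 →+ ℝ} (ho : Opt (Dp b d) g l) (hm : Dp b 0 g m) :
    B2 m l ≤ 0 := by
  by_contra hc
  refine no_pos hψ (g₁ := g) (g := g) (l := l) (m := m) fun a => ?_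
  by_cases e : a = 1
  · refine ⟨g, m, sf_refl _ _, ?_, (not_le.1 hc).le, fun _ => not_le.1 hc⟩
    rw [e, map_one, mul_one]
    exact sf_refl _ _
  · obtain ⟨g', m', s₁, s₂⟩ := apt' g (g * ψ a) l m
    exact ⟨g', m', s₁, s₂, B2_nonneg (opt_sf (ks_dp b d) s₁ ho)
      (dp_sf s₂ (dp_zero_mul hm fun i => hi a _ (Submodule.subset_span ⟨i, rfl⟩))), fun h => absurd h e⟩

end KemB

open KemB

/-- **KB** -/
theorem kb : KB.{u} := by
  intro K _ ψ hψ ι _ b d hb hi g lam h
  classical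
  by_contra hc
  refine no_DG (κ := Unit) (ι := fun _ => ι) (b := fun _ => b) (w := fun _ => 1) hψ (fun _ => zero_le_one) (fun _ => hb)
    (fun a x mu hx rho hr => hx rho fun k => mn_span (fun j => ?_) (hr k)) (g₀ := g) (mu₀ := lam) (not_le.1 hc)
    fun rho hr => ?_
  · have h1 : Submodule.span K (Set.range b) ≤ (Submodule.span K (Set.range fun j => act x (b j))).comap (LK K x) :=
      Submodule.span_le.2 (by rintro _ ⟨j, rfl⟩; exact Submodule.subset_span ⟨j, rfl⟩)
    rw [act_mul]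
    exact h1 (hi a _ (Submodule.subset_span ⟨j, rfl⟩))
  · obtain ⟨π, hπ⟩ := mn_perm (hr ())
    have e : ws (κ := Unit) (ι := fun _ => ι) (fun _ => 1) lam rho = ∑ i, lam (wt (rho () i)) := by
      unfold ws
      rw [Fintype.sum_unique, one_mul]
    rw [e, ← Equiv.sum_comp π fun i => lam (wt (rho () i))]
    exact Finset.sum_le_sum fun j _ => mem_Ge.1 (h j _ (hπ j))

/-- **GRADE** -/
theorem grade : GRADE.{u} := by
  rintro K _ ψ hψ ι _ b d hi ⟨g₁, l₁, h₁⟩ ⟨g₂, l₂, h₂⟩
  obtain ⟨g₃, l, o₁⟩ := Par.exists_opt' (ks_dp b d) h₁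
  obtain ⟨g₄, l₄, o₂⟩ := Par.exists_opt' (ks_dp b (-d)) h₂
  obtain ⟨g, l', s₁, s₂⟩ := apt' g₃ g₄ l l₄
  have p₁ := opt_sf (ks_dp b d) s₁ o₁
  have p₂ := opt_sf (ks_dp b (-d)) s₂ o₂
  have hm : Dp b 0 g (l + l') := fun i j hj => by
    have e₁ := mem_Ge.1 (p₁.1 i j hj)
    have e₂ : -d i ≤ l' (wt j) := mem_Ge.1 (p₂.1 i j hj)
    show (0 : ℝ) ≤ l (wt j) + l' (wt j)
    linarith
  have h3 := B2_nonpos hψ hi p₁ hm
  have h4 := B2_nonpos hψ hi p₂ hm
  have h5 : l' = -l := by
    obtain ⟨c, hc, hn⟩ := exists_nrm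
    refine eq_of_nrm ?_
    rw [sub_neg_eq_add, add_comm, hn, B2_add, B2_comm l, B2_comm l']
    exact mul_nonpos_of_nonneg_of_nonpos hc.le (by linarith)
  subst h5
  refine ⟨g, l, p₁, p₂, fun i j hj => ?_, fun a ha => le_antisymm (B2_nonpos hψ hi p₁ ha) (B2_nonneg p₁ ha)⟩
  have e₁ := mem_Ge.1 (p₁.1 i j hj)
  have e₂ : -d i ≤ -l (wt j) := mem_Ge.1 (p₂.1 i j hj)
  show l (wt j) = d i
  linarith

end Cfsg.Agent.E8A.C63
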