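import Cfsg.Agent.E8A.C63.Str

/-!
# The box KRK (helper55)

* `Fx K c` : the elements which fix `ec K c` and preserve the grading of the class; `fx_word`, `fx_tor`;
* `move9`, `move10`, `moveK` : an element of `KK K c` is moved to a multiple of `kx`; `C63.krk`.
-/

set_option autoImplicit false
set_option maxRecDepth 100000

namespace Cfsg.Agent.E8A.C63.Sv

open Cfsg Cfsg.Lie Module Finset
open Cfsg.Agent.H288.E8L (Q8 wt)

universe u

variable {K : Type u} [Field K]

variable (K) in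
/-- the elements which fix the representative and preserve the grading -/
def Fx (c : Fin 11) : Submonoid (G8 K) where
  carrier := {g | act g (ec K c) = ec K c ∧ ∀ j, ∀ v ∈ LS K (Eq' (cl (lab c)) j), act g v ∈ LS K (Eq' (cl (lab c)) j)}
  one_mem' := ⟨act_one _, fun _ _ hv => by rwa [act_one]⟩
  mul_mem' := fun {a b} ha hb => ⟨by rw [act_mul, hb.1, ha.1], fun j v hv => by
    rw [act_mul]; exact ha.2 j _ (hb.2 j v hv)⟩

/-- the elements which also fix two vectors -/
def Fy (c : Fin 11) (p q : L8 K) : Submonoid (G8 K) where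
  carrier := {g | g ∈ Fx K c ∧ act g p = p ∧ act g q = q}
  one_mem' := ⟨one_mem _, act_one _, act_one _⟩
  mul_mem' := fun {a b} ha hb => ⟨mul_mem ha.1 hb.1, by rw [act_mul, hb.2.1, ha.2.1], by rw [act_mul, hb.2.2, ha.2.2]⟩

theorem fx_tor {c : Fin 11} {s : K} (hs : s ≠ 0) {y : Q8} (h : dgE y 0 (eS c) = true) :
    ∃ t ∈ Fx K c, ∀ (d : ℤ) (l : SV), dgE y d l = true → act t (sv K l) = s ^ d • sv K l := by
  obtain ⟨t, h1, h2⟩ := exists_tor hs y
  refine ⟨t, ⟨?_, fun j v hv => h1 _ v hv⟩, fun d l hl => h2 d _ (sv_mem_Eq hl)⟩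
  rw [ec_eq, h2 0 _ (sv_mem_Eq h), zpow_zero, one_smul]

theorem cd_smul {a : K} (ha : a ≠ 0) (x : L8 K) : cd (a • x) = cd x := by
  have h : cen {a • x} = cen {x} := by
    ext v
    rw [mem_cen_one, mem_cen_one, br_smul_left, smul_eq_zero_iff_right ha]
  rw [cd, h, cd]

theorem cd_zero : cd (0 : L8 K) = 248 := by
  have h : cen {(0 : L8 K)} = ⊤ := eq_top_iff.2 fun v _ => mem_cen_one.2 (TwoH.br_zero_left v)
  rw [cd, h, finrank_top, Inf.finrank_L8]

/-- the action of `SL₂` on a plane -/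
theorem sl2 [IsAlgClosed K] (M : Submonoid (G8 K)) {x y : L8 K}
    (hT : ∀ s : K, s ≠ 0 → ∃ g ∈ M, act g x = s⁻¹ • x ∧ act g y = s • y)
    (h1 : ∃ g ∈ M, act g x = x ∧ act g y = x + y) (h2 : ∃ g ∈ M, act g x = x + y ∧ act g y = y) (a b : K) :
    ∃ g ∈ M, ∃ b' : K, act g (a • x + b • y) = b' • y := by
  have key : ∀ a b : K, a ≠ 0 → b ≠ 0 → ∃ g ∈ M, ∃ b' : K, act g (a • x + b • y) = b' • y := by
    intro a b ha hb
    obtain ⟨s, hs⟩ := IsAlgClosed.exists_eq_mul_self (-a / b)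
    have hs0 : s ≠ 0 := by
      rintro rfl
      exact div_ne_zero (neg_ne_zero.2 ha) hb (hs.trans (mul_zero _))
    obtain ⟨t, ht, t1, t2⟩ := hT s hs0
    obtain ⟨g, hg, g1, g2⟩ := h1
    refine ⟨g * t, mul_mem hg ht, b * s, ?_⟩
    have e : a * s⁻¹ + b * s = 0 := by
      have : b * (s * s) = -a := by rw [← hs]; field_simp
      field_simp
      linear_combination this
    rw [act_mul, act_add, act_smul, act_smul, t1, t2, smul_smul, smul_smul, act_add, act_smul, act_smul, g1, g2, smul_add,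
      ← add_assoc, ← add_smul, e, zero_smul, zero_add]
  by_cases ha : a = 0
  · exact ⟨1, one_mem _, b, by rw [act_one, ha, zero_smul, zero_add]⟩
  by_cases hb : b = 0
  · obtain ⟨g, hg, g1, -⟩ := h2
    obtain ⟨g', hg', b', h⟩ := key a a ha ha
    exact ⟨g' * g, mul_mem hg' hg, b', by rw [act_mul, hb, zero_smul, add_zero, act_smul, g1, smul_add, h]⟩
  · exact key a b ha hb

variable [CharP K 3]

theorem fx_word {c : Fin 11} {w : SV} (h : (eq3 (wS w (eS c)) (eS c) && dgE (lab c) 0 w) = true) : wG K w ∈ Fx K c := by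
  rw [Bool.and_eq_true] at h
  exact ⟨by rw [ec_eq]; exact act_of_eq3 h.1, fun _ _ hv => wG_cl h.2 hv⟩

theorem act_add_of {w x y z : SV} (h : eq3 (wS w x) (y ++ z) = true) : act (wG K w) (sv K x) = sv K y + sv K z := by
  rw [act_of_eq3 h, sv_append]

/-- `kx ↦ k0 + kx` -/
def u1 : SV := [(11, 1), (17, -1), (21, 1)]

/-- `k0 ↦ k0 + kx` -/
def u2 : SV := [(218, 1), (222, -1), (228, 1)]

/-- `k2 ↦ k1 + k2` -/
def u3 : SV := [(55, -1), (64, 1), (83, 1)]

/-- `k1 ↦ k1 + k2` -/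
def u4 : SV := [(156, 1), (175, 1), (184, -1)]

/-- `k1 ↦ k0 + k1`, `kx ↦ k2 + kx` -/
def u5 : SV := [(72, 1), (89, -1), (93, 1), (99, -1), (56, -1)]

/-- `k0 ↦ k0 + k1`, `k2 ↦ k2 + kx` -/
def u6 : SV := [(140, -1), (146, -1), (150, -1), (167, -1), (183, -1)]

/-- the first cocharacter -/
def y1 : Q8 := ![0, 0, 0, 0, 0, 0, 1, 0]

/-- the second cocharacter -/
def y2 : Q8 := ![0, 0, 0, 1, 0, 0, -2, 0]

theorem cd_kx : cd (sv K kx) = 88 := (chkSb_sound (K := K) chkK).cd_eq.trans (by decide +kernel)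

omit [CharP K 3] in
theorem kx_labx {c : Fin 11} (h : 9 ≤ c.val) : sv K kx ∈ LS K (Eq' (cl (labx c)) 0) := by
  have h1 : ∀ c : Fin 11, 9 ≤ c.val → dgE (labx c) 0 kx = true := by decide +kernel
  simpa using sv_mem_Eq (K := K) (h1 c h)

theorem kx_ne : sv K kx ≠ 0 := sv_ne_zero (k := 158) (by decide) (by decide +kernel)

variable [IsAlgClosed K]

theorem move9 {z : L8 K} (hz : z ∈ KK K 9) : ∃ g ∈ Fx K 9, ∃ a : K, act g z = a • sv K kx := by
  obtain ⟨a, b, rfl⟩ := KK9.1 hz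
  refine sl2 (Fx K 9) (fun s hs => ?_)
    ⟨wG K u1, fx_word (by decide +kernel), act_of_eq3 (by decide +kernel), act_add_of (by decide +kernel)⟩
    ⟨wG K u2, fx_word (by decide +kernel), act_add_of (by decide +kernel), act_of_eq3 (by decide +kernel)⟩ a b
  obtain ⟨t, ht, h⟩ := fx_tor (c := 9) hs (y := y1) (by decide +kernel)
  exact ⟨t, ht, by rw [h (-1) k0 (by decide +kernel), zpow_neg_one], by rw [h 1 kx (by decide +kernel), zpow_one]⟩

theorem move10 {z : L8 K} (hz : z ∈ KK K 10) : ∃ g ∈ Fx K 10, ∃ a : K, act g z = a • sv K kx := by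
  obtain ⟨a, b, c, d, rfl⟩ := KK10.1 hz
  have hT : ∀ s : K, s ≠ 0 → ∃ g ∈ Fy 10 (sv K k1) (sv K k2), act g (sv K k0) = s⁻¹ • sv K k0 ∧
      act g (sv K kx) = s • sv K kx := by
    intro s hs
    obtain ⟨t, ht, h⟩ := fx_tor (c := 10) hs (y := y1) (by decide +kernel)
    exact ⟨t, ⟨ht, by rw [h 0 k1 (by decide +kernel), zpow_zero, one_smul],
      by rw [h 0 k2 (by decide +kernel), zpow_zero, one_smul]⟩,
      by rw [h (-1) k0 (by decide +kernel), zpow_neg_one], by rw [h 1 kx (by decide +kernel), zpow_one]⟩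
  obtain ⟨g1, ⟨m1, p1, q1⟩, d', h1⟩ := sl2 (Fy 10 (sv K k1) (sv K k2)) hT
    ⟨wG K u1, ⟨fx_word (by decide +kernel), act_of_eq3 (by decide +kernel), act_of_eq3 (by decide +kernel)⟩,
      act_of_eq3 (by decide +kernel), act_add_of (by decide +kernel)⟩
    ⟨wG K u2, ⟨fx_word (by decide +kernel), act_of_eq3 (by decide +kernel), act_of_eq3 (by decide +kernel)⟩,
      act_add_of (by decide +kernel), act_of_eq3 (by decide +kernel)⟩ a d
  obtain ⟨g2, ⟨m2, -, q2⟩, c', h2⟩ := sl2 (Fy 10 (sv K k0) (sv K kx)) (x := sv K k1) (y := sv K k2) (fun s hs => by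
      obtain ⟨t, ht, h⟩ := fx_tor (c := 10) hs (y := y2) (by decide +kernel)
      exact ⟨t, ⟨ht, by rw [h 0 k0 (by decide +kernel), zpow_zero, one_smul],
        by rw [h 0 kx (by decide +kernel), zpow_zero, one_smul]⟩,
        by rw [h (-1) k1 (by decide +kernel), zpow_neg_one], by rw [h 1 k2 (by decide +kernel), zpow_one]⟩)
    ⟨wG K u3, ⟨fx_word (by decide +kernel), act_of_eq3 (by decide +kernel), act_of_eq3 (by decide +kernel)⟩,
      act_of_eq3 (by decide +kernel), act_add_of (by decide +kernel)⟩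
    ⟨wG K u4, ⟨fx_word (by decide +kernel), act_of_eq3 (by decide +kernel), act_of_eq3 (by decide +kernel)⟩,
      act_add_of (by decide +kernel), act_of_eq3 (by decide +kernel)⟩ b c
  have h3 : act (g2 * g1) (a • sv K k0 + b • sv K k1 + c • sv K k2 + d • sv K kx) = c' • sv K k2 + d' • sv K kx := by
    rw [show a • sv K k0 + b • sv K k1 + c • sv K k2 + d • sv K kx =
      (b • sv K k1 + c • sv K k2) + (a • sv K k0 + d • sv K kx) by abel, act_mul, act_add g1, h1, act_add g1, act_smul,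
      act_smul, p1, q1, act_add g2, h2, act_smul, q2]
  have key : ∀ c d : K, c ≠ 0 → d ≠ 0 → ∃ g ∈ Fx K 10, ∃ a : K, act g (c • sv K k2 + d • sv K kx) = a • sv K kx := by
    intro c d hc hd
    obtain ⟨t, ⟨ht, -, t2⟩, -, t3⟩ := hT (-c / d) (div_ne_zero (neg_ne_zero.2 hc) hd)
    refine ⟨wG K u5 * t, mul_mem (fx_word (by decide +kernel)) ht, -c, ?_⟩
    have e1 : act (wG K u5) (sv K k2) = sv K k2 := act_of_eq3 (by decide +kernel)
    have e2 : act (wG K u5) (sv K kx) = sv K k2 + sv K kx := act_add_of (by decide +kernel)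
    rw [act_mul, act_add t, act_smul, act_smul, t2, t3, smul_smul, mul_div_cancel₀ _ hd, act_add, act_smul, act_smul, e1, e2,
      smul_add, ← add_assoc, ← add_smul, add_neg_cancel, zero_smul, zero_add]
  have fin : ∃ g ∈ Fx K 10, ∃ a : K, act g (c' • sv K k2 + d' • sv K kx) = a • sv K kx := by
    by_cases hc : c' = 0
    · exact ⟨1, one_mem _, d', by rw [act_one, hc, zero_smul, zero_add]⟩
    by_cases hd : d' = 0
    · obtain ⟨g, hg, a', h⟩ := key c' c' hc hc
      have e1 : act (wG K u6) (sv K k2) = sv K k2 + sv K kx := act_add_of (by decide +kernel)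
      exact ⟨g * wG K u6, mul_mem hg (fx_word (by decide +kernel)), a', by
        rw [act_mul, hd, zero_smul, add_zero, act_smul, e1, smul_add, h]⟩
    · exact key c' d' hc hd
  obtain ⟨g, hg, a', h⟩ := fin
  exact ⟨g * (g2 * g1), mul_mem hg (mul_mem m2 m1), a', by rw [act_mul, h3, h]⟩

theorem moveK {c : Fin 11} (hc : 9 ≤ c.val) {z : L8 K} (hz : z ∈ KK K c) : ∃ g ∈ Fx K c, ∃ a : K, act g z = a • sv K kx := by
  have h : c = 9 ∨ c = 10 := by
    have := c.2
    simp only [Fin.ext_iff]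
    omega
  rcases h with rfl | rfl
  · exact move9 hz
  · exact move10 hz

theorem cd_KK {c : Fin 11} (hc : 9 ≤ c.val) {z : L8 K} (hz : z ∈ KK K c) (h0 : z ≠ 0) : cd z = 88 := by
  obtain ⟨g, -, a, h⟩ := moveK hc hz
  have ha : a ≠ 0 := by
    rintro rfl
    exact h0 (act_eq_zero (h.trans (zero_smul _ _)))
  rw [← cd_act g, h, cd_smul ha, cd_kx]

end Cfsg.Agent.E8A.C63.Sv

namespace Cfsg.Agent.E8A.C63

open Sv

universe u

/-- **KRK** -/
theorem krk : KRK.{u} := by
  intro K _ _ _ z hz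
  by_cases h0 : z = 0
  · rw [h0, cd_zero]; norm_num
  · rw [cd_KK (by decide) hz h0]; norm_num

end Cfsg.Agent.E8A.C63
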