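import Cfsg.Agent.E8A.C63.NilD
import Cfsg.Agent.E8A.Fix.Bor

/-!
# `A₆` in characteristic 3: the box NIL3 (helper41)
-/

set_option autoImplicit false
set_option maxRecDepth 100000

namespace Cfsg.Agent.E8A.C63

open Cfsg Cfsg.Lie Module Filter Topology
open Cfsg.Agent.H288.E8L (Q8 wt)
open Cfsg.Agent.E8A.Kem (Ge mem_Ge nrm)
open Cfsg.Agent.E8A.C63.Abc (sub_pr_Gt)

universe u

namespace Nil

theorem all_ok : ∀ j < 12, ∃ D : Cls, D.j = j ∧ chkC D = true := by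
  intro j hj
  interval_cases j
  exacts [⟨D0, rfl, ok0⟩, ⟨D1, rfl, ok1⟩, ⟨D2, rfl, ok2⟩, ⟨D3, rfl, ok3⟩, ⟨D4, rfl, ok4⟩, ⟨D5, rfl, ok5⟩, ⟨D6, rfl, ok6⟩,
    ⟨D7, rfl, ok7⟩, ⟨D8, rfl, ok8⟩, ⟨D9, rfl, ok9⟩, ⟨D10, rfl, ok10⟩, ⟨D11, rfl, ok11⟩]

variable {K : Type u} [Field K] [IsAlgClosed K] [CharP K 3]

theorem gl_of_st : ∀ (n m j : ℕ) (k : Q8 →+ ℝ) (x : L8 K), 12 - j = n → ms j k = m → j < 12 → x ≠ 0 → Cz x → St j k x →
    Gl k x := by
  intro n
  induction n using Nat.strong_induction_on with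
  | _ n ihn =>
    intro m
    induction m using Nat.strong_induction_on with
    | _ m ihm =>
      intro j k x hn hm hj h0 hx hs
      obtain ⟨D, rfl, hD⟩ := all_ok j hj
      rcases step hD h0 hx hs with h | ⟨g, k', j, h1, h2, h3⟩
      · exact h
      have h4 : act g x ≠ 0 := fun e => h0 (act_eq_zero e)
      obtain ⟨c, g', h5, h6⟩ : Gl k' (act g x) := by
        rcases h3 with h3 | ⟨rfl, h3⟩
        · exact ihn _ (by omega) _ j k' _ rfl rfl h3.2 h4 (hx.act g) h1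
        · exact ihm _ (hm ▸ h3) _ k' _ hn rfl hj h4 (hx.act g) h1
      exact ⟨c, g' * g, by rwa [act_mul], h6.trans h2⟩

theorem gl_of_Ge {k : Q8 →+ ℝ} {j t : ℝ} (ht : 0 < t) (h : 1 < t * j) {x : L8 K} (h0 : x ≠ 0) (hx : Cz x)
    (hk : x ∈ LS K (Ge k j)) : Gl (t • k) x :=
  gl_of_st _ _ 0 _ x rfl rfl (by norm_num) h0 hx ⟨0, ⟨zero_mem _, fun i hi => by
    rw [sub_zero] at hi
    exact h.trans_le (mul_le_mul_of_nonneg_left (mem_Ge.1 (hk i hi)) ht.le)⟩,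
    fun _ => ⟨fun h => absurd rfl h, fun h => absurd h List.not_mem_nil⟩⟩

omit [IsAlgClosed K] [CharP K 3] in
theorem pos_of_inB {x : L8 K} (hx : Cz x) (h : InB x) : x ∈ LS K {a | 0 < cl (fun _ => 1) a} := by
  have e : ∀ a : Q8, cl (fun _ => 1) a = ((∑ i, a i : ℤ) : ℝ) := fun a => by
    rw [cl_apply, Reg5.Cls.ex]
    simp only [mul_one]
  have h1 : x ∈ LS K (Ge (cl fun _ => 1) 0) := fun i hi => mem_Ge.2 (by
    rw [e]
    exact_mod_cast Finset.sum_nonneg fun l _ => inB_iff.1 h i hi l)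
  have h2 : InT (pr (cl fun _ => 1) 0 x) := inT_iff.2 fun i hi => by
    have h3 := mem_Eq.1 (pr_mem _ _ _ i hi)
    have h4 := pr_LS (inB_iff.1 h) _ _ i hi
    rw [e, Int.cast_eq_zero, Finset.sum_eq_zero_iff_of_nonneg fun l _ => h4 l] at h3
    exact funext fun l => h3 l (Finset.mem_univ l)
  have h3 := eq_zero_of_rl h2 fun r => by
    have h4 := (cz_pr hx h1).br3 (ee K (Sum.inr r))
    rw [br_T_ee h2, br_smul_right, br_T_ee h2, br_smul_right, br_smul_right, br_T_ee h2, smul_smul, smul_smul,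
      smul_eq_zero_iff_left (ee_ne_zero _)] at h4
    simpa using h4
  have h4 := sub_pr_Gt h1
  rwa [h3, sub_zero] at h4

theorem cdc_inj : Function.Injective cdc := by decide

end Nil

open Nil

theorem nil3 : NIL3.{u} := by
  intro K _ _ _ x h0 hx
  obtain ⟨g, hg⟩ := Bor.borel K x
  obtain ⟨j, hj, hj'⟩ := exists_Ge (pos_of_inB (hx.act g) hg)
  obtain ⟨c, g₁, h1, -⟩ := gl_of_Ge (t := 2 / j) (by positivity) (by rw [div_mul_cancel₀ _ hj.ne']; norm_num)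
    (fun e => h0 (act_eq_zero e)) (hx.act g) hj'
  refine ⟨c, g₁ * g, by rwa [act_mul], fun g' lam h => ?_⟩
  have h2 : Tendsto (fun t : ℝ => 4 * (t ^ 2 * nrm lam)) (𝓝[>] (1 / 2)) (𝓝 (nrm lam)) := by
    have h3 := (show Continuous fun t : ℝ => 4 * (t ^ 2 * nrm lam) by fun_prop).tendsto (1 / 2)
    rw [show 4 * ((1 / 2 : ℝ) ^ 2 * nrm lam) = nrm lam by ring] at h3
    exact h3.mono_left nhdsWithin_le_nhds
  refine ge_of_tendsto h2 ?_
  filter_upwards [self_mem_nhdsWithin] with t ht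
  have ht' : 1 / 2 < t := ht
  obtain ⟨c', g₂, h3, h4⟩ := gl_of_Ge (t := t) (by linarith) (by linarith) (fun e => h0 (act_eq_zero e)) (hx.act g') h
  have h5 : c' = c := cdc_inj (by
    rw [← (str K c).2.1, ← (str K c').2.1, ← h1, ← h3, cd_act, cd_act, cd_act, cd_act])
  rw [h5, hf, (eL_eq c).2, nrm_smul, nrm_smul] at h4
  linarith

end Cfsg.Agent.E8A.C63
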