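import Cfsg.Agent.E8A.C63.AbcA

/-!
# `A₆` in characteristic 3, box NIL3: successive approximation (helper41)

* `Un k d g` : `g - 1` raises the degree by `d`; `exists_exp` : `g = 1 + ad w + …`;
* `kill` : reduction into a slice; `cu` : elements of the stabilizer with a given leading term.
-/

set_option autoImplicit false
set_option maxRecDepth 100000

namespace Cfsg.Agent.E8A.C63.Nil

open Cfsg Cfsg.Lie Module
open Cfsg.Agent.H288.E8L (Q8 wt wt_inl wt_inr)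
open Cfsg.Agent.Nodes.RGDChev (vec)
open Cfsg.Agent.E8A.Kem (Ge mem_Ge)
open Cfsg.Agent.E8A.Par (op vec_op kf_ee act_xr)
open Cfsg.Agent.E8A.TwoH (br_anti br_zero_left)
open Cfsg.Agent.E8A.C63.Abc (br_Ge Ge_mono sub_pr_Gt)

universe u

variable {K : Type u} [Field K] {k : Q8 →+ ℝ}

/-- `g - 1` raises the degree by `d` -/
def Un (k : Q8 →+ ℝ) (d : ℝ) (g : G8 K) : Prop := ∀ j : ℝ, ∀ v ∈ LS K (Ge k j), act g v - v ∈ LS K (Ge k (j + d))

theorem Un.one (d : ℝ) : Un k d (1 : G8 K) := fun _ v _ => by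
  rw [act_one, sub_self]
  exact zero_mem _

theorem Un.mono {d d' : ℝ} {g : G8 K} (h : Un k d g) (hd : d' ≤ d) : Un k d' g := fun j v hv =>
  Ge_mono (by linarith) (h j v hv)

theorem Un.act {d : ℝ} {g : G8 K} (h : Un k d g) (hd : 0 ≤ d) {j : ℝ} {v : L8 K} (hv : v ∈ LS K (Ge k j)) :
    act g v ∈ LS K (Ge k j) := by
  have h1 := add_mem (Ge_mono (show j ≤ j + d by linarith) (h j v hv)) hv
  rwa [sub_add_cancel] at h1

theorem Un.mul {d : ℝ} {g g' : G8 K} (h : Un k d g) (h' : Un k d g') (hd : 0 ≤ d) : Un k d (g * g') := fun j v hv => by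
  have h1 := add_mem (h j _ (h'.act hd hv)) (h' j v hv)
  rwa [sub_add_sub_cancel, ← act_mul] at h1

/-- `g = 1 + ad w + …` -/
def Ex (k : Q8 →+ ℝ) (d : ℝ) (w : L8 K) (g : G8 K) : Prop :=
  Un k d g ∧ ∀ j : ℝ, ∀ v ∈ LS K (Ge k j), act g v - v - br w v ∈ LS K (Ge k (j + 2 * d))

theorem Ex.zero (d : ℝ) : Ex k d (0 : L8 K) 1 := ⟨Un.one d, fun _ v _ => by
  rw [act_one, sub_self, br_zero_left, sub_self]
  exact zero_mem _⟩

theorem Ex.mul {d : ℝ} (hd : 0 ≤ d) {w w' : L8 K} {g g' : G8 K} (hw : w ∈ LS K (Ge k d)) (h : Ex k d w g)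
    (h' : Ex k d w' g') : Ex k d (w + w') (g * g') := ⟨h.1.mul h'.1 hd, fun j v hv => by
  have h1 := add_mem (add_mem (h.2 j _ (h'.1.act hd hv))
    (Ge_mono (show j + 2 * d ≤ d + (j + d) by linarith) (br_Ge hw (h'.1 j v hv)))) (h'.2 j v hv)
  rw [act_mul, br_add_left]
  rw [br_sub_right] at h1
  convert h1 using 1
  abel⟩

theorem ex_xr {d : ℝ} (hd : 0 ≤ d) {r : Fin chevE8.nroots} (hr : k (vec chevE8 8 r) = d) (t : K) :
    Ex k d (t • ee K (Sum.inr r)) (xr r t) := by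
  have h0 : ee K (Sum.inr r) ∈ LS K (Ge k d) := ee_mem_LS (mem_Ge.2 hr.ge)
  have h1 : ∀ j : ℝ, ∀ v ∈ LS K (Ge k j), act (xr r t) v - v - br (t • ee K (Sum.inr r)) v ∈ LS K (Ge k (j + 2 * d)) := by
    intro j v hv
    have e : act (xr r t) v - v - br (t • ee K (Sum.inr r)) v = -((t ^ 2 * v (Sum.inr (op r))) • ee K (Sum.inr r)) := by
      rw [act_xr, kf_ee, br_smul_left]
      abel
    rw [e]
    by_cases h : v (Sum.inr (op r)) = 0
    · rw [h, mul_zero, zero_smul, neg_zero]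
      exact zero_mem _
    · have h2 := mem_Ge.1 (hv _ h)
      rw [wt_inr, vec_op, map_neg, hr] at h2
      exact neg_mem (Submodule.smul_mem _ _ (Ge_mono (by linarith) h0))
  refine ⟨fun j v hv => ?_, h1⟩
  have h2 := add_mem (Ge_mono (show j + d ≤ j + 2 * d by linarith) (h1 j v hv))
    (Ge_mono (show j + d ≤ d + j by linarith) (br_Ge (Submodule.smul_mem _ t h0) hv))
  rwa [sub_add_cancel] at h2

theorem eq_sum (w : L8 K) : w = ∑ i, w i • ee K i := by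
  funext j
  rw [Finset.sum_apply, Finset.sum_eq_single j]
  · rw [Pi.smul_apply, ee_self, smul_eq_mul, mul_one]
  · intro i _ hi
    rw [Pi.smul_apply, ee_ne hi.symm, smul_zero]
  · intro h
    exact absurd (Finset.mem_univ j) h

/-- induction over the support -/
theorem supp_ind {P : L8 K → Prop} (h0 : P 0) (ha : ∀ v w, P v → P w → P (v + w)) {w : L8 K}
    (h : ∀ i, w i ≠ 0 → P (w i • ee K i)) : P w := by
  rw [eq_sum w]
  refine Finset.sum_induction _ P ha h0 fun i _ => ?_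
  by_cases e : w i = 0
  · rwa [e, zero_smul]
  · exact h i e

theorem exists_exp {d : ℝ} (hd : 0 < d) {w : L8 K} (hw : w ∈ LS K (Eq' k d)) : ∃ g : G8 K, Un k d g ∧
    ∀ j : ℝ, ∀ v ∈ LS K (Ge k j), act g v - v - br w v ∈ LS K (Ge k (j + 2 * d)) := by
  refine (supp_ind (P := fun w => w ∈ LS K (Ge k d) ∧ ∃ g, Ex k d w g) ⟨zero_mem _, 1, Ex.zero d⟩
    (fun v w ⟨h1, g, hg⟩ ⟨h2, g', hg'⟩ => ⟨add_mem h1 h2, g * g', hg.mul hd.le h1 hg'⟩) fun i hi => ?_).2
  have h1 := mem_Eq.1 (hw i hi)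
  refine ⟨Submodule.smul_mem _ _ (ee_mem_LS (mem_Ge.2 h1.ge)), ?_⟩
  rcases i with i | r
  · rw [wt_inl, map_zero] at h1
    exact absurd h1 hd.ne
  · exact ⟨_, ex_xr hd.le h1 _⟩

theorem Ge_le_Gt {i j : ℝ} (h : i < j) {v : L8 K} (hv : v ∈ LS K (Ge k j)) : v ∈ LS K {x | i < k x} :=
  LS_mono (fun _ ha => h.trans_le ha) hv

theorem Gt_le_Ge {i : ℝ} {v : L8 K} (hv : v ∈ LS K {x | i < k x}) : v ∈ LS K (Ge k i) :=
  fun y hy => mem_Ge.2 (le_of_lt (hv y hy))

theorem exists_Ge {i : ℝ} {v : L8 K} (hv : v ∈ LS K {x | i < k x}) : ∃ j, i < j ∧ v ∈ LS K (Ge k j) := by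
  classical
  by_cases h : (Finset.univ.filter fun x : chevE8.Idx => i < k (wt x)).Nonempty
  · obtain ⟨x, hx, hm⟩ := Finset.exists_min_image _ (fun x => k (wt x)) h
    exact ⟨_, (Finset.mem_filter.1 hx).2, fun y hy => hm y (Finset.mem_filter.2 ⟨Finset.mem_univ _, hv y hy⟩)⟩
  · exact ⟨i + 1, by linarith, fun y hy => absurd ⟨y, Finset.mem_filter.2 ⟨Finset.mem_univ _, hv y hy⟩⟩ h⟩

/-- **reduction into a slice** -/
theorem kill {e : L8 K} {m : ℝ} (he : e ∈ LS K (Eq' k m)) {S : Submodule K (L8 K)}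
    (hS : ∀ j : ℝ, m < j → ∀ v ∈ LS K (Eq' k j), ∃ s ∈ S ⊓ LS K (Eq' k j), ∃ w ∈ LS K (Eq' k (j - m)), v = s + br e w)
    {a : ℝ} (ha : m < a) {x : L8 K} (hx : x - e ∈ LS K (Ge k a)) :
    ∃ g : G8 K, Un k (a - m) g ∧ act g x - e ∈ S ⊓ LS K (Ge k a) := by
  classical
  suffices H : ∀ (n : ℕ) (b : ℝ) (x s : L8 K), (Finset.univ.filter fun x : chevE8.Idx => b < k (wt x)).card = n → a ≤ b →
      s ∈ S ⊓ LS K (Ge k a) → x - e - s ∈ LS K (Ge k b) → ∃ g : G8 K, Un k (a - m) g ∧ act g x - e ∈ S ⊓ LS K (Ge k a) from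
    H _ a x 0 rfl le_rfl (zero_mem _) (by rwa [sub_zero])
  intro n
  induction n using Nat.strong_induction_on with
  | _ n ih =>
    intro b x s hn hb hs hy
    obtain ⟨s', hs', w, hw, e1⟩ := hS b (by linarith) _ (pr_mem k b (x - e - s))
    obtain ⟨g, hg, hg'⟩ := exists_exp (show 0 < b - m by linarith) hw
    have h1 : x - e ∈ LS K (Ge k a) := by
      have := add_mem (Ge_mono hb hy) hs.2
      rwa [sub_add_cancel] at this
    have h2 : x ∈ LS K (Ge k m) := by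
      have := add_mem (Ge_mono ha.le h1) (Eq_le_Ge he)
      rwa [sub_add_cancel] at this
    have h3 : act g x - e - (s + s') ∈ LS K {x | b < k x} := by
      have := add_mem (add_mem (sub_pr_Gt hy) (Ge_le_Gt (show b < b - m + a by linarith) (br_Ge (Eq_le_Ge hw) h1)))
        (Ge_le_Gt (show b < m + 2 * (b - m) by linarith) (hg' m x h2))
      rw [e1, br_sub_right, br_anti e w] at this
      convert this using 1
      abel
    have h4 : s + s' ∈ S ⊓ LS K (Ge k a) := add_mem hs ⟨hs'.1, Ge_mono hb (Eq_le_Ge hs'.2)⟩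
    have h5 := hg.mono (show a - m ≤ b - m by linarith)
    by_cases h : (Finset.univ.filter fun x : chevE8.Idx => b < k (wt x)).Nonempty
    · obtain ⟨z, hz, hm⟩ := Finset.exists_min_image _ (fun x => k (wt x)) h
      have hz' := (Finset.mem_filter.1 hz).2
      obtain ⟨g', h6, h7⟩ := ih _ (hn ▸ Finset.card_lt_card ⟨fun y hy => Finset.mem_filter.2
          ⟨Finset.mem_univ _, hz'.trans (Finset.mem_filter.1 hy).2⟩, fun h => lt_irrefl _ (Finset.mem_filter.1 (h hz)).2⟩)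
        (k (wt z)) (act g x) _ rfl (by linarith) h4
        fun y hy => hm y (Finset.mem_filter.2 ⟨Finset.mem_univ _, h3 y hy⟩)
      exact ⟨g' * g, h6.mul h5 (by linarith), by rwa [act_mul]⟩
    · have h6 : act g x - e - (s + s') = 0 := funext fun y => by
        by_contra hy
        exact h ⟨y, Finset.mem_filter.2 ⟨Finset.mem_univ _, h3 y hy⟩⟩
      exact ⟨g, h5, by rwa [sub_eq_zero.1 h6]⟩

/-- the case of a surjective `ad e` -/
theorem kill0 {e : L8 K} {m : ℝ} (he : e ∈ LS K (Eq' k m))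
    (hS : ∀ j : ℝ, m < j → ∀ v ∈ LS K (Eq' k j), ∃ w ∈ LS K (Eq' k (j - m)), br e w = v)
    {a : ℝ} (ha : m < a) {x : L8 K} (hx : x - e ∈ LS K (Ge k a)) : ∃ g : G8 K, Un k (a - m) g ∧ act g x = e := by
  obtain ⟨g, hg, h⟩ := kill he (S := ⊥) (fun j hj v hv => by
    obtain ⟨w, hw, e1⟩ := hS j hj v hv
    exact ⟨0, zero_mem _, w, hw, by rw [zero_add, e1]⟩) ha hx
  exact ⟨g, hg, sub_eq_zero.1 h.1⟩

/-- **elements of the stabilizer with a given leading term** -/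
theorem cu {e : L8 K} {m : ℝ} (he : e ∈ LS K (Eq' k m))
    (hS : ∀ j : ℝ, m < j → ∀ v ∈ LS K (Eq' k j), ∃ w ∈ LS K (Eq' k (j - m)), br e w = v)
    {d : ℝ} (hd : 0 < d) {c : L8 K} (hc : c ∈ LS K (Eq' k d)) (h0 : br e c = 0) : ∃ u : G8 K, act u e = e ∧ Un k d u ∧
      ∀ j : ℝ, ∀ v ∈ LS K (Ge k j), act u v - v - br c v ∈ LS K (Ge k (j + 2 * d)) := by
  obtain ⟨g, hg, hg'⟩ := exists_exp hd hc
  have h1 := hg' m e (Eq_le_Ge he)
  rw [br_anti c e, h0, neg_zero, sub_zero] at h1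
  obtain ⟨g', h2, h3⟩ := kill0 he hS (show m < m + 2 * d by linarith) h1
  rw [add_sub_cancel_left] at h2
  refine ⟨g' * g, by rwa [act_mul], (h2.mono (by linarith)).mul hg hd.le, fun j v hv => ?_⟩
  have h4 := add_mem (h2 j _ (hg.act hd.le hv)) (hg' j v hv)
  rw [act_mul]
  convert h4 using 1
  abel

end Cfsg.Agent.E8A.C63.Nil
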