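import Cfsg.Agent.E8A.C63.NilA
import Cfsg.Agent.E8A.C63.KemA
import Cfsg.Agent.E8A.C63.Str

/-!
# `A₆` in characteristic 3, box NIL3: leading terms (helper41)

* `vertex` : a vertex of the Newton polyhedron; `Lk k z x` : `z` is the leading term of `x`; `Su A z` : the support;
* `exists_dg` : torus elements; `Lk.rep`, `Su.rep` : the Weyl group; `tv`, `adT` : sums of monomials.
-/

set_option autoImplicit false
set_option maxRecDepth 100000

namespace Cfsg.Agent.E8A.C63.Nil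

open Cfsg Cfsg.Lie Module Filter Topology
open Cfsg.Agent.H288.E8L (Q8 wt wt_inl wt_inr act8 wt_inj vec_ne_zero)
open Cfsg.Agent.H942.CB (W8 cs8)
open Cfsg.Agent.Tits.Roots (sr sr_self)
open Cfsg.Agent.Nodes.RGDChev (vec)
open Cfsg.Agent.E8A.Kem (Ge mem_Ge nrm cw cw_apply nrm_cw mk mk_eq mk_apply)
open Cfsg.Agent.E8A.TwoH (br_anti br_zero_left br_zero_right exists_tz)
open Cfsg.Agent.E8A.C63.Abc (br_Ge Ge_mono sub_pr_Gt pr_Gt pr_br pr_zero)
open Cfsg.Agent.E8A.C63.KemA (exists_nrm B2_comm B2_add B2_smul B2_cl)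
open Cfsg.Agent.E8A.C63.Sv
open Cfsg.Agent.ChevalleyStructure.JacTab (rbr rowAt)
open Cfsg.Agent.ChevalleyStructure.JacDataE8 (rows)

universe u

/-! ### norms -/

theorem lin_eq (ψ : Q8 →+ ℝ) (a : Q8) : ψ a = ∑ i, (a i : ℝ) * ψ (sr i) := by
  conv_lhs => rw [← mk_eq ψ]
  rfl

theorem lin_prop {ψ : Q8 →+ ℝ} {p q : ℤ} {a b : Q8} (h : ∀ i, ψ (sr i) = 0 ∨ p * a i = q * b i) :
    (p : ℝ) * ψ a = q * ψ b := by
  rw [lin_eq ψ a, lin_eq ψ b, Finset.mul_sum, Finset.mul_sum]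
  refine Finset.sum_congr rfl fun i _ => ?_
  rcases h i with e | e
  · rw [e]; ring
  · have := congrArg (fun x : ℤ => (x : ℝ)) e
    simp only [Int.cast_mul] at this
    rw [← mul_assoc, ← mul_assoc, this]

theorem B2_orth {y : Q8} {ψ : Q8 →+ ℝ} (h : ∀ i, ψ (sr i) = 0 ∨ Two.bw (Pi.single i 1) y = 0) : B2 ψ (cl y) = 0 := by
  have e : B2 ψ (cl y) = ∑ i, ψ (sr i) * B2 (cl (Pi.single i 1)) (cl y) := by
    simp only [B2, Finset.mul_sum]
    rw [Finset.sum_comm]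
    refine Finset.sum_congr rfl fun x _ => ?_
    rw [lin_eq ψ (wt x), Finset.sum_mul]
    refine Finset.sum_congr rfl fun i _ => ?_
    rw [cl_apply (Pi.single i 1), Two.ex_single]
    ring
  rw [e]
  refine Finset.sum_eq_zero fun i _ => ?_
  rcases h i with e | e
  · rw [e, zero_mul]
  · rw [B2_cl, e, Int.cast_zero, mul_zero, mul_zero]

theorem nrm_add {φ ψ : Q8 →+ ℝ} (h : B2 ψ φ = 0) : nrm (φ + ψ) = nrm φ + nrm ψ := by
  obtain ⟨c, -, hc⟩ := exists_nrm
  rw [hc, hc, hc, B2_add, B2_comm φ (φ + ψ), B2_comm ψ (φ + ψ), B2_add, B2_add, B2_comm φ ψ, h]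
  ring

theorem nrm_smul (t : ℝ) (ψ : Q8 →+ ℝ) : nrm (t • ψ) = t ^ 2 * nrm ψ := by
  obtain ⟨c, -, hc⟩ := exists_nrm
  rw [hc, hc, B2_smul, B2_comm, B2_smul]
  ring

theorem nrm_nn (ψ : Q8 →+ ℝ) : 0 ≤ nrm ψ := by
  obtain ⟨c, h, hc⟩ := exists_nrm
  rw [hc]
  exact mul_nonneg h.le (Finset.sum_nonneg fun _ _ => mul_self_nonneg _)

theorem nrm_pos {ψ : Q8 →+ ℝ} {x : chevE8.Idx} (hx : ψ (wt x) ≠ 0) : 0 < nrm ψ := by
  obtain ⟨c, h, hc⟩ := exists_nrm
  rw [hc]
  exact mul_pos h (Finset.sum_pos' (fun _ _ => mul_self_nonneg _) ⟨x, Finset.mem_univ _, mul_self_pos.2 hx⟩)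

theorem nrm_cont (ψ ν : Q8 →+ ℝ) : Continuous fun t : ℝ => nrm (ψ + t • ν) := by
  obtain ⟨c, -, hc⟩ := exists_nrm
  simp only [hc, B2, AddMonoidHom.add_apply, AddMonoidHom.smul_apply, smul_eq_mul]
  fun_prop

/-- **a vertex of the Newton polyhedron** -/
theorem vertex {φ ψ ν : Q8 →+ ℝ} {Y : Finset chevE8.Idx} (hY : Y.Nonempty) (h1 : ∀ x ∈ Y, φ (wt x) < 1)
    (h2 : ∀ x ∈ Y, 1 < φ (wt x) + ψ (wt x)) : ∃ s t : ℝ, nrm (s • ψ + t • ν) ≤ nrm ψ ∧
      (∀ x ∈ Y, 1 ≤ φ (wt x) + (s • ψ + t • ν) (wt x)) ∧ (∃ x ∈ Y, φ (wt x) + (s • ψ + t • ν) (wt x) = 1) ∧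
      (∀ x ∈ Y, ∀ x' ∈ Y, φ (wt x) + (s • ψ + t • ν) (wt x) = 1 → φ (wt x') + (s • ψ + t • ν) (wt x') = 1 →
        ν (wt x) * (1 - φ (wt x')) = ν (wt x') * (1 - φ (wt x))) ∧
      ∀ x : chevE8.Idx, φ (wt x) < 1 → 1 < φ (wt x) + (s • ψ + t • ν) (wt x) → 1 < φ (wt x) + ψ (wt x) := by
  let f : chevE8.Idx → ℝ := fun x => ψ (wt x) / (1 - φ (wt x))
  let g : chevE8.Idx → ℝ := fun x => ν (wt x) / (1 - φ (wt x))
  have hf : ∀ x, φ (wt x) < 1 → (1 < f x ↔ 1 < φ (wt x) + ψ (wt x)) := fun x hx => by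
    rw [one_lt_div (sub_pos.2 hx)]
    constructor <;> intro h <;> linarith
  obtain ⟨x₁, hx₁, hm₁⟩ := Y.exists_min_image f hY
  have h3 := (hf x₁ (h1 x₁ hx₁)).2 (h2 x₁ hx₁)
  obtain ⟨m, hm, hm'⟩ := exists_between h3
  have hc : ∀ x, Tendsto (fun ε : ℝ => f x + ε * g x) (𝓝[≠] 0) (𝓝 (f x)) := fun x => by
    have : Continuous fun ε : ℝ => f x + ε * g x := by fun_prop
    have h := this.tendsto 0
    rw [zero_mul, add_zero] at h
    exact h.mono_left nhdsWithin_le_nhds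
  have ea : ∀ᶠ ε in 𝓝[≠] (0 : ℝ), ∀ x ∈ Y, m < f x + ε * g x :=
    (eventually_all_finset Y).2 fun x hx => (hc x).eventually (lt_mem_nhds (hm'.trans_le (hm₁ x hx)))
  have eb : ∀ᶠ ε in 𝓝[≠] (0 : ℝ), ∀ x x', f x + ε * g x = f x' + ε * g x' → g x = g x' := by
    refine eventually_all.2 fun x => eventually_all.2 fun x' => ?_
    by_cases e : g x = g x'
    · exact Eventually.of_forall fun _ _ => e
    by_cases e' : f x = f x'
    · filter_upwards [self_mem_nhdsWithin] with ε hε h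
      rw [e', add_right_inj] at h
      exact mul_left_cancel₀ hε h
    · filter_upwards [((hc x).sub (hc x')).eventually_ne (sub_ne_zero.2 e')] with ε hε h
      exact absurd (sub_eq_zero.2 h) hε
  have ec : ∀ᶠ ε in 𝓝[≠] (0 : ℝ), ∀ x, f x ≤ 1 → f x + ε * g x < m := by
    refine eventually_all.2 fun x => ?_
    by_cases e : f x ≤ 1
    · filter_upwards [(hc x).eventually (gt_mem_nhds (e.trans_lt hm))] with ε hε _ using hε
    · exact Eventually.of_forall fun _ h => absurd h e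
  have hp : 0 < nrm ψ := nrm_pos (x := x₁) (by have := h1 x₁ hx₁; have := h2 x₁ hx₁; intro h; linarith)
  have ed : ∀ᶠ ε in 𝓝[≠] (0 : ℝ), nrm (ψ + ε • ν) < m ^ 2 * nrm ψ := by
    have h := (nrm_cont ψ ν).tendsto 0
    rw [zero_smul, add_zero] at h
    exact (h.mono_left nhdsWithin_le_nhds).eventually (gt_mem_nhds (by nlinarith [mul_pos hp (show 0 < m ^ 2 - 1 by nlinarith)]))
  obtain ⟨ε, ⟨⟨ha, hb⟩, hc'⟩, hd⟩ := (((ea.and eb).and ec).and ed).exists
  obtain ⟨x₀, hx₀, hm₀⟩ := Y.exists_min_image (fun x => f x + ε * g x) hY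
  obtain ⟨M, hM⟩ : ∃ M, M = f x₀ + ε * g x₀ := ⟨_, rfl⟩
  have hmM : m < M := hM ▸ ha x₀ hx₀
  have hM0 : 0 < M := by linarith
  have key : ∀ x, φ (wt x) < 1 → φ (wt x) + (M⁻¹ • ψ + (M⁻¹ * ε) • ν) (wt x) - 1 =
      (1 - φ (wt x)) * M⁻¹ * (f x + ε * g x - M) := fun x hx => by
    have := (sub_pos.2 hx).ne'
    simp only [f, g, AddMonoidHom.add_apply, AddMonoidHom.smul_apply, smul_eq_mul]
    field_simp
    ring
  have pos : ∀ x, φ (wt x) < 1 → 0 < (1 - φ (wt x)) * M⁻¹ := fun x hx => mul_pos (sub_pos.2 hx) (inv_pos.2 hM0)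
  refine ⟨M⁻¹, M⁻¹ * ε, ?_, fun x hx => ?_, ⟨x₀, hx₀, ?_⟩, fun x hx x' hx' e e' => ?_, fun x hx h => ?_⟩
  · rw [mul_smul, ← smul_add, nrm_smul, inv_pow, inv_mul_le_iff₀ (by positivity)]
    exact hd.le.trans (mul_le_mul_of_nonneg_right (by nlinarith) hp.le)
  · have := mul_nonneg (pos x (h1 x hx)).le (sub_nonneg.2 (hM ▸ hm₀ x hx))
    rw [← key x (h1 x hx)] at this
    linarith
  · have := key x₀ (h1 x₀ hx₀)
    rw [← hM, sub_self, mul_zero] at this
    linarith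
  · have k1 := key x (h1 x hx)
    have k2 := key x' (h1 x' hx')
    rw [e, sub_self] at k1
    rw [e', sub_self] at k2
    have k3 := (mul_eq_zero.1 k1.symm).resolve_left (pos x (h1 x hx)).ne'
    have k4 := (mul_eq_zero.1 k2.symm).resolve_left (pos x' (h1 x' hx')).ne'
    exact (div_eq_div_iff (sub_pos.2 (h1 x hx)).ne' (sub_pos.2 (h1 x' hx')).ne').1 (hb x x' (by linarith))
  · refine (hf x hx).1 (lt_of_not_ge fun h' => ?_)
    have k1 := mul_neg_of_pos_of_neg (pos x hx) (show f x + ε * g x - M < 0 by linarith [hc' x h'])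
    rw [← key x hx] at k1
    linarith

/-! ### leading terms -/

variable {K : Type u} [Field K] {k : Q8 →+ ℝ}

/-- `z` is the leading term of `x` -/
def Lk (k : Q8 →+ ℝ) (z x : L8 K) : Prop := z ∈ LS K (Eq' k 1) ∧ x - z ∈ LS K {a | 1 < k a}

/-- the support -/
def Su (A : List ℕ) (z : L8 K) : Prop := ∀ i, z i ≠ 0 ↔ ky i ∈ A

theorem cz_pr {j : ℝ} {v : L8 K} (h : Cz v) (hv : v ∈ LS K (Ge k j)) : Cz (pr k j v) := by
  refine Matrix.ext fun i l => ?_
  have h1 : ee K l ∈ LS K (Eq' k (k (wt l))) := ee_mem_LS rfl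
  have h2 := Eq_le_Ge h1
  have h3 := br_Ge hv h2
  have h4 := pr_br rfl hv (br_Ge hv h3)
  rw [h.br3, pr_zero, pr_br rfl hv h3, pr_br rfl hv h2, pr_of_mem h1] at h4
  have h5 := congrFun h4 i
  unfold br at h5
  rw [Matrix.mulVec_mulVec, Matrix.mulVec_mulVec, mulVec_ee, ← sq, ← pow_succ] at h5
  exact h5.symm

theorem Lk.cz {z x : L8 K} (h : Lk k z x) (hx : Cz x) : Cz z := by
  have e : x = z + (x - z) := (add_sub_cancel _ _).symm
  have h1 := cz_pr hx (show x ∈ LS K (Ge k 1) by rw [e]; exact add_mem (Eq_le_Ge h.1) (Gt_le_Ge h.2))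
  rwa [e, pr_add, pr_of_mem h.1, pr_Gt h.2, add_zero] at h1

theorem Lk.act {k' : Q8 →+ ℝ} {z x : L8 K} (h : Lk k z x) {g : G8 K}
    (hg : ∀ P : ℝ → Prop, ∀ v ∈ LS K {a | P (k a)}, act g v ∈ LS K {a | P (k' a)}) : Lk k' (act g z) (act g x) :=
  ⟨hg (· = 1) z h.1, by rw [← act_sub]; exact hg (1 < ·) _ h.2⟩

theorem Lk.rep {z x : L8 K} (h : Lk k z x) {w : W8} {n : G8 K} (hn : RepK w n) :
    Lk (cw k w⁻¹) (E8A.act n z) (E8A.act n x) :=
  h.act fun P _ hv => hn.LS (fun a ha => show P (cw k w⁻¹ (act8 w a)) by rwa [cw_apply, act8_inv_act]) hv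

theorem Lk.word {z x : L8 K} (h : Lk k z x) {w : SV} (hw : ∀ q ∈ w, k (wk q.1) = 0) :
    Lk k (E8A.act (wG K w) z) (E8A.act (wG K w) x) :=
  h.act fun P _ hv => wG_LS (fun q hq a ha => show P (k (a + wk q.1)) by rwa [map_add, hw q hq, add_zero]) hv

/-- the index of a root -/
def ik (a : ℕ) : chevE8.Idx := Sum.inr ⟨a % 240, Nat.mod_lt _ (by norm_num)⟩

theorem ky_ik {a : ℕ} (h : a < 240) : ky (ik a) = a := Nat.mod_eq_of_lt h

theorem ik_ky {x : chevE8.Idx} (h : ky x < 240) : ik (ky x) = x := ky_inj (ky_ik h)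

theorem wt_ik {a : ℕ} (h : a < 240) : wt (ik a) = wk a := by rw [← wk_ky, ky_ik h]

theorem eq_ik {a : ℕ} (h : a < 240) {x : chevE8.Idx} (e : wt x = wk a) : x = ik a :=
  (wt_inj ((wt_ik h).trans e.symm) (vec_ne_zero _)).symm

theorem Su.rep {A A' : List ℕ} {z : L8 K} (h : Su A z) (hA : ∀ a ∈ A, a < 240) {w : W8} {n : G8 K} (hn : RepK w n)
    {f : ℕ → ℕ} (hf : ∀ a < 240, f a < 240 ∧ wk (f a) = act8 w (wk a)) (h1 : ∀ a ∈ A, f a ∈ A')
    (h2 : ∀ a' ∈ A', ∃ a ∈ A, f a = a') : Su A' (act n z) := fun i => by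
  constructor
  · intro hi
    obtain ⟨j, hj, hj'⟩ := exists_ne_of_mulVec hi
    have h3 := (h j).1 hj'
    have h4 := hf _ (hA _ h3)
    rw [eq_ik (x := i) h4.1 (by rw [hn.wt hj, h4.2, wk_ky]), ky_ik h4.1]
    exact h1 _ h3
  · intro hi
    obtain ⟨a, ha, e⟩ := h2 _ hi
    have h4 := hf _ (hA _ ha)
    have e' : i = ik (f a) := ky_inj (by rw [ky_ik h4.1, e])
    obtain ⟨c, hc, h5⟩ := hn.ee (r := ⟨a % 240, Nat.mod_lt _ (by norm_num)⟩) (s := ⟨f a % 240, Nat.mod_lt _ (by norm_num)⟩)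
      (by rw [← wt_inr, ← wt_inr]; exact (wt_ik h4.1).trans (h4.2.trans (by rw [← wt_ik (hA _ ha)]; rfl)))
    have h6 : mx n (ik (f a)) (ik a) = c := by
      rw [← act_ee]
      exact (congrFun h5 _).trans (by rw [Pi.smul_apply, smul_eq_mul]; exact (congrArg (c * ·) (ee_self _)).trans (mul_one c))
    rw [e', act_apply, Finset.sum_eq_single (ik a), h6]
    · exact mul_ne_zero hc ((h _).2 (by rwa [ky_ik (hA _ ha)]))
    · intro j _ hj
      by_contra h7
      have h8 := hn.wt (left_ne_zero_of_mul h7)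
      rw [wt_ik h4.1, h4.2] at h8
      exact hj (eq_ik (hA _ ha) (by rw [← act8_inv_act w (wt j), ← h8, act8_inv_act]))
    · intro h7
      exact absurd (Finset.mem_univ _) h7

/-- torus elements -/
theorem exists_dg {c : Fin 8 → K} (hc : ∀ i, c i ≠ 0) :
    ∃ t : G8 K, ∀ (v : L8 K) (x : chevE8.Idx), act t v x = (∏ i, c i ^ wt x i) * v x := by
  suffices H : ∀ s : Finset (Fin 8), ∃ t : G8 K, ∀ (v : L8 K) (x : chevE8.Idx), act t v x = (∏ i ∈ s, c i ^ wt x i) * v x from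
    H _
  intro s
  induction s using Finset.induction_on with
  | empty => exact ⟨1, fun v x => by rw [act_one, Finset.prod_empty, one_mul]⟩
  | insert i s hi ih =>
    obtain ⟨t, ht⟩ := ih
    obtain ⟨t', -, ht'⟩ := exists_tz (hc i) (Pi.single i 1)
    exact ⟨t' * t, fun v x => by rw [act_mul, Two.act_dz ht', Two.ex_single, ht, Finset.prod_insert hi, mul_assoc]⟩

theorem prod_sr (c : Fin 8 → K) (j : Fin 8) : ∏ i, c i ^ (sr j : Q8) i = c j := by
  rw [Finset.prod_eq_single j, sr_self, zpow_one]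
  · intro i _ hi
    rw [Tits.Roots.sr_ne hi, zpow_zero]
  · intro h
    exact absurd (Finset.mem_univ _) h

theorem scale {A : List ℕ} {z x : L8 K} (h : Lk k z x) (h' : Su A z) {c : Fin 8 → K} (hc : ∀ i, c i ≠ 0) :
    ∃ t : G8 K, Lk k (act t z) (act t x) ∧ Su A (act t z) ∧ ∀ y, act t z y = (∏ i, c i ^ wt y i) * z y := by
  obtain ⟨t, ht⟩ := exists_dg hc
  refine ⟨t, h.act fun P v hv y hy => hv y ?_, fun y => ?_, ht z⟩
  · rw [ht] at hy
    exact right_ne_zero_of_mul hy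
  · rw [ht, ← h' y]
    exact mul_ne_zero_iff_left (Finset.prod_ne_zero_iff.2 fun i _ => zpow_ne_zero _ (hc i))

/-- the vector with the coefficients `c` -/
def xs (c : ℕ → K) (A : List ℕ) : L8 K := (A.map fun a => c a • eb K a).sum

theorem xs_apply (c : ℕ → K) (x : chevE8.Idx) : ∀ {A : List ℕ}, A.Nodup → xs c A x = if ky x ∈ A then c (ky x) else 0
  | [], _ => rfl
  | a :: A, h => by
    have ih := xs_apply c x (List.nodup_cons.1 h).2
    rw [xs, List.map_cons, List.sum_cons, Pi.add_apply, ← xs, ih, Pi.smul_apply, eb, smul_eq_mul]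
    by_cases e : ky x = a
    · rw [if_pos e, if_neg (e ▸ (List.nodup_cons.1 h).1), if_pos (e ▸ List.mem_cons_self), mul_one, add_zero, e]
    · rw [if_neg e, mul_zero, zero_add]
      simp only [List.mem_cons, e, false_or]

theorem Su.eq {A : List ℕ} {z : L8 K} (h : Su A z) (hA : ∀ a ∈ A, a < 240) (hn : A.Nodup) : z = xs (fun a => z (ik a)) A := by
  funext x
  rw [xs_apply _ _ hn]
  split_ifs with e
  · rw [ik_ky (hA _ e)]
  · exact not_not.1 fun h' => e ((h x).1 h')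

theorem xs_sv {c : ℕ → K} {n : ℕ → ℤ} : ∀ {A : List ℕ}, (∀ a ∈ A, c a = n a) → xs c A = sv K (A.map fun a => (a, n a))
  | [], _ => sv_nil.symm
  | a :: A, h => by
    rw [List.map_cons, sv_cons, ← xs_sv fun b hb => h b (List.mem_cons_of_mem _ hb), xs, List.map_cons, List.sum_cons,
      h a List.mem_cons_self]
    rfl

theorem cf_zero {a : ℕ} : ∀ {l : SV}, a ∉ l.map Prod.fst → cf l a = 0
  | [], _ => rfl
  | p :: l, h => by
    rw [List.map_cons, List.mem_cons, not_or] at h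
    have e : Nat.beq a p.1 = false := by
      rw [← Bool.not_eq_true, Nat.beq_eq]
      exact h.1
    show Bool.rec (motive := fun _ => ℤ) (cf l a) (Int.add p.2 (cf l a)) (Nat.beq a p.1) = 0
    rw [e]
    exact cf_zero h.2

theorem cast_ne [CharP K 3] {m : ℤ} (h : Nat.beq (m3 m) 0 = false) : (m : K) ≠ 0 := by
  rw [cast_m3, Ne, CharP.cast_eq_zero_iff K 3]
  intro e
  rw [Nat.eq_zero_of_dvd_of_lt e (m3_lt m)] at h
  exact absurd h (by decide)

theorem su_sv [CharP K 3] {l : SV} (h : ∀ p ∈ l, Nat.beq (m3 (cf l p.1)) 0 = false) : Su (l.map Prod.fst) (sv K l) := fun i => by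
  rw [cf_eq]
  constructor
  · intro h'
    by_contra e
    exact h' (by rw [cf_zero e, Int.cast_zero])
  · intro h'
    obtain ⟨p, hp, e⟩ := List.mem_map.1 h'
    rw [← e]
    exact cast_ne (h p hp)

/-! ### sums of monomials -/

/-- terms: key, coefficient, monomial -/
abbrev TM : Type := List (ℕ × ℤ × List ℕ)

/-- the value -/
def tv (c : ℕ → K) (T : TM) : L8 K := (T.map fun t => ((t.2.1 : K) * (t.2.2.map c).prod) • eb K t.1).sum

/-- the bracket with the generic vector of support `A` -/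
def adT (A : List ℕ) (T : TM) : TM :=
  T.flatMap fun t => A.flatMap fun a => (rbr (rowAt rows a) t.1).map fun q => (q.1, t.2.1 * q.2, a :: t.2.2)

theorem tv_append (c : ℕ → K) (T T' : TM) : tv c (T ++ T') = tv c T + tv c T' := by
  rw [tv, List.map_append, List.sum_append, tv, tv]

theorem tv_map (c : ℕ → K) (m : ℤ) (M : List ℕ) : ∀ l : SV,
    tv c (l.map fun q => (q.1, m * q.2, M)) = ((m : K) * (M.map c).prod) • sv K l
  | [] => by rw [sv_nil, smul_zero]; rfl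
  | q :: l => by
    rw [List.map_cons, tv, List.map_cons, List.sum_cons, ← tv, tv_map c m M l, sv_cons, smul_add, smul_smul, Int.cast_mul]
    congr 2
    ring

theorem tv_one (c : ℕ → K) (t : ℕ × ℤ × List ℕ) : ∀ A : List ℕ,
    tv c (A.flatMap fun a => (rbr (rowAt rows a) t.1).map fun q => (q.1, t.2.1 * q.2, a :: t.2.2)) =
      br (xs c A) (((t.2.1 : K) * (t.2.2.map c).prod) • eb K t.1)
  | [] => (br_zero_left _).symm
  | a :: A => by
    rw [List.flatMap_cons, tv_append, tv_one c t A, tv_map, xs, xs, List.map_cons, List.map_cons, List.sum_cons, br_add_left,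
      br_smul_left, br_smul_right (x := eb K a), br_eb, smul_smul, List.prod_cons]
    congr 2
    ring

theorem tv_adT (c : ℕ → K) (A : List ℕ) : ∀ T : TM, tv c (adT A T) = br (xs c A) (tv c T)
  | [] => (br_zero_right _).symm
  | t :: T => by
    rw [adT, List.flatMap_cons, tv_append, ← adT, tv_adT c A T, tv_one, ← br_add_right]
    rfl

/-- the sum of the coefficients at `i` -/
def sm (i : ℕ) : TM → ℤ
  | [] => 0
  | t :: T => bif Nat.beq t.1 i then t.2.1 + sm i T else sm i T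

theorem tv_apply (c : ℕ → K) (x : chevE8.Idx) (M : List ℕ) : ∀ T : TM, (∀ t ∈ T, t.1 = ky x → t.2.2.Perm M) →
    tv c T x = (sm (ky x) T : K) * (M.map c).prod
  | [], _ => by rw [sm, Int.cast_zero, zero_mul]; rfl
  | t :: T, h => by
    rw [tv, List.map_cons, List.sum_cons, ← tv, Pi.add_apply, tv_apply c x M T fun s hs => h s (List.mem_cons_of_mem _ hs),
      Pi.smul_apply, eb, sm]
    by_cases e : t.1 = ky x
    · rw [if_pos e.symm, show Nat.beq t.1 (ky x) = true by rw [e, Nat.beq_refl], cond_true,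
        ((h t List.mem_cons_self e).map c).prod_eq, Int.cast_add, smul_eq_mul]
      ring
    · have e' : Nat.beq t.1 (ky x) = false := by
        rw [← Bool.not_eq_true, Nat.beq_eq]
        exact e
      rw [if_neg (Ne.symm e), e', cond_false, smul_zero, zero_add]

/-- a coefficient of the cube is a monomial -/
def chkQ (A : List ℕ) (k i : ℕ) (M : List ℕ) : Bool :=
  Nat.blt i 248 && M.all A.contains &&
    (adT A (adT A (adT A [(k, 1, [])]))).all (fun t => !(Nat.beq t.1 i) || t.2.2.isPerm M) &&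
    !(Nat.beq (m3 (sm i (adT A (adT A (adT A [(k, 1, [])]))))) 0)

theorem chkQ_sound [CharP K 3] {A : List ℕ} {k i : ℕ} {M : List ℕ} (h : chkQ A k i M = true) {c : ℕ → K}
    (hc : ∀ a ∈ A, c a ≠ 0) : ¬ Cz (xs c A) := fun hz => by
  simp only [chkQ, Bool.and_eq_true, List.all_eq_true, Bool.or_eq_true, Bool.not_eq_true', List.contains_iff_mem,
    List.isPerm_iff, Nat.blt_eq] at h
  obtain ⟨⟨⟨h1, h2⟩, h3⟩, h4⟩ := h
  obtain ⟨x, rfl⟩ := ky_surj h1
  have h5 := congrFun (hz.br3 (tv c [(k, 1, [])])) x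
  rw [← tv_adT, ← tv_adT, ← tv_adT, tv_apply c x M _ fun t ht e => (h3 t ht).resolve_left (by rw [e, Nat.beq_refl]; decide)] at h5
  refine mul_ne_zero (cast_ne h4) (List.prod_ne_zero fun h0 => ?_) h5
  obtain ⟨a, ha, e⟩ := List.mem_map.1 h0
  exact hc a (h2 a ha) e

end Cfsg.Agent.E8A.C63.Nil
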