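import Cfsg.Agent.E8A.C63.ScA

/-!
# `A₆` in characteristic 3: the box SC (helper13)
-/

set_option autoImplicit false
set_option maxRecDepth 100000

namespace Cfsg.Agent.E8A.C63

open Cfsg Cfsg.Lie Module
open Cfsg.Agent.H288.E8L (Q8 wt wt_inl wt_inr)
open Cfsg.Agent.Tits.Roots (sr)
open Cfsg.Agent.E8A.Frm (B0)
open Cfsg.Agent.E8A.Inf (kf kf_apply)
open Cfsg.Agent.E8A.Kem (Ge nrm mem_Ge)
open Cfsg.Agent.E8A.Par (KS Opt Up up_of_LS)
open Cfsg.Agent.E8A.Reg5.Cls (ex dz)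
open Cfsg.Agent.E8A.Reg5.Aut (si)
open Cfsg.Agent.E8A.Two (bw nm)

universe u

namespace Sc

/-- no sign character -/
theorem sgn (hG : GEN) {X : Type*} (A : Alt 6 → X → X) (h1 : ∀ x, A 1 x = x) (hm : ∀ a b x, A (a * b) x = A a (A b x))
    (σ : X → X) (hσ : ∀ x, σ (σ x) = x) (hc : ∀ a x, A a (σ x) = σ (A a x)) {z : X} (hu : A uu z = z) (hy : A yy z = z)
    (hd : A dd z = σ z) (a : Alt 6) : A a z = z := by
  have hi : ∀ a x, A a⁻¹ (A a x) = x := fun a x => by rw [← hm, inv_mul_cancel, h1]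
  have h2 : ∀ a, A a z = z ∨ A a z = σ z := fun a => by
    have ha : a ∈ Subgroup.closure {uu, yy, dd} := hG ▸ Subgroup.mem_top a
    induction ha using Subgroup.closure_induction with
    | mem x hx =>
      rcases hx with rfl | rfl | rfl
      exacts [Or.inl hu, Or.inl hy, Or.inr hd]
    | one => exact Or.inl (h1 z)
    | mul x y _ _ hx hy =>
      rw [hm]
      rcases hy with hy | hy
      · rwa [hy]
      · rw [hy, hc]
        exact hx.symm.imp (fun h => by rw [h, hσ]) fun h => by rw [h]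
    | inv x _ hx =>
      refine hx.imp (fun h => ?_) fun h => ?_
      · conv_lhs => rw [← h, hi]
      · conv_lhs => rw [← hσ z, hc, ← h, hi]
  let N : Subgroup (Alt 6) :=
    { carrier := {a | A a z = z}
      one_mem' := h1 z
      mul_mem' := fun {a b} ha hb => by
        show A (a * b) z = z
        rw [hm, show A b z = z from hb, show A a z = z from ha]
      inv_mem' := fun {a} ha => by
        show A a⁻¹ z = z
        conv_lhs => rw [← show A a z = z from ha, hi] }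
  have hN : N.Normal := ⟨fun n hn b => by
    have h3 : A n (A b⁻¹ z) = A b⁻¹ z := by
      rcases h2 b⁻¹ with h | h
      · rw [h, show A n z = z from hn]
      · rw [h, hc, show A n z = z from hn]
    show A (b * n * b⁻¹) z = z
    rw [hm, hm, h3, ← hm, mul_inv_cancel, h1]⟩
  have : IsSimpleGroup (Alt 6) := alternatingGroup.isSimpleGroup (by simp)
  rcases hN.eq_bot_or_eq_top with h | h
  · have h3 : uu ∈ N := hu
    rw [h, Subgroup.mem_bot] at h3
    exact absurd h3 (by decide)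
  · exact (h ▸ Subgroup.mem_top a : a ∈ N)

theorem exists_min {l : Q8 →+ ℝ} (h : ∀ x, ∃ q : ℚ, l x = q) : ∃ N : ℕ, 0 < N ∧ ∃ y : Q8,
    (∀ x, (N : ℝ) * l x = 2 * ex y x) ∧ ∀ p : ℕ, p.Prime → p ∣ N → ∃ i, ¬ (p : ℤ) ∣ y i := by
  classical
  have h1 := exists_N h
  obtain ⟨h0, y, hy⟩ := Nat.find_spec h1
  refine ⟨_, h0, y, hy, fun p hp ⟨M, hM⟩ => ?_⟩
  by_contra hc
  push Not at hc
  choose y' hy' using hc
  have hM0 : 0 < M := Nat.pos_of_ne_zero fun e => by rw [e, mul_zero] at hM; omega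
  refine Nat.find_min h1 (m := M) (by rw [hM]; exact lt_mul_left hM0 hp.one_lt) ⟨hM0, y', fun x => ?_⟩
  have h2 : ex y x = p * ex y' x := by
    simp only [ex, hy', Finset.mul_sum]
    exact Finset.sum_congr rfl fun _ _ => by ring
  have h3 := hy x
  rw [hM, h2] at h3
  push_cast at h3
  exact mul_left_cancel₀ (Nat.cast_ne_zero.2 hp.ne_zero : (p : ℝ) ≠ 0) (by linarith)

variable {K : Type u} [Field K] {ψ : Alt 6 →* G8 K} {ι : K} {e h f : L8 K} {l : Q8 →+ ℝ}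

/-- the first alternative -/
def ZE (ψ : Alt 6 →* G8 K) (e h f : L8 K) : Prop := ∃ z : G8 K, z ≠ 1 ∧ z ^ 2 = 1 ∧ (∀ a, Commute z (ψ a)) ∧
  ∀ c : G8 K, act c e = e → act c h = h → act c f = f → Commute z c

theorem ZE.of_cj {g : G8 K} (H : ZE (cj g ψ) (act g e) (act g h) (act g f)) : ZE ψ e h f := by
  obtain ⟨z, h1, h2, h3, h4⟩ := H
  have h5 : ∀ x, Commute z (g * x * g⁻¹) → Commute (g⁻¹ * z * g) x := fun x hx => by
    show g⁻¹ * z * g * x = x * (g⁻¹ * z * g)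
    calc g⁻¹ * z * g * x = g⁻¹ * (z * (g * x * g⁻¹)) * g := by group
      _ = x * (g⁻¹ * z * g) := by rw [hx.eq]; group
  refine ⟨g⁻¹ * z * g, fun h => h1 ?_, ?_, fun a => h5 _ (h3 a), fun c he hh hf => h5 _ (h4 _ ?_ ?_ ?_)⟩
  · rw [show z = g * (g⁻¹ * z * g) * g⁻¹ by group, h, mul_one, mul_inv_cancel]
  · rw [show (g⁻¹ * z * g) ^ 2 = g⁻¹ * z ^ 2 * g by rw [sq, sq]; group, h2, mul_one, inv_mul_cancel]
  · rw [act_mul, act_mul, act_inv, he]
  · rw [act_mul, act_mul, act_inv, hh]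
  · rw [act_mul, act_mul, act_inv, hf]

theorem Ge_mono {c c' : ℝ} (hc : c ≤ c') {v : L8 K} (hv : v ∈ LS K (Eq' l c')) : v ∈ LS K (Ge l c) :=
  LS_mono (fun _ ha => mem_Ge.2 (hc.trans (mem_Eq.1 ha).ge)) hv

section Facts

variable (hK : KSD.{u}) (hN : NRM) (hC : CANF.{u}) (T : T3 (rp ψ) ι e h f) (H : Gr l e h f)
include hK hC T H

theorem up_u : Up l l (mx (ψ uu)) ∧ Up l l (mx (ψ uu)⁻¹) := by
  refine H.up hK hC (dp_iff.2 ⟨?_, ?_, ?_⟩) rfl
  · rw [← rp_apply, T.ue]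
    exact Eq_le_Ge H.he
  · rw [← rp_apply, T.uh]
    exact add_mem (Eq_le_Ge H.hh) (Ge_mono (by norm_num) H.he)
  · rw [← rp_apply, T.uf]
    exact sub_mem (add_mem (Eq_le_Ge H.hf) (Ge_mono (by norm_num) H.hh)) (Ge_mono (by norm_num) H.he)

include hN

theorem lv_y : Lv l l (ψ yy) := by
  refine H.lv hK hN hC ?_ ?_ ?_ rfl
  · rw [← rp_apply, T.ye]
    exact Submodule.smul_mem _ _ H.he
  · rw [← rp_apply, T.yh]
    exact H.hh
  · rw [← rp_apply, T.yf]
    exact Submodule.smul_mem _ _ H.hf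

theorem lv_d : Lv l (-l) (ψ dd) := by
  refine H.lv hK hN hC ?_ ?_ ?_ (nrm_neg hN l)
  · rw [← rp_apply, T.de, Eq_neg]
    exact neg_mem H.hf
  · rw [← rp_apply, T.dh, Eq_neg, neg_zero]
    exact neg_mem H.hh
  · rw [← rp_apply, T.df, Eq_neg, neg_neg]
    exact neg_mem H.he

omit T in
theorem lv_c {c : G8 K} (he : act c e = e) (hh : act c h = h) (hf : act c f = f) : Lv l l c :=
  H.lv hK hN hC (by rw [he]; exact H.he) (by rw [hh]; exact H.hh) (by rw [hf]; exact H.hf) rfl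

/-- a denominator prime to three gives an involution -/
theorem zcase [IsAlgClosed K] [CharP K 3] (hG : GEN) (hI : Inv ψ (Submodule.span K {e, h, f})) {N : ℕ} {y : Q8}
    (hy : ∀ x, (N : ℝ) * l x = 2 * ex y x) {p : ℕ} (hp : p.Prime) (h3 : p ≠ 3) (hd : p ∣ N) {i : Fin 8}
    (hi : ¬ (p : ℤ) ∣ y i) : ZE ψ e h f := by
  have : NeZero (p : K) := ⟨fun h0 => h3 ((Nat.prime_dvd_prime_iff_eq Nat.prime_three hp).1
    ((CharP.cast_eq_zero_iff K 3 p).1 h0)).symm⟩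
  obtain ⟨ζ, hζ⟩ := HasEnoughRootsOfUnity.exists_primitiveRoot K p
  have hζ0 : ζ ≠ 0 := hζ.ne_zero hp.ne_zero
  obtain ⟨z, -, hz⟩ := TwoH.exists_tz hζ0 y
  have e1 : ∀ a b, l a = l b → ex y a = ex y b := fun a b hab => by
    have h1 := hy a
    rw [hab, hy b] at h1
    exact_mod_cast (mul_left_cancel₀ two_ne_zero h1).symm
  have e2 : ∀ a b, -l a = l b → -ex y a = ex y b := fun a b hab => by
    have h1 := hy a
    have h2 := hy b
    rw [← hab] at h2
    exact_mod_cast (by linarith : -(ex y a : ℝ) = ex y b)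
  have fx : ∀ (c : ℤ) (v : L8 K), v ∈ LS K (Eq' l (2 * c)) → act z v = v := fun c v hv => funext fun j => by
    rw [Two.act_dz hz]
    by_cases h0 : v j = 0
    · rw [h0, mul_zero]
    have h1 := hy (wt j)
    rw [mem_Eq.1 (hv j h0)] at h1
    have h2 : ex y (wt j) = N * c := by exact_mod_cast (by linarith : (ex y (wt j) : ℝ) = N * c)
    rw [(hζ.zpow_eq_one_iff_dvd _).2 (h2 ▸ (Int.natCast_dvd_natCast.2 hd).mul_right c), one_mul]
  have fW : ∀ v ∈ Submodule.span K {e, h, f}, act z v = v := fun v hv =>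
    LinearMap.eqOn_span (f := LK K z) (g := LinearMap.id) (by
      rintro _ (rfl | rfl | rfl)
      · exact fx 1 _ (by simpa using H.he)
      · exact fx 0 _ (by simpa using H.hh)
      · exact fx (-1) _ (by simpa using H.hf)) hv
  have cm : ∀ x, Lv l l x → Commute z x := fun x hx => mx_injective (by
    rw [mx_mul, mx_mul, hz, dz]
    exact (hx.diag fun i j hij => by rw [e1 _ _ hij]).symm)
  have hu : ψ uu * z * (ψ uu)⁻¹ = z := by
    have h1 : ∀ v ∈ Submodule.span K {e, h, f}, act (ψ uu * z * (ψ uu)⁻¹) v = v := fun v hv => by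
      rw [act_mul, act_mul, ← map_inv, fW _ (hI _ _ hv), map_inv, act_inv']
    have h2 := lv_c hK hN hC H (h1 e (Submodule.subset_span (by simp))) (h1 h (Submodule.subset_span (by simp)))
      (h1 f (Submodule.subset_span (by simp)))
    refine mx_injective (Matrix.ext fun i j => ?_)
    by_cases hij : l (wt i) = l (wt j)
    · rw [mx_mul, mx_mul, hz, dz]
      exact blk (up_u hK hC T H).1 (up_u hK hC T H).2 (fun i j hij => by rw [e1 _ _ hij]) hij
    · rw [not_not.1 (mt (h2 i j) hij), hz, dz, Matrix.diagonal_apply_ne _ fun e => hij (by rw [e])]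
  have hdd : ψ dd * z * (ψ dd)⁻¹ = z⁻¹ := by
    rw [mul_inv_eq_iff_eq_mul, eq_inv_mul_iff_mul_eq]
    refine mx_injective ?_
    rw [mx_mul, mx_mul, hz, dz, (lv_d hK hN hC T H).diag (δ' := fun i => ζ ^ (-ex y (wt i))) fun i j hij => by
      rw [e2 _ _ hij], ← Matrix.mul_assoc, Matrix.diagonal_mul_diagonal]
    simp only [← zpow_add₀ hζ0, add_neg_cancel, zpow_zero, Matrix.diagonal_one, Matrix.one_mul]
  have ha := sgn hG (fun a x => ψ a * x * (ψ a)⁻¹) (fun x => by simp) (fun a b x => by rw [map_mul]; group)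
    (fun x => x⁻¹) inv_inv (fun a x => by group) hu
    (by rw [← (cm _ (lv_y hK hN hC T H)).eq, mul_inv_cancel_right]) hdd
  refine ⟨z, fun h1 => hi ?_, ?_, fun a => (mul_inv_eq_iff_eq_mul.1 (ha a)).symm,
    fun c he hh hf => cm c (lv_c hK hN hC H he hh hf)⟩
  · have h2 := Two.act_dz hz (ee K (Sum.inr (si i))) (Sum.inr (si i))
    rw [h1, act_one, ee_self, mul_one, wt_si, Two.ex_sr] at h2
    exact (hζ.zpow_eq_one_iff_dvd _).1 h2.symm
  · rw [sq, mul_eq_one_iff_eq_inv, ← hdd, ha dd]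

end Facts

theorem act_T {l l' : Q8 →+ ℝ} {x : G8 K} (hx : Lv l l' x) {h₀ h₁ : L8 K} (h0 : InT h₀) (h1 : InT h₁)
    (hr : ∀ a b, l' a = l b → rl h₁ a = rl h₀ b) : act x h₀ = h₁ := adm_injective (by
  rw [adm_act, adm_T h0, adm_T h1, hx.diag fun i j hij => hr _ _ hij, Matrix.mul_assoc, mx_mul_inv, Matrix.mul_one])

theorem two_ne [CharP K 3] : (2 : K) ≠ 0 := fun h0 =>
  absurd ((CharP.cast_eq_zero_iff K 3 2).1 (by exact_mod_cast h0)) (by norm_num)

/-- a denominator divisible by three -/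
theorem three [CharP K 3] (hN : NRM) (h9 : K9) (S : Sl2 e h f) (H : Gr l e h f) (hT : InT h) {N : ℕ} (hN0 : 0 < N) {y : Q8}
    (hy : ∀ x, (N : ℝ) * l x = 2 * ex y x) (hd : 3 ∣ N) (i : Fin 8) : (3 : ℤ) ∣ y i := by
  have : Fact (Nat.Prime 3) := ⟨Nat.prime_three⟩
  let _ := ZMod.algebra K 3
  obtain ⟨π, hπ⟩ := exists_dual_one (ZMod 3) K
  have hπ' : ∀ (n : ℤ) (x : K), π (n * x) = n * π x := fun n x => by
    rw [← zsmul_eq_mul, map_zsmul, zsmul_eq_mul]
  set κ : chevE8.Idx → K := fun j => e j * Matrix.mulVec (H597.E8Form.J K) f j with hκ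
  set η : Q8 := ∑ j, (((π (κ j)).val : ℕ) : ℤ) • wt j with hη
  have h1 : ∀ a, ((B0 η a : ℤ) : ZMod 3) = π (rl h a) := fun a => by
    rw [← TwoH.kf_hq, ← S.ef, ← Odd.kf_br two_ne, kf_apply, dotProduct, map_sum π, hη, map_sum, LinearMap.sum_apply,
      Int.cast_sum]
    refine Finset.sum_congr rfl fun j _ => ?_
    rw [br_T (TwoH.inT_hq a), TwoH.rl_hq, mul_assoc, hπ', map_smul, LinearMap.smul_apply, smul_eq_mul, Int.cast_mul,
      Int.cast_natCast, ZMod.natCast_zmod_val, Odd.B0_comm, mul_comm]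
  have h2 : ∀ (c : ℤ) (v : L8 K) (j : chevE8.Idx), v j ≠ 0 → v ∈ LS K (Eq' l (2 * c)) → br h v = ((2 * c : ℤ) : K) • v →
      (9 : ℤ) ∣ ex ((2 : ℤ) • y - (N : ℤ) • lb η) (wt j) := fun c v j hj hv hb => by
    have h3 := hy (wt j)
    rw [mem_Eq.1 (hv j hj)] at h3
    have h4 : ex y (wt j) = N * c := by exact_mod_cast (by linarith : (ex y (wt j) : ℝ) = N * c)
    have h5 := congrFun hb j
    rw [br_T hT, Pi.smul_apply, smul_eq_mul] at h5
    have h6 := h1 (wt j)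
    rw [mul_right_cancel₀ hj h5, ← mul_one ((2 * c : ℤ) : K), hπ', hπ, mul_one, ZMod.intCast_eq_intCast_iff_dvd_sub] at h6
    obtain ⟨m, hm⟩ := h6
    obtain ⟨M, rfl⟩ := hd
    refine ⟨M * m, ?_⟩
    rw [ex_lin, ex_lb, h4]
    push_cast at hm ⊢
    linear_combination (3 * (M : ℤ)) * hm
  have h3 := h9 ((2 : ℤ) • y - (N : ℤ) • lb η) {j | e j ≠ 0 ∨ f j ≠ 0} (fun j hj => ?_) (fun k hk => ?_) i
  · obtain ⟨M, rfl⟩ := hd
    rw [Pi.sub_apply, Pi.smul_apply, Pi.smul_apply, smul_eq_mul, smul_eq_mul] at h3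
    push_cast at h3
    rw [mul_assoc] at h3
    omega
  · rcases hj with hj | hj
    · exact h2 1 e j hj (by simpa using H.he) (by simpa using S.he)
    · exact h2 (-1) f j hj (by simpa using H.hf) (by simpa using S.hf)
  · have h4 : bw (lb η) k = 0 := by
      have h5 : cl k η = 0 := by
        rw [hη, map_sum]
        refine Finset.sum_eq_zero fun j _ => ?_
        rw [map_zsmul]
        by_cases h0 : e j = 0
        · simp [hκ, h0]
        · rw [cl_apply, hk j (Or.inl h0), Int.cast_zero, smul_zero]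
      rw [bw_lb]
      exact Int.cast_eq_zero.1 h5
    have h5 : bw y k = 0 := by
      have h6 : (N : ℝ) • l = (2 : ℝ) • cl y := AddMonoidHom.ext hy
      have h7 := H.perp hN hT (cl k) fun j hj => by rw [cl_apply, hk j hj, Int.cast_zero]
      have h8 := congrArg (fun a => B2 a (cl k)) h6
      simp only [B2_smul] at h8
      rw [B2_comm, h7, B2_cl hN] at h8
      exact_mod_cast (by linarith : (bw y k : ℝ) = 0)
    rw [Two.bw_comm, sub_eq_add_neg, ← neg_smul, Two.bw_add, Two.bw_smul, Two.bw_smul, h4, h5]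
    simp

theorem br_hm {y : Q8} {h₀ : L8 K} (H : IsH y h₀) (n : ℤ) {v : L8 K} (hv : v ∈ LS K (Eq' (cl y) n)) :
    br h₀ v = (n : K) • v := funext fun j => by
  rw [br_T H.1, H.2, Pi.smul_apply, smul_eq_mul]
  by_cases h0 : v j = 0
  · rw [h0, mul_zero, mul_zero]
  · rw [show ex y (wt j) = n from Int.cast_injective (α := ℝ) (hv j h0)]

/-- the good classes: `h` is the toral element of the cocharacter -/
theorem isH (hG : GEN) (hK : KSD.{u}) (hN : NRM) (hC : CANF.{u}) (hx : NoFx ψ) (T : T3 (rp ψ) ι e h f)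
    (hI : Inv ψ (Submodule.span K {e, h, f})) (S : Sl2 e h f) {y : Q8} (H : Gr (cl y) e h f)
    (hc : cen {e} ≤ LS K (Ge (cl y) 0)) : IsH y h := by
  obtain ⟨h₀, H0⟩ : ∃ h₀ : L8 K, IsH y h₀ := Two.exists_hm y
  have c1 : Submodule.span K {e, h, f} ≤ cen {h - h₀} := Submodule.span_le.2 (by
    rintro _ (rfl | rfl | rfl)
    · exact mem_cen_one.2 (by rw [br_sub_left, S.he, br_hm H0 2 (by simpa using H.he), Int.cast_ofNat, sub_self])
    · exact mem_cen_one.2 (by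
        rw [br_sub_left, TwoH.br_self, br_hm H0 0 (by simpa using H.hh), Int.cast_zero, zero_smul, sub_self])
    · exact mem_cen_one.2 (by
        rw [br_sub_left, S.hf, br_hm H0 (-2) (by simpa using H.hf), Int.cast_neg, Int.cast_ofNat, sub_self]))
  have c2 : ∀ a, act (ψ a) (h - h₀) ∈ LS K (Ge (cl y) 0) := fun a => hc (mem_cen_one.2 (TwoH.br_comm_zero (by
    rw [← act_inv' (ψ a) e, ← act_br, ← map_inv, mem_cen_one.1 (c1 (hI _ _ (Submodule.subset_span (by simp)))), act_zero])))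
  have hd := lv_d hK hN hC T H
  have c3 : ∀ a, act (ψ a) (h - h₀) ∈ LS K (Eq' (cl y) 0) := fun a => mem_Eq_iff.2 ⟨c2 a, by
    have h1 : Up (cl y) (-cl y) (mx (ψ dd)) := fun i j hij => (hd i j hij).ge
    have h2 := h1.LS 0 (c2 (dd⁻¹ * a))
    rwa [← act_mul, ← map_mul, mul_inv_cancel_left, ← neg_zero] at h2⟩
  have e1 : ∀ a b, cl y a = cl y b → rl h₀ a = rl h₀ b := fun a b hab => by
    rw [H0.2, H0.2, show ex y a = ex y b from Int.cast_injective (α := ℝ) hab]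
  have hu : act (ψ uu) (h - h₀) = h - h₀ := by
    refine adm_injective (Matrix.ext fun i j => ?_)
    by_cases hij : cl y (wt i) = cl y (wt j)
    · have h1 : adm e i j = 0 := by
        by_contra h1
        have := adm_ent H.he h1
        linarith
      rw [act_sub, ← rp_apply, T.uh, adm_sub, adm_sub, adm_add, adm_act, adm_T H0.1, Matrix.sub_apply, Matrix.sub_apply,
        Matrix.add_apply, h1, add_zero, blk (up_u hK hC T H).1 (up_u hK hC T H).2 (fun i j => e1 _ _) hij]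
    · have h1 := c3 1
      rw [map_one, act_one] at h1
      rw [not_not.1 (mt (adm_ent (c3 uu)) (by rwa [zero_add])), not_not.1 (mt (adm_ent h1) (by rwa [zero_add]))]
  have hy : act (ψ yy) (h - h₀) = h - h₀ := by
    rw [act_sub, ← rp_apply, T.yh, act_T (lv_y hK hN hC T H) H0.1 H0.1 e1]
  have hdd : act (ψ dd) (h - h₀) = -(h - h₀) := by
    rw [act_sub, ← rp_apply, T.dh, act_T hd H0.1 (h₁ := -h₀) (fun r => by rw [Pi.neg_apply, H0.1 r, neg_zero])
      fun a b hab => by rw [rl_neg, ← map_neg, e1 (-a) b (by rw [map_neg]; exact hab)]]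
    abel
  have h1 := hx _ (sgn hG (fun a v => act (ψ a) v) (fun v => by rw [map_one, act_one])
    (fun a b v => by rw [map_mul, act_mul]) (fun v => -v) neg_neg (fun a v => act_neg _ _) hu hy hdd)
  rwa [sub_eq_zero.1 h1]

theorem nums (c : Fin 11) {n : ℤ} (h0 : ∃ m, n = 2 * m) (h1 : (nrc c : ℤ) ≤ 4 * n)
    (h2 : (n = 2 → 134 ≤ cdc c) ∧ (n = 4 → 92 ≤ cdc c) ∧ (n = 6 → 86 ≤ cdc c)) :
    (4 * n ≤ nrc c → c = 3 ∨ c = 8) ∧ (9 ≤ c.val → 4 * n ≤ nrc c + 6 → c = 9 ∧ 4 * n = nrc c + 6) := by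
  obtain ⟨m, rfl⟩ := h0
  fin_cases c <;> simp [nrc, cdc] at h1 h2 ⊢ <;> omega

theorem inv_cj (hB : T3B.{u}) [CharP K 3] (T : T3 (rp ψ) ι e h f) (h0 : e ≠ 0) : Inv ψ (Submodule.span K {e, h, f}) :=
  (hB K _ _ _ _ _ _ T h0).2.1

end Sc

open Sc in
theorem sc_of (hG : GEN) (hB : T3B.{u}) (hK : KSD.{u}) (hN : NRM) (hC : CANF.{u}) (hTr : TRANS.{u}) (hGr : GRADE.{u})
    (hV : TORV.{u}) (hS : STR.{u}) (hN3 : NIL3.{u}) (hW : WIT.{u}) (hZ : Z3.{u}) (h9 : K9) (hE3 : EA2.{u}) (hE8 : E2A2.{u})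
    (hE9 : EEX.{u}) : SC.{u} := by
  intro K _ _ _ ψ X ι e h f T h0 R
  obtain ⟨c, g₀, hg₀, hopt⟩ := hN3 K e h0 R.ce
  obtain ⟨-, s1, s2, s3, s4, -⟩ := hS K c
  have hcd : cd e = cdc c := by rw [← s1, ← hg₀, cd_act]
  -- the witness
  obtain ⟨gw, yw, w1, w2, w3, w4⟩ : ∃ (gw : G8 K) (yw : Q8), act gw e = ec K c ∧ Dp ![e, h, f] ![2, 0, -2] gw (cl yw) ∧
      ec K c ∈ LS K (Eq' (cl yw) 2) ∧ (yw = lab c ∨ (yw = labx c ∧ 9 ≤ c.val ∧ nm yw = nrc c + 6 ∧
      (c.val = 9 → ∃ h₀ z, IsH (lab c) h₀ ∧ z ∈ KK K c ∧ z ≠ 0 ∧ pr (cl yw) 0 (act gw h) = h₀ + z))) := by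
    rcases hW K c _ _ (hg₀ ▸ R.act g₀) with h1 | ⟨h1, h2, h3, g, h4, h5, h6⟩
    · refine ⟨g₀, _, hg₀, ?_, s3, Or.inl rfl⟩
      rw [dp_iff] at h1 ⊢
      simpa only [act_one, hg₀] using h1
    · refine ⟨g * g₀, _, by rw [act_mul, hg₀, h4], ?_, h3, Or.inr ⟨rfl, h1, h2, by simpa only [act_mul] using h6⟩⟩
      rw [dp_iff] at h5 ⊢
      simpa only [act_mul, hg₀] using h5
  have hI := inv_cj hB T h0
  obtain ⟨g₁, ν, o1, o2, gr, -⟩ := hGr K ψ X.par _ ![e, h, f] ![2, 0, -2] (by rw [Matrix.range_cons, Matrix.range_cons, Matrix.range_cons_empty]; exact hI) ⟨_, _, w2⟩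
    ⟨gw * ψ dd, cl yw, by
      rw [dp_iff] at w2
      rw [dm_iff, act_mul, act_mul, act_mul, ← rp_apply, ← rp_apply, ← rp_apply, T.de, T.dh, T.df, act_neg, act_neg,
        act_neg, neg_zero, neg_neg]
      exact ⟨neg_mem w2.2.2, neg_mem w2.2.1, neg_mem w2.1⟩⟩
  have lb : Lb e h f (nrm ν) := ⟨o1.2, by rw [← nrm_neg hN]; exact o2.2⟩
  obtain ⟨t, ht, hT⟩ := hV K ν (act g₁ h) (R.th.act g₁) (gr 1)
  rw [← act_mul] at hT
  set g := t * g₁ with hg
  have H : Gr ν (act g e) (act g h) (act g f) :=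
    ⟨lb.act g, by rw [hg, act_mul, ht]; exact gr 0, by rw [hg, act_mul, ht]; exact gr 1, by rw [hg, act_mul, ht]; exact gr 2⟩
  have h0' : act g e ≠ 0 := fun e => h0 (act_eq_zero e)
  obtain ⟨N, hN0, y, hy, hm⟩ := exists_min (rat_of_perp (S := {j | act g e j ≠ 0 ∨ act g f j ≠ 0}) (fun j hj =>
    hj.elim (fun hj => ⟨2, by rw [H.he j hj]; norm_num⟩) fun hj => ⟨-2, by rw [H.hf j hj]; norm_num⟩) (H.perp hN hT))
  by_cases hN1 : N ≠ 1
  · obtain ⟨p, hp, hd⟩ := Nat.exists_prime_and_dvd hN1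
    obtain ⟨i, hi⟩ := hm p hp hd
    by_cases h3 : p = 3
    · subst h3
      exact absurd (three hN h9 (R.toSl2.act g) H hT hN0 hy hd i) hi
    · exact Or.inl (zcase hK hN hC (T.cj g) H hG (inv_cj hB (T.cj g) h0') hy hp h3 hd hi).of_cj
  right
  rw [not_not.1 hN1, Nat.cast_one] at hy
  have hν : ν = (2 : ℝ) • cl y := AddMonoidHom.ext fun x => by rw [← one_mul (ν x), hy]; rfl
  have hB2 : B2 ν ν = 60 * ((4 * nm y : ℤ) : ℝ) := by
    rw [hν, B2_smul, B2_comm, B2_smul, hN.2]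
    push_cast
    ring
  have n1 : (nrc c : ℤ) ≤ 4 * nm y := by
    have h1 := (nrm_le_iff hN).1 (hopt g ν (Eq_le_Ge H.he))
    rw [hB2, hN.2, s2] at h1
    exact_mod_cast le_of_mul_le_mul_left h1 (by norm_num)
  have n2 : 4 * nm y ≤ nm yw := by
    have h1 := (nrm_le_iff hN).1 (lb.1 _ _ w2)
    rw [hB2, hN.2] at h1
    exact_mod_cast le_of_mul_le_mul_left h1 (by norm_num)
  have n3 := hZ K y (act g e) (R.ce.act g) fun j hj => by
    have h1 := hy (wt j)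
    rw [mem_Eq.1 (H.he j hj)] at h1
    rw [mem_Eq, cl_apply]
    linarith
  rw [cd_act, hcd] at n3
  have n4 := nums c (even_nm y) n1 n3
  have n5 : nrm (cl yw) = nrm ν := by
    refine le_antisymm ((nrm_le_iff hN).2 ?_) (lb.1 _ _ w2)
    have h1 : nm yw ≤ 4 * nm y := by
      rcases w4 with rfl | ⟨-, h1, h2, -⟩
      · rwa [s2]
      · rw [h2] at n2 ⊢
        exact (n4.2 h1 n2).2.ge
    rw [hB2, hN.2]
    exact mul_le_mul_of_nonneg_left (by exact_mod_cast h1) (by norm_num)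
  -- transfer of the grading
  obtain ⟨g', hg'⟩ := hTr K g gw ν (cl yw) (hC K _ (hK K _ _ _) _ _ _ _
    ⟨(dp_of H.he H.hh H.hf).1, lb.1⟩ ⟨w2, n5 ▸ lb.1⟩)
  have e1 : act g' e = ec K c := by rw [hg' _ _ H.he, w1, pr_of_mem w3]
  have H' : Gr (cl yw) (act g' e) (act g' h) (act g' f) :=
    ⟨n5 ▸ lb.act g', e1 ▸ w3, hg' _ _ H.hh ▸ pr_mem _ _ _, hg' _ _ H.hf ▸ pr_mem _ _ _⟩
  have T' := T.cj g'
  have I' := inv_cj hB T' fun e => h0 (act_eq_zero e)
  have S' := R.toSl2.act g'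
  have X' := (X.cj g').fx
  rw [e1] at H' T' I' S'
  rcases w4 with rfl | ⟨rfl, h1, h2, h3⟩
  · rw [s2] at n2
    have h1 : c.val ≤ 8 := by rcases n4.1 n2 with rfl | rfl <;> decide
    rw [if_pos h1] at s4
    have h2 := isH hG hK hN hC X' T' I' S' H' s4
    rcases n4.1 n2 with rfl | rfl
    · exact (hE3 K _ X' _ _ h2 H'.hf S'.ef I').elim
    · exact ⟨hcd.le, (hE8 K _ _ _ h2 H'.hf S'.ef I').of_cj⟩
  · rw [h2] at n2
    obtain ⟨rfl, -⟩ := n4.2 h1 n2
    obtain ⟨h₀, z, z1, z2, z3, z4⟩ := h3 rfl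
    rw [← hg' _ _ H.hh] at z4
    have hd := lv_d hK hN hC T' H'
    rw [z4] at H' T' I' S'
    refine ⟨hcd.le.trans (by decide), (hE9 K _ h₀ z _ (cj g' ψ dd) z1 z2 z3 ?_ H'.hf S'.ef I' T'.de T'.dh T'.df
      fun c v hv => Eq_neg.1 (hd.LS hv)).of_cj⟩
    simpa using sub_mem H'.hh (inT_Eq z1.1 _)

end Cfsg.Agent.E8A.C63
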