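import Cfsg.Agent.E8A.C63.Asm
import Cfsg.Agent.E8A.C63.Sc
import Cfsg.Agent.E8A.C63.Abc
import Cfsg.Agent.E8A.C63.ModC
import Cfsg.Agent.E8A.C63.KemB
import Cfsg.Agent.E8A.C63.TorL
import Cfsg.Agent.E8A.C63.Krk
import Cfsg.Agent.E8A.C63.Lat
import Cfsg.Agent.E8A.C63.G2A

/-!
# `A₆` in characteristic 3: assembly from the last boxes (helper13)
-/

set_option autoImplicit false

namespace Cfsg.Agent.E8A.C63

universe u

theorem c63_pre (hN : NIL3.{u}) (hW : WIT.{u}) (hT : NOTOR.{u}) (hD : DAB.{u}) (hE : DESC.{u}) (e3 : EA2.{u}) (e8 : E2A2.{u})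
    (e9 : EEX.{u}) (en : EN3.{u}) (hB : G2AB.{u}) (hX : CTX.{u}) (hI : ISO.{u}) (hC : CEN.{u}) : CASE.{u} 6 fun p => p = 3 :=
  c63_of hT hD (abc_of mod t3b t4b ksd canf apt trans_box kb grade str hN krk en hB) hE
    (sc_of gen t3b ksd nrm_box canf trans_box grade torv str hN hW z3 k9 e3 e8 e9) low hX hI hC

end Cfsg.Agent.E8A.C63
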