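import Cfsg.Agent.E8A.C63.Basic
import Cfsg.Agent.E8A.Odd.Sl2

/-!
# `A₆` in characteristic 3: the optimal grading of an invariant `sl₂` (helper13)

* `rat_of_perp`, `exists_N` : the grading is rational;
* `Lv l l' x` : `x` maps the pieces of `l` to the pieces of `l'`; `Lv.diag`, `blk`;
* `Gr l e h f` : an optimal grading; `Gr.up`, `Gr.lv`, `Gr.perp`.
-/

set_option autoImplicit false
set_option maxRecDepth 100000

namespace Cfsg.Agent.E8A.C63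

open Cfsg Cfsg.Lie Module
open Cfsg.Agent.H288.E8L (Q8 wt wt_inl wt_inr)
open Cfsg.Agent.Tits.Roots (sr)
open Cfsg.Agent.ChevalleyStructure.CoxeterGeomTypes (cartanOf)
open Cfsg.Agent.H897.T5Lat (bf_apply)
open Cfsg.Agent.E8A.Frm (B0)
open Cfsg.Agent.E8A.Kem (Ge nrm mem_Ge)
open Cfsg.Agent.E8A.Par (KS Opt Up up_of_LS)
open Cfsg.Agent.E8A.Reg5.Cls (ex dz)
open Cfsg.Agent.E8A.Reg5.Aut (si vec_si)
open Cfsg.Agent.E8A.Two (bw nm)

universe u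

namespace Sc

/-! ### the form -/

theorem wt_si (i : Fin 8) : wt (Sum.inr (si i)) = sr i := by rw [wt_inr, vec_si]

theorem B2_comm (a b : Q8 →+ ℝ) : B2 a b = B2 b a := Finset.sum_congr rfl fun _ _ => mul_comm _ _

theorem B2_add (a b c : Q8 →+ ℝ) : B2 (a + b) c = B2 a c + B2 b c := by
  simp only [B2, AddMonoidHom.add_apply, add_mul, Finset.sum_add_distrib]

theorem B2_smul (t : ℝ) (a c : Q8 →+ ℝ) : B2 (t • a) c = t * B2 a c := by
  simp only [B2, AddMonoidHom.smul_apply, smul_eq_mul, Finset.mul_sum, mul_assoc]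

theorem B2_sub (a b c : Q8 →+ ℝ) : B2 (a - b) c = B2 a c - B2 b c := by
  simp only [B2, AddMonoidHom.sub_apply, sub_mul, Finset.sum_sub_distrib]

theorem B2_eq_zero {a : Q8 →+ ℝ} (h : B2 a a = 0) : a = 0 := by
  refine Frm.hom_ext fun i => ?_
  have h1 := (Finset.sum_eq_zero_iff_of_nonneg fun j _ => mul_self_nonneg (a (wt j))).1 h (Sum.inr (si i))
    (Finset.mem_univ _)
  rw [wt_si] at h1
  exact mul_self_eq_zero.1 h1

theorem cl_add (a b : Q8) : cl (a + b) = cl a + cl b := AddMonoidHom.ext fun x => by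
  simp [cl_apply, ex, mul_add, Finset.sum_add_distrib]

theorem B2_cl (hN : NRM) (a b : Q8) : B2 (cl a) (cl b) = 60 * (bw a b : ℝ) := by
  have h1 := hN.2 (a + b)
  rw [cl_add, B2_add, B2_comm (cl a), B2_comm (cl b), B2_add, B2_add, hN.2, hN.2, Two.nm_add, B2_comm (cl b)] at h1
  push_cast at h1
  linarith

theorem nrm_neg (hN : NRM) (l : Q8 →+ ℝ) : nrm (-l) = nrm l := by
  obtain ⟨c, -, h⟩ := hN.1
  rw [h, h, ← neg_one_smul ℝ l, B2_smul, B2_comm, B2_smul]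
  ring

theorem nrm_le_iff (hN : NRM) {l l' : Q8 →+ ℝ} : nrm l ≤ nrm l' ↔ B2 l l ≤ B2 l' l' := by
  obtain ⟨c, h0, h⟩ := hN.1
  rw [h, h, mul_le_mul_iff_right₀ h0]

theorem even_nm (y : Q8) : ∃ m : ℤ, nm y = 2 * m := by
  refine ⟨2 * y 0 ^ 2 + 4 * y 1 ^ 2 + 7 * y 2 ^ 2 + 15 * y 3 ^ 2 + 10 * y 4 ^ 2 + 6 * y 5 ^ 2 + 3 * y 6 ^ 2 + y 7 ^ 2 +
    y 0 * (5 * y 1 + 7 * y 2 + 10 * y 3 + 8 * y 4 + 6 * y 5 + 4 * y 6 + 2 * y 7) +
    y 1 * (10 * y 2 + 15 * y 3 + 12 * y 4 + 9 * y 5 + 6 * y 6 + 3 * y 7) +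
    y 2 * (20 * y 3 + 16 * y 4 + 12 * y 5 + 8 * y 6 + 4 * y 7) + y 3 * (24 * y 4 + 18 * y 5 + 12 * y 6 + 6 * y 7) +
    y 4 * (15 * y 5 + 10 * y 6 + 5 * y 7) + y 5 * (8 * y 6 + 4 * y 7) + y 6 * (3 * y 7), ?_⟩
  simp [nm, bw, B8, Fin.sum_univ_eight]
  ring

/-- the labels of a lattice vector -/
def lb (η : Q8) : Q8 := ∑ i, η i • cartanOf chevE8 8 i

theorem ex_lb (η a : Q8) : ex (lb η) a = B0 η a := by
  rw [bf_apply, Finset.sum_comm, ex]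
  refine Finset.sum_congr rfl fun j _ => ?_
  rw [lb, Finset.sum_apply, Finset.mul_sum]
  exact Finset.sum_congr rfl fun i _ => by rw [Pi.smul_apply, smul_eq_mul, mul_comm]

theorem bw_zero (k : Q8) : bw 0 k = 0 := by simp [bw]

theorem bw_lb (η k : Q8) : bw (lb η) k = ex k η := by
  have h : ∀ s : Finset (Fin 8), bw (∑ i ∈ s, η i • cartanOf chevE8 8 i) k = ∑ i ∈ s, η i * k i := by
    intro s
    induction s using Finset.induction_on with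
    | empty => rw [Finset.sum_empty, Finset.sum_empty, bw_zero]
    | insert i s hi ih => rw [Finset.sum_insert hi, Finset.sum_insert hi, Two.bw_add, ih, Two.bw_smul, Two.bw_cartan]
  exact h _

theorem ex_lin (m n : ℤ) (a b x : Q8) : ex (m • a - n • b) x = m * ex a x - n * ex b x := by
  simp only [ex, Pi.sub_apply, Pi.smul_apply, smul_eq_mul, Finset.mul_sum, ← Finset.sum_sub_distrib]
  exact Finset.sum_congr rfl fun _ _ => by ring

/-! ### rationality -/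

theorem exists_dual_one (k : Type*) [Field k] (R : Type*) [Ring R] [Nontrivial R] [Algebra k R] :
    ∃ φ : Module.Dual k R, φ 1 = 1 := by
  obtain ⟨φ, h⟩ := not_forall.1 (mt (Module.forall_dual_apply_eq_zero_iff k (1 : R)).1 one_ne_zero)
  exact ⟨(φ 1)⁻¹ • φ, by rw [LinearMap.smul_apply, smul_eq_mul, inv_mul_cancel₀ h]⟩

/-- a rational component -/
noncomputable def pj (φ : Module.Dual ℚ ℝ) (l : Q8 →+ ℝ) : Q8 →+ ℝ :=
  (Rat.castHom ℝ).toAddMonoidHom.comp (φ.toAddMonoidHom.comp l)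

theorem pj_apply (φ : Module.Dual ℚ ℝ) (l : Q8 →+ ℝ) (a : Q8) : pj φ l a = ((φ (l a) : ℚ) : ℝ) := rfl

theorem dual_B2 (φ p : Module.Dual ℚ ℝ) (a m : Q8 →+ ℝ) :
    φ (B2 (pj p m) a) = ∑ i : chevE8.Idx, p (m (wt i)) * φ (a (wt i)) := by
  rw [B2, map_sum]
  exact Finset.sum_congr rfl fun i _ => by rw [pj_apply, ← Rat.smul_def, map_smul, smul_eq_mul]

theorem rat_of_perp {l : Q8 →+ ℝ} {S : Set chevE8.Idx} (hS : ∀ j ∈ S, ∃ q : ℚ, l (wt j) = q)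
    (hp : ∀ a : Q8 →+ ℝ, (∀ j ∈ S, a (wt j) = 0) → B2 a l = 0) (x : Q8) : ∃ q : ℚ, l x = q := by
  obtain ⟨p, h1⟩ := exists_dual_one ℚ ℝ
  have h2 : ∀ j ∈ S, (l - pj p l) (wt j) = 0 := fun j hj => by
    obtain ⟨q, hq⟩ := hS j hj
    rw [AddMonoidHom.sub_apply, pj_apply, hq, ← mul_one (q : ℝ), ← Rat.smul_def, map_smul, h1, smul_eq_mul, mul_one,
      Rat.smul_def, mul_one, sub_self]
  have h3 : B2 (pj p l) (l - pj p l) = 0 := (Module.forall_dual_apply_eq_zero_iff ℚ _).1 fun φ => by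
    have h4 := congrArg p (hp (pj φ (l - pj p l)) fun j hj => by rw [pj_apply, h2 j hj, map_zero, Rat.cast_zero])
    rw [dual_B2, map_zero] at h4
    rw [dual_B2, ← h4]
    exact Finset.sum_congr rfl fun _ _ => mul_comm _ _
  have h4 : l - pj p l = 0 := B2_eq_zero (by rw [B2_sub, B2_comm l, hp _ h2, h3, sub_zero])
  exact ⟨_, by rw [← pj_apply, ← sub_eq_zero.1 h4]⟩

theorem exists_N {l : Q8 →+ ℝ} (h : ∀ x, ∃ q : ℚ, l x = q) :
    ∃ N : ℕ, 0 < N ∧ ∃ y : Q8, ∀ x, (N : ℝ) * l x = 2 * ex y x := by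
  choose q hq using fun i => h (sr i)
  have h1 : ∀ i, ∃ m : ℤ, ((∏ j, (q j).den : ℕ) : ℚ) * q i = m := fun i => by
    obtain ⟨k, hk⟩ := Finset.dvd_prod_of_mem (fun j => (q j).den) (Finset.mem_univ i)
    exact ⟨k * (q i).num, by rw [hk]; push_cast; rw [mul_comm ((q i).den : ℚ), mul_assoc, Rat.den_mul_eq_num]⟩
  choose y hy using h1
  refine ⟨2 * ∏ j, (q j).den, mul_pos two_pos (Finset.prod_pos fun j _ => (q j).den_pos), y, fun x => ?_⟩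
  have h2 : ((2 * ∏ j, (q j).den : ℕ) : ℝ) • l = (2 : ℝ) • cl y := Frm.hom_ext fun i => by
    rw [AddMonoidHom.smul_apply, AddMonoidHom.smul_apply, cl_apply, Two.ex_sr, hq, smul_eq_mul, smul_eq_mul, Nat.cast_mul,
      mul_assoc, Nat.cast_ofNat]
    congr 1
    exact_mod_cast congrArg (Rat.cast : ℚ → ℝ) (hy i)
  exact DFunLike.congr_fun h2 x

/-! ### block matrices -/

variable {K : Type u} [Field K]

/-- `x` maps the pieces of `l` to the pieces of `l'` -/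
def Lv (l l' : Q8 →+ ℝ) (x : G8 K) : Prop := ∀ i j, mx x i j ≠ 0 → l' (wt i) = l (wt j)

theorem Lv.LS {l l' : Q8 →+ ℝ} {x : G8 K} (h : Lv l l' x) {c : ℝ} {v : L8 K} (hv : v ∈ LS K (Eq' l c)) :
    act x v ∈ LS K (Eq' l' c) :=
  mulVec_LS (fun i j hij hj => (h i j hij).trans hj) hv

theorem Lv.diag {l l' : Q8 →+ ℝ} {x : G8 K} (h : Lv l l' x) {δ δ' : chevE8.Idx → K}
    (hδ : ∀ i j, l' (wt i) = l (wt j) → δ' i = δ j) : mx x * Matrix.diagonal δ = Matrix.diagonal δ' * mx x := by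
  ext i j
  rw [Matrix.mul_diagonal, Matrix.diagonal_mul]
  by_cases h0 : mx x i j = 0
  · rw [h0, zero_mul, mul_zero]
  · rw [hδ i j (h i j h0), mul_comm]

theorem blk {l : Q8 →+ ℝ} {u : G8 K} (h : Up l l (mx u)) (h' : Up l l (mx u⁻¹)) {δ : chevE8.Idx → K}
    (hδ : ∀ i j, l (wt i) = l (wt j) → δ i = δ j) {i j : chevE8.Idx} (hij : l (wt i) = l (wt j)) :
    (mx u * Matrix.diagonal δ * mx u⁻¹) i j = Matrix.diagonal δ i j := by
  have h1 : (mx u * Matrix.diagonal δ * mx u⁻¹) i j = δ i * (mx u * mx u⁻¹) i j := by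
    rw [Matrix.mul_apply, Matrix.mul_apply, Finset.mul_sum]
    refine Finset.sum_congr rfl fun k _ => ?_
    rw [Matrix.mul_diagonal]
    by_cases h2 : mx u i k = 0
    · rw [h2, zero_mul, zero_mul, mul_zero]
    by_cases h3 : mx u⁻¹ k j = 0
    · rw [h3, mul_zero, mul_zero, mul_zero]
    rw [hδ k i (le_antisymm (h i k h2) (hij.le.trans (h' k j h3)))]
    ring
  rw [h1, mx_mul_inv, Matrix.one_apply, Matrix.diagonal_apply]
  split_ifs
  · rw [mul_one]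
  · rw [mul_zero]

theorem adm_ent {l : Q8 →+ ℝ} {c : ℝ} {x : L8 K} (hx : x ∈ LS K (Eq' l c)) {i j : chevE8.Idx} (h : adm x i j ≠ 0) :
    l (wt i) = c + l (wt j) := by
  obtain ⟨k, h1, h2⟩ := adm_wt h
  rw [h2, map_add, mem_Eq.1 (hx k h1)]

theorem inT_Eq {h : L8 K} (hh : InT h) (l : Q8 →+ ℝ) : h ∈ LS K (Eq' l 0) :=
  LS_mono (fun a ha => by rw [mem_Eq, Set.mem_singleton_iff.1 ha, map_zero]) (inT_iff.1 hh)

theorem Eq_neg {l : Q8 →+ ℝ} {c : ℝ} {v : L8 K} : v ∈ LS K (Eq' (-l) c) ↔ v ∈ LS K (Eq' l (-c)) :=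
  forall₂_congr fun _ _ => by rw [mem_Eq, mem_Eq, AddMonoidHom.neg_apply, neg_eq_iff_eq_neg]

/-! ### optimal gradings -/

variable {e h f : L8 K} {g : G8 K} {l l' : Q8 →+ ℝ}

theorem dp_iff : Dp ![e, h, f] ![2, 0, -2] g l ↔
    act g e ∈ LS K (Ge l 2) ∧ act g h ∈ LS K (Ge l 0) ∧ act g f ∈ LS K (Ge l (-2)) := by
  unfold Dp
  rw [Fin.forall_fin_succ, Fin.forall_fin_two]
  rfl

theorem dm_iff : Dp ![e, h, f] (-![2, 0, -2]) g l ↔
    act g e ∈ LS K (Ge l (-2)) ∧ act g h ∈ LS K (Ge l (-0)) ∧ act g f ∈ LS K (Ge l (-(-2))) := by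
  unfold Dp
  rw [Fin.forall_fin_succ, Fin.forall_fin_two]
  rfl

/-- a lower bound for the norms -/
def Lb (e h f : L8 K) (r : ℝ) : Prop := (∀ g lam, Dp ![e, h, f] ![2, 0, -2] g lam → r ≤ nrm lam) ∧
  ∀ g lam, Dp ![e, h, f] (-![2, 0, -2]) g lam → r ≤ nrm lam

theorem Lb.act {r : ℝ} (H : Lb e h f r) (g : G8 K) : Lb (act g e) (act g h) (act g f) r :=
  ⟨fun x lam hx => H.1 (x * g) lam (by rw [dp_iff] at hx ⊢; simpa only [act_mul] using hx),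
    fun x lam hx => H.2 (x * g) lam (by rw [dm_iff] at hx ⊢; simpa only [act_mul] using hx)⟩

/-- an optimal grading -/
structure Gr (l : Q8 →+ ℝ) (e h f : L8 K) : Prop where
  lb : Lb e h f (nrm l)
  he : e ∈ LS K (Eq' l 2)
  hh : h ∈ LS K (Eq' l 0)
  hf : f ∈ LS K (Eq' l (-2))

theorem dp_of (he : act g e ∈ LS K (Eq' l 2)) (hh : act g h ∈ LS K (Eq' l 0)) (hf : act g f ∈ LS K (Eq' l (-2))) :
    Dp ![e, h, f] ![2, 0, -2] g l ∧ Dp ![e, h, f] (-![2, 0, -2]) g (-l) :=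
  ⟨dp_iff.2 ⟨Eq_le_Ge he, Eq_le_Ge hh, Eq_le_Ge hf⟩, dm_iff.2 ⟨Eq_le_Ge_neg he, Eq_le_Ge_neg hh, Eq_le_Ge_neg hf⟩⟩

theorem Gr.dp (H : Gr l e h f) : Dp ![e, h, f] ![2, 0, -2] 1 l ∧ Dp ![e, h, f] (-![2, 0, -2]) 1 (-l) :=
  dp_of (by rw [act_one]; exact H.he) (by rw [act_one]; exact H.hh) (by rw [act_one]; exact H.hf)

theorem Gr.same (hK : KSD.{u}) (hC : CANF.{u}) (H : Gr l e h f) (hx : Dp ![e, h, f] ![2, 0, -2] g l')
    (hn : nrm l' = nrm l) : SameF 1 l g l' :=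
  hC K _ (hK K _ _ _) _ _ _ _ ⟨H.dp.1, H.lb.1⟩ ⟨hx, hn ▸ H.lb.1⟩

theorem Gr.up (hK : KSD.{u}) (hC : CANF.{u}) (H : Gr l e h f) (hx : Dp ![e, h, f] ![2, 0, -2] g l')
    (hn : nrm l' = nrm l) : Up l l' (mx g) ∧ Up l' l (mx g⁻¹) := by
  have h1 := H.same hK hC hx hn
  refine ⟨up_of_LS fun c v hv => (h1 c v).1 (by rwa [act_one]), up_of_LS fun c v hv => ?_⟩
  have h2 := (h1 c (act g⁻¹ v)).2 (by rwa [act_inv'])
  rwa [act_one] at h2

theorem Gr.lv (hK : KSD.{u}) (hN : NRM) (hC : CANF.{u}) (H : Gr l e h f) (he : act g e ∈ LS K (Eq' l' 2))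
    (hh : act g h ∈ LS K (Eq' l' 0)) (hf : act g f ∈ LS K (Eq' l' (-2))) (hn : nrm l' = nrm l) : Lv l l' g := by
  have h1 := dp_of he hh hf
  have h2 := (H.up hK hC h1.1 hn).1
  have h3 := hC K _ (hK K _ _ _) _ _ _ _ ⟨H.dp.2, by rw [nrm_neg hN]; exact H.lb.2⟩
    ⟨h1.2, by rw [nrm_neg hN, hn]; exact H.lb.2⟩
  have h4 : Up (-l) (-l') (mx g) := up_of_LS fun c v hv => (h3 c v).1 (by rwa [act_one])
  exact fun i j hij => le_antisymm (neg_le_neg_iff.1 (h4 i j hij)) (h2 i j hij)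

theorem Gr.perp (hN : NRM) (H : Gr l e h f) (hT : InT h) (a : Q8 →+ ℝ) (ha : ∀ j ∈ {j | e j ≠ 0 ∨ f j ≠ 0}, a (wt j) = 0) :
    B2 a l = 0 := by
  have h1 : ∀ t : ℝ, 0 ≤ B2 a a * (t * t) + 2 * B2 a l * t + 0 := fun t => by
    have h2 := (nrm_le_iff hN).1 (H.lb.1 1 (l + t • a) (dp_iff.2 ⟨fun j hj => ?_, Eq_le_Ge ?_, fun j hj => ?_⟩))
    · rw [B2_add, B2_comm l (l + _), B2_smul, B2_comm a, B2_add, B2_add, B2_smul, B2_smul, B2_comm l a] at h2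
      linarith
    · rw [act_one] at hj
      rw [mem_Ge, AddMonoidHom.add_apply, AddMonoidHom.smul_apply, ha j (Or.inl hj), smul_zero, add_zero, H.he j hj]
    · rw [act_one]
      exact inT_Eq hT _
    · rw [act_one] at hj
      rw [mem_Ge, AddMonoidHom.add_apply, AddMonoidHom.smul_apply, ha j (Or.inr hj), smul_zero, add_zero, H.hf j hj]
  have h2 := discrim_le_zero h1
  rw [discrim] at h2
  nlinarith [sq_nonneg (B2 a l)]

end Sc

end Cfsg.Agent.E8A.C63
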