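import Cfsg.Agent.E8A.C63.Sv

/-!
# String bases (helper55)

* `Sb e b tp` : the vectors `b 0, …, b 247` span, `ad e` kills `b p` if `tp p` (a top) and maps it to `b (p + 1)` otherwise;
  `bot tp p` : bottoms;
* `Sb.ind`, `Sb.br_sum`, `Sb.cen_iff`, `Sb.cd_eq`; `Sp b S` : the span of the `b p`, `p ∈ S`;
* `Hm b κ d` : `b p` has degree `d p`; `Sb.deg_iff`, `Sb.split` (bottoms span a graded complement of the image),
  `Sb.finrank_cen`;
* `chkSb`, `chkSb_sound`; `chkH`, `chkH_sound` : the kernel checks.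
-/

set_option autoImplicit false
set_option maxRecDepth 100000

namespace Cfsg.Agent.E8A.C63.Sv

open Cfsg Cfsg.Lie Module Finset
open Cfsg.Agent.H288.E8L (Q8 wt)
open Cfsg.Agent.Tits.Roots (sr)
open Cfsg.Agent.ChevalleyStructure.JacTab (addH)

universe u

variable {K : Type u} [Field K]

/-- a basis of strings -/
structure Sb (e : L8 K) (b : ℕ → L8 K) (tp : ℕ → Bool) : Prop where
  top : ∀ p < 248, tp p = true → br e (b p) = 0
  nxt : ∀ p < 248, tp p = false → br e (b p) = b (p + 1)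
  last : tp 247 = true
  span : ∀ v, ∃ c : ℕ → K, v = ∑ p ∈ range 248, c p • b p

/-- the bottoms -/
def bot (tp : ℕ → Bool) : ℕ → Bool
  | 0 => true
  | p + 1 => tp p

/-- the span of some of the vectors -/
def Sp (b : ℕ → L8 K) (S : Finset ℕ) : Submodule K (L8 K) := Submodule.span K (b '' (S : Set ℕ))

/-- homogeneous vectors -/
def Hm (b : ℕ → L8 K) (κ : Q8 →+ ℝ) (d : ℕ → ℝ) : Prop := ∀ p < 248, b p ∈ LS K (Eq' κ (d p))

theorem mem_Sp {b : ℕ → L8 K} {S : Finset ℕ} {p : ℕ} (h : p ∈ S) : b p ∈ Sp b S := Submodule.subset_span ⟨p, h, rfl⟩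

theorem Sp_le {b : ℕ → L8 K} {S : Finset ℕ} {U : Submodule K (L8 K)} (h : ∀ p ∈ S, b p ∈ U) : Sp b S ≤ U :=
  Submodule.span_le.2 (by rintro _ ⟨p, hp, rfl⟩; exact h p hp)

theorem sum_mem_Sp {b : ℕ → L8 K} {S : Finset ℕ} {c : ℕ → K} (h : ∀ p < 248, p ∉ S → c p = 0) :
    ∑ p ∈ range 248, c p • b p ∈ Sp b S := by
  refine Submodule.sum_mem _ fun p hp => ?_
  by_cases h1 : p ∈ S
  · exact Submodule.smul_mem _ _ (mem_Sp h1)
  · rw [h p (mem_range.1 hp) h1, zero_smul]
    exact Submodule.zero_mem _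

theorem exists_of_mem_Sp {b : ℕ → L8 K} {S : Finset ℕ} {v : L8 K} (h : v ∈ Sp b S) : ∃ c : ℕ → K, v = ∑ p ∈ S, c p • b p := by
  obtain ⟨c, hc⟩ := (Submodule.mem_span_image_finset_iff_exists_fun' K).1 h
  exact ⟨c, hc.symm⟩

theorem br_sum_right (e : L8 K) {ι : Type*} (s : Finset ι) (f : ι → L8 K) : br e (∑ i ∈ s, f i) = ∑ i ∈ s, br e (f i) :=
  map_sum (TwoH.brL K e) f s

theorem pr_sum (κ : Q8 →+ ℝ) (j : ℝ) {ι : Type*} (s : Finset ι) (f : ι → L8 K) :
    pr κ j (∑ i ∈ s, f i) = ∑ i ∈ s, pr κ j (f i) := by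
  classical
  induction s using Finset.induction_on with
  | empty => rw [sum_empty, sum_empty]; exact pr_of_mem (Submodule.zero_mem _)
  | insert a s ha ih => rw [sum_insert ha, sum_insert ha, pr_add, ih]

theorem pr_zero_of {κ : Q8 →+ ℝ} {j : ℝ} {A : Set Q8} {v : L8 K} (h : v ∈ LS K A) (hA : ∀ a ∈ A, κ a ≠ j) : pr κ j v = 0 :=
  eq_zero_of_LS (pr_LS h κ j) (pr_mem κ j v) fun a ha h1 => hA a ha h1

namespace Sb

variable {e : L8 K} {b : ℕ → L8 K} {tp : ℕ → Bool} (H : Sb e b tp)
include H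

theorem lt {p : ℕ} (hp : p < 248) (h : tp p = false) : p + 1 < 248 := by
  by_contra h1
  have : p = 247 := by omega
  rw [this, H.last] at h
  cases h

theorem li : LinearIndependent K fun p : Fin 248 => b p.val := by
  refine linearIndependent_of_top_le_span_of_card_eq_finrank (fun v _ => ?_) (by rw [Inf.finrank_L8, Fintype.card_fin])
  obtain ⟨c, rfl⟩ := H.span v
  exact Submodule.sum_mem _ fun p hp => Submodule.smul_mem _ _ (Submodule.subset_span ⟨⟨p, mem_range.1 hp⟩, rfl⟩)

theorem ind {c : ℕ → K} (h : ∑ p ∈ range 248, c p • b p = 0) {p : ℕ} (hp : p < 248) : c p = 0 := by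
  rw [Finset.sum_range] at h
  exact Fintype.linearIndependent_iff.1 H.li (fun p => c p.val) h ⟨p, hp⟩

theorem ind' {S : Finset ℕ} (hS : ∀ p ∈ S, p < 248) {c : ℕ → K} (h : ∑ p ∈ S, c p • b p = 0) {p : ℕ} (hp : p ∈ S) :
    c p = 0 := by
  have h1 : ∑ q ∈ range 248, (if q ∈ S then c q else 0) • b q = 0 := by
    rw [← h, ← sum_subset (s₁ := S) (fun q hq => mem_range.2 (hS q hq)) fun q _ hq => by rw [if_neg hq, zero_smul]]
    exact sum_congr rfl fun q hq => by rw [if_pos hq]
  have h2 := H.ind h1 (hS p hp)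
  rwa [if_pos hp] at h2

theorem uniq {c c' : ℕ → K} (h : ∑ p ∈ range 248, c p • b p = ∑ p ∈ range 248, c' p • b p) {p : ℕ} (hp : p < 248) :
    c p = c' p := by
  refine sub_eq_zero.1 (H.ind (c := fun p => c p - c' p) ?_ hp)
  simp only [sub_smul, sum_sub_distrib, h, sub_self]

theorem ne_zero {p : ℕ} (hp : p < 248) : b p ≠ 0 := H.li.ne_zero ⟨p, hp⟩

theorem sp_iff {S : Finset ℕ} (hS : ∀ p ∈ S, p < 248) {c : ℕ → K} :
    ∑ p ∈ range 248, c p • b p ∈ Sp b S ↔ ∀ p < 248, p ∉ S → c p = 0 := by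
  refine ⟨fun h p hp hn => ?_, sum_mem_Sp⟩
  obtain ⟨c', hc⟩ := exists_of_mem_Sp h
  have h1 : ∑ q ∈ S, c' q • b q = ∑ q ∈ range 248, (if q ∈ S then c' q else 0) • b q := by
    rw [← sum_subset (s₁ := S) (fun q hq => mem_range.2 (hS q hq)) fun q _ hq => by rw [if_neg hq, zero_smul]]
    exact sum_congr rfl fun q hq => by rw [if_pos hq]
  rw [H.uniq (hc.trans h1) hp, if_neg hn]

theorem finrank_Sp {S : Finset ℕ} (hS : ∀ p ∈ S, p < 248) : finrank K ↥(Sp b S) = S.card := by
  have h1 : LinearIndependent K fun p : ↥S => b p.val :=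
    H.li.comp (fun p : ↥S => (⟨p.val, hS _ p.2⟩ : Fin 248)) fun p q h => Subtype.ext (Fin.mk.inj h)
  have h2 : Set.range (fun p : ↥S => b p.val) = b '' (S : Set ℕ) := by
    ext v
    exact ⟨fun ⟨p, h⟩ => ⟨p.val, p.2, h⟩, fun ⟨p, hp, h⟩ => ⟨⟨p, hp⟩, h⟩⟩
  rw [Sp, ← h2, finrank_span_eq_card h1, Fintype.card_coe]

theorem br_sum (c : ℕ → K) :
    br e (∑ p ∈ range 248, c p • b p) = ∑ p ∈ range 248, (if bot tp p = true then 0 else c (p - 1)) • b p := by
  rw [br_sum_right, sum_range_succ, sum_range_succ' _ 247, br_smul_right, H.top 247 (by norm_num) H.last, smul_zero,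
    if_pos (show bot tp 0 = true from rfl), zero_smul]
  congr 1
  refine sum_congr rfl fun p hp => ?_
  have hp' : p < 248 := by have := mem_range.1 hp; omega
  rw [br_smul_right, show bot tp (p + 1) = tp p from rfl, Nat.add_sub_cancel]
  cases h : tp p
  · rw [H.nxt p hp' h, if_neg (by simp)]
  · rw [H.top p hp' h, if_pos rfl, smul_zero, zero_smul]

theorem cen_iff {c : ℕ → K} : br e (∑ p ∈ range 248, c p • b p) = 0 ↔ ∀ p < 248, tp p = false → c p = 0 := by
  constructor
  · intro h p hp ht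
    rw [H.br_sum] at h
    have h1 := H.ind h (H.lt hp ht)
    rwa [show bot tp (p + 1) = tp p from rfl, ht, if_neg (by simp), Nat.add_sub_cancel] at h1
  · intro h
    rw [br_sum_right]
    refine sum_eq_zero fun p hp => ?_
    rw [br_smul_right]
    cases ht : tp p
    · rw [h p (mem_range.1 hp) ht, zero_smul]
    · rw [H.top p (mem_range.1 hp) ht, smul_zero]

theorem cen_eq : cen {e} = Sp b ((range 248).filter fun p => tp p = true) := by
  ext v
  obtain ⟨c, rfl⟩ := H.span v
  rw [mem_cen_one, H.cen_iff, H.sp_iff fun p hp => mem_range.1 (mem_filter.1 hp).1]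
  refine forall_congr' fun p => forall_congr' fun hp => ?_
  simp [hp]

theorem cd_eq : cd e = ((range 248).filter fun p => tp p = true).card := by
  rw [cd, H.cen_eq, H.finrank_Sp fun p hp => mem_range.1 (mem_filter.1 hp).1]

/-- strings of length at most three -/
theorem cz (h : ∀ p < 248, tp p = true ∨ tp (p + 1) = true ∨ tp (p + 2) = true) : Cz e := by
  have h1 : ∀ p < 248, br e (br e (br e (b p))) = 0 := by
    intro p hp
    cases h0 : tp p
    · have hp1 := H.lt hp h0
      rw [H.nxt p hp h0]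
      cases h1 : tp (p + 1)
      · have h2 : tp (p + 2) = true := by
          rcases h p hp with h | h | h
          · rw [h0] at h; cases h
          · rw [h1] at h; cases h
          · exact h
        rw [H.nxt _ hp1 h1, H.top _ (H.lt hp1 h1) h2]
      · rw [H.top _ hp1 h1, TwoH.br_zero_right]
    · rw [H.top p hp h0, TwoH.br_zero_right, TwoH.br_zero_right]
  have h2 : ∀ v, br e (br e (br e v)) = 0 := by
    intro v
    obtain ⟨c, rfl⟩ := H.span v
    rw [br_sum_right, br_sum_right, br_sum_right]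
    exact sum_eq_zero fun p hp => by rw [br_smul_right, br_smul_right, br_smul_right, h1 p (mem_range.1 hp), smul_zero]
  unfold Cz
  ext i j
  have h3 := congrFun (h2 (ee K j)) i
  rwa [br, br, br, Matrix.mulVec_mulVec, Matrix.mulVec_mulVec, mulVec_ee, ← pow_three'] at h3

variable {κ : Q8 →+ ℝ} {d : ℕ → ℝ}

theorem deg_iff (hm : Hm b κ d) {J : Set ℝ} {c : ℕ → K} :
    ∑ p ∈ range 248, c p • b p ∈ LS K {a | κ a ∈ J} ↔ ∀ p < 248, d p ∉ J → c p = 0 := by
  classical
  constructor
  · intro h p hp hn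
    have h1 := pr_zero_of (κ := κ) (j := d p) h fun a ha h2 => hn (h2 ▸ ha)
    rw [pr_sum] at h1
    have h2 : ∑ q ∈ range 248, (if d q = d p then c q else 0) • b q = 0 := by
      rw [← h1]
      refine sum_congr rfl fun q hq => ?_
      rw [pr_smul]
      by_cases h3 : d q = d p
      · rw [if_pos h3, ← h3, pr_of_mem (hm q (mem_range.1 hq))]
      · rw [if_neg h3, zero_smul, pr_zero_of (hm q (mem_range.1 hq)) fun a ha h4 => h3 ((mem_Eq.1 ha).symm.trans h4),
          smul_zero]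
    have h3 := H.ind h2 hp
    rwa [if_pos rfl] at h3
  · intro h
    refine Submodule.sum_mem _ fun p hp => ?_
    by_cases h1 : d p ∈ J
    · exact Submodule.smul_mem _ _ (LS_mono (fun a ha => by rw [Set.mem_ofPred_eq, mem_Eq.1 ha]; exact h1)
        (hm p (mem_range.1 hp)))
    · rw [h p (mem_range.1 hp) h1, zero_smul]
      exact Submodule.zero_mem _

theorem deg_nxt (hm : Hm b κ d) {δ : ℝ} (he : e ∈ LS K (Eq' κ δ)) {p : ℕ} (hp : p < 248) (h : tp p = false) :
    d (p + 1) = d p + δ := by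
  by_contra hn
  refine H.ne_zero (H.lt hp h) (eq_zero_of_LS (hm _ (H.lt hp h)) (A' := Eq' κ (d p + δ)) ?_ fun a ha h1 =>
    hn ((mem_Eq.1 ha).symm.trans (mem_Eq.1 h1)))
  rw [← H.nxt p hp h]
  exact br_LS (fun a ha a' ha' => by rw [mem_Eq, map_add, mem_Eq.1 ha, mem_Eq.1 ha', add_comm]) he (hm p hp)

open Classical in
/-- the bottoms span a graded complement of the image -/
theorem split (hm : Hm b κ d) {δ : ℝ} (he : e ∈ LS K (Eq' κ δ)) {J : Set ℝ} {v : L8 K} (hv : v ∈ LS K {a | κ a ∈ J}) :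
    ∃ s ∈ Sp b ((range 248).filter fun p => bot tp p = true ∧ d p ∈ J), ∃ w ∈ LS K {a | κ a + δ ∈ J}, v = s + br e w := by
  obtain ⟨c, rfl⟩ := H.span v
  have h0 := (H.deg_iff hm).1 hv
  refine ⟨∑ p ∈ range 248, (if bot tp p = true then c p else 0) • b p, sum_mem_Sp fun p hp hn => ?_,
    ∑ p ∈ range 248, (if tp p = true then 0 else c (p + 1)) • b p,
    (H.deg_iff hm (J := {x | x + δ ∈ J})).2 fun p hp hn => ?_, ?_⟩
  · by_cases h1 : bot tp p = true
    · rw [if_pos h1]
      exact h0 p hp fun h2 => hn (mem_filter.2 ⟨mem_range.2 hp, h1, h2⟩)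
    · rw [if_neg h1]
  · cases ht : tp p
    · rw [if_neg (by simp)]
      exact h0 _ (H.lt hp ht) (by rw [H.deg_nxt hm he hp ht]; exact hn)
    · rw [if_pos rfl]
  · rw [H.br_sum, ← sum_add_distrib]
    refine sum_congr rfl fun p _ => ?_
    rw [← add_smul]
    congr 1
    rcases p with _ | p
    · rw [if_pos (show bot tp 0 = true from rfl), if_pos (show bot tp 0 = true from rfl), add_zero]
    · rw [show bot tp (p + 1) = tp p from rfl, Nat.add_sub_cancel]
      cases ht : tp p <;> simp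

open Classical in
theorem cen_deg (hm : Hm b κ d) (J : Set ℝ) :
    cen {e} ⊓ LS K {a | κ a ∈ J} = Sp b ((range 248).filter fun p => tp p = true ∧ d p ∈ J) := by
  ext v
  obtain ⟨c, rfl⟩ := H.span v
  rw [Submodule.mem_inf, mem_cen_one, H.cen_iff, H.deg_iff hm, H.sp_iff fun p hp => mem_range.1 (mem_filter.1 hp).1]
  constructor
  · rintro ⟨h1, h2⟩ p hp hn
    cases ht : tp p
    · exact h1 p hp ht
    · exact h2 p hp fun h3 => hn (mem_filter.2 ⟨mem_range.2 hp, ht, h3⟩)
  · intro h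
    exact ⟨fun p hp ht => h p hp fun h1 => Bool.false_ne_true (ht.symm.trans (mem_filter.1 h1).2.1),
      fun p hp hn => h p hp fun h1 => hn (mem_filter.1 h1).2.2⟩

end Sb

/-! ### the checks -/

/-- all `i < n` -/
noncomputable def allN (n : ℕ) (p : ℕ → Bool) : Bool :=
  Nat.rec (motive := fun _ => Bool) true (fun i ih => Bool.rec (motive := fun _ => Bool) false ih (p i)) n

theorem allN_spec {n : ℕ} {p : ℕ → Bool} (h : allN n p = true) {i : ℕ} (hi : i < n) : p i = true := by
  induction n with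
  | zero => omega
  | succ n ih =>
    have e : allN (n + 1) p = Bool.rec (motive := fun _ => Bool) false (allN n p) (p n) := rfl
    rw [e] at h
    cases h1 : p n
    · rw [h1] at h; cases h
    · rw [h1] at h
      rcases Nat.lt_succ_iff_lt_or_eq.1 hi with h2 | rfl
      · exact ih h h2
      · exact h1

/-- the vector number `p` of a packed table -/
noncomputable def vv (N p : ℕ) : SV := dec (Nat.land (Nat.shiftRight N (Nat.mul 80 p)) 1208925819614629174706175)

/-- a combination of vectors of the table -/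
noncomputable def cmb (N : ℕ) (x : SV) : SV := List.rec (motive := fun _ => SV) [] (fun q _ ih => addH q.2 (vv N q.1) ih) x

/-- the check of a basis of strings -/
noncomputable def chkSb (e : SV) (N M X : ℕ) : Bool :=
  Nat.testBit M 247 && allN 248 (fun p => Bool.rec (motive := fun _ => Bool) (eq3 (br0 e (vv N p)) (vv N (Nat.succ p)))
    (z3 (br0 e (vv N p))) (Nat.testBit M p)) &&
  allN 248 fun k => allK (fun p => Nat.blt p 248) (vv X k) && eq3 (cmb N (vv X k)) [(k, 1)]

theorem sv_cmb (N : ℕ) {x : SV} (h : ∀ q ∈ x, q.1 < 248) :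
    ∃ c : ℕ → K, sv K (cmb N x) = ∑ p ∈ range 248, c p • sv K (vv N p) := by
  induction x with
  | nil => exact ⟨0, (sv_nil (K := K)).trans (by simp)⟩
  | cons q x ih =>
    obtain ⟨c, hc⟩ := ih fun a ha => h a (List.mem_cons_of_mem _ ha)
    refine ⟨fun p => (if p = q.1 then (q.2 : K) else 0) + c p, ?_⟩
    have e : cmb N (q :: x) = addH q.2 (vv N q.1) (cmb N x) := rfl
    rw [e, sv_addH, hc]
    simp only [add_smul, sum_add_distrib, ite_smul, zero_smul, sum_ite_eq', mem_range, h q List.mem_cons_self, if_true]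

theorem chkSb_sound [CharP K 3] {e : SV} {N M X : ℕ} (h : chkSb e N M X = true) :
    Sb (sv K e) (fun p => sv K (vv N p)) (Nat.testBit M) := by
  simp only [chkSb, Bool.and_eq_true] at h
  obtain ⟨⟨h1, h2⟩, h3⟩ := h
  refine ⟨fun p hp ht => ?_, fun p hp ht => ?_, h1, fun v => ?_⟩
  · have h4 := allN_spec h2 hp
    rw [ht] at h4
    exact br_of_z3 h4
  · have h4 := allN_spec h2 hp
    rw [ht] at h4
    exact br_of_eq3 h4
  · have h4 : ∀ x : chevE8.Idx, ∃ c : ℕ → K, ee K x = ∑ p ∈ range 248, c p • sv K (vv N p) := by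
      intro x
      have h5 := allN_spec h3 (ky_lt x)
      rw [Bool.and_eq_true] at h5
      obtain ⟨c, hc⟩ := sv_cmb (K := K) N fun q hq => Nat.blt_eq.mp (allK_spec h5.1 q hq)
      exact ⟨c, by rw [← hc, sv_eq3 h5.2, sv_one, eb_ky]⟩
    choose c hc using h4
    refine ⟨fun p => ∑ x, v x * c x p, ?_⟩
    have h5 : v = ∑ x, v x • ee K x := by
      funext i
      simp [Finset.sum_apply, ee_apply]
    conv_lhs => rw [h5]
    simp only [hc, smul_sum, sum_smul, smul_smul]
    exact sum_comm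

/-- the sum of the coordinates in the mask -/
noncomputable def sm (m k : ℕ) : ℕ :=
  Nat.rec (motive := fun _ => ℕ) 0 (fun i ih => Bool.rec (motive := fun _ => ℕ) ih (Nat.add ih (wn k i)) (Nat.testBit m i)) 8

/-- the same degree for every cocharacter which is constant on the simple roots of the mask -/
noncomputable def twE (m k k' : ℕ) : Bool :=
  allN 8 (fun i => Nat.testBit m i || Nat.beq (wn k i) (wn k' i)) && Nat.beq (sm m k) (sm m k')

/-- the first key -/
noncomputable def hd (l : SV) : ℕ := List.rec (motive := fun _ => ℕ) 0 (fun q _ _ => q.1) l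

/-- the check of homogeneity -/
noncomputable def chkH (m N : ℕ) : Bool := allN 248 fun p => allK (fun k => twE m k (hd (vv N p))) (vv N p)

theorem sm_eq (m k : ℕ) : sm m k = ∑ i ∈ range 8, if m.testBit i = true then wn k i else 0 := by
  unfold sm
  generalize 8 = n
  induction n with
  | zero => rfl
  | succ n ih =>
    rw [sum_range_succ, ← ih]
    show Bool.rec (motive := fun _ => ℕ) _ _ (Nat.testBit m n) = _
    cases m.testBit n <;> simp

theorem wc_eq (k i : ℕ) : wc k i = (wn k i : ℤ) - 8 := by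
  unfold wc
  rw [Int.subNatNat_eq_coe]
  rfl

theorem kap_eq (κ : Q8 →+ ℝ) (a : Q8) : κ a = ∑ i : Fin 8, (a i : ℝ) * κ (sr i) := by
  have h : a = ∑ i : Fin 8, a i • (sr i : Q8) := by
    funext j
    simp [sr, Finset.sum_apply, Pi.single_apply]
  conv_lhs => rw [h, map_sum]
  exact sum_congr rfl fun i _ => by rw [map_zsmul, zsmul_eq_mul]

theorem twE_sound {m k k' : ℕ} (h : twE m k k' = true) {κ : Q8 →+ ℝ} {δ : ℝ}
    (hκ : ∀ i : Fin 8, m.testBit i.val = true → κ (sr i) = δ) : κ (wk k) = κ (wk k') := by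
  rw [twE, Bool.and_eq_true] at h
  have h1 := Nat.eq_of_beq_eq_true h.2
  rw [sm_eq, sm_eq, sum_range, sum_range] at h1
  have h2 : ∑ i : Fin 8, (if m.testBit i.val = true then (wn k i : ℝ) else 0) =
      ∑ i : Fin 8, (if m.testBit i.val = true then (wn k' i : ℝ) else 0) := by exact_mod_cast h1
  rw [← sub_eq_zero, kap_eq, kap_eq κ (wk k'), ← sum_sub_distrib]
  have h3 : ∀ i : Fin 8, ((wk k i : ℤ) : ℝ) * κ (sr i) - ((wk k' i : ℤ) : ℝ) * κ (sr i) =
      ((if m.testBit i.val = true then (wn k i : ℝ) else 0) - (if m.testBit i.val = true then (wn k' i : ℝ) else 0)) * δ := by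
    intro i
    have h4 := allN_spec h.1 i.2
    rw [wk, wk, wc_eq, wc_eq]
    cases ht : m.testBit i.val
    · rw [ht, Bool.false_or] at h4
      rw [Nat.eq_of_beq_eq_true h4]
      simp
    · rw [hκ i ht, if_pos rfl, if_pos rfl]
      push_cast
      ring
  rw [sum_congr rfl fun i _ => h3 i, ← sum_mul, sum_sub_distrib, h2, sub_self, zero_mul]

theorem chkH_sound {m N : ℕ} (h : chkH m N = true) {κ : Q8 →+ ℝ} {δ : ℝ}
    (hκ : ∀ i : Fin 8, m.testBit i.val = true → κ (sr i) = δ) :
    Hm (fun p => sv K (vv N p)) κ fun p => κ (wk (hd (vv N p))) := fun _ hp =>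
  sv_mem (fun _ hk => mem_Eq.2 (twE_sound hk hκ)) (allN_spec h hp)

end Cfsg.Agent.E8A.C63.Sv
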