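import Cfsg.Agent.E8A.C63.TorL
import Cfsg.Agent.E8A.C63.ModA
import Cfsg.Agent.E8A.C63.Lat

/-!
# The box NOTOR: tools (helper97)

* `tt K` : the Cartan subalgebra, `sig` : the cube map on it, `pp U` : orthogonals, `small` : invariant subspaces are large;
* `mu b μ` : multiplicities of weights; `cnt_toral` : centralizers of toral elements; `exists_sign`.
-/

set_option autoImplicit false
set_option maxRecDepth 100000

namespace Cfsg.Agent.E8A.C63.Nt

open Cfsg Cfsg.Lie Module Matrix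
open Cfsg.Agent.H288.E8L (Q8 wt act8 wt_inl wt_inr rt_vec vec_ne_zero)
open Cfsg.Agent.Tits.Roots (sr)
open Cfsg.Agent.Nodes.RGDChev (vec)
open Cfsg.Agent.H944.Kac (srefl)
open Cfsg.Agent.E8A.Inf (kf kf_comm kf_act kf_act' finrank_perp finrank_L8)
open Cfsg.Agent.E8A.TwoH (hq inT_hq rl_hq kf_T kf_hq rl_zero finrank_LS)
open Cfsg.Agent.E8A.Reg5.Cls (ex mv tb tb_mv tb_all)

universe u

variable {K : Type u} [Field K] {ψ : Alt 6 →* G8 K}

variable (K) in
/-- the Cartan subalgebra -/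
abbrev tt : Submodule K (L8 K) := LS K {0}

theorem finrank_tt : finrank K ↥(tt K) = 8 := by
  classical
  rw [finrank_LS]
  have h : (Finset.univ.filter fun i : chevE8.Idx => wt i ∈ ({0} : Set Q8)) =
      Finset.univ.map ⟨Sum.inl, Sum.inl_injective⟩ := by
    ext i
    rcases i with i | r
    · simp [wt_inl]
    · simp [wt_inr, vec_ne_zero r]
  rw [h, Finset.card_map, Finset.card_univ, Fintype.card_fin]
  rfl

theorem card_idx : Fintype.card chevE8.Idx = 248 := by
  rw [Fintype.card_sum, Fintype.card_fin, Fintype.card_fin]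
  rfl

theorem three_eq [CharP K 3] : (3 : K) = 0 := by exact_mod_cast CharP.cast_eq_zero K 3

theorem two_ne [CharP K 3] : (2 : K) ≠ 0 := fun h => one_ne_zero (α := K) (by linear_combination three_eq (K := K) - h)

/-! ### the cube map -/

section Sig

variable [CharP K 3]

/-- the cube map -/
def sig (x : L8 K) : L8 K := fun i => x i ^ 3

theorem sig_eq (x : L8 K) : sig x = mp (haveI := Fact.mk Nat.prime_three; frobenius K 3) x := rfl

theorem sig_add (x y : L8 K) : sig (x + y) = sig x + sig y := by rw [sig_eq, mp_add]; rfl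

theorem sig_sub (x y : L8 K) : sig (x - y) = sig x - sig y := by rw [sig_eq, mp_sub]; rfl

theorem sig_neg (x : L8 K) : sig (-x) = -sig x := by rw [sig_eq, mp_neg]; rfl

theorem sig_zero : sig (0 : L8 K) = 0 := by rw [sig_eq, mp_zero]

theorem sig_smul (c : K) (x : L8 K) : sig (c • x) = c ^ 3 • sig x := by rw [sig_eq, mp_smul]; rfl

theorem sig_ne {x : L8 K} (h : x ≠ 0) : sig x ≠ 0 := fun h0 => h (mp_injective _ (by rw [← sig_eq, h0, mp_zero]))

theorem sig_inT {x : L8 K} (h : InT x) : InT (sig x) := by rw [sig_eq]; exact (inT_mp _).2 h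

theorem rl_sig (x : L8 K) (a : Q8) : rl (sig x) a = rl x a ^ 3 := by rw [sig_eq, rl_mp]; rfl

theorem adm_sig {x : L8 K} (h : InT x) : adm (sig x) = adm x ^ 3 := by
  rw [adm_T h, adm_T (sig_inT h), diagonal_pow]
  congr 1
  funext i
  exact rl_sig x _

theorem act_sig {g : G8 K} {x y : L8 K} (hx : InT x) (hy : InT y) (h : act g x = y) : act g (sig x) = sig y :=
  adm_injective (by rw [adm_sig hy, ← h, adm_act_pow, adm_act, adm_sig hx])

end Sig

/-! ### orthogonals and centralizers -/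

/-- the orthogonal -/
noncomputable def pp (U : Submodule K (L8 K)) : Submodule K (L8 K) := LinearMap.BilinForm.orthogonal (kf K) U

theorem mem_pp {U : Submodule K (L8 K)} {v : L8 K} : v ∈ pp U ↔ ∀ x ∈ U, kf K x v = 0 := Iff.rfl

theorem inv_pp {U : Submodule K (L8 K)} (h : Inv ψ U) : Inv ψ (pp U) := fun a v hv x hx => by
  show kf K x (act (ψ a) v) = 0
  rw [kf_comm, kf_act', kf_comm, ← map_inv]
  exact hv _ (h _ x hx)

theorem inv_inf {U V : Submodule K (L8 K)} (h : Inv ψ U) (h' : Inv ψ V) : Inv ψ (U ⊓ V) :=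
  fun a v hv => ⟨h a v hv.1, h' a v hv.2⟩

theorem inv_sup {U V : Submodule K (L8 K)} (h : Inv ψ U) (h' : Inv ψ V) : Inv ψ (U ⊔ V) := fun a v hv => by
  obtain ⟨x, hx, y, hy, rfl⟩ := Submodule.mem_sup.1 hv
  rw [act_add]
  exact Submodule.add_mem_sup (h a x hx) (h' a y hy)

theorem inv_cen {U : Submodule K (L8 K)} (h : Inv ψ U) : Inv ψ (cen (U : Set (L8 K))) := fun a v hv x hx => by
  refine act_eq_zero (g := ψ a⁻¹) ?_
  rw [act_br, map_inv, act_inv, ← map_inv]
  exact hv _ (h _ x hx)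

theorem mem_pp_tt {v : L8 K} : v ∈ pp (tt K) ↔ tp v = 0 := by
  constructor
  · intro h
    rw [← tp_of_inT (v := (0 : L8 K)) fun _ => rfl]
    exact tp_eq_of_rl fun i => by rw [← kf_hq, h _ (inT_iff.1 (inT_hq _)), rl_zero]
  · intro h x hx
    rw [kf_T (inT_iff.2 hx)]
    exact Finset.sum_eq_zero fun i _ => by rw [← rl_tp, h, rl_zero, mul_zero]

theorem tp_sub_tp (v : L8 K) : tp (v - tp v) = 0 := by
  rw [sub_eq_add_neg, tp_add, tp_neg, tp_of_inT (inT_tp v), add_neg_cancel]

theorem finrank_pp {U : Submodule K (L8 K)} (h : U ≤ tt K) : finrank K ↥(tt K ⊓ pp U) + finrank K ↥U = 8 := by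
  have h1 := Submodule.finrank_sup_add_finrank_inf_eq (tt K) (pp U)
  have h2 : tt K ⊔ pp U = ⊤ := eq_top_iff.2 fun v _ => by
    rw [← add_sub_cancel (tp v) v]
    exact Submodule.add_mem_sup (inT_iff.1 (inT_tp v)) fun x hx => mem_pp_tt.2 (tp_sub_tp v) x (h hx)
  have h3 : finrank K ↥(pp U) + finrank K ↥U = 248 := finrank_perp U
  rw [h2, finrank_top, finrank_L8, finrank_tt] at h1
  omega

theorem br_eq_smul {x v : L8 K} (hx : InT x) {c : K} : br x v = c • v ↔ ∀ i, v i ≠ 0 → rl x (wt i) = c := by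
  constructor
  · intro h i hi
    have h1 := congrFun h i
    rw [br_T hx, Pi.smul_apply, smul_eq_mul] at h1
    exact mul_right_cancel₀ hi h1
  · intro h
    funext i
    rw [br_T hx, Pi.smul_apply, smul_eq_mul]
    by_cases hi : v i = 0
    · rw [hi, mul_zero, mul_zero]
    · rw [h i hi]

theorem mem_cen_T {U : Submodule K (L8 K)} (h : U ≤ tt K) {v : L8 K} :
    v ∈ cen (U : Set (L8 K)) ↔ ∀ i, v i ≠ 0 → ∀ x ∈ U, rl x (wt i) = 0 :=
  ⟨fun hv i hi x hx => (br_eq_smul (inT_iff.2 (h hx))).1 (by rw [zero_smul]; exact hv x hx) i hi,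
    fun hv x hx => by rw [(br_eq_smul (c := 0) (inT_iff.2 (h hx))).2 fun i hi => hv i hi x hx, zero_smul]⟩

/-- the double centralizer -/
theorem mem_cc {U : Submodule K (L8 K)} (h : U ≤ tt K) {z : L8 K} (hz : InT z)
    (h0 : ∀ r : Fin chevE8.nroots, (∀ x ∈ U, rl x (vec chevE8 8 r) = 0) → rl z (vec chevE8 8 r) = 0) :
    z ∈ cen (cen (U : Set (L8 K)) : Set (L8 K)) := fun v hv => TwoH.br_comm_zero (by
  rw [(br_eq_smul (c := 0) hz).2 fun i hi => ?_, zero_smul]
  rcases i with i | r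
  · rw [wt_inl, map_zero]
  · exact h0 r ((mem_cen_T h).1 hv (Sum.inr r) hi))

theorem cc_le {U : Submodule K (L8 K)} (h : U ≤ tt K) : cen (cen (U : Set (L8 K)) : Set (L8 K)) ≤ tt K := fun z hz =>
  inT_iff.1 fun s => by
    by_contra hs
    have h1 : ∀ a : Q8, rl (hq K a) (vec chevE8 8 s) = 0 := fun a =>
      (br_eq_smul (inT_hq a)).1 (by
        rw [zero_smul]
        refine hz _ ((mem_cen_T h).2 fun i hi x _ => ?_)
        rw [Set.mem_singleton_iff.1 (inT_iff.1 (inT_hq a) i hi), map_zero]) (Sum.inr s) hs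
    obtain ⟨j, hj⟩ := exists_cartan_ne (K := K) s
    have h2 := h1 (sr (ix j))
    rw [rl_vec, rv_def, Finset.sum_eq_single j] at h2
    · refine hj ?_
      have h3 : hq K (sr (ix j)) (Sum.inl j) = 1 := by
        show (((sr (ix j) : Q8) (ix j) : ℤ) : K) = 1
        rw [Cfsg.Agent.Tits.Roots.sr_self, Int.cast_one]
      rwa [h3, mul_one] at h2
    · intro k _ hk
      have h3 : hq K (sr (ix j)) (Sum.inl k) = 0 := by
        show (((sr (ix j) : Q8) (ix k) : ℤ) : K) = 0
        rw [Cfsg.Agent.Tits.Roots.sr_ne fun e => hk (by rw [← xi_ix k, e, xi_ix]), Int.cast_zero]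
      rw [h3, mul_zero]
    · intro hh
      exact absurd (Finset.mem_univ j) hh

/-! ### the simple modules -/

section Mods

variable [CharP K 3]

theorem finrank3 {ι : K} {e h f : L8 K} (H : T3 (rp ψ) ι e h f) (h0 : e ≠ 0) :
    finrank K ↥(Submodule.span K {e, h, f}) = 3 := by
  have h1 := finrank_span_eq_card (t3b K _ _ ι e h f H h0).1
  rwa [Matrix.range_cons, Matrix.range_cons, Matrix.range_cons_empty, Set.singleton_union, Set.singleton_union,
    Fintype.card_fin] at h1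

theorem finrank4 {r : Fin 6 → Fin 6 → L8 K} (H : T4 (rp ψ) r) (h0 : r 0 1 ≠ 0) :
    finrank K ↥(Submodule.span K {r 0 1, r 0 2, r 0 3, r 0 4}) = 4 := by
  have h1 := finrank_span_eq_card (t4b K _ _ r H h0).1
  rwa [Matrix.range_cons, Matrix.range_cons, Matrix.range_cons, Matrix.range_cons_empty, Set.singleton_union,
    Set.singleton_union, Set.singleton_union, Fintype.card_fin] at h1

omit [CharP K 3] in
theorem span3_le {e h f : L8 K} {V : Submodule K (L8 K)} (he : e ∈ V) (hh : h ∈ V) (hf : f ∈ V) :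
    Submodule.span K {e, h, f} ≤ V := Submodule.span_le.2 (by rintro x (rfl | rfl | rfl) <;> assumption)

omit [CharP K 3] in
theorem span4_le {r : Fin 6 → Fin 6 → L8 K} {V : Submodule K (L8 K)} (h : ∀ i j, r i j ∈ V) :
    Submodule.span K {r 0 1, r 0 2, r 0 3, r 0 4} ≤ V := Submodule.span_le.2 (by rintro x (rfl | rfl | rfl | rfl) <;> exact h _ _)

theorem small [IsAlgClosed K] (hM : MOD.{u}) (hfx : NoFx ψ) {V : Submodule K (L8 K)} (hi : Inv ψ V)
    (hd : finrank K ↥V ≤ 2) : V = ⊥ := by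
  by_contra h0
  rcases hM K _ (rp ψ) V h0 hi with ⟨v, -, h1, h2⟩ | ⟨ι, e, h, f, H, h1, he, hh, hf⟩ | ⟨r, H, h1, h2⟩ | ⟨U, h1, -, h2, -⟩
  · exact h1 (hfx v h2)
  · have h3 := Submodule.finrank_mono (span3_le he hh hf)
    rw [finrank3 H h1] at h3
    omega
  · have h3 := Submodule.finrank_mono (span4_le h2)
    rw [finrank4 H h1] at h3
    omega
  · have h3 := Submodule.finrank_mono h1
    omega

end Mods

/-! ### multiplicities -/

/-- the multiplicity of a weight -/
noncomputable def mu {ι : Type} (b : ι → L8 K) (μ : ι → K) : ℕ := finrank K ↥(LS K {a | ∀ i, rl (b i) a = μ i})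

theorem mu_eq {ι : Type} (b : ι → L8 K) (μ : ι → K) (P : chevE8.Idx → Prop) [DecidablePred P]
    (hP : ∀ k, (∀ i, rl (b i) (wt k) = μ i) ↔ P k) : mu b μ = (Finset.univ.filter P).card := by
  classical
  rw [mu, finrank_LS]
  congr 1
  exact Finset.filter_congr fun k _ => hP k

theorem sum_mu_le {ι : Type} (b : ι → L8 K) (T : Finset (ι → K)) : ∑ p ∈ T, mu b p ≤ 248 := by
  classical
  obtain ⟨g, hg⟩ : ∃ g : chevE8.Idx → ι → K, g = fun k i => rl (b i) (wt k) := ⟨_, rfl⟩
  rw [Finset.sum_congr rfl fun p _ => mu_eq b p (fun k => g k = p) fun k => by rw [hg]; exact funext_iff.symm,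
    Finset.sum_card_fiberwise_eq_card_filter Finset.univ T g, ← card_idx]
  exact Finset.card_le_univ _

theorem mu_le {ι : Type} {b : ι → L8 K} (hb : ∀ i, InT (b i)) {g : G8 K} (hg : ∀ i, InT (act g (b i))) {μ μ' : ι → K}
    (h : ∀ a, (∀ i, rl (b i) a = μ i) → ∀ i, rl (act g (b i)) a = μ' i) : mu b μ ≤ mu b μ' := by
  unfold mu
  rw [← finrank_pb g⁻¹ (LS K {a | ∀ i, rl (b i) a = μ' i})]
  refine Submodule.finrank_mono fun v hv k hk i => (br_eq_smul (hb i)).1 (act_injective g ?_) k hk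
  rw [act_br, act_smul, LK_apply, act_inv']
  exact (br_eq_smul (hg i)).2 fun l hl => h _ (hv l hl) i

theorem rl_entry {g : G8 K} {x : L8 K} (hx : InT x) (hg : InT (act g x)) {k l : chevE8.Idx} (h : mx g k l ≠ 0) :
    rl (act g x) (wt k) = rl x (wt l) := by
  have h1 := congrFun (congrFun (adm_conj g x) k) l
  rw [adm_T hx, adm_T hg, Matrix.mul_diagonal, Matrix.diagonal_mul, mul_comm] at h1
  exact (mul_right_cancel₀ h h1).symm

/-! ### toral elements -/

theorem srefl_srefl (y : Q8) (j : Fin 8) : srefl chevE8 8 j (srefl chevE8 8 j y) = y := funext fun i => by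
  simp only [srefl, Int.cast_id, Two.cartan_self]
  ring

theorem mv_mem (y : Q8) : mv 3 y = 0 ∨ mv 3 y = 114 ∨ mv 3 y = 162 ∨ mv 3 y = 168 ∨ mv 3 y = 156 := by
  obtain ⟨a, y', h1, h2, h4⟩ := Lt.alcove (N := 3) (by norm_num) (P := fun y' => mv 3 y' = mv 3 y)
    (fun y' i h => le_antisymm (by have := Lt.mv_le 3 (srefl chevE8 8 i y') i; rwa [srefl_srefl, h] at this)
      (h ▸ Lt.mv_le 3 y' i)) rfl
  obtain ⟨x, hx, e⟩ := tb_all 3 (by decide) ⟨a 0, by omega⟩ ⟨a 1, by omega⟩ ⟨a 2, by omega⟩ ⟨a 3, by omega⟩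
    ⟨a 4, by omega⟩ ⟨a 5, by omega⟩ ⟨a 6, by omega⟩ ⟨a 7, by omega⟩ h1
  have e1 : (fun i : Fin 8 => ((x.1.getD i 0 : ℕ) : ℤ)) = fun i => (a i : ℤ) := by
    rw [e]
    funext i
    fin_cases i <;> rfl
  have h5 := tb_mv 3 (by decide) x hx
  have h7 : mv 3 y' = mv 3 fun i => (a i : ℤ) := by simp only [mv, Lt.ex_congr h4]
  rw [e1, ← h7, h2] at h5
  have h9 : ∀ x ∈ tb 3, x.2 = 248 ∨ x.2 = 134 ∨ x.2 = 86 ∨ x.2 = 80 ∨ x.2 = 92 := by decide
  have := h9 x hx
  omega

open Classical in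
/-- the centralizers of the toral elements -/
theorem cnt_toral [CharP K 3] {x : L8 K} (hx : InT x) (hs : sig x = x) (h0 : x ≠ 0) :
    (Finset.univ.filter fun k : chevE8.Idx => rl x (wt k) = 0).card ∈ [134, 86, 80, 92] := by
  have h1 : ∀ i, ∃ m : ℤ, (m : K) = rl x (sr i) := fun i => by
    rcases cube_eq (a := rl x (sr i)) (by rw [← rl_sig, hs]) with h | h | h
    · exact ⟨0, by rw [h, Int.cast_zero]⟩
    · exact ⟨1, by rw [h, Int.cast_one]⟩
    · exact ⟨-1, by rw [h, Int.cast_neg, Int.cast_one]⟩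
  choose y hy using h1
  have h2 : ∀ a, rl x a = ((ex y a : ℤ) : K) := fun a => by
    rw [Cfsg.Agent.H129.TorusChar.IsMC.eq_sum_sr a, map_sum, ← Cfsg.Agent.H129.TorusChar.IsMC.eq_sum_sr a, ex,
      Int.cast_sum]
    exact Finset.sum_congr rfl fun i _ => by rw [map_zsmul, ← hy, zsmul_eq_mul, Int.cast_mul]
  have h3 : ∀ k, rl x (wt k) = 0 ↔ ¬ ex y (wt k) % ((3 : ℕ) : ℤ) ≠ 0 := fun k => by
    rw [h2, CharP.intCast_eq_zero_iff K 3, not_not, Int.dvd_iff_emod_eq_zero]
  have h4 : mv 3 y + (Finset.univ.filter fun k : chevE8.Idx => rl x (wt k) = 0).card = 248 := by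
    rw [Finset.filter_congr fun k _ => h3 k, mv, Finset.card_filter_add_card_filter_not, Finset.card_univ, card_idx]
  have h5 : mv 3 y ≠ 0 := fun h => h0 (eq_zero_of_rl hx fun r => by
    rw [← rl_vec, ← wt_inr, h3]
    intro h6
    rw [mv, Finset.card_eq_zero, Finset.filter_eq_empty_iff] at h
    exact h (Finset.mem_univ (Sum.inr r)) h6)
  have h6 := mv_mem y
  simp only [List.mem_cons, List.not_mem_nil, or_false]
  omega

/-! ### signs -/

theorem exists_sign {X : Type*} (π : X → X) (h : ∀ x, π (π (π (π x))) = x) :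
    ∃ s : X → K, (∀ x, s x ≠ 0) ∧ ∀ x, π x ≠ x → s (π x) = -s x := by
  classical
  let _ : LinearOrder X := linearOrderOfSTO WellOrderingRel
  refine ⟨fun x => if min x (π (π x)) < min (π x) (π (π (π x))) then 1 else -1, fun x => ?_, fun x hx => ?_⟩
  · dsimp only
    split_ifs
    · exact one_ne_zero
    · exact neg_ne_zero.2 one_ne_zero
  · have h1 : min x (π (π x)) ≠ min (π x) (π (π (π x))) := by
      intro e
      apply hx
      rcases min_choice x (π (π x)) with a | a <;> rcases min_choice (π x) (π (π (π x))) with b | b <;> rw [a, b] at e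
      · exact e.symm
      · have := congrArg π e
        rwa [h] at this
      · have := congrArg (fun z => π (π (π z))) e
        simpa only [h] using this
      · have := congrArg (fun z => π (π z)) e
        simp only [h] at this
        exact this.symm
    dsimp only
    rw [h, min_comm (π (π x)) x]
    rcases lt_or_gt_of_ne h1 with h2 | h2
    · rw [if_pos h2, if_neg (not_lt.2 h2.le)]
    · rw [if_pos h2, if_neg (not_lt.2 h2.le), neg_neg]

end Cfsg.Agent.E8A.C63.Nt
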