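import Cfsg.Agent.E8A.C63.TorB

/-!
# The box NOTOR: no three-dimensional module in the Cartan subalgebra (helper97)

* `t3_sig`, `t3_six` : the module and its Frobenius twist span six dimensions;
* `orbit36` : the orbits on the weights have at least 36 elements; `t3_std` : `36 (4 + 2 + 1) > 248`;
* `orth_std` : orthogonal pairs of roots; `no_t3`.
-/

set_option autoImplicit false
set_option maxRecDepth 100000

namespace Cfsg.Agent.E8A.C63.Nt

open Cfsg Cfsg.Lie Module Matrix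
open Cfsg.Agent.H288.E8L (Q8 wt Rt act8 wt_inl wt_inr rt_vec vec_ne_zero exists_idx)
open Cfsg.Agent.H942.CB (W8 cs8)
open Cfsg.Agent.ChevalleyStructure.CoxeterGeomTypes (cartanOf)
open Cfsg.Agent.Tits.Roots (sr)
open Cfsg.Agent.Nodes.RGDChev (vec)
open Cfsg.Agent.Nodes.Reps Cfsg.Agent.Nodes.BNOf
open Cfsg.Agent.H897.T5Lat (bf_apply)
open Cfsg.Agent.E8A.Frm (B0 fm8 finW8)
open Cfsg.Agent.E8A.Kem (cw cw_apply Dm exists_dm)
open Cfsg.Agent.E8A.Inf (kf kf_comm kf_act kf_act')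
open Cfsg.Agent.E8A.TwoH (hq inT_hq rl_hq kf_T kf_hq rl_zero B0_vec)

universe u

variable {K : Type u} [Field K] [CharP K 3] {ψ : Alt 6 →* G8 K} {ι : K} {e h f : L8 K}

theorem t3_sig (H : T3 (rp ψ) ι e h f) (te : InT e) (th : InT h) (tf : InT f) :
    T3 (rp ψ) (-ι) (sig e) (sig h) (sig f) := by
  have c1 : ι ^ 3 = -ι := by linear_combination ι * H.sq
  have c2 : (-ι) ^ 3 = - -ι := by linear_combination (-ι) * H.sq
  have me := inT_iff.1 te
  have mh := inT_iff.1 th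
  have mf := inT_iff.1 tf
  exact
    { sq := by linear_combination H.sq
      ue := act_sig te te H.ue
      uh := (act_sig th (inT_iff.2 (add_mem mh me)) H.uh).trans (sig_add _ _)
      uf := (act_sig tf (inT_iff.2 (sub_mem (add_mem mf mh) me)) H.uf).trans (by rw [sig_sub, sig_add])
      ye := (act_sig te (inT_iff.2 (Submodule.smul_mem _ _ me)) H.ye).trans (by rw [sig_smul, c1])
      yh := act_sig th th H.yh
      yf := (act_sig tf (inT_iff.2 (Submodule.smul_mem _ _ mf)) H.yf).trans (by rw [sig_smul, c2])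
      de := (act_sig te (inT_iff.2 (neg_mem mf)) H.de).trans (sig_neg _)
      dh := (act_sig th (inT_iff.2 (neg_mem mh)) H.dh).trans (sig_neg _)
      df := (act_sig tf (inT_iff.2 (neg_mem me)) H.df).trans (sig_neg _) }

/-- the module and its twist -/
def U6 (e h f : L8 K) : Submodule K (L8 K) := Submodule.span K {e, h, f} ⊔ Submodule.span K {sig e, sig h, sig f}

theorem U6_le (te : InT e) (th : InT h) (tf : InT f) : U6 e h f ≤ tt K :=
  sup_le (span3_le (inT_iff.1 te) (inT_iff.1 th) (inT_iff.1 tf))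
    (span3_le (inT_iff.1 (sig_inT te)) (inT_iff.1 (sig_inT th)) (inT_iff.1 (sig_inT tf)))

theorem U6_inv (H : T3 (rp ψ) ι e h f) (h0 : e ≠ 0) (te : InT e) (th : InT h) (tf : InT f) : Inv ψ (U6 e h f) :=
  inv_sup (t3b K _ _ _ _ _ _ H h0).2.1 (t3b K _ _ _ _ _ _ (t3_sig H te th tf) (sig_ne h0)).2.1

theorem t3_six (H : T3 (rp ψ) ι e h f) (h0 : e ≠ 0) (te : InT e) (th : InT h) (tf : InT f) :
    finrank K ↥(U6 e h f) = 6 := by
  have H' := t3_sig H te th tf
  have h1 := Submodule.finrank_sup_add_finrank_inf_eq (Submodule.span K {e, h, f}) (Submodule.span K {sig e, sig h, sig f})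
  have h2 : Submodule.span K {e, h, f} ⊓ Submodule.span K {sig e, sig h, sig f} = ⊥ := by
    refine (Submodule.eq_bot_iff _).2 fun w hw => ?_
    obtain ⟨a, b, c, rfl⟩ := Submodule.mem_span_triple.1 hw.1
    rcases H.key (t3b K _ _ _ _ _ _ H' (sig_ne h0)).2.1 hw.2 with h3 | ⟨rfl, rfl, rfl⟩
    · exfalso
      obtain ⟨a', b', c', h4⟩ := Submodule.mem_span_triple.1 h3
      have h5 : (b' - c') • sig e + c' • sig h + (0 : K) • sig f ∈ (⊥ : Submodule K (L8 K)) := by
        have h6 := H.ue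
        rw [← h4, map_add, map_add, map_smul, map_smul, map_smul, H'.ue, H'.uh, H'.uf] at h6
        rw [Submodule.mem_bot]
        linear_combination (norm := module) h6
      rcases H'.key Md.invR_bot h5 with h6 | ⟨h6, h7, -⟩
      · exact sig_ne h0 h6
      · have h8 : e = a' • sig e := by
          rw [h7, sub_zero] at h6
          rw [h6, h7, zero_smul, zero_smul, add_zero, add_zero] at h4
          exact h4.symm
        have h9 := H.ye
        rw [h8, map_smul, H'.ye, smul_comm, ← h8] at h9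
        have h10 : (2 * ι) • e = 0 := by linear_combination (norm := module) -h9
        rcases mul_eq_zero.1 ((smul_eq_zero.1 h10).resolve_right h0) with h11 | h11
        · exact two_ne h11
        · have h12 := H.sq
          rw [h11, zero_mul] at h12
          exact one_ne_zero (neg_eq_zero.1 h12.symm)
    · simp
  rw [h2, finrank_bot, finrank3 H h0, finrank3 H' (sig_ne h0)] at h1
  exact h1

theorem U6_rl {a : Q8} (h1 : rl e a = 0) (h2 : rl h a = 0) (h3 : rl f a = 0) : ∀ x ∈ U6 e h f, rl x a = 0 := by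
  have h4 : U6 e h f ≤ LinearMap.ker (kf K (hq K a)) := by
    refine sup_le (span3_le ?_ ?_ ?_) (span3_le ?_ ?_ ?_) <;> rw [LinearMap.mem_ker, kf_hq]
    · exact h1
    · exact h2
    · exact h3
    · rw [rl_sig, h1, zero_pow three_ne_zero]
    · rw [rl_sig, h2, zero_pow three_ne_zero]
    · rw [rl_sig, h3, zero_pow three_ne_zero]
  intro x hx
  rw [← kf_hq]
  exact h4 hx

omit [CharP K 3] in
theorem hq_mem {U : Submodule K (L8 K)} {a : Q8} (ha : ∀ x ∈ U, rl x a = 0) : hq K a ∈ tt K ⊓ pp U :=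
  ⟨inT_iff.1 (inT_hq a), fun x hx => by
    show kf K x (hq K a) = 0
    rw [kf_comm, kf_hq, ha x hx]⟩

omit [CharP K 3] in
theorem span_pair_eq {Y : Submodule K (L8 K)} (hY : finrank K ↥Y = 2) {x y : L8 K} (hx : x ∈ Y) (hy : y ∈ Y)
    (hi : ∀ s t : K, s • x + t • y = 0 → s = 0 ∧ t = 0) {z : L8 K} (hz : z ∈ Y) : ∃ s t : K, s • x + t • y = z := by
  have h1 := finrank_span_eq_card (LinearIndependent.pair_iff.2 hi)
  rw [Matrix.range_cons, Matrix.range_cons_empty, Set.singleton_union, Fintype.card_fin] at h1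
  have h2 : Submodule.span K {x, y} = Y :=
    Submodule.eq_of_le_of_finrank_eq (Submodule.span_le.2 (by rintro _ (rfl | rfl) <;> assumption)) (h1.trans hY.symm)
  exact Submodule.mem_span_pair.1 (h2 ▸ hz)

/-! ### the orbits on the weights -/

theorem orbit36 (hι : ι * ι = -1) {m : K → K → K → ℕ} (hu : ∀ x y z, m x y z ≤ m x (y + x) (z + y - x))
    (hy : ∀ x y z, m x y z ≤ m (ι * x) y (-ι * z)) (hd : ∀ x y z, m x y z ≤ m (-z) (-y) (-x)) {x y z : K}
    (h0 : ¬ (x = 0 ∧ y = 0 ∧ z = 0)) :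
    ∃ T : Finset (Fin 3 → K), T.card = 36 ∧ ∀ p ∈ T, m (p 0) (p 1) (p 2) = m x y z := by
  classical
  have t3 : (3 : K) = 0 := three_eq
  have hu' : ∀ x y z, m x (y + x) (z + y - x) = m x y z := fun x y z => le_antisymm (by
    have h1 := (hu x (y + x) (z + y - x)).trans (hu _ _ _)
    rwa [show y + x + x + x = y by linear_combination x * t3,
      show z + y - x + (y + x) - x + (y + x + x) - x = z by linear_combination y * t3] at h1) (hu x y z)
  have hy' : ∀ x y z, m (ι * x) y (-ι * z) = m x y z := fun x y z => le_antisymm (by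
    have h1 := ((hy (ι * x) y (-ι * z)).trans (hy _ _ _)).trans (hy _ _ _)
    rwa [show ι * (ι * (ι * (ι * x))) = x by linear_combination (ι * ι - 1) * x * hι,
      show -ι * (-ι * (-ι * (-ι * z))) = z by linear_combination (ι * ι - 1) * z * hι] at h1) (hy x y z)
  have hd' : ∀ x y z, m (-z) (-y) (-x) = m x y z := fun x y z => le_antisymm (by
    have h1 := hd (-z) (-y) (-x)
    rwa [neg_neg, neg_neg, neg_neg] at h1) (hd x y z)
  obtain ⟨x', y', z', hx, he⟩ : ∃ x' y' z', x' ≠ 0 ∧ m x' y' z' = m x y z := by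
    by_cases h1 : x = 0
    · by_cases h2 : z = 0
      · refine ⟨-(z + y - x), _, _, fun h3 => h0 ⟨h1, ?_, h2⟩, (hd' _ _ _).trans (hu' x y z)⟩
        linear_combination -h3 - h2 + h1
      · exact ⟨-z, _, _, neg_ne_zero.2 h2, hd' x y z⟩
    · exact ⟨x, y, z, h1, rfl⟩
  have A : ∀ (n : ℕ) x y z, ∃ z', m x (y + n * x) z' = m x y z := fun n x y z => by
    induction n with
    | zero => exact ⟨z, by rw [Nat.cast_zero, zero_mul, add_zero]⟩
    | succ n ih =>
      obtain ⟨z', hz⟩ := ih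
      exact ⟨_, by rw [Nat.cast_succ, add_mul, one_mul, ← add_assoc, ← hz]; exact hu' x _ z'⟩
  have B : ∀ (n : ℕ) x y z, ∃ z', m (ι ^ n * x) y z' = m x y z := fun n x y z => by
    induction n with
    | zero => exact ⟨z, by rw [pow_zero, one_mul]⟩
    | succ n ih =>
      obtain ⟨z', hz⟩ := ih
      exact ⟨_, by rw [pow_succ', mul_assoc, ← hz]; exact hy' _ y z'⟩
  have C : ∀ q : Fin 4 × Fin 3 × Fin 3, ∃ z'',
      m (ι ^ q.1.val * x') (y' + (q.2.1.val + q.2.2.val * ι) * x') z'' = m x y z := by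
    rintro ⟨c, a, b⟩
    obtain ⟨z1, h1⟩ := A a x' y' z'
    obtain ⟨z2, h2⟩ := B 1 x' (y' + a * x') z1
    obtain ⟨z3, h3⟩ := A b (ι ^ 1 * x') (y' + a * x') z2
    obtain ⟨z4, h4⟩ := B (3 + c) (ι ^ 1 * x') (y' + a * x' + b * (ι ^ 1 * x')) z3
    refine ⟨z4, ?_⟩
    rw [← he, ← h1, ← h2, ← h3, ← h4]
    congr 1
    · show ι ^ c.val * x' = _
      linear_combination (-(ι * ι - 1) * ι ^ c.val * x') * hι
    · ring
  choose Z hZ using C
  have hp : IsPrimitiveRoot ι 4 := IsPrimitiveRoot.mk_of_lt ι (by norm_num) (by linear_combination (ι * ι - 1) * hι)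
    fun l h1 h2 h3 => two_ne (K := K) (by
      interval_cases l
      · linear_combination hι - (ι + 1) * h3
      · linear_combination hι - h3
      · linear_combination (ι ^ 4 - ι ^ 2 + 1) * hι - (ι ^ 3 + 1) * h3)
  have hz : ∀ a a' b b' : Fin 3, (3 : ℤ) ∣ ((a.val : ℤ) - a'.val) ^ 2 + ((b.val : ℤ) - b'.val) ^ 2 → a = a' ∧ b = b' := by
    decide
  have hF : Function.Injective fun q : Fin 4 × Fin 3 × Fin 3 =>
      (![ι ^ q.1.val * x', y' + (q.2.1.val + q.2.2.val * ι) * x', Z q] : Fin 3 → K) := by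
    rintro ⟨c, a, b⟩ ⟨c', a', b'⟩ hq
    have h1 : ι ^ c.val * x' = ι ^ c'.val * x' := congrFun hq 0
    have h2 : y' + (a.val + b.val * ι) * x' = y' + (a'.val + b'.val * ι) * x' := congrFun hq 1
    have h3 : (a.val : K) + b.val * ι = a'.val + b'.val * ι := mul_right_cancel₀ hx (add_left_cancel h2)
    obtain ⟨h4, h5⟩ := hz a a' b b' ((CharP.intCast_eq_zero_iff K 3 _).1 (by
      push_cast
      linear_combination ((a.val : K) - a'.val - (b.val - b'.val) * ι) * h3 + ((b.val : K) - b'.val) ^ 2 * hι))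
    rw [Fin.ext (hp.pow_inj c.2 c'.2 (mul_right_cancel₀ hx h1)), h4, h5]
  refine ⟨Finset.univ.image _, by rw [Finset.card_image_of_injective _ hF]; rfl, fun p hp => ?_⟩
  obtain ⟨q, -, rfl⟩ := Finset.mem_image.1 hp
  exact hZ q

/-! ### the standard pair -/

/-- the highest root -/
def θ0 : Q8 := ![2, 3, 4, 6, 5, 4, 3, 2]

/-- the highest root of `E₇` -/
def θ1 : Q8 := ![2, 2, 3, 4, 3, 2, 1, 0]

/-- congruence modulo the two roots and three -/
def Cg (a : Q8) : Prop := ∀ k, (a k + a 7 * θ0 k - a 6 * θ1 k) % 3 = 0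

/-- decidability -/
instance decCg : DecidablePred Cg := fun _ => Fintype.decidableForallFintype

theorem cnt_cg : (Finset.univ.filter fun k : chevE8.Idx => Cg (wt k - sr 7)).card = 4 ∧
    (Finset.univ.filter fun k : chevE8.Idx => Cg (wt k - sr 0)).card = 2 ∧
    (Finset.univ.filter fun k : chevE8.Idx => Cg (wt k - sr 6)).card = 1 ∧
    ¬ Cg (sr 7) ∧ ¬ Cg (sr 0) ∧ ¬ Cg (sr 6) := by decide +kernel

theorem rl_of_cg {a : Q8} (ha : Cg a) {x : L8 K} (h0 : rl x θ0 = 0) (h1 : rl x θ1 = 0) : rl x a = 0 := by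
  have h2 : a = (3 : ℤ) • (fun k => (a k + a 7 * θ0 k - a 6 * θ1 k) / 3) - a 7 • θ0 + a 6 • θ1 := funext fun k => by
    have := ha k
    simp only [Pi.add_apply, Pi.sub_apply, Pi.smul_apply, smul_eq_mul]
    omega
  rw [h2, map_add, map_sub, map_zsmul, map_zsmul, map_zsmul, h0, h1, zsmul_eq_mul, Int.cast_ofNat, three_eq]
  simp

theorem cg_of_hq {a : Q8} {s t : K} (hh : s • hq K θ0 + t • hq K θ1 = hq K a) : Cg a := fun k => by
  have t3 : (3 : K) = 0 := three_eq
  have h1 : ∀ j : Fin 8, s * (θ0 j : K) + t * (θ1 j : K) = (a j : K) := fun j => congrFun hh (Sum.inl (xi j))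
  have h6 : s * ((3 : ℤ) : K) + t * ((1 : ℤ) : K) = (a 6 : K) := h1 6
  have h7 : s * ((2 : ℤ) : K) + t * ((0 : ℤ) : K) = (a 7 : K) := h1 7
  refine Int.emod_eq_zero_of_dvd ((CharP.intCast_eq_zero_iff K 3 _).1 ?_)
  push_cast at h6 h7 ⊢
  linear_combination -h1 k - (θ0 k : K) * h7 + (θ1 k : K) * h6 + (s * (θ0 k : K) - s * (θ1 k : K)) * t3

theorem t3_std (H : T3 (rp ψ) ι e h f) (h0 : e ≠ 0) (te : InT e) (th : InT h) (tf : InT f)
    (a0 : ∀ x ∈ U6 e h f, rl x θ0 = 0) (a1 : ∀ x ∈ U6 e h f, rl x θ1 = 0) : False := by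
  classical
  have hY := finrank_pp (U6_le te th tf)
  rw [t3_six H h0 te th tf] at hY
  have me : e ∈ U6 e h f := Submodule.mem_sup_left (Submodule.subset_span (by simp))
  have mh : h ∈ U6 e h f := Submodule.mem_sup_left (Submodule.subset_span (by simp))
  have mf : f ∈ U6 e h f := Submodule.mem_sup_left (Submodule.subset_span (by simp))
  have key : ∀ a, rl e a = 0 ∧ rl h a = 0 ∧ rl f a = 0 ↔ Cg a := fun a => by
    refine ⟨fun ⟨h1, h2, h3⟩ => ?_, fun ha => ⟨rl_of_cg ha (a0 e me) (a1 e me), rl_of_cg ha (a0 h mh) (a1 h mh),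
      rl_of_cg ha (a0 f mf) (a1 f mf)⟩⟩
    obtain ⟨s, t, hh⟩ := span_pair_eq (by omega) (hq_mem a0) (hq_mem a1) (fun s t hh => by
      have h6 : s * ((3 : ℤ) : K) + t * ((1 : ℤ) : K) = 0 := congrFun hh (Sum.inl (xi 6))
      have h7 : s * ((2 : ℤ) : K) + t * ((0 : ℤ) : K) = 0 := congrFun hh (Sum.inl (xi 7))
      push_cast at h6 h7
      have t3 : (3 : K) = 0 := three_eq
      exact ⟨by linear_combination -h7 + s * t3, by linear_combination h6 - s * t3⟩) (hq_mem (U6_rl h1 h2 h3))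
    exact cg_of_hq hh
  have hb : ∀ i, InT (![e, h, f] i) := fun i => by
    fin_cases i
    exacts [te, th, tf]
  have ke := inT_iff.1 te
  have kh := inT_iff.1 th
  have kf' := inT_iff.1 tf
  have gen : ∀ (g : Alt 6) (e' h' f' : L8 K) (x y z x' y' z' : K), rp ψ g e = e' → rp ψ g h = h' → rp ψ g f = f' →
      e' ∈ tt K → h' ∈ tt K → f' ∈ tt K →
      (∀ a, rl e a = x → rl h a = y → rl f a = z → rl e' a = x' ∧ rl h' a = y' ∧ rl f' a = z') →
      mu ![e, h, f] ![x, y, z] ≤ mu ![e, h, f] ![x', y', z'] := by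
    rintro g _ _ _ x y z x' y' z' rfl rfl rfl k1 k2 k3 k4
    refine mu_le hb (g := ψ g) (fun i => ?_) fun a ha i => ?_
    · fin_cases i
      exacts [inT_iff.2 k1, inT_iff.2 k2, inT_iff.2 k3]
    · obtain ⟨l1, l2, l3⟩ := k4 a (ha 0) (ha 1) (ha 2)
      fin_cases i
      exacts [l1, l2, l3]
  have O := fun x y z => orbit36 H.sq (m := fun x y z => mu ![e, h, f] ![x, y, z])
    (fun x y z => gen uu _ _ _ _ _ _ _ _ _ H.ue H.uh H.uf ke (add_mem kh ke) (sub_mem (add_mem kf' kh) ke)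
      fun a h1 h2 h3 => ⟨h1, by rw [rl_add, h1, h2], by rw [rl_sub, rl_add, h1, h2, h3]⟩)
    (fun x y z => gen yy _ _ _ _ _ _ _ _ _ H.ye H.yh H.yf (Submodule.smul_mem _ _ ke) kh (Submodule.smul_mem _ _ kf')
      fun a h1 h2 h3 => ⟨by rw [rl_smul, h1], h2, by rw [rl_smul, h3]⟩)
    (fun x y z => gen dd _ _ _ _ _ _ _ _ _ H.de H.dh H.df (neg_mem kf') (neg_mem kh) (neg_mem ke)
      fun a h1 h2 h3 => ⟨by rw [rl_neg, h3], by rw [rl_neg, h2], by rw [rl_neg, h1]⟩) (x := x) (y := y) (z := z)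
  have P : ∀ (c : Q8) (n : ℕ), (Finset.univ.filter fun k : chevE8.Idx => Cg (wt k - c)).card = n → ¬ Cg c →
      ∃ T : Finset (Fin 3 → K), T.card = 36 ∧ ∀ p ∈ T, mu ![e, h, f] p = n := fun c n hn hc => by
    obtain ⟨T, h1, h2⟩ := O (rl e c) (rl h c) (rl f c) fun h1 => hc ((key c).1 h1)
    refine ⟨T, h1, fun p hp => ?_⟩
    have h3 : p = ![p 0, p 1, p 2] := by
      funext i
      fin_cases i <;> rfl
    rw [h3, h2 p hp, ← hn]
    refine mu_eq _ _ _ fun k => ?_
    rw [← key, map_sub, map_sub, map_sub, sub_eq_zero, sub_eq_zero, sub_eq_zero, Fin.forall_fin_succ,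
      Fin.forall_fin_two]
    rfl
  obtain ⟨n4, n2, n1, c4, c2, c1⟩ := cnt_cg
  obtain ⟨T4, d4, e4⟩ := P _ _ n4 c4
  obtain ⟨T2, d2, e2⟩ := P _ _ n2 c2
  obtain ⟨T1, d1, e1⟩ := P _ _ n1 c1
  have j1 : Disjoint T4 T2 := Finset.disjoint_left.2 fun p h1 h2 => by have := e4 p h1; have := e2 p h2; omega
  have j2 : Disjoint (T4 ∪ T2) T1 := Finset.disjoint_left.2 fun p h1 h2 => by
    have := e1 p h2
    rcases Finset.mem_union.1 h1 with h3 | h3
    · have := e4 p h3; omega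
    · have := e2 p h3; omega
  have S := sum_mu_le ![e, h, f] (T4 ∪ T2 ∪ T1)
  rw [Finset.sum_union j2, Finset.sum_union j1, Finset.sum_congr rfl e4, Finset.sum_congr rfl e2,
    Finset.sum_congr rfl e1, Finset.sum_const, Finset.sum_const, Finset.sum_const, d4, d2, d1] at S
  exact absurd S (by decide)

theorem B0_sr (a : Q8) (j : Fin 8) : B0 a (sr j) = ∑ i, a i * cartanOf chevE8 8 i j := by
  rw [bf_apply]
  refine Finset.sum_congr rfl fun i _ => ?_
  rw [Finset.sum_eq_single j, Cfsg.Agent.Tits.Roots.sr_self, mul_one]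
  · intro k _ hk
    rw [Cfsg.Agent.Tits.Roots.sr_ne hk, mul_zero]
  · intro hj
    exact absurd (Finset.mem_univ j) hj

theorem dom_tab : ∀ r : Fin chevE8.nroots,
    ((∀ j, -1 ≤ 3 * ∑ i, vec chevE8 8 r i * cartanOf chevE8 8 i j + 1) → vec chevE8 8 r = θ0) ∧
    (∀ j, ∑ i, vec chevE8 8 r i * cartanOf chevE8 8 i j ≤ 2) ∧
    ((∀ j, 0 ≤ 3 * ∑ i, θ0 i * cartanOf chevE8 8 i j + ∑ i, vec chevE8 8 r i * cartanOf chevE8 8 i j) →
      vec chevE8 8 r 7 = 0 → vec chevE8 8 r = θ1) := by decide +kernel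

theorem B0_θ0 (a : Q8) : B0 θ0 a = a 7 := by
  have h1 : ∀ j, ∑ i, θ0 i * cartanOf chevE8 8 i j = if j = 7 then 1 else 0 := by decide +kernel
  rw [bf_apply, Finset.sum_comm]
  simp only [← Finset.sum_mul, h1]
  simp

/-- orthogonal pairs of roots -/
theorem orth_std {a b : Q8} (ha : Rt a) (hb : Rt b) (hab : B0 a b = 0) :
    ∃ w : W8, act8 w a = θ0 ∧ act8 w b = θ1 := by
  have := finW8
  obtain ⟨w, hw⟩ := exists_dm ((Int.castAddHom ℝ).comp ((3 : ℤ) • B0 a + B0 b).toAddMonoidHom)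
  obtain ⟨r, hr⟩ := exists_idx (ha.act w⁻¹)
  obtain ⟨s, hs⟩ := exists_idx (hb.act w⁻¹)
  have hr' : vec chevE8 8 r = act8 w⁻¹ a := hr
  have hs' : vec chevE8 8 s = act8 w⁻¹ b := hs
  have h1 : ∀ x y, B0 x (act8 w y) = B0 (act8 w⁻¹ x) y := fun x y => by
    rw [← fm8.inv w (act8 w⁻¹ x) y]
    exact congrArg (B0 · _) (act8_act_inv w x).symm
  have h2 : ∀ j, 0 ≤ 3 * ∑ i, vec chevE8 8 r i * cartanOf chevE8 8 i j +
      ∑ i, vec chevE8 8 s i * cartanOf chevE8 8 i j := fun j => by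
    have h3 : (0 : ℝ) ≤ ((3 * B0 a (act8 w (sr j)) + B0 b (act8 w (sr j)) : ℤ) : ℝ) := hw j
    rw [h1, h1, ← hr', ← hs', B0_sr, B0_sr] at h3
    exact_mod_cast h3
  have h4 := (dom_tab r).1 fun j => by have := h2 j; have := (dom_tab s).2.1 j; omega
  refine ⟨w⁻¹, hr'.symm.trans h4, hs'.symm.trans ((dom_tab s).2.2 (by rw [← h4]; exact h2) ?_)⟩
  rw [← B0_θ0 (vec chevE8 8 s), ← h4, hr', hs', ← hab]
  exact fm8.inv w⁻¹ a b

/-- **no three-dimensional module in the Cartan subalgebra** -/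
theorem no_t3 [IsAlgClosed K] (hM : MOD.{u}) (hfx : NoFx ψ) (H : T3 (rp ψ) ι e h f) (h0 : e ≠ 0) (te : InT e)
    (th : InT h) (tf : InT f) : False := by
  have := finW8
  have t3 : (3 : K) = 0 := three_eq
  have hU := U6_le te th tf
  have hi := U6_inv H h0 te th tf
  have hY := finrank_pp hU
  rw [t3_six H h0 te th tf] at hY
  have hY2 : finrank K ↥(tt K ⊓ pp (U6 e h f)) = 2 := by omega
  have hZ := small hM hfx (inv_inf (inv_cen (inv_cen hi)) (inv_pp hi))
    ((Submodule.finrank_mono (inf_le_inf_right _ (cc_le hU))).trans hY2.le)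
  have key : ∀ x ∈ tt K ⊓ pp (U6 e h f), x ≠ 0 → ∃ r : Fin chevE8.nroots,
      (∀ u ∈ U6 e h f, rl u (vec chevE8 8 r) = 0) ∧ rl x (vec chevE8 8 r) ≠ 0 := fun x hx hx0 => by
    by_contra hc
    push Not at hc
    exact hx0 ((Submodule.eq_bot_iff _).1 hZ x ⟨mem_cc hU (inT_iff.2 hx.1) hc, hx.2⟩)
  obtain ⟨x₁, h1, h2⟩ := (Submodule.ne_bot_iff (tt K ⊓ pp (U6 e h f))).1 fun hb => by
    rw [hb, finrank_bot] at hY2
    omega
  obtain ⟨a, ha, -⟩ := key x₁ h1 h2
  have aa : rl (hq K (vec chevE8 8 a)) (vec chevE8 8 a) = 2 := by rw [rl_hq, B0_vec]; norm_num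
  obtain ⟨y, hy, hy'⟩ : ∃ y ∈ tt K ⊓ pp (U6 e h f), y ∉ Submodule.span K {hq K (vec chevE8 8 a)} := by
    by_contra hc
    push Not at hc
    have h3 := (Submodule.finrank_mono hc).trans (finrank_span_le_card _)
    rw [hY2, Set.toFinset_singleton, Finset.card_singleton] at h3
    omega
  obtain ⟨b, hb, hb'⟩ := key (y + rl y (vec chevE8 8 a) • hq K (vec chevE8 8 a))
    (add_mem hy (Submodule.smul_mem _ _ (hq_mem ha))) fun h3 => hy' (by
      rw [eq_neg_of_add_eq_zero_left h3]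
      exact neg_mem (Submodule.smul_mem _ _ (Submodule.mem_span_singleton_self _)))
  obtain ⟨x₂, hx₂⟩ : ∃ x₂, x₂ = y + rl y (vec chevE8 8 a) • hq K (vec chevE8 8 a) := ⟨_, rfl⟩
  rw [← hx₂] at hb'
  have ha' : rl x₂ (vec chevE8 8 a) = 0 := by
    rw [hx₂, rl_add, rl_smul, aa]
    linear_combination rl y (vec chevE8 8 a) * t3
  have hind : ∀ s t : K, s • hq K (vec chevE8 8 a) + t • hq K (vec chevE8 8 b) = 0 → s = 0 ∧ t = 0 := fun s t hh => by
    have h3 := congrArg (fun z => kf K z x₂) hh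
    simp only [map_add, map_smul, LinearMap.add_apply, LinearMap.smul_apply, kf_hq, ha', smul_eq_mul, mul_zero,
      zero_add, map_zero, LinearMap.zero_apply] at h3
    have h4 := (mul_eq_zero.1 h3).resolve_right hb'
    rw [h4, zero_smul, add_zero] at hh
    have h5 := congrArg (fun z => rl z (vec chevE8 8 a)) hh
    simp only [rl_smul, aa, rl_zero] at h5
    exact ⟨(mul_eq_zero.1 h5).resolve_right two_ne, h4⟩
  have hk : |B0 (vec chevE8 8 a) (vec chevE8 8 b)| ≤ 1 := by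
    rw [fm8.cpr _ _ (rt_vec b)]
    exact fm8.sl _ _ (rt_vec a) (rt_vec b) (fun e' => hb' (e' ▸ ha')) fun e' => hb' (by
      rw [e', map_neg, neg_eq_zero] at ha'
      exact ha')
  have hab : B0 (vec chevE8 8 a) (vec chevE8 8 b) = 0 := by
    by_contra hc
    obtain ⟨k, hk'⟩ : ∃ k : K, k = (B0 (vec chevE8 8 a) (vec chevE8 8 b) : ℤ) := ⟨_, rfl⟩
    have kk : k * k = 1 := by
      have h3 : B0 (vec chevE8 8 a) (vec chevE8 8 b) = 1 ∨ B0 (vec chevE8 8 a) (vec chevE8 8 b) = -1 := by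
        have := abs_le.1 hk
        omega
      rcases h3 with h3 | h3 <;> rw [hk', h3] <;> simp
    obtain ⟨c, hc1, hc2⟩ := key (hq K (vec chevE8 8 a) + k • hq K (vec chevE8 8 b))
      (add_mem (hq_mem ha) (Submodule.smul_mem _ _ (hq_mem hb))) fun h3 =>
        one_ne_zero (hind 1 k (by rw [one_smul, h3])).1
    obtain ⟨s, t, hh⟩ := span_pair_eq hY2 (hq_mem ha) (hq_mem hb) hind (hq_mem hc1)
    apply hc2
    rw [← kf_hq, ← hh]
    simp only [map_add, map_smul, LinearMap.add_apply, LinearMap.smul_apply, kf_hq, rl_hq, B0_vec, smul_eq_mul,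
      fm8.symm (vec chevE8 8 b) (vec chevE8 8 a), ← hk']
    push_cast
    linear_combination s * kk + (s + t * k) * t3
  obtain ⟨w, w0, w1⟩ := orth_std (rt_vec a) (rt_vec b) hab
  obtain ⟨n, hn⟩ : ∃ n : G8 K, RepK w n := exists_rp cs8 (nsysK K) w
  have me : e ∈ U6 e h f := Submodule.mem_sup_left (Submodule.subset_span (by simp))
  have mh : h ∈ U6 e h f := Submodule.mem_sup_left (Submodule.subset_span (by simp))
  have mf : f ∈ U6 e h f := Submodule.mem_sup_left (Submodule.subset_span (by simp))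
  refine t3_std (H.cj n) (fun h3 => h0 (act_eq_zero h3)) (RepK.inT hn te) (RepK.inT hn th) (RepK.inT hn tf)
    (U6_rl ?_ ?_ ?_) (U6_rl ?_ ?_ ?_)
  · rw [← w0, RepK.rl hn te, ha e me]
  · rw [← w0, RepK.rl hn th, ha h mh]
  · rw [← w0, RepK.rl hn tf, ha f mf]
  · rw [← w1, RepK.rl hn te, hb e me]
  · rw [← w1, RepK.rl hn th, hb h mh]
  · rw [← w1, RepK.rl hn tf, hb f mf]

end Cfsg.Agent.E8A.C63.Nt
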