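import Cfsg.Agent.E8A.C63.TorC

/-!
# The box NOTOR (helper97)

* `t4_num` : the multiplicities of the weights of a rational four-dimensional module; `t4_phi` : no root vanishes on it;
* `t4_end` : the fixed spaces of `y` and `-y`; `notor_of : MOD → NOTOR`.
-/

set_option autoImplicit false
set_option maxRecDepth 100000

namespace Cfsg.Agent.E8A.C63

namespace Nt

open Cfsg Cfsg.Lie Module Matrix
open Cfsg.Agent.H288.E8L (Q8 wt wt_inl wt_inr vec_ne_zero)
open Cfsg.Agent.Nodes.RGDChev (vec)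
open Cfsg.Agent.E8A.Inf (kf kf_comm kf_act kf_act')
open Cfsg.Agent.E8A.TwoH (hq inT_hq rl_hq kf_T kf_hq rl_zero B0_vec)

universe u

/-! ### the weights over the prime field -/

/-- the six coordinates -/
def ext (p : Fin 4 → ZMod 3) : Fin 6 → ZMod 3 := ![0, p 0, p 1, p 2, p 3, -(p 0 + p 1 + p 2 + p 3)]

/-- the middle indices -/
def i4 : Fin 4 → Fin 6 := ![1, 2, 3, 4]

/-- the action on the weights -/
def Ta (π : Fin 6 → Fin 6) (p : Fin 4 → ZMod 3) : Fin 4 → ZMod 3 := fun j => ext p (π (i4 j)) - ext p (π 0)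

/-- the generators -/
def gs : Fin 3 → Alt 6 := ![uu, yy, dd]

/-- the action of a word -/
def Tw (w : List (Fin 3)) (p : Fin 4 → ZMod 3) : Fin 4 → ZMod 3 :=
  w.foldl (fun q i => Ta (gs i : Equiv.Perm (Fin 6)) q) p

/-- the orbits -/
def typ (p : Fin 4 → ZMod 3) : Fin 4 :=
  (![0, 2, 3, 1, 2, 0, 0] : Fin 7 → Fin 4) ⟨(Finset.univ.filter fun i => ext p i = 0).card,
    Nat.lt_succ_of_le (Finset.card_le_univ _)⟩

/-- their representatives -/
def rep4 : Fin 4 → Fin 4 → ZMod 3 := ![![0, 0, 0, 0], ![0, 0, 1, 1], ![0, 0, 0, 1], ![0, 1, 1, 2]]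

/-- the words -/
def wds : List (List (Fin 3)) :=
  [[], [0], [1], [2], [0, 0], [0, 1], [0, 2], [1, 1], [1, 2], [2, 1], [0, 0, 1], [0, 0, 2], [0, 1, 2], [0, 2, 1], [1, 0, 0],
   [1, 0, 1], [1, 0, 2], [2, 0, 1], [0, 0, 1, 2], [0, 0, 2, 1], [0, 1, 0, 0], [0, 1, 0, 2], [0, 2, 0, 1], [1, 0, 0, 1],
   [1, 0, 0, 2], [1, 0, 1, 2], [1, 0, 2, 1], [1, 2, 0, 1], [2, 0, 0, 1], [2, 0, 1, 2], [2, 0, 2, 1], [2, 1, 0, 1],
   [0, 0, 1, 0, 2], [0, 0, 2, 0, 1], [0, 1, 0, 0, 2], [0, 1, 0, 1, 2], [0, 1, 2, 0, 1], [0, 2, 0, 0, 1], [0, 2, 0, 1, 2],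
   [0, 2, 1, 0, 1], [1, 0, 0, 1, 2], [1, 0, 0, 2, 1], [1, 0, 1, 0, 2], [1, 0, 2, 0, 1], [1, 2, 0, 0, 1], [1, 2, 0, 2, 1],
   [2, 0, 1, 0, 2], [0, 0, 1, 0, 0, 2], [0, 0, 1, 2, 0, 1], [0, 0, 2, 0, 1, 2], [0, 0, 2, 1, 0, 1], [0, 1, 2, 0, 0, 1],
   [0, 1, 2, 0, 2, 1], [0, 2, 0, 1, 0, 2], [1, 0, 1, 2, 0, 1], [0, 0, 1, 2, 0, 0, 1]]

theorem Ta_inv : ∀ (i : Fin 3) (a b c d : ZMod 3),
    Ta ((gs i)⁻¹ : Alt 6).1 (Ta (gs i).1 ![a, b, c, d]) = ![a, b, c, d] := by decide +kernel

theorem wds_ok : ∀ a b c d : ZMod 3, ∃ w ∈ wds, Tw w ![a, b, c, d] = rep4 (typ ![a, b, c, d]) := by decide +kernel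

/-- the four linear forms -/
def lf (q : Fin 4) (p : Fin 4 → ZMod 3) : ZMod 3 := (![0, p 0, p 0 + p 1, p 1 + p 2 - p 0] : Fin 4 → ZMod 3) q

theorem lf_cnt : ∀ q t : Fin 4, ((Finset.univ.filter fun p => lf q p = 0).filter fun p => typ p = t).card =
    (![![1, 20, 30, 30], ![1, 8, 12, 6], ![1, 2, 12, 12], ![1, 8, 6, 12]] : Fin 4 → Fin 4 → ℕ) q t := by
  decide +kernel

theorem eta4 (p : Fin 4 → ZMod 3) : p = ![p 0, p 1, p 2, p 3] := by
  funext i
  fin_cases i <;> rfl

theorem sum_typ {m : (Fin 4 → ZMod 3) → ℕ} (hm : ∀ (a : Alt 6) p, m p ≤ m (Ta a.1 p)) (q : Fin 4) :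
    ∑ p ∈ Finset.univ.filter fun p => lf q p = 0, m p =
      ∑ t, (![![1, 20, 30, 30], ![1, 8, 12, 6], ![1, 2, 12, 12], ![1, 8, 6, 12]] : Fin 4 → Fin 4 → ℕ) q t * m (rep4 t) := by
  have h1 : ∀ i p, m (Ta (gs i).1 p) = m p := fun i p => le_antisymm (by
    have h2 := hm (gs i)⁻¹ (Ta (gs i).1 p)
    rw [eta4 p, Ta_inv] at h2
    rwa [eta4 p]) (hm _ p)
  have h2 : ∀ w p, m (Tw w p) = m p := fun w => by
    induction w with
    | nil => exact fun _ => rfl
    | cons i w ih => exact fun p => (ih _).trans (h1 i p)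
  have h3 : ∀ p, m p = m (rep4 (typ p)) := fun p => by
    obtain ⟨w, -, hw⟩ := wds_ok (p 0) (p 1) (p 2) (p 3)
    rw [← eta4 p] at hw
    rw [← hw, h2]
  rw [Finset.sum_congr rfl fun p _ => h3 p, ← Finset.sum_fiberwise (g := typ)]
  refine Finset.sum_congr rfl fun t _ => ?_
  rw [← lf_cnt, Finset.sum_congr rfl fun p hp => by rw [(Finset.mem_filter.1 hp).2], Finset.sum_const, smul_eq_mul]

variable {K : Type u} [Field K] [CharP K 3] {ψ : Alt 6 →* G8 K} {r : Fin 6 → Fin 6 → L8 K}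

/-- the prime field -/
def c3 : ZMod 3 →+* K := ZMod.castHom (dvd_refl 3) K

theorem c3_inj : Function.Injective (c3 : ZMod 3 → K) :=
  haveI := Fact.mk Nat.prime_three
  RingHom.injective _

theorem exists_c3 {a : K} (h : a ^ 3 = a) : ∃ z, c3 z = a := by
  rcases cube_eq h with h | h | h
  · exact ⟨0, by rw [h, map_zero]⟩
  · exact ⟨1, by rw [h, map_one]⟩
  · exact ⟨-1, by rw [h, map_neg, map_one]⟩

theorem rl_ext (H : T4 (rp ψ) r) {a : Q8} {p : Fin 4 → ZMod 3} (h : ∀ j, rl (r 0 (i4 j)) a = c3 (p j)) (i j : Fin 6) :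
    rl (r i j) a = c3 (ext p j - ext p i) := by
  have h1 : ∀ i, rl (r 0 i) a = c3 (ext p i) := fun i => by
    fin_cases i
    · exact (by rw [H.self, rl_zero, map_zero] : rl (r 0 0) a = c3 0)
    · exact h 0
    · exact h 1
    · exact h 2
    · exact h 3
    · show rl (r 0 5) a = c3 (-(p 0 + p 1 + p 2 + p 3))
      rw [H.five, rl_neg, rl_add, rl_add, rl_add, map_neg, map_add, map_add, map_add, ← h, ← h, ← h, ← h]
      rfl
  rw [H.sub, rl_sub, h1, h1, map_sub]

theorem t4_num (H : T4 (rp ψ) r) (h0 : r 0 1 ≠ 0) (tr : ∀ i j, InT (r i j)) (hs : ∀ i j, sig (r i j) = r i j)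
    (s : Fin chevE8.nroots) (hr : ∀ i j, rl (r i j) (vec chevE8 8 s) = 0) : False := by
  classical
  choose wp hw using fun (k : chevE8.Idx) (j : Fin 4) => exists_c3 (a := rl (r 0 (i4 j)) (wt k)) (by rw [← rl_sig, hs])
  have hm : ∀ p, mu (fun j => r 0 (i4 j)) (fun j => c3 (p j)) = (Finset.univ.filter fun k => wp k = p).card := fun p =>
    mu_eq _ _ _ fun k => ⟨fun h => funext fun j => c3_inj ((hw k j).trans (h j)), fun h j => by rw [← hw, h]⟩
  have S := sum_typ (m := fun p => (Finset.univ.filter fun k => wp k = p).card) fun a p => by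
    rw [← hm, ← hm]
    refine mu_le (fun j => tr _ _) (g := ψ a) (fun j => ?_) fun b hb j => ?_
    · rw [← rp_apply, H.act]
      exact tr _ _
    · rw [← rp_apply, H.act]
      exact rl_ext H hb _ _
  simp only [Finset.sum_card_fiberwise_eq_card_filter, Finset.mem_filter, Finset.mem_univ, true_and] at S
  have C : ∀ (q : Fin 4) (a b c : K), ¬ (a = 0 ∧ b = 0 ∧ c = 0) →
      (∀ k, c3 (lf q (wp k)) = a * c3 (wp k 0) + b * c3 (wp k 1) + c * c3 (wp k 2)) → a ^ 3 = a → b ^ 3 = b → c ^ 3 = c →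
      (Finset.univ.filter fun k => lf q (wp k) = 0).card ∈ [134, 86, 80, 92] := fun q a b c h1 h2 ha hb hc => by
    have h3 := cnt_toral (x := a • r 0 1 + b • r 0 2 + c • r 0 3)
      (inT_iff.2 (add_mem (add_mem (Submodule.smul_mem _ _ (inT_iff.1 (tr _ _))) (Submodule.smul_mem _ _ (inT_iff.1 (tr _ _))))
        (Submodule.smul_mem _ _ (inT_iff.1 (tr _ _)))))
      (by rw [sig_add, sig_add, sig_smul, sig_smul, sig_smul, hs, hs, hs, ha, hb, hc]) fun h4 => by
        rcases H.key Md.invR_bot (a := a) (b := b) (c := c) (d := 0) (by rw [zero_smul, add_zero]; exact h4) with h5 | h5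
        · exact h0 (h5 0 1)
        · exact h1 ⟨h5.1, h5.2.1, h5.2.2.1⟩
    rwa [Finset.filter_congr (q := fun k => lf q (wp k) = 0) fun k _ => by
      rw [rl_add, rl_add, rl_smul, rl_smul, rl_smul, ← map_eq_zero_iff c3 (c3_inj (K := K)), h2, hw, hw, hw]
      rfl] at h3
  have C1 := C 1 1 0 0 (fun h => one_ne_zero h.1) (fun k => by show c3 (wp k 0) = _; ring) (by ring) (by ring) (by ring)
  have C2 := C 2 1 1 0 (fun h => one_ne_zero h.1) (fun k => by show c3 (wp k 0 + wp k 1) = _; rw [map_add]; ring)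
    (by ring) (by ring) (by ring)
  have C3 := C 3 (-1) 1 1 (fun h => one_ne_zero h.2.1)
    (fun k => by show c3 (wp k 1 + wp k 2 - wp k 0) = _; rw [map_sub, map_add]; ring) (by ring) (by ring) (by ring)
  have C0 : (Finset.univ.filter fun k => lf 0 (wp k) = 0).card = 248 := by
    rw [Finset.filter_true_of_mem (p := fun k => lf 0 (wp k) = 0) fun k _ => rfl, Finset.card_univ, card_idx]
  have Z : 9 ≤ (Finset.univ.filter fun k => wp k = rep4 0).card := by
    have h1 : (insert (Sum.inr s) (Finset.univ.map ⟨Sum.inl, Sum.inl_injective⟩) : Finset chevE8.Idx).card = 9 := by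
      rw [Finset.card_insert_of_notMem (by simp), Finset.card_map, Finset.card_univ, Fintype.card_fin]
      rfl
    rw [← h1]
    refine Finset.card_le_card fun k hk => Finset.mem_filter.2 ⟨Finset.mem_univ _, funext fun j => c3_inj (K := K) ?_⟩
    have h2 : rep4 0 j = 0 := by
      fin_cases j <;> rfl
    rw [hw, h2, map_zero]
    rcases Finset.mem_insert.1 hk with rfl | h3
    · exact hr _ _
    · obtain ⟨i, -, rfl⟩ := Finset.mem_map.1 h3
      exact map_zero _
  rw [S] at C0 C1 C2 C3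
  simp only [Fin.sum_univ_four, Matrix.cons_val, List.mem_cons, List.not_mem_nil, or_false] at C0 C1 C2 C3
  omega

theorem t4_sig (H : T4 (rp ψ) r) (tr : ∀ i j, InT (r i j)) : T4 (rp ψ) fun i j => sig (r i j) where
  act := fun a i j => act_sig (tr _ _) (tr _ _) (H.act a i j)
  add := fun i j k => by rw [← sig_add, H.add]
  sum := fun i => by
    have h := H.sum i
    rw [Fin.sum_univ_six] at h ⊢
    rw [← sig_add, ← sig_add, ← sig_add, ← sig_add, ← sig_add, h, sig_zero]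

omit [CharP K 3] in
theorem t4_comb {r' : Fin 6 → Fin 6 → L8 K} (H : T4 (rp ψ) r) (H' : T4 (rp ψ) r') (c c' : K) :
    T4 (rp ψ) fun i j => c • r i j + c' • r' i j where
  act := fun a i j => by rw [map_add, map_smul, map_smul, H.act, H'.act]
  add := fun i j k => by rw [← H.add i j k, ← H'.add i j k]; module
  sum := fun i => by rw [Finset.sum_add_distrib, ← Finset.smul_sum, ← Finset.smul_sum, H.sum, H'.sum]; simp

/-- no root vanishes on the module -/
theorem t4_phi [IsAlgClosed K] (H : T4 (rp ψ) r) (h0 : r 0 1 ≠ 0) (tr : ∀ i j, InT (r i j))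
    (s : Fin chevE8.nroots) (hr : ∀ i j, rl (r i j) (vec chevE8 8 s) = 0) : False := by
  have H' := t4_sig H tr
  obtain ⟨-, -, i1, s1⟩ := t4b K _ _ r H h0
  obtain ⟨-, m2, i2, -⟩ := t4b K _ _ _ H' (sig_ne h0)
  have f1 := finrank4 H h0
  have f2 := finrank4 H' (sig_ne h0)
  by_cases hb : Submodule.span K {r 0 1, r 0 2, r 0 3, r 0 4} ⊓
      Submodule.span K {sig (r 0 1), sig (r 0 2), sig (r 0 3), sig (r 0 4)} = ⊥
  · have h1 := Submodule.finrank_sup_add_finrank_inf_eq (Submodule.span K {r 0 1, r 0 2, r 0 3, r 0 4})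
      (Submodule.span K {sig (r 0 1), sig (r 0 2), sig (r 0 3), sig (r 0 4)})
    rw [hb, finrank_bot, f1, f2] at h1
    have h2 := Submodule.eq_of_le_of_finrank_eq (sup_le (span4_le fun i j => inT_iff.1 (tr i j))
      (span4_le (r := fun i j => sig (r i j)) fun i j => inT_iff.1 (sig_inT (tr i j)))) (h1.trans finrank_tt.symm)
    have h3 : LS K {0} ≤ LinearMap.ker (kf K (hq K (vec chevE8 8 s))) := by
      rw [← h2]
      exact sup_le (span4_le fun i j => by rw [LinearMap.mem_ker, kf_hq, hr])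
        (span4_le (r := fun i j => sig (r i j)) fun i j => by
          rw [LinearMap.mem_ker, kf_hq, rl_sig, hr, zero_pow three_ne_zero])
    have h4 := h3 (inT_iff.1 (inT_hq (vec chevE8 8 s)))
    rw [LinearMap.mem_ker, kf_hq, rl_hq, B0_vec] at h4
    exact two_ne (by exact_mod_cast h4)
  · have h1 := s1 _ inf_le_left hb (inv_inf i1 i2)
    have h2 := Submodule.eq_of_le_of_finrank_eq (inf_eq_left.1 h1) (f1.trans f2.symm)
    have h3 : ∀ j : Fin 4, ∃ c : Fin 4 → K, sig (r 0 (i4 j)) = c 0 • r 0 1 + c 1 • r 0 2 + c 2 • r 0 3 + c 3 • r 0 4 :=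
      fun j => by
        obtain ⟨a, b, c, d, e⟩ := Md.mem_span4 (h2 ▸ m2 0 (i4 j))
        exact ⟨![a, b, c, d], e.symm⟩
    choose M hM using h3
    obtain ⟨c, hc⟩ := Module.End.exists_eigenvalue (Matrix.vecMulLinear (Matrix.of M))
    obtain ⟨x, hx⟩ := hc.exists_hasEigenvector
    have h4 : ∀ k, x 0 * M 0 k + x 1 * M 1 k + x 2 * M 2 k + x 3 * M 3 k = c * x k := fun k => by
      have h5 := congrFun hx.apply_eq_smul k
      rw [Matrix.vecMulLinear_apply, Matrix.vecMul, dotProduct, Fin.sum_univ_four] at h5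
      exact h5
    have h5 : ∀ i j, sig (r i j) = c • r i j := by
      rcases (t4_comb H' H 1 (-c)).key Md.invR_bot (a := x 0) (b := x 1) (c := x 2) (d := x 3) (by
        have e0 : sig (r 0 1) = _ := hM 0
        have e1 : sig (r 0 2) = _ := hM 1
        have e2 : sig (r 0 3) = _ := hM 2
        have e3 : sig (r 0 4) = _ := hM 3
        rw [Submodule.mem_bot, e0, e1, e2, e3]
        linear_combination (norm := module) h4 0 • r 0 1 + h4 1 • r 0 2 + h4 2 • r 0 3 + h4 3 • r 0 4) with h6 | h6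
      · intro i j
        have h7 : (1 : K) • sig (r i j) + -c • r i j = 0 := h6 i j
        linear_combination (norm := module) h7
      · refine absurd (funext fun i => ?_) hx.2
        fin_cases i
        exacts [h6.1, h6.2.1, h6.2.2.1, h6.2.2.2]
    have hc0 : c ≠ 0 := fun e => sig_ne h0 (by rw [h5, e, zero_smul])
    obtain ⟨l, hl⟩ := IsAlgClosed.exists_pow_nat_eq c⁻¹ (n := 2) (by norm_num)
    have hl0 : l ≠ 0 := fun e => inv_ne_zero hc0 (by rw [← hl, e]; ring)
    have h6 : T4 (rp ψ) fun i j => l • r i j := by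
      have h7 := t4_comb H H l 0
      simpa only [zero_smul, add_zero] using h7
    refine t4_num h6 (smul_ne_zero hl0 h0) (fun i j => inT_iff.2 (Submodule.smul_mem _ _ (inT_iff.1 (tr i j))))
      (fun i j => ?_) s fun i j => by rw [rl_smul, hr, mul_zero]
    rw [sig_smul, h5, smul_smul, pow_succ', hl, mul_assoc, inv_mul_cancel₀ hc0, mul_one]

/-! ### the element of order four -/

theorem cocycle {l : Fin 6 → Fin 6 → K} (ha : ∀ i j k, l i j + l j k = l i k) (hs : ∑ j, l 0 j = 0)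
    (hy : ∀ i j, l (yy.1 i) (yy.1 j) = l i j) (i j : Fin 6) : l i j = 0 := by
  have t3 : (3 : K) = 0 := three_eq
  have h0 : l 0 0 = 0 := by linear_combination ha 0 0 0
  have e3 : l 3 0 = l 0 3 := hy 0 3
  have e1 : l 3 4 = l 0 1 := hy 0 1
  have e4 : l 3 2 = l 0 4 := hy 0 4
  have e2 : l 3 5 = l 0 2 := hy 0 2
  have h3 : l 0 3 = 0 := by linear_combination -(ha 0 3 0) - h0 + e3 + l 0 3 * t3
  have h4 : l 0 4 = l 0 1 := by linear_combination -(ha 0 3 4) + e1 + h3
  have h2 : l 0 2 = l 0 1 := by linear_combination -(ha 0 3 2) + e4 + h3 + h4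
  have h5 : l 0 5 = l 0 1 := by linear_combination -(ha 0 3 5) + e2 + h3 + h2
  rw [Fin.sum_univ_six] at hs
  have h1 : l 0 1 = 0 := by linear_combination hs - h0 - h2 - h3 - h4 - h5 - l 0 1 * t3
  have h6 : ∀ i, l 0 i = 0 := fun i => by
    fin_cases i
    exacts [h0, h1, h2.trans h1, h3, h4.trans h1, h5.trans h1]
  linear_combination ha 0 i j - h6 i + h6 j

theorem t4_nofix (H : T4 (rp ψ) r) {x : L8 K} (hx : x ∈ Submodule.span K {r 0 1, r 0 2, r 0 3, r 0 4})
    (hy : act (ψ yy) x = x) (h0 : r 0 1 ≠ 0) : x = 0 := by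
  have t3 : (3 : K) = 0 := three_eq
  obtain ⟨a, b, c, d, rfl⟩ := Md.mem_span4 hx
  have e1 : rp ψ yy (r 0 1) = r 3 4 := H.act yy 0 1
  have e2 : rp ψ yy (r 0 2) = r 3 5 := H.act yy 0 2
  have e3 : rp ψ yy (r 0 3) = r 3 0 := H.act yy 0 3
  have e4 : rp ψ yy (r 0 4) = r 3 2 := H.act yy 0 4
  rw [← rp_apply, map_add, map_add, map_add, map_smul, map_smul, map_smul, map_smul, e1, e2, e3, e4, H.sub 3 4, H.sub 3 5,
    H.sub 3 0, H.sub 3 2, H.five, H.self] at hy
  rcases H.key Md.invR_bot (a := -b - a) (b := d - 2 * b) (c := -a - 2 * b - 2 * c - d) (d := a - b - d) (by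
    rw [Submodule.mem_bot]
    linear_combination (norm := module) hy) with h1 | ⟨h1, h2, h3, h4⟩
  · exact absurd (h1 0 1) h0
  · have hb : b = 0 := by linear_combination -h1 - h2 - h4 - b * t3
    have ha : a = 0 := by linear_combination -h1 - hb
    have hd : d = 0 := by linear_combination h2 + 2 * hb
    have hc : c = 0 := by linear_combination h3 + ha + 2 * hb + hd + c * t3
    rw [ha, hb, hc, hd]
    simp

theorem t4_end [IsAlgClosed K] (hM : MOD.{u}) (hc : Ctx ψ) (H : T4 (rp ψ) r) (h0 : r 0 1 ≠ 0)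
    (tr : ∀ i j, InT (r i j)) : False := by
  obtain ⟨-, m1, i1, -⟩ := t4b K _ _ r H h0
  have hU := span4_le fun i j => inT_iff.1 (tr i j)
  have ht : Inv ψ (tt K) := by
    have h1 : cen (Submodule.span K {r 0 1, r 0 2, r 0 3, r 0 4} : Set (L8 K)) = tt K := by
      ext v
      rw [mem_cen_T hU]
      refine ⟨fun h => inT_iff.1 fun s => by_contra fun hs => t4_phi H h0 tr s fun i j => h (Sum.inr s) hs _ (m1 i j),
        fun h i hi x _ => ?_⟩
      rw [Set.mem_singleton_iff.1 (h i hi), map_zero]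
    rw [← h1]
    exact inv_cen i1
  have hV := finrank_pp hU
  rw [finrank4 H h0] at hV
  have nofix : ∀ x ∈ tt K, act (ψ yy) x = x → x = 0 := by
    rcases hM K _ (rp ψ) _ (fun hb => by rw [hb, finrank_bot] at hV; omega) (inv_inf ht (inv_pp i1)) with
      ⟨v, -, h1, h2⟩ | ⟨ι, e, h, f, H', h1, he, hh, hf⟩ | ⟨r', H', h1, h2⟩ | ⟨U, h1, -, h2, -⟩
    · exact absurd (hc.fx v h2) h1
    · exact (no_t3 hM hc.fx H' h1 (inT_iff.2 he.1) (inT_iff.2 hh.1) (inT_iff.2 hf.1)).elim
    · have h3 := Submodule.eq_of_le_of_finrank_eq (span4_le h2) (by rw [finrank4 H' h1]; omega)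
      intro x hx hy
      refine t4_nofix H' ?_ hy h1
      have h4 := cocycle (l := fun i j => kf K (r i j) x)
        (fun i j k => by rw [← LinearMap.add_apply, ← map_add, H.add])
        (by rw [← LinearMap.sum_apply, ← map_sum, H.sum, map_zero, LinearMap.zero_apply])
        fun i j => by rw [← H.act, rp_apply, ← kf_act (ψ yy) (r i j) x, hy]
      have h5 : Submodule.span K {r 0 1, r 0 2, r 0 3, r 0 4} ≤ LinearMap.ker ((kf K).flip x) := span4_le h4
      rw [h3]
      exact ⟨hx, fun n hn => h5 hn⟩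
    · have h3 := Submodule.finrank_mono h1
      omega
  have hR : ∀ v, act (ψ yy) v = v → tp v = 0 := fun v hv => by
    have h1 := mem_pp_tt.1 (inv_pp ht yy _ (mem_pp_tt.2 (tp_sub_tp v)))
    have h2 := ht yy _ (inT_iff.1 (inT_tp v))
    refine nofix _ (inT_iff.1 (inT_tp v)) ?_
    rw [act_sub, hv, sub_eq_add_neg, tp_add, tp_neg, tp_of_inT (inT_iff.2 h2), add_neg_eq_zero] at h1
    exact h1.symm
  have y4 : ∀ i, yy.1 (yy.1 (yy.1 (yy.1 i))) = i := by decide
  obtain ⟨sg, s0, s1⟩ := exists_sign (K := K) (fun l : Fin 6 → Fin 6 → K => fun i j => l (yy.1 i) (yy.1 j)) fun l => by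
    simp only [y4]
  obtain ⟨lw, hlw⟩ : ∃ lw : chevE8.Idx → Fin 6 → Fin 6 → K, lw = fun k i j => rl (r i j) (wt k) := ⟨_, rfl⟩
  obtain ⟨S, hS⟩ : ∃ S : L8 K →ₗ[K] L8 K, ∀ v k, S v k = sg (lw k) * v k :=
    ⟨Matrix.toLin' (diagonal fun k => sg (lw k)), fun v k => by rw [Matrix.toLin'_apply, Matrix.mulVec_diagonal]⟩
  have hSi : Function.Injective S := (injective_iff_map_eq_zero S).2 fun v hv => funext fun k => by
    have h1 := congrFun hv k
    rw [hS] at h1
    exact (mul_eq_zero.1 h1).resolve_left (s0 _)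
  have hSy : ∀ v, tp v = 0 → act (ψ yy) (S v) = -S (act (ψ yy) v) := fun v hv => funext fun k => by
    rw [Pi.neg_apply, hS, act_apply, act_apply, Finset.mul_sum, ← Finset.sum_neg_distrib]
    refine Finset.sum_congr rfl fun l _ => ?_
    rw [hS]
    by_cases h1 : mx (ψ yy) k l = 0
    · rw [h1]; ring
    by_cases h2 : v l = 0
    · rw [h2]; ring
    have h3 : (fun i j => lw k (yy.1 i) (yy.1 j)) = lw l := by
      funext i j
      rw [hlw]
      have h4 : act (ψ yy) (r i j) = r (yy.1 i) (yy.1 j) := H.act yy i j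
      have h5 := rl_entry (tr i j) (h4 ▸ tr _ _) h1
      rwa [h4] at h5
    have h4 := s1 (lw k) fun h5 => by
      have h6 := cocycle (l := lw k) (fun i j m => by rw [hlw]; dsimp only; rw [← rl_add, H.add])
        (by
          rw [hlw, Fin.sum_univ_six]
          dsimp only
          have h7 := H.sum 0
          rw [Fin.sum_univ_six] at h7
          rw [← rl_add, ← rl_add, ← rl_add, ← rl_add, ← rl_add, h7, rl_zero])
        fun i j => congrFun (congrFun h5 i) j
      rcases l with l | l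
      · exact h2 (congrFun hv (Sum.inl l))
      · refine t4_phi H h0 tr l fun i j => ?_
        have h7 := congrFun (congrFun h3 i) j
        rw [h6, hlw] at h7
        exact h7.symm
    rw [h3] at h4
    rw [h4]
    ring
  have F1 : ∀ v, v ∈ Module.End.eigenspace (LK K (ψ yy)) 1 ↔ act (ψ yy) v = v := fun v => by
    rw [Module.End.mem_eigenspace_iff, one_smul, LK_apply]
  have F2 : ∀ v, v ∈ Module.End.eigenspace (LK K (ψ yy)) (-1) ↔ act (ψ yy) v = -v := fun v => by
    rw [Module.End.mem_eigenspace_iff, neg_one_smul, LK_apply]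
  have l1 : (Module.End.eigenspace (LK K (ψ yy)) 1).map S < Module.End.eigenspace (LK K (ψ yy)) (-1) := by
    refine lt_of_le_of_ne ?_ fun e => ?_
    · rintro _ ⟨v, hv, rfl⟩
      rw [F2, hSy v (hR v ((F1 v).1 hv)), (F1 v).1 hv]
    · have h1 : r 0 3 ∈ Module.End.eigenspace (LK K (ψ yy)) (-1) := by
        have h2 : act (ψ yy) (r 0 3) = r 3 0 := H.act yy 0 3
        rw [F2, h2, H.sub 3 0, H.self, zero_sub]
      rw [← e] at h1
      obtain ⟨v, hv, h2⟩ := h1
      refine h0 (H.zero (i := 0) (j := 3) (by decide) (funext fun k => ?_) 0 1)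
      rcases k with k | k
      · have h3 : v (Sum.inl k) = 0 := congrFun (hR v ((F1 v).1 hv)) (Sum.inl k)
        rw [← h2, hS, h3, mul_zero]
        rfl
      · exact tr 0 3 k
  have l2 := Submodule.finrank_lt_finrank_of_lt l1
  rw [← (Submodule.equivMapOfInjective S hSi _).finrank_eq] at l2
  have l3 := Submodule.finrank_sup_add_finrank_inf_eq (Module.End.eigenspace (LK K (ψ yy)) 1)
    (Module.End.eigenspace (LK K (ψ yy)) (-1))
  have l4 : Module.End.eigenspace (LK K (ψ yy)) 1 ⊓ Module.End.eigenspace (LK K (ψ yy)) (-1) = ⊥ :=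
    (Submodule.eq_bot_iff _).2 fun v hv => by
      have h1 : (2 : K) • v = 0 := by linear_combination (norm := module) (F2 v).1 hv.2 - (F1 v).1 hv.1
      exact (smul_eq_zero.1 h1).resolve_left two_ne
  have l5 : Module.End.eigenspace (LK K (ψ yy)) 1 ⊔ Module.End.eigenspace (LK K (ψ yy)) (-1) ≤
      Module.End.eigenspace (LK K (ψ (yy * yy))) 1 := by
    refine sup_le (fun v hv => ?_) fun v hv => ?_ <;>
      rw [Module.End.mem_eigenspace_iff, one_smul, LK_apply, map_mul, act_mul]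
    · rw [(F1 v).1 hv, (F1 v).1 hv]
    · rw [(F2 v).1 hv, act_neg, (F2 v).1 hv, neg_neg]
  have l6 := Submodule.finrank_mono l5
  have l7 : finrank K ↥(Module.End.eigenspace (LK K (ψ (yy * yy))) 1) = 120 :=
    hc.d2 _ (orderOf_eq_prime (by decide) (by decide))
  have l8 : finrank K ↥(Module.End.eigenspace (LK K (ψ yy)) 1) = 60 ∨
    finrank K ↥(Module.End.eigenspace (LK K (ψ yy)) 1) = 64 := hc.d4
  rw [l4, finrank_bot] at l3
  omega

end Nt

universe u

/-- **NOTOR** -/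
theorem notor_of (hM : MOD.{u}) : NOTOR.{u} := fun K _ _ _ ψ hc g U h0 hi hT => by
  have hc' := hc.cj g
  have hU : pb g⁻¹ U ≤ Nt.tt K := fun v hv => by
    have h1 := hT _ hv
    rw [LK_apply, act_inv'] at h1
    exact inT_iff.1 h1
  rcases hM K _ (rp (cj g ψ)) _ (pb_ne_bot h0) (hi.cj g) with
    ⟨v, -, h1, h2⟩ | ⟨ι, e, h, f, H, h1, he, hh, hf⟩ | ⟨r, H, h1, h2⟩ | ⟨V, h1, -, h2, -⟩
  · exact h1 (hc'.fx v h2)
  · exact Nt.no_t3 hM hc'.fx H h1 (inT_iff.2 (hU he)) (inT_iff.2 (hU hh)) (inT_iff.2 (hU hf))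
  · exact Nt.t4_end hM hc' H h1 fun i j => inT_iff.2 (hU (h2 i j))
  · have h3 := Submodule.finrank_mono (h1.trans hU)
    rw [Nt.finrank_tt] at h3
    omega

end Cfsg.Agent.E8A.C63
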