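import Cfsg.Agent.E8A.C63.Basic

/-!
# WIT, part A: bigraded pieces, unipotent moves, the toral equation (helper5)

* `LB K y P` : vectors whose weights have bidegree `(ex y a, a 6)` in `P`; `pj` : projection; `br_pj`;
* `Ex y S S2 u c` : `u` acts as `1 + ad c` modulo higher terms; `exists_ex`, `kill`, `cu`, `move`;
* `mem_of_br`, `tor_eq` : the equation `(ad h)³ = ad h` in low degrees.
-/

set_option autoImplicit false
set_option maxRecDepth 100000

namespace Cfsg.Agent.E8A.C63.Wt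

open Cfsg Cfsg.Lie Module Matrix
open Cfsg.Agent.H288.E8L (Q8 wt wt_inl wt_inr)
open Cfsg.Agent.E8A.Reg5.Cls (ex ex_zero)
open Cfsg.Agent.E8A.TwoH (br_anti br_jac br_der br_zero_left br_zero_right)
open Cfsg.Agent.E8A.Par (op vec_op kf_ee act_xr)

universe u

variable {K : Type u} [Field K]

theorem exa (y a b : Q8) : ex y (a + b) = ex y a + ex y b := by simp [ex, add_mul, Finset.sum_add_distrib]

theorem exn (y a : Q8) : ex y (-a) = -ex y a := by simp [ex]

theorem br_negl (x y : L8 K) : br (-x) y = -br x y := by rw [← neg_one_smul K x, br_smul_left, neg_one_smul]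

theorem br_negr (x y : L8 K) : br x (-y) = -br x y := by rw [← neg_one_smul K y, br_smul_right, neg_one_smul]

theorem LS_ind {S : Set Q8} {P : L8 K → Prop} (h0 : P 0) (ha : ∀ x y, P x → P y → P (x + y))
    (he : ∀ (i : chevE8.Idx) (t : K), wt i ∈ S → P (t • ee K i)) {v : L8 K} (hv : v ∈ LS K S) : P v := by
  classical
  have h1 : v = ∑ i, v i • ee K i := by
    funext j
    rw [Finset.sum_apply, Finset.sum_eq_single j]
    · rw [Pi.smul_apply, ee_self, smul_eq_mul, mul_one]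
    · intro b _ hb
      rw [Pi.smul_apply, ee_ne (Ne.symm hb), smul_zero]
    · intro h
      exact absurd (Finset.mem_univ j) h
  rw [h1]
  refine Finset.sum_induction _ P ha h0 fun i _ => ?_
  by_cases h : v i = 0
  · rw [h, zero_smul]; exact h0
  · exact he i _ (hv i h)

variable (K) in
/-- vectors whose weights have bidegree in `P` -/
def LB (y : Q8) (P : ℤ → ℤ → Prop) : Submodule K (L8 K) := LS K {a | P (ex y a) (a 6)}

/-- `A + S ⊆ B` -/
def Ad (A S B : ℤ → ℤ → Prop) : Prop := ∀ l m l' m', A l m → S l' m' → B (l + l') (m + m')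

variable {y : Q8} {P Q R A S B : ℤ → ℤ → Prop}

theorem mem_LB {v : L8 K} : v ∈ LB K y P ↔ ∀ i, v i ≠ 0 → P (ex y (wt i)) (wt i 6) := Iff.rfl

theorem LB_mono {v : L8 K} (hv : v ∈ LB K y P) (h : ∀ l m, P l m → Q l m) : v ∈ LB K y Q := fun i hi => h _ _ (hv i hi)

theorem LB_and {v : L8 K} (hv : v ∈ LB K y P) (hw : v ∈ LB K y Q) (h : ∀ l m, P l m → Q l m → R l m) : v ∈ LB K y R :=
  fun i hi => h _ _ (hv i hi) (hw i hi)

theorem LB_zero {v : L8 K} (hv : v ∈ LB K y P) (hw : v ∈ LB K y Q) (h : ∀ l m, P l m → Q l m → False) : v = 0 :=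
  funext fun i => by
    by_contra hi
    exact h _ _ (hv i hi) (hw i hi)

theorem LB_br {x z : L8 K} (hx : x ∈ LB K y P) (hz : z ∈ LB K y Q) (h : Ad P Q R) : br x z ∈ LB K y R :=
  br_LS (fun a ha b hb => by
    have h1 := h _ _ _ _ ha hb
    rwa [← exa, ← Pi.add_apply a b] at h1) hx hz

theorem LB_ind {M : L8 K → Prop} (h0 : M 0) (ha : ∀ x y, M x → M y → M (x + y))
    (he : ∀ (i : chevE8.Idx) (t : K), P (ex y (wt i)) (wt i 6) → M (t • ee K i)) {v : L8 K} (hv : v ∈ LB K y P) : M v :=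
  LS_ind h0 ha he hv

theorem ee_LB {i : chevE8.Idx} (h : P (ex y (wt i)) (wt i 6)) : ee K i ∈ LB K y P := ee_mem_LS h

theorem inT_LB {h : L8 K} (hh : InT h) (h0 : P 0 0) : h ∈ LB K y P := fun i hi => by
  rcases i with i | r
  · show P (ex y (wt (Sum.inl i))) (wt (Sum.inl i) 6)
    rw [wt_inl, ex_zero]; exact h0
  · exact absurd (hh r) hi

variable (y P) in
/-- the projection -/
noncomputable def pj (v : L8 K) : L8 K :=
  fun i => haveI := Classical.propDecidable (P (ex y (wt i)) (wt i 6)); if P (ex y (wt i)) (wt i 6) then v i else 0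

theorem pj_pos (v : L8 K) {i : chevE8.Idx} (h : P (ex y (wt i)) (wt i 6)) : pj y P v i = v i := if_pos h

theorem pj_neg (v : L8 K) {i : chevE8.Idx} (h : ¬P (ex y (wt i)) (wt i 6)) : pj y P v i = 0 := if_neg h

theorem pj_mem {v : L8 K} (hv : v ∈ LB K y A) (h : ∀ l m, A l m → P l m → Q l m) : pj y P v ∈ LB K y Q := fun i hi => by
  by_cases h1 : P (ex y (wt i)) (wt i 6)
  · rw [pj_pos v h1] at hi
    exact h _ _ (hv i hi) h1
  · exact absurd (pj_neg v h1) hi

theorem mem_top (v : L8 K) : v ∈ LB K y fun _ _ => True := fun _ _ => trivial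

theorem pj_mem' (v : L8 K) : pj y P v ∈ LB K y P := pj_mem (mem_top v) fun _ _ _ h => h

theorem sub_pj {v : L8 K} (hv : v ∈ LB K y A) (h : ∀ l m, A l m → ¬P l m → Q l m) : v - pj y P v ∈ LB K y Q :=
  fun i hi => by
    by_cases h1 : P (ex y (wt i)) (wt i 6)
    · rw [Pi.sub_apply, pj_pos v h1, sub_self] at hi
      exact absurd rfl hi
    · rw [Pi.sub_apply, pj_neg v h1, sub_zero] at hi
      exact h _ _ (hv i hi) h1

theorem pj_eq {v x : L8 K} (hx : x ∈ LB K y P) (hv : v - x ∈ LB K y Q) (h : ∀ l m, P l m → Q l m → False) :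
    pj y P v = x := funext fun i => by
  by_cases h1 : P (ex y (wt i)) (wt i 6)
  · rw [pj_pos v h1]
    by_contra h2
    exact h _ _ h1 (hv i (sub_ne_zero.2 h2))
  · rw [pj_neg v h1]
    by_contra h2
    exact h1 (hx i (Ne.symm h2))

theorem mem_of_pj {v : L8 K} (hv : v ∈ LB K y A) (h0 : pj y P v = 0) (h : ∀ l m, A l m → ¬P l m → Q l m) :
    v ∈ LB K y Q := by
  have h1 := sub_pj hv h
  rwa [h0, sub_zero] at h1

theorem br_pj {E : ℤ → ℤ → Prop} {e : L8 K} (he : e ∈ LB K y E) (h : Ad E P Q)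
    (h' : Ad E (fun l m => ¬P l m) fun l m => ¬Q l m) (w : L8 K) : br e (pj y P w) = pj y Q (br e w) := by
  refine (pj_eq (LB_br he (pj_mem' w) h) (Q := fun l m => ¬Q l m) ?_ fun _ _ h1 h2 => h2 h1).symm
  rw [← br_sub_right]
  exact LB_br he (sub_pj (mem_top w) fun _ _ _ h => h) h'

/-- the components of an element of the centralizer -/
theorem cen_pj {e w : L8 K} (he : e ∈ LB K y fun l m => l = 2 ∧ m = 0) (hw : br e w = 0) : br e (pj y P w) = 0 := by
  rw [br_pj he (Q := fun l m => P (l - 2) m), hw]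
  · funext i
    by_cases h1 : P (ex y (wt i) - 2) (wt i 6)
    · exact pj_pos (P := fun l m => P (l - 2) m) _ h1
    · exact pj_neg (P := fun l m => P (l - 2) m) _ h1
  · rintro l m l' m' ⟨rfl, rfl⟩ h
    rwa [add_sub_cancel_left, zero_add]
  · rintro l m l' m' ⟨rfl, rfl⟩ h
    rwa [add_sub_cancel_left, zero_add]

/-! ### unipotent elements -/

variable (y) in
/-- `u` acts as `1 + ad c` modulo terms of higher order -/
def Ex (S S2 : ℤ → ℤ → Prop) (u : G8 K) (c : L8 K) : Prop :=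
  ∀ A A2 : ℤ → ℤ → Prop, Ad A S2 A2 → Ad A2 S A2 → ∀ v ∈ LB K y A, act u v - v - br c v ∈ LB K y A2

variable {S2 : ℤ → ℤ → Prop}

theorem Ex.one : Ex y S S2 (1 : G8 K) 0 := fun _ _ _ _ v _ => by
  rw [act_one, br_zero_left, sub_self, sub_zero]
  exact zero_mem _

theorem Ex.mul (h2 : Ad S S S2) (h1 : ∀ l m, S2 l m → S l m) {u u' : G8 K} {c c' : L8 K} (hc : c ∈ LB K y S)
    (hc' : c' ∈ LB K y S) (H : Ex y S S2 u c) (H' : Ex y S S2 u' c') : Ex y S S2 (u' * u) (c + c') := by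
  intro A A2 hA hA2 v hv
  have r1 := H A A2 hA hA2 v hv
  have r2 := H' A A2 hA hA2 v hv
  have m1 : br c v ∈ LB K y fun l m => ∃ l1 m1 l2 m2, A l1 m1 ∧ S l2 m2 ∧ l = l1 + l2 ∧ m = m1 + m2 :=
    LB_br hc hv fun l m l' m' h h' => ⟨l', m', l, m, h', h, add_comm _ _, add_comm _ _⟩
  have r3 := H' _ A2 (by
    rintro _ _ l' m' ⟨l1, m1, l2, m2, h, h', rfl, rfl⟩ h''
    rw [add_right_comm l1, add_right_comm m1]
    exact hA2 _ _ _ _ (hA _ _ _ _ h h'') h') hA2 _ m1
  have r4 : br c' (br c v) ∈ LB K y A2 := LB_br hc' m1 (by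
    rintro l m _ _ h'' ⟨l1, m1, l2, m2, h, h', rfl, rfl⟩
    rw [add_left_comm l, add_left_comm m]
    exact hA _ _ _ _ h (h2 _ _ _ _ h'' h'))
  have r5 := H' A2 A2 (fun _ _ _ _ h h' => hA2 _ _ _ _ h (h1 _ _ h')) hA2 _ r1
  have r6 : br c' (act u v - v - br c v) ∈ LB K y A2 := LB_br hc' r1 fun l m l' m' h h' => by
    rw [add_comm l, add_comm m]
    exact hA2 _ _ _ _ h' h
  have e : act (u' * u) v - v - br (c + c') v = (act u v - v - br c v) + (act u' v - v - br c' v) +
      (act u' (br c v) - br c v - br c' (br c v)) + br c' (br c v) +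
      (act u' (act u v - v - br c v) - (act u v - v - br c v) - br c' (act u v - v - br c v)) +
      br c' (act u v - v - br c v) := by
    rw [act_mul, br_add_left, act_sub, act_sub]
    abel
  rw [e]
  exact add_mem (add_mem (add_mem (add_mem (add_mem r1 r2) r3) r4) r5) r6

theorem Ex.xr (h2 : Ad S S S2) {r : Fin chevE8.nroots} (hr : S (ex y (wt (Sum.inr r))) (wt (Sum.inr r) 6)) (t : K) :
    Ex y S S2 (xr r t) (t • ee K (Sum.inr r)) := by
  intro A A2 hA _ v hv
  have e : act (E8A.xr r t) v - v - br (t • ee K (Sum.inr r)) v =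
      (-(t ^ 2 * v (Sum.inr (op r)))) • ee K (Sum.inr r) := by
    rw [act_xr, kf_ee, br_smul_left, neg_smul]
    abel
  rw [e]
  by_cases h : v (Sum.inr (op r)) = 0
  · rw [h, mul_zero, neg_zero, zero_smul]
    exact zero_mem _
  · refine Submodule.smul_mem _ _ (ee_LB ?_)
    have h3 := hA _ _ _ _ (hv _ h) (h2 _ _ _ _ hr hr)
    rw [wt_inr, wt_inr, vec_op, exn, Pi.neg_apply, neg_add_cancel_left, neg_add_cancel_left] at h3
    rwa [wt_inr]

theorem exists_ex (h2 : Ad S S S2) (h1 : ∀ l m, S2 l m → S l m) (h0 : ¬S 0 0) {c : L8 K} (hc : c ∈ LB K y S) :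
    ∃ u : G8 K, Ex y S S2 u c := by
  refine (LB_ind (M := fun c => c ∈ LB K y S ∧ ∃ u : G8 K, Ex y S S2 u c) ⟨zero_mem _, 1, Ex.one⟩ ?_ ?_ hc).2
  · rintro a b ⟨ha, u, hu⟩ ⟨hb, u', hu'⟩
    exact ⟨add_mem ha hb, u' * u, Ex.mul h2 h1 ha hb hu hu'⟩
  · intro i t hi
    refine ⟨Submodule.smul_mem _ _ (ee_LB hi), ?_⟩
    rcases i with i | r
    · rw [wt_inl, ex_zero] at hi
      exact absurd hi h0
    · exact ⟨_, Ex.xr h2 hi t⟩

theorem Ex.mono {S' S2' : ℤ → ℤ → Prop} {u : G8 K} {c : L8 K} (H : Ex y S S2 u c) (h : ∀ l m, S l m → S' l m)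
    (h' : ∀ l m, S2 l m → S2' l m) : Ex y S' S2' u c := fun A A2 hA hA2 =>
  H A A2 (fun _ _ _ _ a b => hA _ _ _ _ a (h' _ _ b)) fun _ _ _ _ a b => hA2 _ _ _ _ a (h _ _ b)

theorem Ex.weak {u : G8 K} {c : L8 K} (H : Ex y S S2 u c) (hc : c ∈ LB K y S) (h1 : ∀ l m, S2 l m → S l m) :
    Ex y S S u 0 := fun A A2 hA hA2 v hv => by
  have r1 := H A A2 (fun _ _ _ _ a b => hA _ _ _ _ a (h1 _ _ b)) hA2 v hv
  have r2 : br c v ∈ LB K y A2 := LB_br hc hv fun l m l' m' h h' => by
    rw [add_comm l, add_comm m]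
    exact hA _ _ _ _ h' h
  rw [br_zero_left, sub_zero, ← sub_add_cancel (act u v - v) (br c v)]
  exact add_mem r1 r2

variable (y) in
/-- the nilpotent element: bidegree `(2, 0)`, and `ad e` is onto the degrees `≥ 2` -/
structure Nl (e : L8 K) : Prop where
  mem : e ∈ LB K y fun l m => l = 2 ∧ m = 0
  onto : ∀ d ∈ LB K y fun l _ => 2 ≤ l, ∃ w, br e w = d

/-- a closed set of bidegrees with a filtration -/
structure Fl (S : ℤ → ℤ → Prop) (α β : ℤ) : Prop where
  add : Ad S S S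
  ge : ∀ l m, S l m → 0 ≤ l

/-- the steps of the filtration -/
def Sk (S : ℤ → ℤ → Prop) (α β k : ℤ) : ℤ → ℤ → Prop := fun l m => S l m ∧ k ≤ α * l + β * m

variable {α β : ℤ}

theorem Fl.ad (F : Fl S α β) {k k' n : ℤ} (h : n ≤ k + k') : Ad (Sk S α β k) (Sk S α β k') (Sk S α β n) :=
  fun l m l' m' a b => ⟨F.add _ _ _ _ a.1 b.1, by have := a.2; have := b.2; linarith⟩

theorem Sk_mono {k k' : ℤ} (h : k' ≤ k) (l m : ℤ) (a : Sk S α β k l m) : Sk S α β k' l m := ⟨a.1, h.trans a.2⟩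

theorem kill {e : L8 K} (N : Nl y e) (F : Fl S α β) {k : ℤ} (hk : 1 ≤ k) {x : L8 K}
    (hx : x - e ∈ LB K y fun l m => Sk S α β k (l - 2) m) :
    ∃ u : G8 K, act u x = e ∧ Ex y (Sk S α β k) (Sk S α β k) u 0 := by
  obtain ⟨M, hM⟩ := Finite.exists_le fun i : chevE8.Idx => α * (ex y (wt i) - 2) + β * wt i 6
  have key : ∀ n : ℕ, ∀ k : ℤ, 1 ≤ k → M + 1 - n ≤ k → ∀ x : L8 K, x - e ∈ LB K y (fun l m => Sk S α β k (l - 2) m) →
      ∃ u : G8 K, act u x = e ∧ Ex y (Sk S α β k) (Sk S α β k) u 0 := by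
    intro n
    induction n with
    | zero =>
      intro k _ h x hx
      refine ⟨1, ?_, Ex.one⟩
      rw [act_one, ← sub_eq_zero]
      funext i
      by_contra hi
      have h1 := (hx i hi).2
      have h2 := hM i
      simp only [Nat.cast_zero, sub_zero] at h h2
      omega
    | succ n ih =>
      intro k hk h x hx
      obtain ⟨w', hw'⟩ := N.onto (x - e) (LB_mono hx fun l m a => by have := F.ge _ _ a.1; omega)
      have hw : br e (pj y (Sk S α β k) w') = x - e := by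
        rw [br_pj N.mem (Q := fun l m => Sk S α β k (l - 2) m), hw']
        · exact pj_eq hx (Q := fun _ _ => False) (by rw [sub_self]; exact zero_mem _) fun _ _ _ h => h
        · rintro l m l' m' ⟨rfl, rfl⟩ h
          rwa [add_sub_cancel_left, zero_add]
        · rintro l m l' m' ⟨rfl, rfl⟩ h
          rwa [add_sub_cancel_left, zero_add]
      have hm : pj y (Sk S α β k) w' ∈ LB K y (Sk S α β k) := pj_mem' w'
      generalize pj y (Sk S α β k) w' = w at hw hm
      have h0 : ¬Sk S α β k 0 0 := fun a => by have := a.2; omega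
      obtain ⟨u, hu⟩ := exists_ex (S2 := Sk S α β (k + 1)) (F.ad (by omega)) (Sk_mono (by omega)) h0 hm
      have a2 : Ad (fun l m => Sk S α β (k + 1) (l - 2) m) (Sk S α β k) fun l m => Sk S α β (k + 1) (l - 2) m :=
        fun l m l' m' a b => by
          beta_reduce
          rw [add_sub_right_comm]
          exact F.ad (by omega) _ _ _ _ a b
      have r1 := hu (fun l m => l = 2 ∧ m = 0) _ (by
        rintro l m l' m' ⟨rfl, rfl⟩ b
        rwa [add_sub_cancel_left, zero_add]) a2 e N.mem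
      have r2 := hu (fun l m => Sk S α β k (l - 2) m) _ (fun l m l' m' a b => by
        rw [add_sub_right_comm]
        exact F.ad (by omega) _ _ _ _ a b) a2 _ hx
      have r3 : br w (x - e) ∈ LB K y fun l m => Sk S α β (k + 1) (l - 2) m := LB_br hm hx fun l m l' m' a b => by
        rw [add_sub_assoc]
        exact F.ad (by omega) _ _ _ _ a b
      have e1 : act u x - e = (act u e - e - br w e) + (act u (x - e) - (x - e) - br w (x - e)) + br w (x - e) := by
        rw [act_sub, br_anti w e, hw]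
        abel
      obtain ⟨u', h1, h2⟩ := ih (k + 1) (by omega) (by push_cast at h; omega) (act u x)
        (by rw [e1]; exact add_mem (add_mem r1 r2) r3)
      refine ⟨u' * u, by rw [act_mul, h1], ?_⟩
      have h3 := Ex.mul (F.ad (by omega)) (fun _ _ a => a) (zero_mem _) (zero_mem _) (hu.weak hm (Sk_mono (by omega)))
        (h2.mono (Sk_mono (by omega)) (Sk_mono (by omega)))
      rwa [add_zero] at h3
  exact key (M + 1 - k).toNat k hk (by omega) x hx

/-- an element of the centralizer gives an element of the stabilizer -/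
theorem cu {e : L8 K} (N : Nl y e) (F : Fl S α β) {k : ℤ} (hk : 1 ≤ k) {c : L8 K} (hc : c ∈ LB K y (Sk S α β k))
    (h0 : br e c = 0) : ∃ u : G8 K, act u e = e ∧ Ex y (Sk S α β k) (Sk S α β (2 * k)) u c := by
  obtain ⟨u, hu⟩ := exists_ex (S2 := Sk S α β (2 * k)) (F.ad (by omega)) (Sk_mono (by omega))
    (fun a => by have := a.2; omega) hc
  have r1 := hu (fun l m => l = 2 ∧ m = 0) (fun l m => Sk S α β (2 * k) (l - 2) m) (by
    rintro l m l' m' ⟨rfl, rfl⟩ b
    rwa [add_sub_cancel_left, zero_add]) (fun l m l' m' a b => by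
    beta_reduce
    rw [add_sub_right_comm]
    exact F.ad (by omega) _ _ _ _ a b) e N.mem
  rw [br_anti c e, h0, neg_zero, sub_zero] at r1
  obtain ⟨u', h1, h2⟩ := kill N F (k := 2 * k) (by omega) r1
  refine ⟨u' * u, by rw [act_mul, h1], ?_⟩
  have h3 := Ex.mul (F.ad (by omega)) (Sk_mono (by omega)) hc (zero_mem _) hu
    (h2.mono (Sk_mono (by omega)) fun _ _ a => a)
  rwa [add_zero] at h3

/-- one step: `x` is kept, the remainder is moved from `A` into `A'` -/
theorem move {e : L8 K} (N : Nl y e) (F : Fl S α β) {k : ℤ} (hk : 1 ≤ k) {c : L8 K} (hc : c ∈ LB K y (Sk S α β k))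
    (h0 : br e c = 0) {X A' : ℤ → ℤ → Prop} {x h : L8 K} (hx : x ∈ LB K y X) (hr : h - x ∈ LB K y A)
    (hw : h - x + br c x ∈ LB K y A') (a1 : Ad (Sk S α β k) A A') (a2 : Ad X (Sk S α β (2 * k)) A')
    (a3 : Ad A (Sk S α β (2 * k)) A') (a4 : Ad A' (Sk S α β k) A') :
    ∃ u : G8 K, act u e = e ∧ act u h - x ∈ LB K y A' := by
  obtain ⟨u, h1, hu⟩ := cu N F hk hc h0
  refine ⟨u, h1, ?_⟩
  have e1 : act u h - x = (act u x - x - br c x) + (act u (h - x) - (h - x) - br c (h - x)) + (h - x + br c x) +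
      br c (h - x) := by
    rw [act_sub]
    abel
  rw [e1]
  exact add_mem (add_mem (add_mem (hu _ _ a2 a4 _ hx) (hu _ _ a3 a4 _ hr)) hw) (LB_br hc hr a1)

/-! ### the toral equation -/

theorem mem_of_br {v : L8 K} (h : ∀ j, br v (ee K j) ∈ LB K y fun l m => B (l - ex y (wt j)) (m - wt j 6)) :
    v ∈ LB K y B := by
  have h1 : v - pj y B v = 0 := by
    refine eq_zero_of_adm (Matrix.ext fun i j => ?_)
    have hj : ee K j ∈ LB K y fun l m => l = ex y (wt j) ∧ m = wt j 6 := ee_LB ⟨rfl, rfl⟩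
    have h2 : br (v - pj y B v) (ee K j) = 0 := by
      refine LB_zero (y := y) (P := fun l m => B (l - ex y (wt j)) (m - wt j 6))
        (Q := fun l m => ¬B (l - ex y (wt j)) (m - wt j 6)) ?_ ?_ fun _ _ a b => b a
      · rw [br_sub_left]
        refine sub_mem (h j) (LB_br (pj_mem' v) hj ?_)
        rintro l m _ _ a ⟨rfl, rfl⟩
        rwa [add_sub_cancel_right, add_sub_cancel_right]
      · refine LB_br (P := fun l m => ¬B l m) (sub_pj (mem_top v) fun _ _ _ a => a) hj ?_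
        rintro l m _ _ a ⟨rfl, rfl⟩
        rwa [add_sub_cancel_right, add_sub_cancel_right]
    exact (mulVec_ee _ j i).symm.trans (congrFun h2 i)
  rw [sub_eq_zero.1 h1]
  exact pj_mem' v

theorem cube_add {M : Type*} [Ring M] (h3 : (3 : M) = 0) (X Y : M) : (X + Y) ^ 3 = X ^ 3 + Y ^ 3 +
    (X * (X * Y - Y * X) - (X * Y - Y * X) * X) + (Y * (Y * X - X * Y) - (Y * X - X * Y) * Y) := by
  have h : (X + Y) ^ 3 = X ^ 3 + Y ^ 3 + (X * (X * Y - Y * X) - (X * Y - Y * X) * X) +
      (Y * (Y * X - X * Y) - (Y * X - X * Y) * Y) + 3 * (X * Y * X + Y * X * Y) := by noncomm_ring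
  rw [h, h3, zero_mul, add_zero]

theorem br3 (x v : L8 K) : adm x ^ 3 *ᵥ v = br x (br x (br x v)) := by
  unfold br
  rw [Matrix.mulVec_mulVec, Matrix.mulVec_mulVec, pow_succ, pow_two]

theorem Tor.cube {h : L8 K} (hh : InT h) (ht : Tor h) (j : chevE8.Idx) : rl h (wt j) ^ 3 = rl h (wt j) := by
  have h1 : (adm h ^ 3) j j = adm h j j := by rw [show adm h ^ 3 = adm h from ht]
  rwa [adm_T hh, Matrix.diagonal_pow, Matrix.diagonal_apply_eq, Matrix.diagonal_apply_eq, Pi.pow_apply] at h1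

theorem tor_eq [CharP K 3] {X : ℤ → ℤ → Prop} {x h r : L8 K} (ht : Tor (x + (h + r))) (hh : InT h)
    (hh' : ∀ j, rl h (wt j) ^ 3 = rl h (wt j))
    (hx : x ∈ LB K y X) (hr : r ∈ LB K y A) (hA : Ad A A A) (h1 : ∀ l m, A l m → B l m)
    (h2 : ∀ l m l' m' l'' m'', X l m → X l' m' → X l'' m'' → B (l + l' + l'') (m + m' + m'')) :
    x - br x (br x (h + r)) - br (h + r) (br (h + r) x) ∈ LB K y B := by
  have h3 : (3 : Matrix chevE8.Idx chevE8.Idx K) = 0 := by
    rw [← Nat.cast_ofNat, ← map_natCast (algebraMap K (Matrix chevE8.Idx chevE8.Idx K)), CharP.cast_eq_zero, map_zero]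
  have e1 : adm (x - br x (br x (h + r)) - br (h + r) (br (h + r) x)) =
      adm x ^ 3 + (adm (h + r) ^ 3 - adm (h + r)) := by
    have h4 : adm (x + (h + r)) ^ 3 = adm (x + (h + r)) := ht
    rw [adm_add x, cube_add h3] at h4
    rw [adm_sub, adm_sub, adm_br, adm_br, adm_br, adm_br, ← sub_eq_zero, ← sub_eq_zero.2 h4.symm]
    abel
  refine mem_of_br fun j => ?_
  have hj : ee K j ∈ LB K y fun l m => l = ex y (wt j) ∧ m = wt j 6 := ee_LB ⟨rfl, rfl⟩
  have e2 : br (x - br x (br x (h + r)) - br (h + r) (br (h + r) x)) (ee K j) =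
      br x (br x (br x (ee K j))) + (br (h + r) (br (h + r) (br (h + r) (ee K j))) - br (h + r) (ee K j)) := by
    rw [← br3, ← br3]
    unfold br
    rw [← Matrix.sub_mulVec, ← Matrix.add_mulVec]
    exact congrArg (· *ᵥ ee K j) e1
  rw [e2]
  refine add_mem ?_ ?_
  · have b1 : br x (ee K j) ∈ LB K y fun l m => X (l - ex y (wt j)) (m - wt j 6) := LB_br hx hj (by
      rintro l m _ _ a ⟨rfl, rfl⟩
      rwa [add_sub_cancel_right, add_sub_cancel_right])
    have b2 : br x (br x (ee K j)) ∈ LB K y fun l m => ∃ l' m', X l' m' ∧ X (l - l' - ex y (wt j)) (m - m' - wt j 6) :=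
      LB_br hx b1 fun l m l' m' a b => ⟨l, m, a, by rwa [add_sub_cancel_left, add_sub_cancel_left]⟩
    refine LB_br hx b2 ?_
    rintro l m l1 m1 a ⟨l', m', b, c⟩
    have h5 := h2 _ _ _ _ _ _ a b c
    have e3 : l + l' + (l1 - l' - ex y (wt j)) = l + l1 - ex y (wt j) := by ring
    have e4 : m + m' + (m1 - m' - wt j 6) = m + m1 - wt j 6 := by ring
    rwa [e3, e4] at h5
  · refine LB_mono (P := fun l m => A (l - ex y (wt j)) (m - wt j 6)) ?_ fun _ _ => h1 _ _
    have b0 : br h (ee K j) = rl h (wt j) • ee K j := funext fun i => by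
      rw [br_T hh, Pi.smul_apply, smul_eq_mul]
      by_cases hi : i = j
      · rw [hi]
      · rw [ee_ne hi, mul_zero, mul_zero]
    have b1 : br r (ee K j) ∈ LB K y fun l m => A (l - ex y (wt j)) (m - wt j 6) := LB_br hr hj (by
      rintro l m _ _ a ⟨rfl, rfl⟩
      rwa [add_sub_cancel_right, add_sub_cancel_right])
    have b2 : ∀ w ∈ LB K y fun l m => A (l - ex y (wt j)) (m - wt j 6),
        br (h + r) w ∈ LB K y fun l m => A (l - ex y (wt j)) (m - wt j 6) := fun w hw => by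
      rw [br_add_left]
      refine add_mem (LB_br (P := fun l m => l = 0 ∧ m = 0) (inT_LB hh ⟨rfl, rfl⟩) hw ?_) (LB_br hr hw ?_)
      · rintro _ _ l m ⟨rfl, rfl⟩ a
        rwa [zero_add, zero_add]
      · intro l m l' m' a b
        rw [add_sub_assoc, add_sub_assoc]
        exact hA _ _ _ _ a b
    have b3 : br (h + r) (ee K j) = rl h (wt j) • ee K j + br r (ee K j) := by rw [br_add_left, b0]
    have hc := hh' j
    generalize rl h (wt j) = a at b3 hc
    generalize br r (ee K j) = t at b1 b3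
    generalize h + r = ρ at b2 b3
    have e5 : br ρ (br ρ (br ρ (ee K j))) - br ρ (ee K j) = (a ^ 2 - 1) • t + a • br ρ t + br ρ (br ρ t) := by
      have e6 : a ^ 3 • ee K j = a • ee K j := by rw [hc]
      rw [b3, br_add_right, br_smul_right, b3, br_add_right, br_smul_right, br_add_right, br_smul_right, b3,
        ← sub_eq_zero, ← sub_eq_zero.2 e6]
      module
    rw [e5]
    exact add_mem (add_mem (Submodule.smul_mem _ _ b1) (Submodule.smul_mem _ _ (b2 _ b1))) (b2 _ (b2 _ b1))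

end Cfsg.Agent.E8A.C63.Wt
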