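import Cfsg.Agent.E8A.C63.WitA

/-!
# WIT, part B: the normalisation of `h` in the two bad classes (helper5)

`Fa`, `Fb` : the finite facts; `goal` : the exotic filtration from them.
-/

set_option autoImplicit false
set_option maxRecDepth 100000

namespace Cfsg.Agent.E8A.C63.Wt

open Cfsg Cfsg.Lie Module Matrix
open Cfsg.Agent.H288.E8L (Q8 wt wt_inl wt_inr)
open Cfsg.Agent.E8A.Reg5.Cls (ex ex_zero)
open Cfsg.Agent.E8A.TwoH (br_anti br_jac br_der br_zero_left br_zero_right)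

universe u

variable {K : Type u} [Field K]

/-- the facts for both bad classes -/
structure Fa (y : Q8) (e z : L8 K) : Prop where
  nl : Nl y e
  tt : ∀ v : L8 K, v ∈ LB K y fun l m => -3 ≤ m ∧ (m = -3 → l = 1 ∨ l = -1) ∧ (3 ≤ l → l + m ≠ 0)
  cn : ∀ v, br e v = 0 → v ∈ LB K y fun l _ => -1 ≤ l
  zc : br e z = 0
  zm : z ∈ LB K y fun l m => l = -1 ∧ m = 1
  k1 : ∀ v ∈ LB K y fun l m => l = -1 ∧ 1 ≤ m, br e v = 0 → ∃ a : K, v = a • z
  k2 : ∀ v ∈ LB K y fun l m => l = -1 ∧ m ≤ -2, br e v = 0 → v = 0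
  dn : ∀ k : ℤ, k = 1 ∨ k = 2 → ∀ v ∈ LB K y fun l m => l = -1 ∧ m = 1 - k, br e v = 0 →
    ∃ w ∈ LB K y fun l m => l = 0 ∧ m = -k, br e w = 0 ∧ br w z = v
  up : ∀ k : ℤ, k = 1 ∨ k = 2 → ∀ v ∈ LB K y fun l m => l = -1 ∧ m = 1 - k, br e v = 0 → v ≠ 0 →
    ∃ w ∈ LB K y fun l m => l = 0 ∧ m = k, br e w = 0 ∧ br w v ≠ 0
  c0 : ∀ v ∈ LB K y fun l m => l = 0 ∧ m < 0, br e v = 0 →
    ∃ w ∈ LB K y fun l m => l = 1 ∧ m ≤ -2, br e w = 0 ∧ br w z = v
  c1 : ∀ v ∈ LB K y fun l m => l = 1 ∧ m ≤ -2, br e v = 0 → br z (br z v) = 0 → v = 0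

/-- the facts for the class `2A₂A₁` -/
structure Fb (y : Q8) (e z h0 : L8 K) : Prop where
  i0 : ∀ w ∈ LB K y fun l m => l = -2 ∧ m = 0, br e (br e w - h0) = 0 →
    ∃ v ∈ LB K y fun l m => l = 1 ∧ m = -1, br e v = 0 ∧ br v z = br e w - h0
  c11 : ∀ v ∈ LB K y fun l m => l = 1 ∧ m = -1, br e v = 0 → br z v = 0 → v = 0

/-- the conclusion -/
def Goal (y : Q8) (e z h0 : L8 K) (b : Prop) (h f : L8 K) : Prop :=
  ∃ g : G8 K, act g e = e ∧ act g h ∈ LB K y (fun l m => 0 ≤ l + m) ∧ act g f ∈ LB K y (fun l m => -2 ≤ l + m) ∧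
    (b → ∃ a : K, a • z ≠ 0 ∧ act g h - (a • z + h0) ∈ LB K y fun l m => 1 ≤ l + m)

variable {y : Q8} {e z h0 h f : L8 K} {b : Prop}

theorem via {Q : L8 K → Prop} (R : RS e h f) (h1 : ∃ u : G8 K, act u e = e ∧ Q (act u h))
    (h2 : ∀ h' f', RS e h' f' → Q h' → Goal y e z h0 b h' f') : Goal y e z h0 b h f := by
  obtain ⟨u, hu, hq⟩ := h1
  have R' := R.act u
  rw [hu] at R'
  obtain ⟨g, g1, g2, g3, g4⟩ := h2 _ _ R' hq
  exact ⟨g * u, by rw [act_mul, hu, g1], by rwa [act_mul], by rwa [act_mul], by rwa [act_mul]⟩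

theorem isH_br (H : IsH y h0) {v : L8 K} {n : ℤ} (hv : v ∈ LB K y fun l _ => l = n) : br h0 v = (n : K) • v :=
  funext fun i => by
    rw [br_T H.1, H.2, Pi.smul_apply, smul_eq_mul]
    by_cases hi : v i = 0
    · rw [hi, mul_zero, mul_zero]
    · rw [show ex y (wt i) = n from hv i hi]

theorem cen0 (H : IsH y h0) (he : e ∈ LB K y fun l _ => l = 2) (S : Sl2 e h f) : br e (h - h0) = 0 := by
  rw [br_sub_right, br_anti e h, br_anti e h0, S.he, isH_br H he, Int.cast_ofNat, sub_self]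

theorem cenp (H : IsH y h0) (he : e ∈ LB K y fun l m => l = 2 ∧ m = 0) {w : L8 K} (hw : br e (w - h0) = 0)
    {P : ℤ → ℤ → Prop} (hP : ¬P 0 0) : br e (pj y P w) = 0 := by
  have h1 : pj y P w = pj y P (w - h0) := by
    refine pj_eq (pj_mem' _) (Q := fun l m => ¬P l m) ?_ fun _ _ a b => b a
    rw [show w - pj y P (w - h0) = (w - h0 - pj y P (w - h0)) + h0 by abel]
    exact add_mem (sub_pj (mem_top _) fun _ _ _ a => a) (inT_LB H.1 hP)
  rw [h1]
  exact cen_pj he hw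

theorem Fa.c00 (F : Fa y e z) (H : IsH y h0) (R : RS e h f) (a : K) : br e (h - a • z - h0) = 0 := by
  rw [sub_right_comm, br_sub_right, cen0 H (LB_mono F.nl.mem fun _ _ a => a.1) R.toSl2, br_smul_right, F.zc, smul_zero,
    sub_zero]

theorem Fa.base (F : Fa y e z) (H : IsH y h0) (R : RS e h f) :
    h ∈ LB K y fun l m => 0 ≤ l ∨ (l = -1 ∧ -1 ≤ m ∧ m ≤ 1) := by
  have h1 := cen0 H (LB_mono F.nl.mem fun _ _ a => a.1) R.toSl2
  have h2 : h ∈ LB K y fun l _ => -1 ≤ l := by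
    rw [← sub_add_cancel h h0]
    exact add_mem (F.cn _ h1) (inT_LB H.1 (by omega))
  have h3 : pj y (fun l m => l = -1 ∧ m ≤ -2) h = 0 := F.k2 _ (pj_mem' _) (cenp H F.nl.mem h1 (by omega))
  have h4 : pj y (fun l m => l = -1 ∧ 2 ≤ m) h = 0 := by
    obtain ⟨a, ha⟩ := F.k1 (pj y (fun l m => l = -1 ∧ 2 ≤ m) h) (LB_mono (pj_mem' _) fun _ _ a => by omega)
      (cenp H F.nl.mem h1 (by omega))
    refine LB_zero (y := y) (P := fun l m => l = -1 ∧ 2 ≤ m) (Q := fun l m => l = -1 ∧ m = 1) (pj_mem' _) ?_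
      fun _ _ a b => by omega
    rw [ha]
    exact Submodule.smul_mem _ _ F.zm
  exact LB_and (mem_of_pj h2 h3 (Q := fun l m => 0 ≤ l ∨ (l = -1 ∧ -1 ≤ m)) fun _ _ a b => by omega)
    (mem_of_pj h2 h4 (Q := fun l m => 0 ≤ l ∨ (l = -1 ∧ m ≤ 1)) fun _ _ a b => by omega) fun _ _ a b => by omega

theorem Fa.fin (F : Fa y e z) (R : RS e h f) (hh : h ∈ LB K y fun l m => 0 ≤ l + m) :
    f ∈ LB K y fun l m => -2 ≤ l + m := by
  have h1 : br e (pj y (fun l m => l + m < -2) f) = 0 := by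
    rw [br_pj F.nl.mem (Q := fun l m => l + m < 0) (fun _ _ _ _ a b => by omega) (fun _ _ _ _ a b => by omega), R.ef]
    exact pj_eq (zero_mem _) (by rwa [sub_zero]) fun _ _ a b => by omega
  refine mem_of_pj (mem_top f) (F.k2 _ ?_ h1) fun _ _ _ a => by omega
  exact LB_and (LB_and (F.cn _ h1) (F.tt _) (R := fun l m => -1 ≤ l ∧ -3 ≤ m ∧ (m = -3 → l = 1 ∨ l = -1))
    fun _ _ a b => by omega) (pj_mem' f) fun _ _ a b => by omega

theorem br_inv {a : K} (ha : a ≠ 0) (w z : L8 K) : br (-a⁻¹ • w) (a • z) = -br w z := by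
  rw [br_smul_left, br_smul_right, smul_smul, neg_mul, inv_mul_cancel₀ ha, neg_one_smul]

variable [CharP K 3]

theorem cast_two : ((2 : ℤ) : K) = -1 := by
  have h2 : (3 : K) = 0 := by exact_mod_cast CharP.cast_eq_zero K 3
  push_cast
  linear_combination h2

theorem IsH.cube (H : IsH y h0) (j : chevE8.Idx) : rl h0 (wt j) ^ 3 = rl h0 (wt j) := by
  rw [H.2]
  generalize ex y (wt j) = n
  have h3 : ((3 : ℤ) : K) = 0 := by exact_mod_cast CharP.cast_eq_zero K 3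
  obtain ⟨k, hk⟩ : (3 : ℤ) ∣ n ^ 3 - n := by
    have h : n % 3 = 0 ∨ n % 3 = 1 ∨ n % 3 = 2 := by omega
    refine Int.dvd_of_emod_eq_zero ?_
    rcases h with h | h | h <;> simp [pow_succ, Int.sub_emod, Int.mul_emod, h]
  rw [← sub_eq_zero, ← Int.cast_pow, ← Int.cast_sub, hk, Int.cast_mul, h3, zero_mul]

theorem stepG (F : Fa y e z) (G : Fb y e z h0) (H : IsH y h0) (R : RS e h f) {a : K} (ha : a • z ≠ 0)
    (hr : h - (a • z + h0) ∈ LB K y fun l m => (l + m = 0 ∧ 1 ≤ l ∧ l ≠ 2) ∨ 1 ≤ l + m) : Goal y e z h0 b h f := by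
  have hc : br e (h - (a • z + h0)) = 0 := by rw [← sub_sub]; exact F.c00 H R a
  have ht : Tor (a • z + (h0 + (h - (a • z + h0)))) := by
    rw [show a • z + (h0 + (h - (a • z + h0))) = h by abel]
    exact R.th
  have hx : a • z ∈ LB K y fun l m => l = -1 ∧ m = 1 := Submodule.smul_mem _ _ F.zm
  have h00 : h0 ∈ LB K y fun l m => l = 0 ∧ m = 0 := inT_LB H.1 ⟨rfl, rfl⟩
  have key : h - (a • z + h0) ∈ LB K y fun l m => 1 ≤ l + m := by
    have hr' : h - (a • z + h0) ∈ LB K y fun l m => (l = 1 ∧ m = -1) ∨ 1 ≤ l + m :=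
      LB_and hr (F.tt _) fun _ _ a b => by omega
    generalize h - (a • z + h0) = r at hr' hc ht
    have hs : pj y (fun l m => l = 1 ∧ m = -1) r ∈ LB K y fun l m => l = 1 ∧ m = -1 := pj_mem' r
    have hu : r - pj y (fun l m => l = 1 ∧ m = -1) r ∈ LB K y fun l m => 1 ≤ l + m :=
      sub_pj hr' fun _ _ a b => by omega
    have hs0 : br e (pj y (fun l m => l = 1 ∧ m = -1) r) = 0 := cen_pj F.nl.mem hc
    suffices h1 : pj y (fun l m => l = 1 ∧ m = -1) r = 0 by rwa [h1, sub_zero] at hu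
    generalize pj y (fun l m => l = 1 ∧ m = -1) r = s at hs hu hs0
    obtain ⟨t, rfl⟩ : ∃ t, r = s + t := ⟨r - s, by abel⟩
    rw [add_sub_cancel_left] at hu
    have hY := tor_eq ht H.1 (IsH.cube H) hx (A := fun l m => (l + m = 0 ∧ 1 ≤ l) ∨ 1 ≤ l + m)
      (B := fun l m => ¬(l = 0 ∧ m = 0)) (LB_mono hr' fun _ _ a => by omega) (fun _ _ _ _ a b => by omega)
      (fun _ _ a => by omega) fun _ _ _ _ _ _ a b c => by omega
    have b1 : br h0 (a • z) = -(a • z) := by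
      rw [isH_br H (n := -1) (LB_mono hx fun _ _ a => a.1), Int.cast_neg, Int.cast_one, neg_one_smul]
    have hz : br z s = 0 → s = 0 := G.c11 s hs hs0
    have ha0 : a ≠ 0 := left_ne_zero_of_smul ha
    have hsx : br s (a • z) = 0 → s = 0 := fun h1 => hz (by
      rw [br_smul_right, smul_eq_zero] at h1
      rw [br_anti, h1.resolve_left ha0, neg_zero])
    generalize a • z = x at hx hY b1 hsx
    have m1 : br s x ∈ LB K y fun l m => l = 0 ∧ m = 0 := LB_br hs hx fun _ _ _ _ a b => by omega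
    have m2 : br t x ∈ LB K y fun l m => 1 ≤ l + m := LB_br hu hx fun _ _ _ _ a b => by omega
    have b2 : br h0 (br s x) = 0 := by
      rw [isH_br H (n := 0) (LB_mono m1 fun _ _ a => a.1), Int.cast_zero, zero_smul]
    have m3 : br x (br x (h0 + (s + t))) ∈ LB K y fun l m => ¬(l = 0 ∧ m = 0) :=
      LB_br hx (Q := fun l m => (l = -1 ∧ m = 1) ∨ (l = 0 ∧ m = 0) ∨ 1 ≤ l + m)
        (LB_br hx (Q := fun l m => (l = 0 ∧ m = 0) ∨ (l = 1 ∧ m = -1) ∨ 1 ≤ l + m)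
          (add_mem (LB_mono h00 fun _ _ a => by omega) (LB_mono hr' fun _ _ a => by omega))
          fun _ _ _ _ a b => by omega) fun _ _ _ _ a b => by omega
    have m4 : br h0 (br t x) ∈ LB K y fun l m => ¬(l = 0 ∧ m = 0) := LB_br h00 m2 fun _ _ _ _ a b => by omega
    have m5 : br (s + t) (br s x + br t x) ∈ LB K y fun l m => ¬(l = 0 ∧ m = 0) :=
      LB_br hr' (Q := fun l m => (l = 0 ∧ m = 0) ∨ 1 ≤ l + m)
        (add_mem (LB_mono m1 fun _ _ a => by omega) (LB_mono m2 fun _ _ a => by omega)) fun _ _ _ _ a b => by omega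
    have e1 : br (h0 + (s + t)) x = -x + (br s x + br t x) := by rw [br_add_left, br_add_left, b1]
    have e2 : br s x = (x - br x (br x (h0 + (s + t))) - br (h0 + (s + t)) (br (h0 + (s + t)) x)) +
        br x (br x (h0 + (s + t))) - br t x + br h0 (br t x) + br (s + t) (br s x + br t x) := by
      rw [e1, br_add_right (h0 + (s + t)), br_negr, e1, br_add_left h0 (s + t) (br s x + br t x),
        br_add_right h0 (br s x), b2]
      abel
    refine hsx (LB_zero m1 (Q := fun l m => ¬(l = 0 ∧ m = 0)) ?_ fun _ _ a b => b a)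
    rw [e2]
    exact add_mem (add_mem (sub_mem (add_mem hY m3) (LB_mono m2 fun _ _ a => by omega)) m4) m5
  have hh : h ∈ LB K y fun l m => 0 ≤ l + m := by
    rw [← sub_add_cancel h (a • z + h0)]
    exact add_mem (LB_mono key fun _ _ a => by omega)
      (add_mem (LB_mono hx fun _ _ a => by omega) (LB_mono h00 fun _ _ a => by omega))
  exact ⟨1, act_one _, by rwa [act_one], by rw [act_one]; exact F.fin R hh, fun _ => ⟨a, ha, by rwa [act_one]⟩⟩

omit [CharP K 3] in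
theorem flN : Fl (fun l m => 1 ≤ l ∧ l + m = 0) 1 0 := ⟨fun _ _ _ _ a b => by omega, fun _ _ a => by omega⟩

theorem stepF (F : Fa y e z) (G : Fb y e z h0) (H : IsH y h0) (R : RS e h f) {a : K} (ha : a • z ≠ 0)
    (hr : h - (a • z + h0) ∈ LB K y fun l m => (l + m = 0 ∧ 1 ≤ l) ∨ 1 ≤ l + m) : Goal y e z h0 b h f := by
  refine via R (Q := fun h => h - (a • z + h0) ∈ LB K y fun l m => (l + m = 0 ∧ 1 ≤ l ∧ l ≠ 2) ∨ 1 ≤ l + m) ?_
    fun _ _ R' q => stepG F G H R' ha q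
  have hc : br e (h - (a • z + h0)) = 0 := by rw [← sub_sub]; exact F.c00 H R a
  have hx : a • z ∈ LB K y fun l m => l = -1 ∧ m = 1 := Submodule.smul_mem _ _ F.zm
  have hs : pj y (fun l m => l = 2 ∧ m = -2) (h - (a • z + h0)) ∈ LB K y fun l m => l = 2 ∧ m = -2 := pj_mem' _
  have hu : h - (a • z + h0) - pj y (fun l m => l = 2 ∧ m = -2) (h - (a • z + h0)) ∈
      LB K y fun l m => (l + m = 0 ∧ 1 ≤ l ∧ l ≠ 2) ∨ 1 ≤ l + m := sub_pj hr fun _ _ a b => by omega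
  have hs0 : br e (pj y (fun l m => l = 2 ∧ m = -2) (h - (a • z + h0))) = 0 := cen_pj F.nl.mem hc
  generalize pj y (fun l m => l = 2 ∧ m = -2) (h - (a • z + h0)) = s at hs hu hs0
  refine move F.nl flN (k := 2) (by omega) (c := -s) (neg_mem (LB_mono hs fun _ _ a => by unfold Sk; omega))
    (by rw [br_negr, hs0, neg_zero]) (X := fun l m => l + m = 0 ∧ -1 ≤ l)
    (add_mem (LB_mono hx fun _ _ a => by omega) (inT_LB H.1 (by omega))) hr ?_ (fun _ _ _ _ a b => by unfold Sk at a; omega)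
    (fun _ _ _ _ a b => by unfold Sk at b; omega) (fun _ _ _ _ a b => by unfold Sk at b; omega)
    fun _ _ _ _ a b => by unfold Sk at b; omega
  have e1 : h - (a • z + h0) + br (-s) (a • z + h0) = (h - (a • z + h0) - s) - br s (a • z) := by
    rw [br_negl, br_add_right, br_anti s h0, isH_br H (n := 2) (LB_mono hs fun _ _ a => a.1), cast_two, neg_one_smul]
    abel
  rw [e1]
  exact sub_mem hu (LB_br hs hx fun _ _ _ _ a b => by omega)

theorem stepE (F : Fa y e z) (G : Fb y e z h0) (H : IsH y h0) (R : RS e h f) {a : K} (ha : a • z ≠ 0)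
    (hr : h - a • z ∈ LB K y fun l m => 0 ≤ l ∧ 0 ≤ l + m) : Goal y e z h0 b h f := by
  refine via R (Q := fun h => h - (a • z + h0) ∈ LB K y fun l m => (l + m = 0 ∧ 1 ≤ l) ∨ 1 ≤ l + m) ?_
    fun _ _ R' q => stepF F G H R' ha q
  have hc : br e (h - (a • z + h0)) = 0 := by rw [← sub_sub]; exact F.c00 H R a
  have hx : a • z ∈ LB K y fun l m => l = -1 ∧ m = 1 := Submodule.smul_mem _ _ F.zm
  have h00 : h0 ∈ LB K y fun l m => l = 0 ∧ m = 0 := inT_LB H.1 ⟨rfl, rfl⟩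
  have hr' : h - (a • z + h0) ∈ LB K y fun l m => 0 ≤ l ∧ 0 ≤ l + m := by
    rw [← sub_sub]
    exact sub_mem hr (LB_mono h00 fun _ _ a => by omega)
  have hs : pj y (fun l m => l = 0 ∧ m = 0) (h - (a • z + h0)) ∈ LB K y fun l m => l = 0 ∧ m = 0 := pj_mem' _
  have hu : h - (a • z + h0) - pj y (fun l m => l = 0 ∧ m = 0) (h - (a • z + h0)) ∈
      LB K y fun l m => (l + m = 0 ∧ 1 ≤ l) ∨ 1 ≤ l + m := sub_pj hr' fun _ _ a b => by omega
  have hs0 : br e (pj y (fun l m => l = 0 ∧ m = 0) (h - (a • z + h0))) = 0 := cen_pj F.nl.mem hc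
  generalize pj y (fun l m => l = 0 ∧ m = 0) (h - (a • z + h0)) = s at hs hu hs0
  have e0 : br e (pj y (fun l m => l = -2 ∧ m = 0) f) - h0 = s := by
    rw [br_pj F.nl.mem (Q := fun l m => l = 0 ∧ m = 0) (fun _ _ _ _ a b => by omega) (fun _ _ _ _ a b => by omega),
      R.ef, sub_eq_iff_eq_add]
    refine pj_eq (add_mem hs h00) (Q := fun l m => ¬(l = 0 ∧ m = 0)) ?_ fun _ _ a b => b a
    rw [show h - (s + h0) = (h - (a • z + h0) - s) + a • z by abel]
    exact add_mem (LB_mono hu fun _ _ a => by omega) (LB_mono hx fun _ _ a => by omega)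
  obtain ⟨w, hw, w0, w1⟩ := G.i0 _ (pj_mem' f) (by rw [e0, hs0])
  rw [e0] at w1
  have hw' : -a⁻¹ • w ∈ LB K y fun l m => l = 1 ∧ m = -1 := Submodule.smul_mem _ _ hw
  refine move F.nl flN (k := 1) le_rfl (c := -a⁻¹ • w) (LB_mono hw' fun _ _ a => by unfold Sk; omega)
    (by rw [br_smul_right, w0, smul_zero]) (X := fun l m => l + m = 0 ∧ -1 ≤ l)
    (add_mem (LB_mono hx fun _ _ a => by omega) (inT_LB H.1 (by omega))) hr' ?_ (fun _ _ _ _ a b => by unfold Sk at a; omega)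
    (fun _ _ _ _ a b => by unfold Sk at b; omega) (fun _ _ _ _ a b => by unfold Sk at b; omega)
    fun _ _ _ _ a b => by unfold Sk at b; omega
  have e1 : h - (a • z + h0) + br (-a⁻¹ • w) (a • z + h0) = (h - (a • z + h0) - s) + br (-a⁻¹ • w) h0 := by
    rw [br_add_right, br_inv (left_ne_zero_of_smul ha), w1]
    abel
  rw [e1]
  exact add_mem hu (LB_br hw' h00 fun _ _ _ _ a b => by omega)

theorem stepD (F : Fa y e z) (G : b → Fb y e z h0) (H : IsH y h0) (R : RS e h f) {a : K} (ha : a • z ≠ 0)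
    (hr : h - a • z ∈ LB K y fun l m => (l = 0 ∧ 0 ≤ m) ∨ 1 ≤ l) : Goal y e z h0 b h f := by
  have hx : a • z ∈ LB K y fun l m => l = -1 ∧ m = 1 := Submodule.smul_mem _ _ F.zm
  have key : h - a • z ∈ LB K y fun l m => 0 ≤ l ∧ 0 ≤ l + m := by
    have hc := F.c00 H R a
    have ht : Tor (a • z + (0 + (h - a • z))) := by
      rw [show a • z + (0 + (h - a • z)) = h by abel]
      exact R.th
    generalize h - a • z = r at hr hc ht
    have hs : pj y (fun l m => l = 1 ∧ m ≤ -2) r ∈ LB K y fun l m => l = 1 ∧ m ≤ -2 := pj_mem' r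
    have hu : r - pj y (fun l m => l = 1 ∧ m ≤ -2) r ∈ LB K y fun l m => 0 ≤ l ∧ 0 ≤ l + m :=
      LB_and (sub_pj hr (Q := fun l m => ((l = 0 ∧ 0 ≤ m) ∨ 1 ≤ l) ∧ ¬(l = 1 ∧ m ≤ -2)) fun _ _ a b => ⟨a, b⟩) (F.tt _)
        fun _ _ a b => by omega
    have hs0 : br e (pj y (fun l m => l = 1 ∧ m ≤ -2) r) = 0 := cenp H F.nl.mem hc (by omega)
    suffices h1 : pj y (fun l m => l = 1 ∧ m ≤ -2) r = 0 by rwa [h1, sub_zero] at hu
    generalize pj y (fun l m => l = 1 ∧ m ≤ -2) r = s at hs hu hs0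
    have hY := tor_eq ht (fun _ => rfl) (fun j => by rw [TwoH.rl_zero]; simp) hx hr
      (B := fun l m => ¬(l = -1 ∧ m ≤ 0)) (fun _ _ _ _ a b => by omega)
      (fun _ _ a => by omega) fun _ _ _ _ _ _ a b c => by omega
    rw [zero_add] at hY
    have ha0 : a ≠ 0 := left_ne_zero_of_smul ha
    have hsx : br (a • z) (br (a • z) s) = 0 → s = 0 := fun h1 => F.c1 s hs hs0 (by
      rw [br_smul_left, br_smul_left, br_smul_right, smul_eq_zero, smul_eq_zero] at h1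
      exact (h1.resolve_left ha0).resolve_left ha0)
    generalize a • z = x at hx hY hsx
    have m1 : br x (br x s) ∈ LB K y fun l m => l = -1 ∧ m ≤ 0 :=
      LB_br hx (Q := fun l m => l = 0 ∧ m ≤ -1) (LB_br hx hs fun _ _ _ _ a b => by omega) fun _ _ _ _ a b => by omega
    have m2 : br x (br x (r - s)) ∈ LB K y fun l m => ¬(l = -1 ∧ m ≤ 0) :=
      LB_br hx (Q := fun l m => 0 ≤ l + m) (LB_br hx hu fun _ _ _ _ a b => by omega) fun _ _ _ _ a b => by omega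
    have m3 : br r (br r x) ∈ LB K y fun l m => ¬(l = -1 ∧ m ≤ 0) :=
      LB_br hr (Q := fun l m => (l = -1 ∧ 1 ≤ m) ∨ 0 ≤ l) (LB_br hr hx fun _ _ _ _ a b => by omega)
        fun _ _ _ _ a b => by omega
    have e2 : br x (br x s) = x - br x (br x (r - s)) - br r (br r x) - (x - br x (br x r) - br r (br r x)) := by
      rw [br_sub_right, br_sub_right]
      abel
    refine hsx (LB_zero m1 (Q := fun l m => ¬(l = -1 ∧ m ≤ 0)) ?_ fun _ _ a b => b a)
    rw [e2]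
    exact sub_mem (sub_mem (sub_mem (LB_mono hx fun _ _ a => by omega) m2) m3) hY
  by_cases hb : b
  · exact stepE F (G hb) H R ha key
  · have hh : h ∈ LB K y fun l m => 0 ≤ l + m := by
      rw [← sub_add_cancel h (a • z)]
      exact add_mem (LB_mono key fun _ _ a => a.2) (LB_mono hx fun _ _ a => by omega)
    exact ⟨1, act_one _, by rwa [act_one], by rw [act_one]; exact F.fin R hh, fun h => absurd h hb⟩

theorem stepC (F : Fa y e z) (G : b → Fb y e z h0) (H : IsH y h0) (R : RS e h f) {a : K} (ha : a • z ≠ 0)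
    (hr : h - a • z ∈ LB K y fun l _ => 0 ≤ l) : Goal y e z h0 b h f := by
  refine via R (Q := fun h => h - a • z ∈ LB K y fun l m => (l = 0 ∧ 0 ≤ m) ∨ 1 ≤ l) ?_
    fun _ _ R' q => stepD F G H R' ha q
  have hu : h - a • z - pj y (fun l m => l = 0 ∧ m < 0) (h - a • z) ∈ LB K y fun l m => (l = 0 ∧ 0 ≤ m) ∨ 1 ≤ l :=
    sub_pj hr fun _ _ a b => by omega
  obtain ⟨w, hw, w0, w1⟩ := F.c0 _ (pj_mem' (h - a • z)) (cenp H F.nl.mem (F.c00 H R a) (by omega))
  refine move F.nl (S := fun l _ => 1 ≤ l) (α := 1) (β := 0) ⟨fun _ _ _ _ a b => by omega, fun _ _ a => by omega⟩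
    (k := 1) le_rfl (c := -a⁻¹ • w) (Submodule.smul_mem _ _ (LB_mono hw fun _ _ a => by unfold Sk; omega))
    (by rw [br_smul_right, w0, smul_zero]) (Submodule.smul_mem _ _ F.zm) hr ?_
    (fun _ _ _ _ a b => by unfold Sk at a; omega)
    (fun _ _ _ _ a b => by unfold Sk at b; omega) (fun _ _ _ _ a b => by unfold Sk at b; omega)
    fun _ _ _ _ a b => by unfold Sk at b; omega
  rwa [br_inv (left_ne_zero_of_smul ha), w1, ← sub_eq_add_neg]

omit [CharP K 3] in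
theorem stepB1 (F : Fa y e z) (H : IsH y h0) (R : RS e h f) {a : K} (ha : a • z ≠ 0) {k : ℤ} (hk : k = 1 ∨ k = 2)
    (hr : h - a • z ∈ LB K y fun l m => 0 ≤ l ∨ (l = -1 ∧ m ≤ 1 - k)) :
    ∃ u : G8 K, act u e = e ∧ act u h - a • z ∈ LB K y fun l m => 0 ≤ l ∨ (l = -1 ∧ m ≤ -k) := by
  have hu : h - a • z - pj y (fun l m => l = -1 ∧ m = 1 - k) (h - a • z) ∈
      LB K y fun l m => 0 ≤ l ∨ (l = -1 ∧ m ≤ -k) := sub_pj hr fun _ _ a b => by omega
  obtain ⟨w, hw, w0, w1⟩ := F.dn k hk _ (pj_mem' (h - a • z)) (cenp H F.nl.mem (F.c00 H R a) (by omega))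
  refine move F.nl (S := fun l m => l = 0 ∧ m ≤ -1) (α := 0) (β := -1)
    ⟨fun _ _ _ _ a b => by omega, fun _ _ a => by omega⟩
    (k := k) (by omega) (c := -a⁻¹ • w) (Submodule.smul_mem _ _ (LB_mono hw fun _ _ a => by unfold Sk; omega))
    (by rw [br_smul_right, w0, smul_zero]) (Submodule.smul_mem _ _ F.zm) hr ?_
    (fun _ _ _ _ a b => by unfold Sk at a; omega)
    (fun _ _ _ _ a b => by unfold Sk at b; omega) (fun _ _ _ _ a b => by unfold Sk at b; omega)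
    fun _ _ _ _ a b => by unfold Sk at b; omega
  rwa [br_inv (left_ne_zero_of_smul ha), w1, ← sub_eq_add_neg]

theorem stepB (F : Fa y e z) (G : b → Fb y e z h0) (H : IsH y h0) (R : RS e h f) {x : L8 K} (x0 : x ≠ 0)
    (hx : x ∈ LB K y fun l m => l = -1 ∧ m = 1) (hr : h - x ∈ LB K y fun l m => ¬(l = -1 ∧ m = 1)) :
    Goal y e z h0 b h f := by
  have h1 : pj y (fun l m => l = -1 ∧ m = 1) h = x := pj_eq hx hr fun _ _ a b => b a
  obtain ⟨a, rfl⟩ := F.k1 x (LB_mono hx fun _ _ a => by omega) (by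
    rw [← h1]
    exact cenp H F.nl.mem (cen0 H (LB_mono F.nl.mem fun _ _ a => a.1) R.toSl2) (by omega))
  have hb : ∀ h f, RS e h f → h - a • z ∈ LB K y fun l m => 0 ≤ l ∨ (l = -1 ∧ -1 ≤ m ∧ m ≤ 1) := fun h f R =>
    sub_mem (F.base H R) (LB_mono hx fun _ _ a => by omega)
  refine via R (Q := fun h => h - a • z ∈ LB K y fun l m => 0 ≤ l ∨ (l = -1 ∧ m ≤ -1))
    (stepB1 F H R x0 (Or.inl rfl) (LB_and hr (hb _ _ R) fun _ _ a b => by omega)) fun h f R q => ?_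
  refine via R (Q := fun h => h - a • z ∈ LB K y fun l m => 0 ≤ l ∨ (l = -1 ∧ m ≤ -2))
    (stepB1 F H R x0 (Or.inr rfl) (LB_mono q fun _ _ a => by omega)) fun h f R q => ?_
  exact stepC F G H R x0 (LB_and q (hb _ _ R) fun _ _ a b => by omega)

theorem stepA (F : Fa y e z) (G : b → Fb y e z h0) (H : IsH y h0) (R : RS e h f) {k : ℤ} (hk : k = 1 ∨ k = 2)
    (hh : h ∈ LB K y fun l m => 0 ≤ l ∨ (l = -1 ∧ 1 - k ≤ m ∧ m ≤ 0))
    (h1 : pj y (fun l m => l = -1 ∧ m = 1 - k) h ≠ 0) : Goal y e z h0 b h f := by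
  have hs : pj y (fun l m => l = -1 ∧ m = 1 - k) h ∈ LB K y fun l m => l = -1 ∧ m = 1 - k := pj_mem' _
  have hu : h - pj y (fun l m => l = -1 ∧ m = 1 - k) h ∈ LB K y fun l m => 0 ≤ l ∨ (l = -1 ∧ 1 - k < m) :=
    sub_pj hh fun _ _ a b => by omega
  obtain ⟨w, hw, w0, w1⟩ := F.up k hk _ hs
    (cenp H F.nl.mem (cen0 H (LB_mono F.nl.mem fun _ _ a => a.1) R.toSl2) (by omega)) h1
  generalize pj y (fun l m => l = -1 ∧ m = 1 - k) h = s at hs hu w1
  refine via R (Q := fun h => h - br w s ∈ LB K y fun l m => ¬(l = -1 ∧ m = 1)) ?_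
    fun _ _ R' q => stepB F G H R' w1 (LB_br hw hs fun _ _ _ _ a b => by omega) q
  obtain ⟨u, u1, u2⟩ := cu F.nl (S := fun l m => l = 0 ∧ 1 ≤ m) (α := 0) (β := 1)
    ⟨fun _ _ _ _ a b => by omega, fun _ _ a => by omega⟩ (k := k) (by omega)
    (LB_mono hw fun _ _ a => by unfold Sk; omega) w0
  refine ⟨u, u1, ?_⟩
  have r1 := u2 _ (fun l m => 0 ≤ l ∨ (l = -1 ∧ 2 ≤ m)) (fun _ _ _ _ a b => by unfold Sk at b; omega)
    (fun _ _ _ _ a b => by unfold Sk at b; omega) h hh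
  have e1 : act u h - br w s = (act u h - h - br w h) + h + br w (h - s) := by
    rw [br_sub_right]
    abel
  show act u h - br w s ∈ _
  rw [e1]
  exact add_mem (add_mem (LB_mono r1 fun _ _ a => by omega) (LB_mono hh fun _ _ a => by omega))
    (LB_br hw hu fun _ _ _ _ a b => by omega)

/-- the alternative -/
theorem goal (F : Fa y e z) (G : b → Fb y e z h0) (H : IsH y h0) (R : RS e h f) :
    (h ∈ LB K y fun l _ => 0 ≤ l) ∨ Goal y e z h0 b h f := by
  have hb := F.base H R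
  by_cases h1 : pj y (fun l m => l = -1 ∧ m = 1) h = 0
  · by_cases h2 : pj y (fun l m => l = -1 ∧ m = 1 - 2) h = 0
    · have h3 : h ∈ LB K y fun l m => 0 ≤ l ∨ (l = -1 ∧ 1 - 1 ≤ m ∧ m ≤ 0) :=
        LB_and (mem_of_pj hb h1 (Q := fun l m => 0 ≤ l ∨ (l = -1 ∧ m ≤ 0)) fun _ _ a b => by omega)
          (mem_of_pj hb h2 (Q := fun l m => 0 ≤ l ∨ (l = -1 ∧ 0 ≤ m)) fun _ _ a b => by omega) fun _ _ a b => by omega
      by_cases h4 : pj y (fun l m => l = -1 ∧ m = 1 - 1) h = 0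
      · exact Or.inl (mem_of_pj h3 h4 fun _ _ a b => by omega)
      · exact Or.inr (stepA F G H R (Or.inl rfl) h3 h4)
    · exact Or.inr (stepA F G H R (Or.inr rfl) (mem_of_pj hb h1 fun _ _ a b => by omega) h2)
  · exact Or.inr (stepB F G H R h1 (pj_mem' h) (sub_pj (mem_top h) fun _ _ _ a => a))

end Cfsg.Agent.E8A.C63.Wt
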