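import Cfsg.Agent.E8A.C63.WitB
import Cfsg.Agent.E8A.C63.Sv

/-!
# WIT, part C: linear certificates for the facts `Fa`, `Fb` (helper5)

* `lin K t` : the linear map of a table; `Tw F f` : `f` computes `F` on sparse vectors; `Tw.eq` : equality on a piece;
* `sol`, `inj` : the two shapes of certificates; `Pre`, `fa_of`, `fb9`.
-/

set_option autoImplicit false
set_option maxRecDepth 100000

namespace Cfsg.Agent.E8A.C63.Wt

open Cfsg Cfsg.Lie Module Matrix
open Cfsg.Agent.H288.E8L (Q8 wt wt_inl wt_inr)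
open Cfsg.Agent.Tits.Roots (sr)
open Cfsg.Agent.E8A.Reg5.Cls (ex ex_zero)
open Cfsg.Agent.E8A.TwoH (br_anti br_zero_left br_zero_right brL brL_apply)
open Cfsg.Agent.E8A.C63.Sv
open Cfsg.Agent.ChevalleyStructure.JacTab (addH intZ eq_zero_of_intZ)

universe u

variable {K : Type u} [Field K]

/-- tables of linear maps -/
abbrev Tb : Type := List (ℕ × SV)

variable (K) in
/-- a coordinate -/
noncomputable def co (k : ℕ) : L8 K →ₗ[K] K := ∑ x, eb K k x • LinearMap.proj x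

theorem co_sv {k : ℕ} (hk : k < 248) (l : SV) : co K k (sv K l) = ((cf l k : ℤ) : K) := by
  obtain ⟨x, rfl⟩ := ky_surj hk
  rw [co, LinearMap.sum_apply, Finset.sum_eq_single x, eb_ky, ee_self, one_smul, LinearMap.proj_apply, cf_eq]
  · intro b _ hb
    rw [eb_ky, ee_ne hb, zero_smul, LinearMap.zero_apply]
  · intro h
    exact absurd (Finset.mem_univ x) h

theorem co_ge {k : ℕ} (hk : 248 ≤ k) (v : L8 K) : co K k v = 0 := by
  rw [co, eb_ge hk]
  simp

variable (K) in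
/-- the linear map of a table -/
noncomputable def lin (t : Tb) : L8 K →ₗ[K] L8 K := (t.map fun p => (co K p.1).smulRight (sv K p.2)).sum

theorem lin_cons (p : ℕ × SV) (t : Tb) (v : L8 K) : lin K (p :: t) v = co K p.1 v • sv K p.2 + lin K t v := by
  rw [lin, List.map_cons, List.sum_cons, LinearMap.add_apply, LinearMap.smulRight_apply, lin]

theorem lin_nil (v : L8 K) : lin K [] v = 0 := rfl

theorem lin_mem {U : Submodule K (L8 K)} {t : Tb} (h : ∀ p ∈ t, sv K p.2 ∈ U) (v : L8 K) : lin K t v ∈ U := by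
  induction t with
  | nil => exact U.zero_mem
  | cons p t ih =>
    rw [lin_cons]
    exact U.add_mem (U.smul_mem _ (h p List.mem_cons_self)) (ih fun q hq => h q (List.mem_cons_of_mem _ hq))

/-- the table on sparse vectors -/
noncomputable def li0 (t : Tb) (l : SV) : SV :=
  List.rec (motive := fun _ => SV) [] (fun p _ ih => Bool.rec (motive := fun _ => SV) ih
    (Bool.rec (motive := fun _ => SV) (addH (cf l p.1) p.2 ih) ih (intZ (cf l p.1))) (Nat.blt p.1 248)) t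

theorem sv_li0 (t : Tb) (l : SV) : lin K t (sv K l) = sv K (li0 t l) := by
  induction t with
  | nil => exact sv_nil.symm
  | cons p t ih =>
    have e : li0 (p :: t) l = Bool.rec (motive := fun _ => SV) (li0 t l)
      (Bool.rec (motive := fun _ => SV) (addH (cf l p.1) p.2 (li0 t l)) (li0 t l) (intZ (cf l p.1)))
      (Nat.blt p.1 248) := rfl
    rw [lin_cons, ih, e]
    cases h : Nat.blt p.1 248
    · rw [co_ge (not_lt.1 fun h1 => by rw [← Nat.blt_eq, h] at h1; cases h1), zero_smul, zero_add]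
    · rw [co_sv (Nat.blt_eq.mp h)]
      cases h1 : intZ (cf l p.1)
      · exact (sv_addH _ _ _).symm
      · rw [eq_zero_of_intZ _ h1, Int.cast_zero, zero_smul, zero_add]

/-- `f` computes `F` -/
def Tw (F : L8 K →ₗ[K] L8 K) (f : SV → SV) : Prop := ∀ l, F (sv K l) = sv K (f l)

/-- the test on a basis of a piece -/
noncomputable def chk (y : Q8) (P : ℤ → ℤ → Prop) [∀ l m, Decidable (P l m)] (f g : SV → SV) : Bool :=
  (List.range 248).all fun k => !decide (P (dg y k) (wc k 6)) || eq3 (f [(k, 1)]) (g [(k, 1)])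

/-- all keys lie in a piece -/
noncomputable def inB (y : Q8) (P : ℤ → ℤ → Prop) [∀ l m, Decidable (P l m)] (l : SV) : Bool :=
  allK (fun k => decide (P (dg y k) (wc k 6))) l

variable {y : Q8} {P Q : ℤ → ℤ → Prop} [∀ l m, Decidable (P l m)] [∀ l m, Decidable (Q l m)]

theorem sv_LB {l : SV} (h : inB y P l = true) : sv K l ∈ LB K y P :=
  sv_mem (p := fun k => decide (P (dg y k) (wc k 6))) (fun k hk => by
    have h1 := of_decide_eq_true hk
    rw [dg_eq] at h1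
    exact h1) h

theorem all_LB (h : (List.range 248).all (fun k => decide (P (dg y k) (wc k 6))) = true) (v : L8 K) : v ∈ LB K y P :=
  fun i _ => by
    have h1 := of_decide_eq_true (List.all_eq_true.1 h (ky i) (List.mem_range.2 (ky_lt i)))
    rw [dg_eq, wk_ky] at h1
    show P (ex y (wt i)) (wt i 6)
    rw [← wk_ky i] at h1 ⊢
    exact h1

variable {F G : L8 K →ₗ[K] L8 K} {f g : SV → SV}

theorem Tw.id : Tw (LinearMap.id : L8 K →ₗ[K] L8 K) fun l => l := fun _ => rfl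

theorem Tw.add (H : Tw F f) (H' : Tw G g) : Tw (F + G) fun l => adL (f l) (g l) := fun l => by
  rw [LinearMap.add_apply, H, H', sv_adL]

variable [CharP K 3]

theorem Tw.ad (x : SV) (H : Tw F f) : Tw (brL K (sv K x) ∘ₗ F) fun l => brS x (f l) := fun l => by
  rw [LinearMap.comp_apply, H, brL_apply, br_sv]

theorem Tw.tb (t : Tb) (H : Tw F f) : Tw (lin K t ∘ₗ F) fun l => nz (li0 t (f l)) := fun l => by
  rw [LinearMap.comp_apply, H, sv_li0, sv_nz]

theorem Tw.eq (H : Tw F f) (H' : Tw G g) (h : chk y P f g = true) {v : L8 K} (hv : v ∈ LB K y P) : F v = G v := by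
  refine LB_ind (M := fun v => F v = G v) (by rw [map_zero, map_zero]) (fun a b ha hb => by rw [map_add, map_add, ha, hb])
    (fun i t hi => ?_) hv
  have h1 := List.all_eq_true.1 h (ky i) (List.mem_range.2 (ky_lt i))
  have h2 : P (dg y (ky i)) (wc (ky i) 6) := by
    rw [dg_eq, wk_ky]
    rw [← wk_ky i] at hi ⊢
    exact hi
  rw [decide_eq_true h2, Bool.not_true, Bool.false_or] at h1
  rw [map_smul, map_smul, ← eb_ky, ← sv_one, H, H', sv_eq3 h1]

theorem sol (H : Tw F f) (H' : Tw G g) (e z : SV) (Y T : Tb)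
    (h1 : chk y P (fun l => adL (g l) (brS z (nz (li0 Y l)))) (fun l => nz (li0 T (f l))) = true)
    (h2 : Y.all (fun p => inB y Q p.2 && z3 (br0 e p.2)) = true) {v : L8 K} (hv : v ∈ LB K y P) (h0 : F v = 0) :
    ∃ w ∈ LB K y Q, br (sv K e) w = 0 ∧ br w (sv K z) = G v := by
  have h3 := (H'.add ((Tw.id.tb Y).ad z)).eq (H.tb T) h1 hv
  have h4 := fun p hp => Bool.and_eq_true_iff.1 (List.all_eq_true.1 h2 p hp)
  refine ⟨lin K Y v, lin_mem (fun p hp => sv_LB (h4 p hp).1) v,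
    mem_cen_one.1 (lin_mem (fun p hp => mem_cen_one.2 (br_of_z3 (h4 p hp).2)) v), ?_⟩
  rw [LinearMap.comp_apply, h0, map_zero] at h3
  rw [br_anti]
  exact (eq_neg_of_add_eq_zero_left h3).symm

theorem inj {F' : L8 K →ₗ[K] L8 K} {f' : SV → SV} (H : Tw F f) (H' : Tw F' f') (H'' : Tw G g) (T T' T'' : Tb)
    (h : chk y P (fun l => l) (fun l => adL (nz (li0 T (f l))) (adL (nz (li0 T' (f' l))) (nz (li0 T'' (g l))))) = true)
    {v : L8 K} (hv : v ∈ LB K y P) (h0 : F v = 0) (h1 : F' v = 0) (h2 : G v = 0) : v = 0 := by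
  have h3 := Tw.id.eq ((H.tb T).add ((H'.tb T').add (H''.tb T''))) h hv
  rwa [LinearMap.add_apply, LinearMap.add_apply, LinearMap.comp_apply, LinearMap.comp_apply, LinearMap.comp_apply, h0, h1,
    h2, map_zero, map_zero, map_zero, add_zero, add_zero] at h3

/-! ### the data -/

/-- data -/
def e9 : SV :=
  [(120, 1), (123, 1), (126, 1), (135, 1), (162, 1)]

/-- data -/
def zz : SV :=
  [(158, 1), (159, -1), (177, -1), (179, -1), (186, 1)]

/-- data -/
def k1p9 : Tb :=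
  [(125, [(122, -1)]), (128, [(122, -1), (124, -1)]), (140, [(134, -1)]), (151, [(146, 1)]), (160, [(159, 1), (177,
  -1), (179, 1), (186, 1)]), (167, [(134, -1), (139, -1)]), (172, [(146, 1), (150, -1)]), (180, [(177, 1), (186,
  -1)]), (181, [(177, -1), (179, 1), (186, 1)]), (187, [(186, 1)]), (198, [(196, 1)]), (200, [(196, -1), (197, 1)]),
  (208, [(206, 1)]), (210, [(206, -1), (207, 1)]), (220, [(215, 1)]), (226, [(215, -1), (219, 1)]), (239, [(238,
  1)])]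

/-- data -/
def k2p9 : Tb :=
  [(1, [(0, -1)])]

/-- data -/
def dn1y9 : Tb :=
  []

/-- data -/
def dn1p9 : Tb :=
  []

/-- data -/
def up1a9 : SV :=
  []

/-- data -/
def up1b9 : SV :=
  []

/-- data -/
def up1p9 : Tb :=
  []

/-- data -/
def up1q9 : Tb :=
  []

/-- data -/
def up1r9 : Tb :=
  []

/-- data -/
def dn2y9 : Tb :=
  [(50, [(11, 1), (17, -1), (21, 1)])]

/-- data -/
def dn2p9 : Tb :=
  [(20, [(13, -1)]), (24, [(13, 1), (19, -1)]), (32, [(29, -1)]), (33, [(29, 1), (31, -1)]), (42, [(39, -1)]), (43,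
  [(39, 1), (41, -1)]), (53, [(52, -1), (58, -1), (59, 1), (79, -1)]), (60, [(58, -1), (79, -1)]), (62, [(58, 1),
  (59, -1), (79, 1)]), (80, [(79, -1)]), (89, [(67, 1)]), (93, [(67, -1), (88, -1)]), (100, [(72, 1)]), (105, [(72,
  1), (99, 1)]), (115, [(111, 1)]), (117, [(111, 1), (114, 1)])]

/-- data -/
def up2a9 : SV :=
  [(218, 1), (222, -1), (228, 1)]

/-- data -/
def up2b9 : SV :=
  []

/-- data -/
def up2p9 : Tb :=
  [(20, [(13, -1)]), (24, [(13, 1), (19, -1)]), (32, [(29, -1)]), (33, [(29, 1), (31, -1)]), (42, [(39, -1)]), (43,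
  [(39, 1), (41, -1)]), (53, [(50, 1), (52, 1), (59, -1)]), (60, [(50, 1), (52, -1), (59, 1)]), (62, [(50, -1), (52,
  1), (59, 1)]), (80, [(79, -1)]), (89, [(67, 1)]), (93, [(67, -1), (88, -1)]), (100, [(72, 1)]), (105, [(72, 1),
  (99, 1)]), (115, [(111, 1)]), (117, [(111, 1), (114, 1)])]

/-- data -/
def up2q9 : Tb :=
  [(158, [(50, 1), (52, -1), (58, 1), (59, 1), (79, 1)])]

/-- data -/
def up2r9 : Tb :=
  []

/-- data -/
def c0y9 : Tb :=
  [(11, [(1, -1)])]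

/-- data -/
def c0p9 : Tb :=
  [(4, [(3, -1)]), (14, [(6, -1)]), (15, [(8, -1)]), (18, [(17, -1), (21, 1)]), (22, [(21, -1)]), (30, [(27, -1)]),
  (40, [(37, -1)]), (78, [(56, 1)])]

/-- data -/
def c1p9 : Tb :=
  []

/-- data -/
def c1q9 : Tb :=
  [(50, [(1, -1)])]

/-- data -/
def i0y9 : Tb :=
  [(54, [(20, 1), (24, -1)]), (69, [(32, -1), (33, 1)]), (74, [(42, -1), (43, 1)]), (77, [(53, 1), (60, 1), (62, 1),
  (81, 1)]), (113, [(60, 1), (62, -1), (80, -1), (81, -1)]), (131, [(89, 1), (93, -1)]), (143, [(100, 1), (105,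
  1)]), (153, [(115, -1), (117, -1)])]

/-- data -/
def i0p9 : Tb :=
  [(65, [(64, -1), (83, 1)]), (92, [(91, -1), (95, -1)]), (103, [(102, -1), (107, 1)]), (120, [(247, 1)]), (123,
  [(245, 1)]), (135, [(242, 1)]), (138, [(137, 1), (164, -1)]), (149, [(148, 1), (169, -1)]), (178, [(175, 1), (184,
  1)])]

/-- data -/
def c2p9 : Tb :=
  [(25, [(24, -1)]), (34, [(32, 1), (33, 1)]), (44, [(42, 1), (43, 1)]), (63, [(53, 1), (60, 1), (80, 1)]), (82,
  [(60, -1), (62, 1), (81, 1)]), (84, [(60, -1), (62, 1), (80, -1)]), (94, [(93, -1)]), (106, [(105, -1)]), (118,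
  [(115, -1), (117, 1)])]

/-- data -/
def c2q9 : Tb :=
  [(55, [(20, 1), (24, -1)]), (70, [(32, -1), (33, 1)]), (75, [(42, -1), (43, 1)]), (132, [(89, -1), (93, 1)]),
  (144, [(100, -1), (105, -1)]), (156, [(115, 1), (117, 1)]), (240, [(53, -1), (60, -1), (62, -1), (81, -1)]), (244,
  [(60, -1), (62, 1), (80, 1), (81, 1)])]

/-- data -/
def f9 : SV :=
  [(77, -1), (104, -1), (113, -1), (116, -1), (119, 1)]

/-- data -/
def e10 : SV :=
  [(120, 1), (123, 1), (126, 1), (135, 1), (141, 1), (162, 1)]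

/-- data -/
def k1p10 : Tb :=
  [(125, [(122, -1)]), (128, [(122, -1), (124, -1)]), (160, [(159, 1), (177, -1), (179, 1), (186, 1)]), (180, [(177,
  1), (186, -1)]), (181, [(177, -1), (179, 1), (186, 1)]), (187, [(186, 1)]), (203, [(202, 1), (209, -1)]), (212,
  [(209, 1)]), (220, [(215, 1)]), (226, [(215, -1), (219, 1)]), (232, [(225, -1), (231, 1)]), (233, [(225, 1)]),
  (239, [(238, 1)])]

/-- data -/
def k2p10 : Tb :=
  [(1, [(0, -1)]), (8, [(7, -1)]), (14, [(6, -1), (7, 1)]), (30, [(27, -1), (36, 1)]), (37, [(36, -1)])]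

/-- data -/
def dn1y10 : Tb :=
  [(70, [(32, 1), (33, -1), (39, 1), (41, 1)]), (132, [(72, -1), (89, 1), (93, -1), (99, 1)])]

/-- data -/
def dn1p10 : Tb :=
  [(45, [(35, -1)]), (75, [(74, -1), (101, -1)]), (92, [(91, -1), (95, 1), (101, 1)]), (96, [(95, -1)]), (102,
  [(101, -1)]), (138, [(137, 1), (147, -1), (164, 1)]), (144, [(143, 1), (147, -1)]), (148, [(147, 1)]), (165,
  [(164, 1)]), (204, [(194, 1)])]

/-- data -/
def up1a10 : SV :=
  [(140, 1), (146, 1), (150, 1), (167, 1)]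

/-- data -/
def up1b10 : SV :=
  [(198, 1), (200, -1), (206, 1), (207, 1)]

/-- data -/
def up1p10 : Tb :=
  [(45, [(35, -1)]), (75, [(74, -1), (101, -1)]), (92, [(91, -1), (95, 1), (101, 1)]), (96, [(95, -1)]), (102,
  [(101, -1)]), (138, [(132, 1), (137, -1), (143, 1), (164, -1)]), (144, [(132, 1), (137, 1), (143, -1), (164, 1)]),
  (148, [(147, 1)]), (165, [(164, 1)]), (204, [(194, 1)])]

/-- data -/
def up1q10 : Tb :=
  [(158, [(132, 1), (137, 1), (143, 1), (147, 1), (164, 1)])]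

/-- data -/
def up1r10 : Tb :=
  [(158, [(70, 1), (74, -1), (91, 1), (95, -1), (101, 1)])]

/-- data -/
def dn2y10 : Tb :=
  [(50, [(11, 1), (17, -1), (21, 1)])]

/-- data -/
def dn2p10 : Tb :=
  [(20, [(13, -1)]), (24, [(13, 1), (19, -1)]), (53, [(52, -1), (58, -1), (59, 1), (79, -1)]), (60, [(58, -1), (79,
  -1)]), (62, [(58, 1), (59, -1), (79, 1)]), (80, [(79, -1)]), (115, [(111, 1)]), (117, [(111, 1), (114, 1)])]

/-- data -/
def up2a10 : SV :=
  [(218, 1), (222, -1), (228, 1)]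

/-- data -/
def up2b10 : SV :=
  []

/-- data -/
def up2p10 : Tb :=
  [(20, [(13, -1)]), (24, [(13, 1), (19, -1)]), (53, [(50, 1), (52, 1), (59, -1)]), (60, [(50, 1), (52, -1), (59,
  1)]), (62, [(50, -1), (52, 1), (59, 1)]), (80, [(79, -1)]), (115, [(111, 1)]), (117, [(111, 1), (114, 1)])]

/-- data -/
def up2q10 : Tb :=
  [(158, [(50, 1), (52, -1), (58, 1), (59, 1), (79, 1)])]

/-- data -/
def up2r10 : Tb :=
  []

/-- data -/
def c0y10 : Tb :=
  [(11, [(1, -1)]), (32, [(8, -1), (14, 1)]), (72, [(30, 1), (37, -1)])]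

/-- data -/
def c0p10 : Tb :=
  [(4, [(3, -1)]), (18, [(17, -1), (21, 1)]), (22, [(21, -1)]), (34, [(33, -1), (39, -1), (41, 1)]), (42, [(39,
  -1)]), (43, [(39, 1), (41, -1)]), (78, [(56, 1)]), (94, [(89, 1), (93, 1), (99, -1)]), (100, [(89, 1), (93, -1),
  (99, 1)]), (105, [(89, 1), (93, -1), (99, -1)])]

/-- data -/
def c1p10 : Tb :=
  [(15, [(8, -1)]), (40, [(37, -1)])]

/-- data -/
def c1q10 : Tb :=
  [(50, [(1, -1)]), (70, [(8, -1), (14, 1)]), (132, [(30, -1), (37, 1)])]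

/-- the certificates of one class -/
structure Pre (y : Q8) (e : SV) (k1p k2p d1y d1p d2y d2p : Tb) (u1a u1b : SV) (u1p u1q u1r : Tb) (u2a u2b : SV)
    (u2p u2q u2r c0y c0p c1p c1q : Tb) : Prop where
  tt : (List.range 248).all (fun k => decide ((fun l m : ℤ => -3 ≤ m ∧ (m = -3 → l = 1 ∨ l = -1) ∧ (3 ≤ l → l + m ≠ 0))
    (dg y k) (wc k 6))) = true
  em : inB y (fun l m => l = 2 ∧ m = 0) e = true
  zc : z3 (br0 e zz) = true
  zm : inB y (fun l m => l = -1 ∧ m = 1) zz = true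
  k1 : chk y (fun l m => l = -1 ∧ 1 ≤ m) (fun l => l)
    (fun l => adL (nz (li0 [(158, zz)] l)) (nz (li0 k1p (brS e l)))) = true
  k2 : chk y (fun l m => l = -1 ∧ m ≤ -2) (fun l => l) (fun l => nz (li0 k2p (brS e l))) = true
  d1 : chk y (fun l m => l = -1 ∧ m = 1 - 1) (fun l => adL l (brS zz (nz (li0 d1y l))))
    (fun l => nz (li0 d1p (brS e l))) = true
  d1' : d1y.all (fun p => inB y (fun l m => l = 0 ∧ m = -1) p.2 && z3 (br0 e p.2)) = true
  d2 : chk y (fun l m => l = -1 ∧ m = 1 - 2) (fun l => adL l (brS zz (nz (li0 d2y l))))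
    (fun l => nz (li0 d2p (brS e l))) = true
  d2' : d2y.all (fun p => inB y (fun l m => l = 0 ∧ m = -2) p.2 && z3 (br0 e p.2)) = true
  u1 : chk y (fun l m => l = -1 ∧ m = 1 - 1) (fun l => l) (fun l => adL (nz (li0 u1p (brS e l)))
    (adL (nz (li0 u1q (brS u1a l))) (nz (li0 u1r (brS u1b l))))) = true
  u1' : [u1a, u1b].all (fun p => inB y (fun l m => l = 0 ∧ m = 1) p && z3 (br0 e p)) = true
  u2 : chk y (fun l m => l = -1 ∧ m = 1 - 2) (fun l => l) (fun l => adL (nz (li0 u2p (brS e l)))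
    (adL (nz (li0 u2q (brS u2a l))) (nz (li0 u2r (brS u2b l))))) = true
  u2' : [u2a, u2b].all (fun p => inB y (fun l m => l = 0 ∧ m = 2) p && z3 (br0 e p)) = true
  c0 : chk y (fun l m => l = 0 ∧ m < 0) (fun l => adL l (brS zz (nz (li0 c0y l))))
    (fun l => nz (li0 c0p (brS e l))) = true
  c0' : c0y.all (fun p => inB y (fun l m => l = 1 ∧ m ≤ -2) p.2 && z3 (br0 e p.2)) = true
  c1 : chk y (fun l m => l = 1 ∧ m ≤ -2) (fun l => l) (fun l => adL (nz (li0 c1p (brS e l)))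
    (adL (nz (li0 c1q (brS zz (brS zz l)))) (nz (li0 [] (brS e l))))) = true

theorem pre9 : Pre (lab 9) e9 k1p9 k2p9 dn1y9 dn1p9 dn2y9 dn2p9 up1a9 up1b9 up1p9 up1q9 up1r9 up2a9 up2b9 up2p9 up2q9
    up2r9 c0y9 c0p9 c1p9 c1q9 := by
  constructor <;> decide +kernel

theorem pre10 : Pre (lab 10) e10 k1p10 k2p10 dn1y10 dn1p10 dn2y10 dn2p10 up1a10 up1b10 up1p10 up1q10 up1r10 up2a10
    up2b10 up2p10 up2q10 up2r10 c0y10 c0p10 c1p10 c1q10 := by
  constructor <;> decide +kernel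

theorem upf {k : ℤ} (e a b : SV) (p q r : Tb) [∀ l m : ℤ, Decidable (l = 0 ∧ m = k)]
    (h : chk y P (fun l => l) (fun l => adL (nz (li0 p (brS e l)))
      (adL (nz (li0 q (brS a l))) (nz (li0 r (brS b l))))) = true)
    (h' : [a, b].all (fun p => inB y (fun l m => l = 0 ∧ m = k) p && z3 (br0 e p)) = true)
    {v : L8 K} (hv : v ∈ LB K y P) (h0 : br (sv K e) v = 0) (h1 : v ≠ 0) :
    ∃ w ∈ LB K y fun l m => l = 0 ∧ m = k, br (sv K e) w = 0 ∧ br w v ≠ 0 := by
  have h4 := fun p hp => Bool.and_eq_true_iff.1 (List.all_eq_true.1 h' p hp)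
  have ha := h4 a (by simp)
  have hb := h4 b (by simp)
  by_cases h2 : br (sv K a) v = 0
  · refine ⟨sv K b, sv_LB hb.1, br_of_z3 hb.2, fun h3 => h1 ?_⟩
    exact inj (Tw.id.ad e) (Tw.id.ad a) (Tw.id.ad b) p q r h hv h0 h2 h3
  · exact ⟨sv K a, sv_LB ha.1, br_of_z3 ha.2, h2⟩

theorem fa_of {e : SV} {k1p k2p d1y d1p d2y d2p : Tb} {u1a u1b : SV} {u1p u1q u1r : Tb} {u2a u2b : SV}
    {u2p u2q u2r c0y c0p c1p c1q : Tb}
    (H : Pre y e k1p k2p d1y d1p d2y d2p u1a u1b u1p u1q u1r u2a u2b u2p u2q u2r c0y c0p c1p c1q)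
    (h1 : ∀ d ∈ LB K y fun l _ => 2 ≤ l, ∃ w, br (sv K e) w = d)
    (h2 : ∀ v, br (sv K e) v = 0 → v ∈ LB K y fun l _ => -1 ≤ l) : Fa y (sv K e) (sv K zz) where
  nl := ⟨sv_LB H.em, h1⟩
  tt := all_LB H.tt
  cn := h2
  zc := br_of_z3 H.zc
  zm := sv_LB H.zm
  k1 := fun v hv h0 => by
    have h3 := Tw.id.eq ((Tw.id.tb [(158, zz)]).add ((Tw.id.ad e).tb k1p)) H.k1 hv
    rw [LinearMap.add_apply, LinearMap.comp_apply _ (_ ∘ₗ _), show (brL K (sv K e) ∘ₗ LinearMap.id) v = 0 from h0,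
      map_zero, add_zero, LinearMap.comp_apply, lin_cons, lin_nil, add_zero] at h3
    exact ⟨_, h3⟩
  k2 := fun v hv h0 => by
    have h3 := Tw.id.eq ((Tw.id.ad e).tb k2p) H.k2 hv
    rwa [LinearMap.comp_apply _ (_ ∘ₗ _), show (brL K (sv K e) ∘ₗ LinearMap.id) v = 0 from h0, map_zero] at h3
  dn := by
    rintro k (rfl | rfl) v hv h0
    · exact sol (Tw.id.ad e) Tw.id e zz d1y d1p H.d1 H.d1' hv h0
    · exact sol (Tw.id.ad e) Tw.id e zz d2y d2p H.d2 H.d2' hv h0
  up := by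
    rintro k (rfl | rfl) v hv h0 h1
    · exact upf e u1a u1b u1p u1q u1r H.u1 H.u1' hv h0 h1
    · exact upf e u2a u2b u2p u2q u2r H.u2 H.u2' hv h0 h1
  c0 := fun v hv h0 => sol (Tw.id.ad e) Tw.id e zz c0y c0p H.c0 H.c0' hv h0
  c1 := fun v hv h0 h1 => inj (Tw.id.ad e) ((Tw.id.ad zz).ad zz) (Tw.id.ad e) c1p c1q [] H.c1 hv h0 h1 h0

/-- the toral element of the class `2A₂A₁` -/
def h9 : SV := [(240, 2), (242, 2), (244, 2), (245, 2), (247, 1)]

theorem h9_root : ∀ r < 240, cf h9 r = 0 := by decide +kernel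

theorem h9_lab : ∀ j : Fin 8, ∑ i : Fin 8, ChevalleyStructure.CoxeterGeomTypes.cartanOf chevE8 8 i j * cf h9 (240 + i.val) =
    lab 9 j := by decide +kernel

omit [CharP K 3] in
theorem h9_eq {h0 : L8 K} (H : IsH (lab 9) h0) : h0 = sv K h9 := by
  refine inT_ext H.1 (fun r => ?_) fun j => ?_
  · rw [cf_eq, ky_inr, h9_root _ (nroots8 ▸ r.2), Int.cast_zero]
  · rw [H.2, Two.ex_sr, ← h9_lab, rl_sr, Int.cast_sum]
    refine Finset.sum_congr rfl fun i _ => ?_
    rw [cf_eq, ky_inl, Int.cast_mul]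
    rfl

theorem i9a : chk (lab 9) (fun l m => l = -2 ∧ m = 0) (fun l => adL (brS e9 l) (brS zz (nz (li0 i0y9 l))))
    (fun l => nz (li0 i0p9 (brS e9 (brS e9 l)))) = true := by decide +kernel

theorem i9b : i0y9.all (fun p => inB (lab 9) (fun l m => l = 1 ∧ m = -1) p.2 && z3 (br0 e9 p.2)) = true := by
  decide +kernel

theorem i9c : eq3 (br0 e9 f9) h9 = true ∧ inB (lab 9) (fun l m => l = -2 ∧ m = 0) f9 = true := by decide +kernel

theorem i9d : chk (lab 9) (fun l m => l = 1 ∧ m = -1) (fun l => l) (fun l => adL (nz (li0 c2p9 (brS e9 l)))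
    (adL (nz (li0 c2q9 (brS zz l))) (nz (li0 [] (brS e9 l))))) = true := by decide +kernel

theorem fb9 {h0 : L8 K} (H : IsH (lab 9) h0) : Fb (lab 9) (sv K e9) (sv K zz) h0 where
  i0 := fun w hw h1 => by
    have e1 : br (sv K e9) w - h0 = br (sv K e9) (w - sv K f9) := by
      rw [br_sub_right, br_of_eq3 i9c.1, h9_eq H]
    rw [e1] at h1 ⊢
    exact sol ((Tw.id.ad e9).ad e9) (Tw.id.ad e9) e9 zz i0y9 i0p9 i9a i9b (sub_mem hw (sv_LB i9c.2)) h1
  c11 := fun v hv h0 h1 => inj (Tw.id.ad e9) (Tw.id.ad zz) (Tw.id.ad e9) c2p9 c2q9 [] i9d hv h0 h1 h0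

omit [CharP K 3] in
theorem ec_sv {c : Fin 11} {l : SV}
    (h : ∀ k < 248, cf l k = if wk k ∈ (SS c).map (sr : Fin 8 → Q8) then 1 else 0) : ec K c = sv K l := by
  funext j
  rw [cf_eq, h _ (ky_lt j), wk_ky, ec]
  split_ifs <;> simp

omit [CharP K 3] in
theorem ec9 : ec K 9 = sv K e9 := ec_sv (by decide +kernel)

omit [CharP K 3] in
theorem ec10 : ec K 10 = sv K e10 := ec_sv (by decide +kernel)

end Cfsg.Agent.E8A.C63.Wt
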